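import Cfsg.Agent.Lib.SectRank.PSLTwoTI
import Cfsg.Agent.Lib.SL2.Card
import Cfsg.Agent.Lib.SL2.Unipotent
import Cfsg.Agent.Lib.SL2.Torus
import Cfsg.Agent.Lib.AltGroups.ZassenhausAbelian
import Cfsg.Agent.Lib.AltGroups.SharplyThreeTransitive
import Cfsg.Agent.Lib.SharplyEven.SimpleZassenhaus
import Cfsg.Agent.Lib.SmallGroups.PSLTwoPrime

/-!
Recognition of `PSL₂(q)` by its order, the isolation of the characteristic and two element orders.
-/

set_option autoImplicit false

namespace CfsgLib.SectRank.PSLTwoRec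

open Subgroup MulAction

universe u v

/-- A subgroup with no commuting pair acts semiregularly on a normalised subgroup. -/
theorem card_dvd_sub_one {G : Type u} [Group G] [Finite G] (H W : Subgroup G)
    (hn : ∀ a ∈ H, ∀ w ∈ W, a * w * a⁻¹ ∈ W)
    (hf : ∀ a ∈ H, ∀ w ∈ W, a * w = w * a → a = 1 ∨ w = 1) : Nat.card H ∣ Nat.card W - 1 := by
  classical
  let X := {w : G // w ∈ W ∧ w ≠ 1}
  letI : MulAction H X :=
    { smul := fun a w => ⟨(a : G) * w.1 * (a : G)⁻¹, hn a a.2 w.1 w.2.1, fun h => w.2.2 (conj_eq_one_iff.1 h)⟩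
      one_smul := fun w => Subtype.ext (by show (1 : G) * w.1 * (1 : G)⁻¹ = w.1; simp)
      mul_smul := fun a b w => Subtype.ext (by
        show ((a : G) * b) * w.1 * ((a : G) * b)⁻¹ = (a : G) * ((b : G) * w.1 * (b : G)⁻¹) * (a : G)⁻¹
        group) }
  have hst : ∀ w : X, stabilizer H w = ⊥ := fun w => by
    refine (Subgroup.eq_bot_iff_forall _).2 fun a ha => ?_
    have h : (a : G) * w.1 * (a : G)⁻¹ = w.1 := congrArg Subtype.val (mem_stabilizer_iff.1 ha)
    exact Subtype.ext ((hf a a.2 w.1 w.2.1 (mul_inv_eq_iff_eq_mul.1 h)).resolve_right w.2.2)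
  have hc := Nat.card_congr (selfEquivOrbitsQuotientProd (G := H) (X := X) hst)
  rw [Nat.card_prod] at hc
  have hX : Nat.card X = Nat.card W - 1 := by
    have : Nat.card X = ((W : Set G) \ {1}).ncard := rfl
    rw [this, Set.ncard_diff_singleton_of_mem W.one_mem]
    rfl
  exact ⟨_, by rw [← hX, hc, mul_comm]⟩

section psl

variable {F : Type v} [Field F] [Finite F]

open Matrix CfsgLib.SL2 in
open scoped MatrixGroups in
open CfsgLib.ClassicalLinear (upS upS_coe upS_add) in
theorem psl_isolated (p : ℕ) [Fact p.Prime] [CharP F p] :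
    Isolated p (ProjectiveSpecialLinearGroup (Fin 2) F) := by
  intro g hg
  have hpp : p.Prime := Fact.out
  obtain ⟨A, rfl⟩ := QuotientGroup.mk'_surjective _ g
  set π := QuotientGroup.mk' (Subgroup.center (SL(2, F))) with hπ
  have hker : ∀ B, B ∈ Subgroup.center (SL(2, F)) → π B = 1 := fun B hB => by
    rw [← MonoidHom.mem_ker, hπ, QuotientGroup.ker_mk']; exact hB
  by_cases ht : tr A ^ 2 = 4
  · obtain ⟨k, ε, x, hε, hk⟩ := trichotomy ht
    rw [← orderOf_dvd_iff_pow_eq_one, ← orderOf_injective (MulAut.conj (π k)).toMonoidHom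
      (MulAut.conj (π k)).injective (π A)]
    show orderOf (π k * π A * (π k)⁻¹) ∣ p
    rw [← map_inv, ← map_mul, ← map_mul, hk, map_mul, hker ε hε, one_mul,
      orderOf_dvd_iff_pow_eq_one, ← map_pow]
    have hx : ∀ j : ℕ, upS x ^ j = upS ((j : F) * x) := by
      intro j
      induction j with
      | zero => simp [upS_zero]
      | succ j ih => rw [pow_succ, ih, ← upS_add, Nat.cast_succ, add_mul, one_mul]
    rw [hx, CharP.cast_eq_zero, zero_mul, upS_zero, map_one]
  · exfalso
    have h2 : p ∣ Nat.card (Subgroup.centralizer ({A} : Set (SL(2, F)))) := by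
      refine (hg.trans (orderOf_map_dvd π A)).trans ?_
      have hA : A ∈ Subgroup.centralizer ({A} : Set (SL(2, F))) :=
        Subgroup.mem_centralizer_singleton_iff.mpr rfl
      rw [← Subgroup.orderOf_mk A hA]
      exact orderOf_dvd_natCard _
    haveI := Fintype.ofFinite F
    obtain ⟨e, -, he⟩ := FiniteField.card F p
    have h3 : p ∣ Nat.card F := by rw [Nat.card_eq_fintype_card, he]; exact dvd_pow_self p e.pos.ne'
    have h4 : p ∣ 1 := by
      have hq : 1 ≤ Nat.card F := Nat.card_pos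
      rcases card_centralizer_or ht with h | h <;> rw [h] at h2
      · have := Nat.dvd_sub h3 h2
        rwa [Nat.sub_sub_self hq] at this
      · have := Nat.dvd_sub h2 h3
        rwa [Nat.add_sub_cancel_left] at this
    exact hpp.not_dvd_one h4

open Matrix CfsgLib.SL2 in
open scoped MatrixGroups in
theorem psl_exists_order (e : ℕ) (he : e = Nat.card F - 1 ∨ e = Nat.card F + 1) (he3 : 3 ≤ e) :
    ∃ g : ProjectiveSpecialLinearGroup (Fin 2) F, e / Nat.gcd 2 (Nat.card F - 1) ∣ orderOf g := by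
  obtain ⟨g, -, hgo, -⟩ := exists_torus_generator he he3
  refine ⟨QuotientGroup.mk' (Subgroup.center (SL(2, F))) g, ?_⟩
  set n := orderOf (QuotientGroup.mk' (Subgroup.center (SL(2, F))) g)
  have hn : g ^ n ∈ Subgroup.center (SL(2, F)) := by
    rw [← QuotientGroup.eq_one_iff, QuotientGroup.mk_pow]
    exact pow_orderOf_eq_one _
  have h1 : e ∣ n * Nat.gcd 2 (Nat.card F - 1) := by
    rw [← hgo, orderOf_dvd_iff_pow_eq_one, pow_mul, ← center_card_eq_gcd (F := F)]
    exact congrArg Subtype.val (pow_card_eq_one' (x := (⟨g ^ n, hn⟩ : Subgroup.center (SL(2, F)))))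
  have hde : Nat.gcd 2 (Nat.card F - 1) ∣ e := by
    have hm : Nat.gcd 2 (Nat.card F - 1) ∣ Nat.card F - 1 := Nat.gcd_dvd_right _ _
    rcases he with rfl | rfl
    · exact hm
    · rcases (Nat.dvd_prime Nat.prime_two).1 (Nat.gcd_dvd_left 2 (Nat.card F - 1)) with h | h
      · rw [h]; exact one_dvd _
      · rw [h] at hm ⊢
        have := Finite.one_lt_card (α := F)
        omega
  rw [Nat.div_dvd_iff_dvd_mul hde (Nat.gcd_pos_of_pos_left _ two_pos)]
  exact mul_comm n (Nat.gcd 2 (Nat.card F - 1)) ▸ h1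

end psl

variable {G : Type u} [Group G] [Finite G]

/-- A group with the order of `PSL₂(q)`, isolated characteristic and elements of orders `(q ± 1)/d` is `PSL₂(q)`. -/
theorem main {F : Type v} [Field F] [Finite F] (hq3 : 3 < Nat.card F) (p : ℕ) [Fact p.Prime] [CharP F p]
    (hcard : Nat.card G = Nat.card (Matrix.ProjectiveSpecialLinearGroup (Fin 2) F))
    (hiso : Isolated p G)
    (hplus : ∃ g : G, (Nat.card F + 1) / Nat.gcd 2 (Nat.card F - 1) ∣ orderOf g)
    (hminus : ∃ g : G, (Nat.card F - 1) / Nat.gcd 2 (Nat.card F - 1) ∣ orderOf g) :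
    Nonempty (G ≃* Matrix.ProjectiveSpecialLinearGroup (Fin 2) F) := by
  classical
  haveI := Fintype.ofFinite F
  have hpp : p.Prime := Fact.out
  obtain ⟨e, -, hqe⟩ := FiniteField.card F p
  rw [← Nat.card_eq_fintype_card] at hqe
  set q := Nat.card F with hq
  set d := Nat.gcd 2 (q - 1) with hd
  have hd12 : d = 1 ∨ d = 2 := (Nat.dvd_prime Nat.prime_two).1 (Nat.gcd_dvd_left _ _)
  have hdm : d ∣ q - 1 := Nat.gcd_dvd_right _ _
  have hdp : d ∣ q + 1 := by
    rcases hd12 with h | h
    · rw [h]; exact one_dvd _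
    · rw [h] at hdm ⊢; omega
  have hdp' : d = 2 ↔ p ≠ 2 := by
    constructor
    · intro h hp
      rw [h] at hdm
      rw [hp] at hqe
      have : 2 ∣ q := hqe ▸ dvd_pow_self 2 e.pos.ne'
      omega
    · intro hp
      have : ¬ 2 ∣ q := fun h => hp ((Nat.prime_dvd_prime_iff_eq Nat.prime_two hpp).1
        (Nat.prime_two.dvd_of_dvd_pow (hqe ▸ h))).symm
      rcases hd12 with h | h
      · exfalso
        have h2 : 2 ∣ d := Nat.dvd_gcd dvd_rfl (by omega)
        rw [h] at h2; omega
      · exact h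
  have hsq : q ^ 2 - 1 = (q + 1) * (q - 1) := by
    simpa using Nat.sq_sub_sq q 1
  have hG : Nat.card G * d = q * ((q + 1) * (q - 1)) := by
    rw [hcard, CfsgLib.SL2.card_PSL, ← hq, ← hd, Nat.div_mul_cancel, hsq]
    exact (Dvd.dvd.mul_left (hsq ▸ hdm.mul_left _) _)
  have hpd : ¬ p ∣ d := by
    intro h
    rcases hd12 with h1 | h1
    · rw [h1] at h; exact hpp.not_dvd_one h
    · exact hdp'.1 h1 ((Nat.prime_dvd_prime_iff_eq hpp Nat.prime_two).1 (h1 ▸ h))
  have hpq : p ∣ q := hqe ▸ dvd_pow_self p e.pos.ne'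
  have hpm : ¬ p ∣ (q + 1) * (q - 1) := by
    intro h
    rcases hpp.dvd_mul.1 h with h | h
    · exact hpp.not_dvd_one ((Nat.dvd_add_right hpq).1 h)
    · have := Nat.dvd_sub hpq h
      rw [Nat.sub_sub_self (by omega)] at this
      exact hpp.not_dvd_one this
  -- cyclic Sylow subgroups
  have hcyc : CycOdd p G := by
    intro r hr hr2 hrp R hR
    haveI := Fact.mk hr
    obtain ⟨S, hS⟩ := hR.exists_le_sylow
    suffices h : IsCyclic (S : Subgroup G) from
      isCyclic_of_injective (Subgroup.inclusion hS) (Subgroup.inclusion_injective hS)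
    obtain ⟨k, hk⟩ := IsPGroup.iff_card.1 S.2
    have hdiv : r ^ k ∣ q * ((q + 1) * (q - 1)) := hk ▸ hG ▸ (Subgroup.card_subgroup_dvd_card _).mul_right d
    have hdiv' : r ^ k ∣ (q + 1) * (q - 1) := by
      refine (Nat.Coprime.dvd_of_dvd_mul_left ?_ hdiv)
      rw [hqe]
      exact Nat.Coprime.pow k _ ((Nat.coprime_primes hr hpp).2 hrp)
    have hrd : (r ^ k).Coprime d := by
      refine Nat.Coprime.pow_left k (hr.coprime_iff_not_dvd.2 fun h => ?_)
      exact hr2 ((Nat.prime_dvd_prime_iff_eq hr Nat.prime_two).1 (h.trans (Nat.gcd_dvd_left _ _)))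
    have hx : ∃ x : G, r ^ k ∣ orderOf x := by
      rcases k with _ | k
      · exact ⟨1, by simp⟩
      have hone : r ^ (k + 1) ∣ q + 1 ∨ r ^ (k + 1) ∣ q - 1 := by
        by_cases h : r ∣ q + 1
        · left
          refine Nat.Coprime.dvd_of_dvd_mul_right (Nat.Coprime.pow_left _ ?_) hdiv'
          refine hr.coprime_iff_not_dvd.2 fun h' => hr2 ?_
          have := Nat.dvd_sub h h'
          rw [show q + 1 - (q - 1) = 2 by omega] at this
          exact (Nat.prime_dvd_prime_iff_eq hr Nat.prime_two).1 this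
        · right
          exact Nat.Coprime.dvd_of_dvd_mul_left (Nat.Coprime.pow_left _ (hr.coprime_iff_not_dvd.2 h)) hdiv'
      rcases hone with h | h
      · obtain ⟨g, hg⟩ := hplus
        have h' : r ^ (k + 1) ∣ d * ((q + 1) / d) := by rw [Nat.mul_div_cancel' hdp]; exact h
        exact ⟨g, (hrd.dvd_of_dvd_mul_left h').trans hg⟩
      · obtain ⟨g, hg⟩ := hminus
        have h' : r ^ (k + 1) ∣ d * ((q - 1) / d) := by rw [Nat.mul_div_cancel' hdm]; exact h
        exact ⟨g, (hrd.dvd_of_dvd_mul_left h').trans hg⟩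
    obtain ⟨x, hx⟩ := hx
    set y := x ^ (orderOf x / r ^ k)
    have hy : orderOf y = r ^ k := orderOf_pow_orderOf_div (orderOf_pos x).ne' hx
    obtain ⟨S', hS'⟩ := (IsPGroup.iff_card.2 ⟨k, by rw [Nat.card_zpowers, hy]⟩ : IsPGroup r (zpowers y)).exists_le_sylow
    have hS'c : Nat.card (S' : Subgroup G) = r ^ k := by rw [← hk]; exact Nat.card_congr (S'.equiv S).toEquiv
    have heq : zpowers y = (S' : Subgroup G) :=
      Subgroup.eq_of_le_of_card_ge hS' (by rw [hS'c, Nat.card_zpowers, hy])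
    haveI : IsCyclic (S' : Subgroup G) := heq ▸ inferInstance
    exact isCyclic_of_surjective (S'.equiv S).toMonoidHom (S'.equiv S).surjective
  obtain ⟨P⟩ : Nonempty (Sylow p G) := inferInstance
  have hP : Nat.card (P : Subgroup G) = q := by
    obtain ⟨a, ha⟩ := IsPGroup.iff_card.1 P.2
    have h1 : p ^ a ∣ q := by
      refine Nat.Coprime.dvd_of_dvd_mul_right (Nat.Coprime.pow_left _ (hpp.coprime_iff_not_dvd.2 hpm)) ?_
      exact ha ▸ hG ▸ (Subgroup.card_subgroup_dvd_card _).mul_right d
    have h2 : q ∣ p ^ a := by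
      rw [← ha, hqe]
      refine P.pow_dvd_card_of_pow_dvd_card ?_
      refine Nat.Coprime.dvd_of_dvd_mul_right (Nat.Coprime.pow_left _ (hpp.coprime_iff_not_dvd.2 hpd)) ?_
      rw [← hqe, hG]; exact dvd_mul_right _ _
    rw [ha]; exact Nat.dvd_antisymm h1 h2
  set S : Subgroup G := stabilizer G P with hSdef
  have hPS : (P : Subgroup G) ≤ S := by
    rw [hSdef, Sylow.stabilizer_eq_normalizer]; exact Subgroup.le_normalizer
  -- a `p`-element fixing two Sylow subgroups is trivial
  have hreg : ∀ x ∈ (P : Subgroup G), ∀ Q : Sylow p G, Q ≠ P → x • Q = Q → x = 1 := by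
    intro x hx Q hQ hfix
    have h1 : x ∈ (P : Subgroup G) ⊓ Subgroup.normalizer (Q : Set G) :=
      ⟨hx, Sylow.smul_eq_iff_mem_normalizer.1 hfix⟩
    rw [P.2.inf_normalizer_sylow, sylow_ti hiso hcyc P Q (Ne.symm hQ)] at h1
    exact h1
  let X := {Q : Sylow p G // Q ≠ P}
  have hfixP : ∀ x ∈ (P : Subgroup G), x • P = P := fun x hx => mem_stabilizer_iff.1 (hPS hx)
  letI : MulAction (P : Subgroup G) X :=
    { smul := fun x Q => ⟨(x : G) • Q.1, fun h => Q.2 (smul_left_cancel (x : G) (h.trans (hfixP x x.2).symm))⟩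
      one_smul := fun Q => Subtype.ext (one_smul G Q.1)
      mul_smul := fun a b Q => Subtype.ext (mul_smul (a : G) (b : G) Q.1) }
  have hst : ∀ Q : X, stabilizer (P : Subgroup G) Q = ⊥ := fun Q =>
    (Subgroup.eq_bot_iff_forall _).2 fun x hx =>
      Subtype.ext (hreg x x.2 Q.1 Q.2 (congrArg Subtype.val (mem_stabilizer_iff.1 hx)))
  set n := Nat.card (Sylow p G) with hn
  have hX : Nat.card X + 1 = n := by
    have : Nat.card X = (Set.univ \ {P} : Set (Sylow p G)).ncard := by
      rw [← Nat.card_coe_set_eq]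
      exact Nat.card_congr (Equiv.subtypeEquivRight fun Q => by simp)
    rw [this, Set.ncard_diff_singleton_of_mem (Set.mem_univ P), Set.ncard_univ]
    have := Nat.card_pos (α := Sylow p G)
    omega
  have hXq : q ∣ Nat.card X := by
    rw [Nat.card_congr (selfEquivOrbitsQuotientProd (G := (P : Subgroup G)) (X := X) hst), Nat.card_prod, hP]
    exact dvd_mul_left _ _
  -- a complement of `P` in `S`
  haveI : ((P : Subgroup G).subgroupOf S).Normal := by
    rw [hSdef, Sylow.stabilizer_eq_normalizer]; exact Subgroup.normal_in_normalizer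
  set P' := P.subtype hPS
  obtain ⟨H', hH'⟩ := Subgroup.exists_right_complement'_of_coprime (N := (P : Subgroup G).subgroupOf S)
    (P'.card_coprime_index)
  set H := H'.map S.subtype
  set h := Nat.card H with hh
  have hHc : Nat.card H' = h := (Nat.card_congr (H'.equivMapOfInjective _ S.subtype_injective).toEquiv)
  have hPc : Nat.card ((P : Subgroup G).subgroupOf S) = q := by
    rw [Nat.card_congr (Subgroup.subgroupOfEquivOfLe hPS).toEquiv, hP]
  have hS : Nat.card S = q * h := by
    rw [← hH'.card_mul_card, hPc, hHc]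
  have hnS : n * Nat.card S = Nat.card G := by
    rw [← index_mul_card S, hSdef, index_stabilizer_of_transitive]
  have hHS : ∀ a ∈ H, a ∈ S ∧ (orderOf a).Coprime p := by
    rintro _ ⟨a, ha, rfl⟩
    refine ⟨a.2, ?_⟩
    refine Nat.Coprime.coprime_dvd_left ((orderOf_map_dvd _ a).trans (Subgroup.orderOf_dvd_natCard H' ha)) ?_
    rw [hH'.symm.index_eq_card.symm]
    refine (Nat.coprime_comm.1 (hpp.coprime_iff_not_dvd.2 ?_))
    exact P'.not_dvd_index
  have hfp : ∀ a ∈ H, ∀ w ∈ (P : Subgroup G), a * w = w * a → a = 1 ∨ w = 1 := by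
    intro a ha w hw hc
    by_cases hw1 : w = 1
    · exact Or.inr hw1
    · exact Or.inl (hiso.eq_one_of_commute (show Commute w a from hc.symm) (hiso.pow_eq_one P.2 hw) hw1 (hHS a ha).2)
  have hSn : ∀ a ∈ S, ∀ w ∈ (P : Subgroup G), a * w * a⁻¹ ∈ (P : Subgroup G) := by
    intro a ha w hw
    rw [hSdef, Sylow.stabilizer_eq_normalizer] at ha
    exact (Subgroup.mem_normalizer_iff.1 ha w).1 hw
  have hh1 : h ∣ q - 1 := hP ▸ card_dvd_sub_one H (P : Subgroup G) (fun a ha => hSn a (hHS a ha).1) hfp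
  have hhle : h ≤ q - 1 := Nat.le_of_dvd (by omega) hh1
  obtain ⟨k, hk⟩ := hXq
  have heq : (q * k + 1) * (h * d) = (q + 1) * (q - 1) := by
    apply Nat.eq_of_mul_eq_mul_left (show 0 < q by omega)
    rw [← hG, ← hnS, hS, ← hX, hk]; ring
  have hhd : h * d + 1 = q := by
    have h1 : q ∣ h * d + 1 := by
      have h2 : q ∣ (q * k + 1) * (h * d) + 1 := by
        rw [heq, ← hsq, Nat.sub_add_cancel (Nat.one_le_pow _ _ (by omega))]
        exact dvd_pow_self q two_ne_zero
      rw [show (q * k + 1) * (h * d) + 1 = q * (k * (h * d)) + (h * d + 1) by ring] at h2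
      exact (Nat.dvd_add_right (dvd_mul_right _ _)).1 h2
    obtain ⟨c, hc⟩ := h1
    have hd2 : d ≤ 2 := by omega
    have h3 : h * d ≤ (q - 1) * 2 := Nat.mul_le_mul hhle hd2
    rcases c with _ | _ | c
    · simp at hc
    · simpa using hc
    · exfalso
      have : q * 2 ≤ q * (c + 1 + 1) := Nat.mul_le_mul_left q (by omega)
      omega
  have hnq : n = q + 1 := by
    rw [← hX, hk]
    rw [show h * d = q - 1 by omega] at heq
    exact Nat.eq_of_mul_eq_mul_right (show 0 < q - 1 by omega) heq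
  have hh2 : 2 ≤ h := by
    rcases hd12 with hd1 | hd2
    · rw [hd1] at hhd; omega
    · rw [hd2] at hhd; omega
  -- `P` is abelian
  have hPab : IsMulCommutative (P : Subgroup G) := by
    set Z := Subgroup.center (P : Subgroup G)
    haveI : Nontrivial (P : Subgroup G) := Finite.one_lt_card_iff_nontrivial.1 (by omega)
    by_contra hna
    have hZne : Z ≠ ⊤ := fun h => hna ⟨⟨fun a b => (Subgroup.mem_center_iff.1 (h ▸ Subgroup.mem_top b : b ∈ Z) a)⟩⟩
    set W := Z.map (P : Subgroup G).subtype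
    have hW : Nat.card W = Nat.card Z := (Nat.card_congr (Z.equivMapOfInjective _ (Subgroup.subtype_injective _)).toEquiv).symm
    have hWn : ∀ a ∈ H, ∀ w ∈ W, a * w * a⁻¹ ∈ W := by
      rintro a ha _ ⟨w, hw, rfl⟩
      refine ⟨⟨a * w * a⁻¹, hSn a (hHS a ha).1 w w.2⟩, Subgroup.mem_center_iff.2 fun y => Subtype.ext ?_, rfl⟩
      have hy := congrArg Subtype.val (Subgroup.mem_center_iff.1 hw
        ⟨a⁻¹ * y * a, by simpa using hSn a⁻¹ (inv_mem (hHS a ha).1) y y.2⟩)
      simp only [Subgroup.coe_mul] at hy ⊢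
      calc (y : G) * (a * w * a⁻¹) = a * ((a⁻¹ * y * a) * w) * a⁻¹ := by group
        _ = a * (w * (a⁻¹ * y * a)) * a⁻¹ := by rw [hy]
        _ = (a * w * a⁻¹) * y := by group
    have h1 : h ∣ Nat.card Z - 1 := hW ▸ card_dvd_sub_one H W hWn
      (fun a ha w hw hc => hfp a ha w (Subgroup.map_subtype_le Z hw) hc)
    obtain ⟨i, hi⟩ : ∃ i, Z.index = p ^ i := by
      obtain ⟨i, -, hi⟩ := (Nat.dvd_prime_pow hpp).1
        (show Z.index ∣ p ^ (e : ℕ) by rw [← hqe, ← hP]; exact Subgroup.index_dvd_card Z)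
      exact ⟨i, hi⟩
    have hi0 : i ≠ 0 := fun h0 => hZne (Subgroup.index_eq_one.1 (by rw [hi, h0, pow_zero]))
    have hzq : p * Nat.card Z ≤ q := by
      rw [← hP, ← Subgroup.card_mul_index Z, hi, mul_comm]
      exact Nat.mul_le_mul_left _ (Nat.le_self_pow hi0 p)
    have hz1 : 1 < Nat.card Z := by
      haveI : Nontrivial Z := P.2.center_nontrivial
      exact Finite.one_lt_card
    have h2 : h ≤ Nat.card Z - 1 := Nat.le_of_dvd (by omega) h1
    rcases hd12 with hd1 | hd2
    · rw [hd1] at hhd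
      have : 2 * Nat.card Z ≤ q := (Nat.mul_le_mul_right _ hpp.two_le).trans hzq
      omega
    · rw [hd2] at hhd
      have : 3 * Nat.card Z ≤ q :=
        (Nat.mul_le_mul_right _ (by have := hdp'.1 hd2; have := hpp.two_le; omega)).trans hzq
      omega
  -- transitivity
  have htr : IsPretransitive G (Sylow p G) := inferInstance
  have hPtr : ∀ A B : Sylow p G, A ≠ P → B ≠ P → ∃ x ∈ (P : Subgroup G), x • A = B := by
    intro A B hA hB
    have hbij : Function.Bijective (fun x : (P : Subgroup G) => x • (⟨A, hA⟩ : X)) := by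
      rw [Nat.bijective_iff_injective_and_card]
      refine ⟨fun x y hxy => ?_, by rw [hP]; exact (show Nat.card X = q by omega).symm⟩
      have : x⁻¹ * y ∈ stabilizer (P : Subgroup G) (⟨A, hA⟩ : X) := by
        rw [mem_stabilizer_iff, mul_smul, show y • (⟨A, hA⟩ : X) = x • (⟨A, hA⟩ : X) from hxy.symm, inv_smul_smul]
      rw [hst, Subgroup.mem_bot, inv_mul_eq_one] at this
      exact this
    obtain ⟨x, hx⟩ := hbij.2 ⟨B, hB⟩
    exact ⟨x, x.2, congrArg Subtype.val hx⟩
  haveI := Fintype.ofFinite (Sylow p G)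
  have hΩ : Fintype.card (Sylow p G) = q + 1 := by rw [← Nat.card_eq_fintype_card, ← hn, hnq]
  haveI : Nontrivial (Sylow p G) := Fintype.one_lt_card_iff_nontrivial.1 (by omega)
  have h2t : IsMultiplyPretransitive G (Sylow p G) 2 := by
    rw [is_two_pretransitive_iff]
    intro a b c c' hab hcc
    obtain ⟨g1, hg1⟩ := exists_smul_eq G a P
    obtain ⟨g2, hg2⟩ := exists_smul_eq G c P
    obtain ⟨x, hx, hxe⟩ := hPtr (g1 • b) (g2 • c')
      (fun h => hab (smul_left_cancel g1 (hg1.trans h.symm))) (fun h => hcc (smul_left_cancel g2 (hg2.trans h.symm)))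
    refine ⟨g2⁻¹ * x * g1, ?_, ?_⟩
    · rw [mul_smul, mul_smul, hg1, hfixP x hx, inv_smul_eq_iff, hg2]
    · rw [mul_smul, mul_smul, hxe, inv_smul_smul]
  have h3 : ∀ g : G, ∀ a b c : Sylow p G, a ≠ b → b ≠ c → a ≠ c →
      g • a = a → g • b = b → g • c = c → g = 1 := by
    intro g a b c hab hbc hac hga hgb hgc
    obtain ⟨k₀, hk₀⟩ := exists_smul_eq G a P
    suffices hmain : ∀ g : G, ∀ B C : Sylow p G, B ≠ P → C ≠ P → B ≠ C →
        g • P = P → g • B = B → g • C = C → g = 1 by
      have := hmain (k₀ * g * k₀⁻¹) (k₀ • b) (k₀ • c) (fun h => hab (smul_left_cancel k₀ (hk₀.trans h.symm)))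
        (fun h => hac (smul_left_cancel k₀ (hk₀.trans h.symm))) (fun h => hbc (smul_left_cancel k₀ h))
        (by rw [← hk₀, mul_smul, mul_smul, inv_smul_smul, hga])
        (by rw [mul_smul, mul_smul, inv_smul_smul, hgb]) (by rw [mul_smul, mul_smul, inv_smul_smul, hgc])
      exact conj_eq_one_iff.1 this
    intro g B C hB hC hBC hgP hgB hgC
    by_cases hpg : p ∣ orderOf g
    · have hgz : IsPGroup p (zpowers g) := by
        rw [IsPGroup.iff_card, Nat.card_zpowers]
        obtain ⟨i, -, hi⟩ := (Nat.dvd_prime_pow hpp).1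
          (show orderOf g ∣ p ^ 1 by rw [pow_one]; exact orderOf_dvd_of_pow_eq_one (hiso g hpg))
        exact ⟨i, hi⟩
      have hgN : g ∈ zpowers g ⊓ Subgroup.normalizer (P : Set G) :=
        ⟨mem_zpowers g, Sylow.smul_eq_iff_mem_normalizer.1 hgP⟩
      rw [hgz.inf_normalizer_sylow] at hgN
      exact hreg g hgN.2 B hB hgB
    · obtain ⟨x, hx, hxB⟩ := hPtr B C hB hC
      have hgS : g ∈ S := hgP
      have hfix : (g * x * g⁻¹) • B = C := by
        rw [mul_smul, mul_smul, inv_smul_eq_iff.2 hgB.symm, hxB, hgC]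
      have hxx : x⁻¹ * (g * x * g⁻¹) = 1 := hreg _ (mul_mem (inv_mem hx) (hSn g hgS x hx)) B hB
        (by rw [mul_smul, hfix, inv_smul_eq_iff, hxB])
      have hx1 : x ≠ 1 := fun h => hBC (by rw [h, one_smul] at hxB; exact hxB)
      exact hiso.eq_one_of_commute
        (show Commute x g from (mul_inv_eq_iff_eq_mul.1 (inv_mul_eq_one.1 hxx).symm).symm)
        (hiso.pow_eq_one P.2 hx) hx1 (Nat.coprime_comm.1 (hpp.coprime_iff_not_dvd.2 hpg))
  have hfaith : ∀ g : G, (∀ Q : Sylow p G, g • Q = Q) → g = 1 := by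
    intro g hg
    obtain ⟨a, b, c, hab, hac, hbc⟩ := Fintype.two_lt_card_iff.1 (show 2 < Fintype.card (Sylow p G) by omega)
    exact h3 g a b c hab hbc hac (hg a) (hg b) (hg c)
  haveI : FaithfulSMul G (Sylow p G) := ⟨fun {a b} hab => by
    have := hfaith (a⁻¹ * b) fun Q => by rw [mul_smul, ← hab Q, inv_smul_smul]
    exact inv_mul_eq_one.1 this⟩
  obtain ⟨Q, hQ⟩ := exists_ne P
  have hTc : Nat.card ↥(stabilizer G P ⊓ stabilizer G Q) = h := by
    have h1 : Nat.card ↥(stabilizer G P ⊓ stabilizer G Q) = Nat.card (stabilizer S Q) :=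
      Nat.card_congr
        { toFun := fun x => ⟨⟨x.1, x.2.1⟩, x.2.2⟩
          invFun := fun x => ⟨x.1.1, x.1.2, x.2⟩
          left_inv := fun _ => rfl
          right_inv := fun _ => rfl }
    have h2 : (orbit S Q).ncard = q := by
      have : orbit S Q = Set.univ \ {P} := by
        ext B
        simp only [Set.mem_diff, Set.mem_univ, Set.mem_singleton_iff, true_and, mem_orbit_iff]
        constructor
        · rintro ⟨s, rfl⟩ hs
          exact hQ (smul_left_cancel (s : G) (hs.trans (mem_stabilizer_iff.1 s.2).symm))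
        · intro hB
          obtain ⟨x, hx, hxe⟩ := hPtr Q B hQ hB
          exact ⟨⟨x, hPS hx⟩, hxe⟩
      rw [this, Set.ncard_diff_singleton_of_mem (Set.mem_univ P), Set.ncard_univ, ← hn, hnq]
      rfl
    have h3' := index_mul_card (stabilizer S Q)
    rw [index_stabilizer, h2, hS, ← h1] at h3'
    exact Nat.eq_of_mul_eq_mul_left (show 0 < q by omega) h3'
  have hZ : Cfsg.IsZassenhausGroup G (Sylow p G) := by
    refine ⟨inferInstance, h2t, h3, ?_, ?_⟩
    · haveI : Nontrivial ↥(stabilizer G P ⊓ stabilizer G Q) :=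
        Finite.one_lt_card_iff_nontrivial.1 (by rw [hTc]; omega)
      obtain ⟨⟨g, hg⟩, hg1⟩ := exists_ne (1 : ↥(stabilizer G P ⊓ stabilizer G Q))
      exact ⟨g, fun h => hg1 (Subtype.ext h), P, Q, hQ.symm, hg.1, hg.2⟩
    · intro K hKn hKt
      by_contra hcon
      push Not at hcon
      haveI := hKt
      have hKc : Nat.card K = q + 1 := by
        rw [← hnq, hn, ← index_stabilizer_of_transitive K P, hcon P, Subgroup.index_bot]
      let f : K → Sylow p G := fun k => (k : G) • P
      have hfinj : Function.Injective f := fun a b hab => by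
        have : a⁻¹ * b ∈ stabilizer K P := by
          rw [mem_stabilizer_iff, mul_smul, show b • P = a • P from hab.symm, inv_smul_smul]
        rw [hcon P, Subgroup.mem_bot, inv_mul_eq_one] at this
        exact this
      have hconjf : ∀ s ∈ S, ∀ k : K, f ⟨s * k * s⁻¹, hKn.conj_mem _ k.2 s⟩ = s • f k := by
        intro s hs k
        show (s * (k : G) * s⁻¹) • P = s • (k : G) • P
        rw [mul_smul, mul_smul, inv_smul_eq_iff.2 (mem_stabilizer_iff.1 hs).symm]
      haveI : Nontrivial K := Finite.one_lt_card_iff_nontrivial.1 (by omega)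
      obtain ⟨r, hr, hrd⟩ := Nat.exists_prime_and_dvd (show Nat.card K ≠ 1 by omega)
      haveI := Fact.mk hr
      obtain ⟨k₁, hk₁⟩ := exists_prime_orderOf_dvd_card' r hrd
      have hk₁1 : k₁ ≠ 1 := fun h => hr.ne_one (by rw [← hk₁, h, orderOf_one])
      have hne : ∀ k : K, k ≠ 1 → f k ≠ P := fun k hk hk' => hk (hfinj (hk'.trans (one_smul G P).symm))
      have hall : ∀ k : K, k ≠ 1 → orderOf k = r := by
        intro k hk
        obtain ⟨x, hx, hxe⟩ := hPtr _ _ (hne k₁ hk₁1) (hne k hk)
        have := hfinj ((hconjf x (hPS hx) k₁).trans hxe)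
        rw [← this, ← Subgroup.orderOf_coe]
        show orderOf (x * (k₁ : G) * x⁻¹) = r
        rw [show x * (k₁ : G) * x⁻¹ = MulAut.conj x (k₁ : G) from rfl,
          MulEquiv.orderOf_eq, Subgroup.orderOf_coe, hk₁]
      obtain ⟨g, hg⟩ := hplus
      set m := (q + 1) / d with hm
      have hmd : d * m = q + 1 := Nat.mul_div_cancel' hdp
      have hcop : m.Coprime K.index := by
        have hidx : d * K.index = q * (q - 1) := by
          apply Nat.eq_of_mul_eq_mul_left (show 0 < q + 1 by omega)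
          have := Subgroup.card_mul_index K
          rw [hKc] at this
          calc (q + 1) * (d * K.index) = (q + 1) * K.index * d := by ring
            _ = q * ((q + 1) * (q - 1)) := by rw [this, hG]
            _ = (q + 1) * (q * (q - 1)) := by ring
        -- the only prime divisor of `q + 1` is `r`
        refine Nat.coprime_of_dvd fun t ht htm hti => ?_
        have ht1 : t ∣ q + 1 := hmd ▸ htm.mul_left d
        rcases ht.dvd_mul.1 (show t ∣ q * (q - 1) from hidx ▸ hti.mul_left d) with h | h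
        · exact ht.not_dvd_one ((Nat.dvd_add_right h).1 ht1)
        · have h2 := Nat.dvd_sub ht1 h
          rw [show q + 1 - (q - 1) = 2 by omega] at h2
          have ht2 : t = 2 := (Nat.prime_dvd_prime_iff_eq ht Nat.prime_two).1 h2
          subst ht2
          rcases hd12 with hd1 | hd2
          · rw [hd1] at hdp'
            have hp2 : p = 2 := by by_contra hp; exact absurd (hdp'.2 hp) (by omega)
            subst hp2
            omega
          · rw [hd2] at hidx hmd
            -- `4 ∣ q + 1` and `2 ∣ (q - 1) / 2` are incompatible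
            obtain ⟨a, ha⟩ := htm
            obtain ⟨b, hb⟩ := hti
            obtain ⟨c, hc⟩ : 2 ∣ q - 1 := h
            have hqodd : ¬ 2 ∣ q := by omega
            have : q * c = 2 * b := by rw [hc, hb] at hidx; linarith
            have h2c : 2 ∣ c := (Nat.prime_two.dvd_mul.1 ⟨b, this⟩).resolve_left hqodd
            omega
      set y := g ^ (orderOf g / m)
      have hy : orderOf y = m := orderOf_pow_orderOf_div (orderOf_pos g).ne' hg
      have hyK : y ∈ K := by
        haveI := hKn
        rw [← QuotientGroup.eq_one_iff, ← orderOf_eq_one_iff]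
        refine Nat.eq_one_of_dvd_coprimes hcop ?_ ?_
        · rw [← hy]; exact orderOf_map_dvd (QuotientGroup.mk' K) y
        · rw [Subgroup.index_eq_card]; exact orderOf_dvd_natCard _
      have hmr : m = r := by
        have : (⟨y, hyK⟩ : K) ≠ 1 := fun h => by
          have h' : y = 1 := congrArg Subtype.val h
          rw [h', orderOf_one] at hy
          rw [← hy] at hmd; omega
        rw [← hy, ← hall _ this, Subgroup.orderOf_mk]
      rcases hd12 with hd1 | hd2
      · rw [hd1, one_mul] at hmd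
        haveI hKcyc : IsCyclic K := isCyclic_of_prime_card (p := r) (by rw [hKc]; omega)
        let φ : S →* MulAut K := (MulAut.conjNormal (H := K)).comp S.subtype
        have hφ : Function.Injective φ := by
          rw [injective_iff_map_eq_one]
          intro s hs
          refine Subtype.ext (hfaith s fun B => ?_)
          obtain ⟨k, rfl⟩ : ∃ k, f k = B :=
            ((Nat.bijective_iff_injective_and_card f).2 ⟨hfinj, by rw [hKc, ← hn, hnq]⟩).2 B
          rw [← hconjf s s.2 k]
          congr 1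
          exact DFunLike.congr_fun hs k
        have h1 := Nat.card_le_card_of_injective φ hφ
        rw [IsCyclic.card_mulAut, hS, hKc, show q + 1 = r by omega, Nat.totient_prime hr] at h1
        have : q * 2 ≤ q * h := Nat.mul_le_mul_left q hh2
        omega
      · rw [hd2] at hmd
        have h2r : 2 = r := by
          haveI := Fact.mk Nat.prime_two
          obtain ⟨k2, hk2⟩ := exists_prime_orderOf_dvd_card' (G := K) 2 (by rw [hKc]; omega)
          exact (hk2.symm.trans (hall k2 fun h => by rw [h, orderOf_one] at hk2; omega))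
        omega
  have hregF : ∀ y z : Sylow p G, y ≠ P → z ≠ P → ∃! u : (P : Subgroup G), (u : G) • y = z := by
    intro y z hy hz
    obtain ⟨x, hx, hxe⟩ := hPtr y z hy hz
    refine ⟨⟨x, hx⟩, hxe, fun u hu => Subtype.ext ?_⟩
    have := hreg (x⁻¹ * u) (mul_mem (inv_mem hx) u.2) y hy (by
      rw [mul_smul, show (u : G) • y = z from hu, inv_smul_eq_iff, hxe])
    exact (inv_mul_eq_one.1 this).symm
  rcases CfsgLib.AltGroups.zassenhaus_abelian_kernel hZ (x := P) (o := Q) hQ (P : Subgroup G) hPS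
      inferInstance hPab hregF with hd' | ⟨-, K, _, _, -, hKc, ⟨iso⟩⟩
  · rw [hTc, hΩ] at hd'
    have hd1 : d = 1 := by
      rcases hd12 with h1 | h1
      · exact h1
      · rw [h1] at hhd; omega
    have hp2 : p = 2 := by by_contra hp; exact absurd (hdp'.2 hp) (by omega)
    have hev : Even q := by rw [hqe, hp2]; exact (Nat.even_pow.2 ⟨even_two, e.pos.ne'⟩)
    obtain ⟨K, i, j, hK, ⟨iso⟩⟩ := CfsgLib.AltGroups.sharply_three_transitive_odd_degree (G := G) (Ω := Sylow p G)
      (fun a b c a' b' c' h1 h2 h3' h4 h5 h6 => by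
        obtain ⟨h3t, -⟩ := CfsgLib.AltGroups.sharply_three_transitive_of_card hZ hQ (by rw [hTc, hΩ]; exact hd')
        have emb : ∀ x y z : Sylow p G, x ≠ y → y ≠ z → x ≠ z → Function.Injective ![x, y, z] := by
          intro x y z hxy hyz hxz i j hij
          fin_cases i <;> fin_cases j <;> simp [hxy, hyz, hxz, hxy.symm, hyz.symm, hxz.symm] at hij ⊢
        haveI := h3t
        obtain ⟨g, hg⟩ := MulAction.exists_smul_eq G (α := Fin 3 ↪ Sylow p G) ⟨![a, b, c], emb a b c h1 h2 h3'⟩
          ⟨![a', b', c'], emb a' b' c' h4 h5 h6⟩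
        refine ⟨g, ⟨DFunLike.congr_fun hg 0, DFunLike.congr_fun hg 1, DFunLike.congr_fun hg 2⟩, fun k hk => ?_⟩
        refine (inv_mul_eq_one.1 (h3 (g⁻¹ * k) a b c h1 h2 h3' ?_ ?_ ?_)).symm
        · rw [mul_smul, hk.1, inv_smul_eq_iff]; exact (DFunLike.congr_fun hg 0).symm
        · rw [mul_smul, hk.2.1, inv_smul_eq_iff]; exact (DFunLike.congr_fun hg 1).symm
        · rw [mul_smul, hk.2.2, inv_smul_eq_iff]; exact (DFunLike.congr_fun hg 2).symm)
      (by rw [hΩ]; exact hev.add_one) (by omega)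
    have hKq : Fintype.card K = Fintype.card F := by
      rw [hΩ] at hK
      rw [← Nat.card_eq_fintype_card (α := F)]
      omega
    exact ⟨(iso.trans (MulEquiv.ofBijective _ (CfsgLib.SharplyEven.SimpleZassenhaus.toPGL_bijective_of_even
      (K := K) (by rw [hKq, ← Nat.card_eq_fintype_card]; exact hev))).symm).trans
      (CfsgLib.ClassicalLinear.pslCongr (FiniteField.ringEquivOfCardEq (K := K) (K' := F) hKq))⟩
  · have hKq : Fintype.card K = Fintype.card F := by
      rw [hΩ] at hKc
      rw [← Nat.card_eq_fintype_card (α := F)]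
      omega
    exact ⟨iso.trans (CfsgLib.ClassicalLinear.pslCongr (FiniteField.ringEquivOfCardEq (K := K) (K' := F) hKq))⟩

end CfsgLib.SectRank.PSLTwoRec
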