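import Cfsg.Agent.Lib.SectRank.WeaklyClosed
import Cfsg.Agent.Lib.MetacyclicP.AbelianIndex
import Cfsg.Agent.Lib.Cores.PCore

/-!
# Squares in the abelianization of the centralizer of a large extraspecial subgroup
-/

set_option autoImplicit false
set_option linter.unusedSectionVars false
set_option linter.style.haveILetI false

open Cfsg

namespace CfsgLib.SectRank.LargeExtra

/-- A finite commutative group with a nontrivial element of 2-power order has an index two
subgroup. -/
theorem exists_index_two_of_comm {R : Type*} [CommGroup R] [Finite R] {r : R} (hr : r ≠ 1) {k : ℕ}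
    (hk : r ^ 2 ^ k = 1) : ∃ M : Subgroup R, M.index = 2 := by
  classical
  haveI := Fact.mk Nat.prime_two
  let σ : R →* R := powMonoidHom 2
  have hnot : σ.range ≠ ⊤ := by
    intro h
    have hs : Function.Surjective σ := MonoidHom.range_eq_top.1 h
    have hi : Function.Injective σ := Finite.injective_iff_surjective.2 hs
    have : ∀ j, Function.Injective fun x : R => x ^ 2 ^ j := by
      intro j
      induction j with
      | zero => intro a b e; simpa using e
      | succ j ih =>
        intro a b e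
        refine ih (hi ?_)
        show (a ^ 2 ^ j) ^ 2 = (b ^ 2 ^ j) ^ 2
        rw [← pow_mul, ← pow_mul, ← pow_succ]
        exact e
    exact hr (this k (by simpa using hk))
  have hp : IsPGroup 2 (R ⧸ σ.range) := fun q => ⟨1, by
    obtain ⟨a, rfl⟩ := QuotientGroup.mk_surjective q
    rw [pow_one, ← QuotientGroup.mk_pow, QuotientGroup.eq_one_iff]
    exact ⟨a, rfl⟩⟩
  obtain ⟨j, hj⟩ := hp.exists_card_eq
  have hj0 : j ≠ 0 := by
    rintro rfl
    apply hnot
    rw [← Subgroup.index_eq_one, Subgroup.index_eq_card, hj, pow_zero]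
  obtain ⟨M, hM⟩ := Sylow.exists_subgroup_card_pow_prime 2 (G := R ⧸ σ.range) (n := j - 1)
    (by rw [hj]; exact pow_dvd_pow 2 (Nat.sub_le j 1))
  refine ⟨M.comap (QuotientGroup.mk' σ.range), ?_⟩
  rw [Subgroup.index_comap_of_surjective _ (QuotientGroup.mk'_surjective σ.range)]
  have h := M.card_mul_index
  rw [hM, hj, show 2 ^ j = 2 ^ (j - 1) * 2 by
    rw [← pow_succ, Nat.sub_add_cancel (Nat.one_le_iff_ne_zero.2 hj0)]] at h
  exact Nat.eq_of_mul_eq_mul_left (by positivity) h

variable {G : Type*} [Group G] [Finite G]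

namespace Data

variable {z : G} {E : Subgroup G} (D : Data z E)
include D

theorem conj_inv_mem (h8 : 8 < Nat.card E) {g : G} (hgE : g * z * g⁻¹ ∈ E) (hne : g * z * g⁻¹ ≠ z) :
    g⁻¹ * z * g ∈ E := by
  have hC : Subgroup.centralizer (E : Set G) = (Subgroup.center E).map E.subtype := by
    refine le_antisymm (fun w hw => ?_) (fun w hw => ?_)
    · exact (Fischer2.mem_centerImage_iff E w).2 ⟨D.cent hw,
        fun y hy => (Subgroup.mem_centralizer_iff.1 hw y hy).symm⟩
    · exact Subgroup.mem_centralizer_iff.2 fun y hy =>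
        (((Fischer2.mem_centerImage_iff E w).1 hw).2 y hy).symm
  have hN : Subgroup.centralizer (((Subgroup.center E).map E.subtype : Subgroup G) : Set G) ≤
      Subgroup.normalizer (E : Set G) := by
    intro h hh
    have hz' : h ∈ Subgroup.centralizer ({z} : Set G) :=
      Subgroup.mem_centralizer_singleton_iff.2 (Subgroup.mem_centralizer_iff.1 hh z D.zImage).symm
    rw [Subgroup.mem_normalizer_iff]
    intro e
    refine ⟨fun he => D.normal h hz' e he, fun he => ?_⟩
    have := D.normal _ (Subgroup.inv_mem _ hz') _ he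
    simpa [mul_assoc] using this
  obtain ⟨y, hy, hyz⟩ := Fischer2.mem_conj_of_conj_mem D.ext hC hN h8 D.zImage D.z_ne hgE hne
  change g * y * g⁻¹ = z at hyz
  rw [← hyz, show g⁻¹ * (g * y * g⁻¹) * g = y by group]
  exact hy

theorem z_mem_of_commutators {L : Subgroup G}
    (hL : ∀ a ∈ Subgroup.centralizer ({z} : Set G), ∀ b ∈ Subgroup.centralizer ({z} : Set G),
      b * a * b⁻¹ * a⁻¹ ∈ L) : z ∈ L := by
  obtain ⟨a, b, hab⟩ := PGroups.IsExtraspecial.exists_not_commute D.ext
  have hc : ¬ (b : G) * a = a * b := fun h => hab (Subtype.ext h.symm)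
  have h := hL (a : G) (D.le a.2) (b : G) (D.le b.2)
  rwa [D.swap a.2 b.2 hc, show z * ((a : G) * b) * (b : G)⁻¹ * (a : G)⁻¹ = z by group] at h

theorem cases_centralizer (h8 : Nat.card E = 8) {a c : G} (ha : a ∈ E) (hnc : a ≠ 1 ∧ a ≠ z)
    (hc : c ∈ E) (hca : c * a = a * c) : c = 1 ∨ c = z ∨ c = a ∨ c = a * z := by
  refine D.bicentral ha hc hnc fun v hv hva => ?_
  by_contra hvc
  have hcard := D.card_centralizer ha hnc
  rw [h8] at hcard
  haveI := Fintype.ofFinite G
  set C := E ⊓ Subgroup.centralizer ({a} : Set G) with hC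
  have hab : ∀ x ∈ C, ∀ y ∈ C, x * y = y * x := by
    have hC4 : Nat.card C = 4 := by omega
    haveI : Fact (Nat.Prime 2) := ⟨Nat.prime_two⟩
    letI : CommGroup C := IsPGroup.commGroupOfCardEqPrimeSq (p := 2) (by rw [hC4]; norm_num)
    intro x hx y hy
    exact congrArg Subtype.val (mul_comm (⟨x, hx⟩ : C) ⟨y, hy⟩)
  exact hvc (hab v ⟨hv, Subgroup.mem_centralizer_singleton_iff.2 hva⟩ c
    ⟨hc, Subgroup.mem_centralizer_singleton_iff.2 hca⟩)

/-- The classes modulo the centre of an extraspecial group of order 8. -/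
theorem gen_classes (h8 : Nat.card E = 8) {a b : G} (ha : a ∈ E) (hb : b ∈ E) (hab : om a b = 1) :
    ∀ v ∈ E, (∀ w ∈ E, om v w = om 1 w) ∨ (∀ w ∈ E, om v w = om a w) ∨ (∀ w ∈ E, om v w = om b w) ∨
      ∀ w ∈ E, om v w = om (a * b) w := by
  intro v hv
  have hnc : a ≠ 1 ∧ a ≠ z := by
    constructor <;> rintro rfl
    · rw [om_one_left] at hab; exact zero_ne_one hab
    · rw [D.om_z hb] at hab; exact zero_ne_one hab
  set R : G → G → Prop := fun x y => ∀ v ∈ E, om x v = om y v with hR
  have hRz : ∀ {x}, x ∈ E → x = 1 ∨ x = z → R x 1 := fun {x} hx h v hv => by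
    rcases h with rfl | rfl
    · rfl
    · rw [D.om_z hv, om_one_left]
  have hkill : ∀ {w}, w ∈ E → om w a = 0 → om w b = 0 → R w 1 := by
    intro w hw h1 h2
    rcases D.cases_centralizer h8 ha hnc hw (om_eq_zero.1 h1) with e | e | e | e
    · exact hRz hw (Or.inl e)
    · exact hRz hw (Or.inr e)
    · rw [e, hab] at h2; exact absurd h2 one_ne_zero
    · rw [e, D.om_mul_left ha D.mem hb, hab, D.om_z hb, add_zero] at h2; exact absurd h2 one_ne_zero
  have hba : om b a = 1 := by rw [om_comm, hab]
  have hshift : ∀ {c}, c ∈ E → om v a = om c a → om v b = om c b → R v c := by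
    intro c hc h1 h2 x hx
    have := hkill (E.mul_mem hv hc)
      (by rw [D.om_mul_left hv hc ha, h1]; exact two_zero _)
      (by rw [D.om_mul_left hv hc hb, h2]; exact two_zero _) x hx
    rw [D.om_mul_left hv hc hx, om_one_left] at this
    linear_combination this - om c x * z2
  rcases zmod_two_cases (om v a) with h1 | h1 <;> rcases zmod_two_cases (om v b) with h2 | h2
  · exact Or.inl (hkill hv h1 h2)
  · exact Or.inr (Or.inl (hshift ha (by rw [h1, om_self]) (by rw [h2, hab])))
  · exact Or.inr (Or.inr (Or.inl (hshift hb (by rw [h1, hba]) (by rw [h2, om_self]))))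
  · exact Or.inr (Or.inr (Or.inr (hshift (E.mul_mem ha hb)
      (by rw [h1, D.om_mul_left ha hb ha, om_self, hba, zero_add])
      (by rw [h2, D.om_mul_left ha hb hb, om_self, hab, add_zero]))))

/-- An element fixing a class squares to an element fixing all classes. -/
theorem fixes_sq (h8 : Nat.card E = 8) {h : G} (hh : h ∈ Subgroup.centralizer ({z} : Set G))
    (hfix : ∃ a ∈ E, ¬ (∀ v ∈ E, om a v = om 1 v) ∧ ∀ v ∈ E, om (h * a * h⁻¹) v = om a v) :
    ∀ e ∈ E, ∀ v ∈ E, om (h * h * e * (h * h)⁻¹) v = om e v := by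
  obtain ⟨a, ha, ha1, hha⟩ := hfix
  obtain ⟨b, hb, hab⟩ : ∃ b ∈ E, om a b = 1 := by
    by_contra! hcon
    exact ha1 fun v hv => by
      rw [om_one_left]
      rcases zmod_two_cases (om a v) with e | e
      · exact e
      · exact absurd e (hcon v hv)
  have hb' := D.normal h hh b hb
  have hc : ∀ {c d}, c ∈ E → d ∈ E → (∀ v ∈ E, om c v = om d v) →
      ∀ v ∈ E, om (h * c * h⁻¹) v = om (h * d * h⁻¹) v := by
    intro c d _ _ hcd v hv
    have hv' : h⁻¹ * v * h ∈ E := by
      have := D.normal h⁻¹ (Subgroup.inv_mem _ hh) v hv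
      rwa [inv_inv] at this
    rw [show v = h * (h⁻¹ * v * h) * h⁻¹ by group, om_conj, om_conj, hcd _ hv']
  have hmul : ∀ {c d}, c ∈ E → d ∈ E → ∀ v ∈ E,
      om (h * (c * d) * h⁻¹) v = om (h * c * h⁻¹) v + om (h * d * h⁻¹) v := by
    intro c d hc hd v hv
    rw [show h * (c * d) * h⁻¹ = h * c * h⁻¹ * (h * d * h⁻¹) by group,
      D.om_mul_left (D.normal h hh c hc) (D.normal h hh d hd) hv]
  have e1 : om (h * b * h⁻¹) a = 1 := by rw [om_comm, ← hha _ hb', om_conj, hab]
  have hsqb : ∀ v ∈ E, om (h * (h * b * h⁻¹) * h⁻¹) v = om b v := by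
    rcases D.gen_classes h8 ha hb hab _ hb' with e | e | e | e
    · rw [e a ha, om_one_left] at e1; exact absurd e1 zero_ne_one
    · rw [e a ha, om_self] at e1; exact absurd e1 zero_ne_one
    · intro v hv; rw [hc hb' hb e v hv, e v hv]
    · intro v hv
      rw [hc hb' (E.mul_mem ha hb) e v hv, hmul ha hb v hv, hha v hv, e v hv, D.om_mul_left ha hb hv]
      linear_combination (om a v) * z2
  have hsqa : ∀ v ∈ E, om (h * (h * a * h⁻¹) * h⁻¹) v = om a v := fun v hv => by
    rw [hc (D.normal h hh a ha) ha hha v hv, hha v hv]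
  intro e he v hv
  rw [show h * h * e * (h * h)⁻¹ = h * (h * e * h⁻¹) * h⁻¹ by group]
  have key : ∀ {c}, c ∈ E → (∀ w ∈ E, om e w = om c w) →
      (∀ w ∈ E, om (h * (h * c * h⁻¹) * h⁻¹) w = om c w) → om (h * (h * e * h⁻¹) * h⁻¹) v = om e v := by
    intro c hcE hec hcc
    rw [hc (D.normal h hh e he) (D.normal h hh c hcE) (hc he hcE hec) v hv, hcc v hv, hec v hv]
  rcases D.gen_classes h8 ha hb hab e he with e' | e' | e' | e'
  · exact key E.one_mem e' fun w _ => by simp
  · exact key ha e' hsqa
  · exact key hb e' hsqb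
  · refine key (E.mul_mem ha hb) e' fun w hw => ?_
    rw [show h * (h * (a * b) * h⁻¹) * h⁻¹ = h * (h * a * h⁻¹) * h⁻¹ * (h * (h * b * h⁻¹) * h⁻¹) by group,
      D.om_mul_left (D.normal h hh _ (D.normal h hh a ha)) (D.normal h hh _ hb') hw, hsqa w hw, hsqb w hw,
      D.om_mul_left ha hb hw]

/-- The squares of 2-elements of `C(z)` are products of commutators when `|E| = 8`. -/
theorem sq_mem_of_card_eight (h8 : Nat.card E = 8)
    (hE : E = (Cfsg.pCore 2 ↥(Subgroup.centralizer ({z} : Set G))).map
      (Subgroup.centralizer ({z} : Set G)).subtype)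
    {L : Subgroup G}
    (hL : ∀ a ∈ Subgroup.centralizer ({z} : Set G), ∀ b ∈ Subgroup.centralizer ({z} : Set G),
      b * a * b⁻¹ * a⁻¹ ∈ L)
    {p : G} (hp : p ∈ Subgroup.centralizer ({z} : Set G)) {j : ℕ} (hpj : p ^ 2 ^ j = 1) :
    p * p ∈ L := by
  classical
  set H := Subgroup.centralizer ({z} : Set G) with hH
  have hzL := D.z_mem_of_commutators hL
  set R : G → G → Prop := fun x y => ∀ v ∈ E, om x v = om y v with hR
  have hRz : ∀ {x}, x ∈ E → (R x 1 ↔ x = 1 ∨ x = z) := fun {x} hx => by
    refine ⟨fun h => D.central_of_om hx fun v hv => by rw [h v hv, om_one_left], ?_⟩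
    rintro (rfl | rfl) v hv
    · rfl
    · rw [D.om_z hv, om_one_left]
  -- two noncommuting elements
  obtain ⟨a₀, b₀, hab₀⟩ := PGroups.IsExtraspecial.exists_not_commute D.ext
  have hcent : ∀ {a c : G}, a ∈ E → a ≠ 1 ∧ a ≠ z → c ∈ E → c * a = a * c →
      c = 1 ∨ c = z ∨ c = a ∨ c = a * z := fun ha hnc hc hca => D.cases_centralizer h8 ha hnc hc hca
  have hRnc : ∀ {a b}, a ∈ E → b ∈ E → ¬ R a 1 → ¬ R b 1 → ¬ R b a → om a b = 1 := by
    intro a b ha hb ha1 hb1 hba
    rcases zmod_two_cases (om a b) with h | h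
    · exfalso
      have hnc : a ≠ 1 ∧ a ≠ z := not_or.1 (mt (hRz ha).2 ha1)
      rcases hcent ha hnc hb (om_eq_zero.1 h).symm with e | e | e | e
      · exact hb1 ((hRz hb).2 (Or.inl e))
      · exact hb1 ((hRz hb).2 (Or.inr e))
      · exact hba fun v _ => by rw [e]
      · exact hba fun v hv => by rw [e, D.om_mul_left ha D.mem hv, D.om_z hv, add_zero]
    · exact h
  have hgen : ∀ {a b}, a ∈ E → b ∈ E → om a b = 1 → ∀ v ∈ E,
      R v 1 ∨ R v a ∨ R v b ∨ R v (a * b) := fun ha hb hab => D.gen_classes h8 ha hb hab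
  have hRconj : ∀ {h x y}, h ∈ H → R x y → R (h * x * h⁻¹) (h * y * h⁻¹) := by
    intro h x y hh hxy v hv
    have hv' : h⁻¹ * v * h ∈ E := by
      have := D.normal h⁻¹ (H.inv_mem hh) v hv
      rwa [inv_inv] at this
    rw [show v = h * (h⁻¹ * v * h) * h⁻¹ by group, om_conj, om_conj, hxy _ hv']
  -- elements fixing every class
  have hker : ∀ h ∈ H, (∀ e ∈ E, R (h * e * h⁻¹) e) → h ∈ E := by
    intro h hh hfix
    set a := (a₀ : G) with ha'
    set b := (b₀ : G) with hb'
    have ha : a ∈ E := a₀.2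
    have hb : b ∈ E := b₀.2
    have hab : om a b = 1 := om_ne_zero fun e => hab₀ (Subtype.ext e)
    have hba : ¬ b * a = a * b := fun e => hab₀ (Subtype.ext e.symm)
    have hfa := D.eqv_of_om (D.normal h hh a ha) ha (hfix a ha)
    have hfb := D.eqv_of_om (D.normal h hh b hb) hb (hfix b hb)
    have hzc : ∀ {e}, e ∈ E → e * z = z * e := fun he => D.comm he
    -- an element of `E` inducing the same automorphism
    obtain ⟨y, hy, hya, hyb⟩ : ∃ y ∈ E, y * a * y⁻¹ = h * a * h⁻¹ ∧ y * b * y⁻¹ = h * b * h⁻¹ := by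
      have c1 : b * a * b⁻¹ = a * z := by rw [D.swap ha hb hba, hzc ha]; group
      have c2 : a * b * a⁻¹ = b * z := by rw [D.swap hb ha (Ne.symm hba), hzc hb]; group
      rcases hfa with e1 | e1 <;> rcases hfb with e2 | e2 <;> rw [e1, e2]
      · exact ⟨1, E.one_mem, by group, by group⟩
      · exact ⟨a, ha, by group, c2⟩
      · exact ⟨b, hb, c1, by group⟩
      · refine ⟨a * b, E.mul_mem ha hb, ?_, ?_⟩
        · calc a * b * a * (a * b)⁻¹ = a * (b * a * b⁻¹) * a⁻¹ := by group
            _ = a * (a * z) * a⁻¹ := by rw [c1]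
            _ = a * z := by rw [hzc ha, ← mul_assoc, hzc ha]; group
        · calc a * b * b * (a * b)⁻¹ = a * b * a⁻¹ := by group
            _ = _ := c2
    have hc : ∀ {c}, c ∈ E → y * c * y⁻¹ = h * c * h⁻¹ → (y⁻¹ * h) * c = c * (y⁻¹ * h) := by
      intro c _ e
      calc (y⁻¹ * h) * c = y⁻¹ * (h * c * h⁻¹) * h := by group
        _ = _ := by rw [← e]; group
    have h1 : Commute (y⁻¹ * h) a := hc ha hya
    have h2 : Commute (y⁻¹ * h) b := hc hb hyb
    have hyz : Commute (y⁻¹ * h) z :=
      (show Commute y z from D.comm hy).inv_left.mul_left (Subgroup.mem_centralizer_singleton_iff.1 hh)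
    have hall : y⁻¹ * h ∈ Subgroup.centralizer (E : Set G) := by
      refine Subgroup.mem_centralizer_iff.2 fun v hv => ?_
      have hv' : ∀ c ∈ E, Commute (y⁻¹ * h) c → R v c → Commute (y⁻¹ * h) v := by
        intro c hcE hcc hvc
        rcases D.eqv_of_om hv hcE hvc with e | e <;> rw [e]
        · exact hcc
        · exact hcc.mul_right hyz
      rcases hgen ha hb hab v hv with e | e | e | e
      · exact (hv' 1 E.one_mem (Commute.one_right _) e).eq.symm
      · exact (hv' a ha h1 e).eq.symm
      · exact (hv' b hb h2 e).eq.symm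
      · exact (hv' _ (E.mul_mem ha hb) (h1.mul_right h2) e).eq.symm
    have := E.mul_mem hy (D.cent hall)
    rwa [mul_inv_cancel_left] at this
  -- additivity
  have hadd : ∀ {h x y}, h ∈ H → x ∈ E → y ∈ E → ∀ v ∈ E,
      om (h * (x * y) * h⁻¹) v = om (h * x * h⁻¹) v + om (h * y * h⁻¹) v := by
    intro h x y hh hx hy v hv
    rw [show h * (x * y) * h⁻¹ = h * x * h⁻¹ * (h * y * h⁻¹) by group,
      D.om_mul_left (D.normal h hh x hx) (D.normal h hh y hy) hv]
  by_cases hfree : ∃ h ∈ H, ∀ e ∈ E, ¬ R e 1 → ¬ R (h * e * h⁻¹) e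
  · -- `E` consists of commutators
    obtain ⟨h, hh, hfix⟩ := hfree
    have hEL : ∀ v ∈ E, v ∈ L := by
      set a := (a₀ : G) with ha'
      set b := (b₀ : G) with hb'
      have ha : a ∈ E := a₀.2
      have hb : b ∈ E := b₀.2
      have hab : om a b = 1 := om_ne_zero fun e => hab₀ (Subtype.ext e)
      have ha1 : ¬ R a 1 := fun e => by
        have := e b hb
        rw [hab, om_one_left] at this
        exact one_ne_zero this
      have hb1 : ¬ R b 1 := fun e => by
        have := e a ha
        rw [om_comm, hab, om_one_left] at this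
        exact one_ne_zero this
      have hcL : ∀ {e}, e ∈ E → cm h e ∈ L := fun {e} he => by
        have := hL h hh e⁻¹ (H.inv_mem (D.le he))
        rwa [show e⁻¹ * h * e⁻¹⁻¹ * h⁻¹ = cm h e by rw [cm]; group] at this
      have hca := D.cm_mem hh ha
      have hcb := D.cm_mem hh hb
      have n1 : ¬ R (cm h a) 1 := fun e => hfix a ha ha1 fun v hv => by
        have := e v hv
        rw [D.om_cm hh ha hv, om_one_left] at this
        linear_combination this - om a v * z2
      have n2 : ¬ R (cm h b) 1 := fun e => hfix b hb hb1 fun v hv => by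
        have := e v hv
        rw [D.om_cm hh hb hv, om_one_left] at this
        linear_combination this - om b v * z2
      have hab1 : ¬ R (a * b) 1 := fun e => by
        have := e a ha
        rw [D.om_mul_left ha hb ha, om_self, om_comm b, hab, zero_add, om_one_left] at this
        exact one_ne_zero this
      have n3 : ¬ R (cm h b) (cm h a) := fun e =>
        hfix (a * b) (E.mul_mem ha hb) hab1 fun v hv => by
          have := e v hv
          rw [D.om_cm hh ha hv, D.om_cm hh hb hv] at this
          rw [hadd hh ha hb v hv, D.om_mul_left ha hb hv]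
          linear_combination this - om b v * z2 + (om (h * a * h⁻¹) v) * z2
      have hc1 := hRnc hca hcb n1 n2 n3
      intro v hv
      have hput : ∀ {c}, c ∈ E → c ∈ L → R v c → v ∈ L := fun {c} hc hcL' e => by
        rcases D.eqv_of_om hv hc e with e' | e' <;> rw [e']
        · exact hcL'
        · exact L.mul_mem hcL' hzL
      rcases hgen hca hcb hc1 v hv with e | e | e | e
      · exact hput E.one_mem L.one_mem e
      · exact hput hca (hcL ha) e
      · exact hput hcb (hcL hb) e
      · exact hput (E.mul_mem hca hcb) (L.mul_mem (hcL ha) (hcL hb)) e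
    refine hEL _ (hker _ (H.mul_mem hp hp) ?_)
    -- `p` fixes a class
    have hfixp : ∃ a ∈ E, ¬ R a 1 ∧ R (p * a * p⁻¹) a := by
      by_contra! hno
      let Kc : Subgroup G :=
        { carrier := {x | x ∈ H ∧ ∀ e ∈ E, R (x * e * x⁻¹) e}
          one_mem' := ⟨H.one_mem, fun e _ v _ => by simp⟩
          mul_mem' := fun {x y} hx hy => ⟨H.mul_mem hx.1 hy.1, fun e he v hv => by
            rw [show x * y * e * (x * y)⁻¹ = x * (y * e * y⁻¹) * x⁻¹ by group,
              hx.2 _ (D.normal y hy.1 e he) v hv, hy.2 e he v hv]⟩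
          inv_mem' := fun {x} hx => ⟨H.inv_mem hx.1, fun e he v hv => by
            have he' : x⁻¹ * e * x⁻¹⁻¹ ∈ E := D.normal x⁻¹ (H.inv_mem hx.1) e he
            have := hx.2 _ he' v hv
            rw [show x * (x⁻¹ * e * x⁻¹⁻¹) * x⁻¹ = e by group] at this
            exact this.symm⟩ }
      have h3 : p * p * p ∈ Kc := by
        refine ⟨H.mul_mem (H.mul_mem hp hp) hp, fun a ha v hv => ?_⟩
        by_cases ha1 : R a 1
        · have h' := hRconj (H.mul_mem (H.mul_mem hp hp) hp) ha1 v hv
          rw [h', show p * p * p * 1 * (p * p * p)⁻¹ = 1 by group, ha1 v hv]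
        · -- the class of `a` has an orbit of length three
          set b := p * a * p⁻¹ with hb'
          have hb : b ∈ E := D.normal p hp a ha
          have hb1 : ¬ R b 1 := fun e => ha1 fun w hw => by
            have := hRconj (H.inv_mem hp) e w hw
            rwa [hb', show p⁻¹ * (p * a * p⁻¹) * p⁻¹⁻¹ = a by group,
              show p⁻¹ * 1 * p⁻¹⁻¹ = 1 by group] at this
          have hab := hRnc ha hb ha1 hb1 (hno a ha ha1)
          have hc : p * b * p⁻¹ ∈ E := D.normal p hp b hb
          have hR2 : R (p * b * p⁻¹) (a * b) := by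
            rcases hgen ha hb hab _ hc with e | e | e | e
            · exfalso
              refine hb1 fun w hw => ?_
              have := hRconj (H.inv_mem hp) e w hw
              rwa [show p⁻¹ * (p * b * p⁻¹) * p⁻¹⁻¹ = b by group,
                show p⁻¹ * 1 * p⁻¹⁻¹ = 1 by group] at this
            · exfalso
              refine hno (a * b) (E.mul_mem ha hb) (fun e' => ?_) fun w hw => ?_
              · have := e' a ha
                rw [D.om_mul_left ha hb ha, om_self, om_comm b, hab, zero_add, om_one_left] at this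
                exact one_ne_zero this
              · rw [hadd hp ha hb w hw, ← hb', e w hw, D.om_mul_left ha hb hw, add_comm]
            · exact absurd e (hno b hb hb1)
            · exact e
          rw [show p * p * p * a * (p * p * p)⁻¹ = p * (p * b * p⁻¹) * p⁻¹ by rw [hb']; group,
            hRconj hp hR2 v hv, hadd hp ha hb v hv, ← hb', hR2 v hv, D.om_mul_left ha hb hv]
          linear_combination (om b v) * z2
      have hpK : p ∈ Kc := by
        rw [← pow_three', ← zpow_natCast] at h3
        obtain ⟨c, d, hcd⟩ : ∃ c d : ℤ, c * 3 + d * (2 ^ j : ℕ) = 1 := by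
          have hco : IsCoprime (3 : ℤ) ((2 ^ j : ℕ) : ℤ) := by
            rw [Nat.cast_pow]
            exact IsCoprime.pow_right (Int.isCoprime_iff_gcd_eq_one.2 (by decide))
          obtain ⟨c, d, h⟩ := hco
          exact ⟨c, d, by linarith⟩
        have := Kc.zpow_mem h3 c
        rw [← zpow_mul] at this
        have e : p = p ^ ((((3 : ℕ) : ℤ)) * c) := by
          conv_lhs => rw [← zpow_one p, ← hcd, zpow_add, mul_comm d, zpow_mul p ((2 ^ j : ℕ) : ℤ),
            zpow_natCast, hpj, one_zpow, mul_one, mul_comm]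
          norm_num
        rw [e]; exact this
      have ha1 : ¬ R (a₀ : G) 1 := fun e => by
        have := e _ b₀.2
        rw [om_one_left, om_ne_zero fun e' => hab₀ (Subtype.ext e')] at this
        exact one_ne_zero this
      exact hno _ a₀.2 ha1 (hpK.2 _ a₀.2)
    exact D.fixes_sq h8 hp hfixp
  · push Not at hfree
    -- `C(z)` is a 2-group, so equals `E`
    have hsq : ∀ h ∈ H, h * h ∈ E := fun h hh => hker _ (H.mul_mem hh hh) (D.fixes_sq h8 hh (hfree h hh))
    haveI := Fact.mk Nat.prime_two
    have hHp : IsPGroup 2 H := by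
      intro h
      refine ⟨3, Subtype.ext ?_⟩
      rw [SubgroupClass.coe_pow, OneMemClass.coe_one, show (2 : ℕ) ^ 3 = 2 * (2 * 2) from rfl,
        pow_mul, pow_two (h : G), pow_mul, pow_two ((h : G) * h)]
      rcases D.sq (hsq h h.2) with e | e <;> rw [e]
      · exact one_pow 2
      · rw [pow_two, D.zz]
    have htop : Cfsg.pCore 2 H = ⊤ := top_le_iff.1 (CfsgLib.Cores.le_pCore (hHp.to_subgroup ⊤))
    have hpE : p ∈ E := by
      rw [hE, htop, ← MonoidHom.range_eq_map, Subgroup.range_subtype]
      exact hp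
    rcases D.sq hpE with e | e <;> rw [e]
    · exact L.one_mem
    · exact hzL

end Data

end CfsgLib.SectRank.LargeExtra
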