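import Mathlib.Combinatorics.SimpleGraph.Diam

/-!
Graphs of diameter two.
-/

set_option autoImplicit false

namespace CfsgLib.SectRank

theorem connected_and_diam_eq_two {V : Type*} [Finite V] (G : SimpleGraph V)
    (h2 : ∀ u v : V, u ≠ v → ¬ G.Adj u v → ∃ w, G.Adj u w ∧ G.Adj w v)
    (hne : ∃ u v : V, u ≠ v ∧ ¬ G.Adj u v) : G.Connected ∧ G.diam = 2 := by
  obtain ⟨u₀, v₀, hu, ha⟩ := hne
  haveI : Nonempty V := ⟨u₀⟩
  haveI : Nontrivial V := ⟨⟨u₀, v₀, hu⟩⟩
  have hle : ∀ u v, G.edist u v ≤ 2 := by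
    intro u v
    by_cases h : u = v
    · subst h; simp
    by_cases h' : G.Adj u v
    · exact le_trans (SimpleGraph.edist_le h'.toWalk) (by simp)
    · obtain ⟨w, hw, hw'⟩ := h2 u v h h'
      exact le_trans (SimpleGraph.edist_le (hw.toWalk.append hw'.toWalk)) (by simp)
  have hd : G.ediam ≤ 2 := SimpleGraph.ediam_le_of_edist_le hle
  have htop : G.ediam ≠ ⊤ := ne_top_of_le_ne_top (by decide) hd
  refine ⟨SimpleGraph.connected_of_ediam_ne_top htop, ?_⟩
  have h0 : G.diam ≠ 0 := SimpleGraph.diam_ne_zero_of_ediam_ne_top htop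
  have h1 : G.diam ≠ 1 := fun e => ha (by
    rw [SimpleGraph.diam_eq_one.1 e]; exact hu)
  have hd' : G.diam ≤ 2 := by
    unfold SimpleGraph.diam
    exact (ENat.toNat_le_toNat hd (by decide)).trans (by simp)
  omega

end CfsgLib.SectRank
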