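import Mathlib

/-!
# A third involution with odd products

Basic lemmas. Given two involutions `x`, `y` of a finite set with supports of equal size, other than a Klein
configuration on four points, there is an involution `z` with support of the same size such that
`x * z` and `y * z` have odd order.
-/

set_option autoImplicit false

open Equiv Equiv.Perm

namespace CfsgLib.SectRank.OddProduct

variable {α : Type*} [DecidableEq α] [Fintype α]

/-- A suitable third involution supported in `S`. -/
def Sol (S : Finset α) (x y : Perm α) : Prop :=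
  ∃ z : Perm α, z * z = 1 ∧ z.support ⊆ S ∧ z.support.card = x.support.card ∧
    Odd (orderOf (x * z)) ∧ Odd (orderOf (y * z))

/-- The exceptional configuration. -/
def Bad (S : Finset α) (x y : Perm α) : Prop :=
  S.card = 4 ∧ x.support = S ∧ y.support = S ∧ ∀ i ∈ S, x i ≠ y i

theorem inv_apply {x : Perm α} (hx : x * x = 1) (i : α) : x (x i) = i := by
  rw [← Perm.mul_apply, hx, Perm.one_apply]

/-- Inserting two fixed points into a cycle by a three-cycle preserves odd order. -/
theorem odd_insert {g : Perm α} {a p q : α} (hg : Odd (orderOf g)) (hp : g p = p) (hq : g q = q)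
    (hap : a ≠ p) (haq : a ≠ q) (hpq : p ≠ q) : Odd (orderOf (g * (swap p a * swap p q))) := by
  set h := g * (swap p a * swap p q) with hh
  set L := Function.minimalPeriod g a with hL
  have hper : (g ^ orderOf g) a = a := by rw [pow_orderOf_eq_one, Perm.one_apply]
  have hLd : L ∣ orderOf g := by
    apply Function.IsPeriodicPt.minimalPeriod_dvd
    show (⇑g)^[orderOf g] a = a
    rw [← Perm.coe_pow, hper]
  have hLodd : Odd L := hg.of_dvd_nat hLd
  have hLa : (g ^ L) a = a := by
    rw [Perm.coe_pow]; exact Function.iterate_minimalPeriod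
  have hne : ∀ i : ℕ, (g ^ i) a ≠ p ∧ (g ^ i) a ≠ q := by
    intro i
    constructor <;> intro e
    · refine hap ((g ^ i).injective ?_)
      rw [e]
      exact (Function.iterate_fixed hp i).symm.trans (by rw [Perm.coe_pow])
    · refine haq ((g ^ i).injective ?_)
      rw [e]
      exact (Function.iterate_fixed hq i).symm.trans (by rw [Perm.coe_pow])
  have h1 : h a = p := by
    rw [hh, Perm.mul_apply, Perm.mul_apply, swap_apply_of_ne_of_ne hap haq, swap_apply_right, hp]
  have h2 : h p = q := by
    rw [hh, Perm.mul_apply, Perm.mul_apply, swap_apply_left, swap_apply_of_ne_of_ne hpq.symm haq.symm, hq]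
  have h3 : h q = g a := by
    rw [hh, Perm.mul_apply, Perm.mul_apply, swap_apply_right, swap_apply_left]
  have hgen : ∀ w, w ≠ a → w ≠ p → w ≠ q → h w = g w := by
    intro w wa wp wq
    rw [hh, Perm.mul_apply, Perm.mul_apply, swap_apply_of_ne_of_ne wp wq, swap_apply_of_ne_of_ne wp wa]
  have hpass : ∀ i, i < L → (h ^ (3 + i)) a = (g ^ (i + 1)) a := by
    intro i
    induction i with
    | zero =>
      intro _
      simp [pow_succ, Perm.mul_apply, h1, h2, h3]
    | succ i ih =>
      intro hi
      rw [show 3 + (i + 1) = (3 + i) + 1 from rfl, pow_succ', Perm.mul_apply, ih (by omega),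
        hgen _ ?_ (hne _).1 (hne _).2, ← Perm.mul_apply, ← pow_succ']
      intro e
      refine Function.not_isPeriodicPt_of_pos_of_lt_minimalPeriod (f := ⇑g) (x := a) (Nat.succ_ne_zero i) hi ?_
      show (⇑g)^[i + 1] a = a
      rw [← Perm.coe_pow]; exact e
  have hLpos : 0 < L := hLodd.pos
  have hcyc : (h ^ (L + 2)) a = a := by
    have e := hpass (L - 1) (by omega)
    rw [show 3 + (L - 1) = L + 2 by omega, show L - 1 + 1 = L by omega, hLa] at e
    exact e
  have hM : Odd (orderOf g * (L + 2)) := hg.mul (hLodd.add_even even_two)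
  refine hM.of_dvd_nat (orderOf_dvd_of_pow_eq_one ?_)
  have hmult : ∀ k, (h ^ ((L + 2) * k)) a = a := by
    intro k
    rw [pow_mul, Perm.coe_pow]
    exact Function.iterate_fixed hcyc k
  -- elements outside the new cycle
  have horb : ∀ w, (∀ i, (h ^ i) a ≠ w) → ∀ k, (h ^ k) w = (g ^ k) w := by
    intro w hw k
    induction k with
    | zero => simp
    | succ k ih =>
      have hne' : ∀ i, (h ^ i) a ≠ (h ^ k) w := by
        intro i e
        obtain ⟨j, hj⟩ : ∃ j, (L + 2) * (k + 1) = j + k := ⟨(L + 2) * (k + 1) - k, by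
          have : k ≤ (L + 2) * (k + 1) := by nlinarith
          omega⟩
        refine hw (i + j) ((h ^ k).injective ?_)
        rw [← e, ← Perm.mul_apply, ← pow_add, show k + (i + j) = i + (L + 2) * (k + 1) by omega,
          pow_add, Perm.mul_apply, hmult]
      rw [pow_succ' h, pow_succ' g]
      show h ((h ^ k) w) = g ((g ^ k) w)
      rw [hgen _ ?_ ?_ ?_, ih]
      · exact fun e => hne' 0 (by simpa using e.symm)
      · exact fun e => hne' 1 (by simpa [h1] using e.symm)
      · exact fun e => hne' 2 (by simpa [pow_succ, Perm.mul_apply, h1, h2] using e.symm)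
  ext w
  rw [Perm.one_apply]
  by_cases hw : ∀ i, (h ^ i) a ≠ w
  · rw [horb w hw, pow_mul, pow_orderOf_eq_one, one_pow, Perm.one_apply]
  · push Not at hw
    obtain ⟨i, rfl⟩ := hw
    rw [← Perm.mul_apply, ← pow_add, add_comm, pow_add, Perm.mul_apply, mul_comm, hmult]

/-- Removing a pair interchanged by an involution. -/
theorem mul_swap_spec {x : Perm α} (hx : x * x = 1) {a b : α} (hab : x a = b) (hne : a ≠ b) :
    x * swap a b * (x * swap a b) = 1 ∧ (x * swap a b).support = x.support \ {a, b} ∧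
      x.support.card = (x * swap a b).support.card + 2 ∧
      (∀ w, w ≠ a → w ≠ b → (x * swap a b) w = x w) := by
  have hba : x b = a := by rw [← hab]; exact inv_apply hx a
  have happ : ∀ w, w ≠ a → w ≠ b → (x * swap a b) w = x w := fun w h1 h2 => by
    rw [Perm.mul_apply, swap_apply_of_ne_of_ne h1 h2]
  have ha : (x * swap a b) a = a := by rw [Perm.mul_apply, swap_apply_left, hba]
  have hb : (x * swap a b) b = b := by rw [Perm.mul_apply, swap_apply_right, hab]
  have hsupp : (x * swap a b).support = x.support \ {a, b} := by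
    ext w
    rw [Finset.mem_sdiff, Perm.mem_support, Perm.mem_support, Finset.mem_insert, Finset.mem_singleton]
    by_cases h1 : w = a
    · simp [h1, ha]
    by_cases h2 : w = b
    · simp [h2, hb]
    rw [happ w h1 h2]
    simp [h1, h2]
  refine ⟨?_, hsupp, ?_, happ⟩
  · ext w
    rw [Perm.one_apply, Perm.mul_apply]
    by_cases h1 : w = a
    · rw [h1, ha, ha]
    by_cases h2 : w = b
    · rw [h2, hb, hb]
    have h3 : x w ≠ a := fun e => h2 (by rw [← inv_apply hx w, e, hab])
    have h4 : x w ≠ b := fun e => h1 (x.injective (e.trans hab.symm))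
    rw [happ w h1 h2, happ _ h3 h4, inv_apply hx]
  · have hsub : ({a, b} : Finset α) ⊆ x.support := by
      intro w hw
      rw [Finset.mem_insert, Finset.mem_singleton] at hw
      rw [Perm.mem_support]
      rcases hw with rfl | rfl
      · rw [hab]; exact hne.symm
      · rw [hba]; exact hne
    rw [hsupp, Finset.card_sdiff_of_subset hsub, Finset.card_pair hne]
    have := Finset.card_le_card hsub
    rw [Finset.card_pair hne] at this
    omega

/-- Joining a solution on an explicit invariant piece with a solution on the rest. -/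
theorem sol_glue {k : ℕ} (e : Fin k ↪ α) {S : Finset α} {x y : Perm α}
    (hS : ∀ t, e t ∈ S) (hxS : x.support ⊆ S)
    (hyS : y.support ⊆ S) (x₀ y₀ z₀ : Perm (Fin k)) (hx₀ : ∀ t, x (e t) = e (x₀ t))
    (hy₀ : ∀ t, y (e t) = e (y₀ t)) (hz₂ : z₀ * z₀ = 1)
    (hc : z₀.support.card = x₀.support.card) {N : ℕ} (hN : Odd N) (hxz : (x₀ * z₀) ^ N = 1)
    (hyz : (y₀ * z₀) ^ N = 1)
    (hrest : Sol (S \ Finset.univ.map e) (x * (Perm.viaEmbedding x₀ e)⁻¹) (y * (Perm.viaEmbedding y₀ e)⁻¹)) :
    Sol S x y := by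
  classical
  obtain ⟨z', hz'2, hz'S, hz'c, hxz', hyz'⟩ := hrest
  set z₁ := Perm.viaEmbedding z₀ e with hz₁
  set x₁ := Perm.viaEmbedding x₀ e with hx₁
  set y₁ := Perm.viaEmbedding y₀ e with hy₁
  have hfix : ∀ t, z' (e t) = e t := fun t => by
    by_contra h
    have := hz'S (Perm.mem_support.2 h)
    simp at this
  have hout : ∀ (π : Perm (Fin k)) w, w ∉ Finset.univ.map e → Perm.viaEmbedding π e w = w := fun π w hw =>
    Perm.viaEmbedding_apply_of_notMem π e w (by simpa using hw)
  have hin : ∀ (π : Perm (Fin k)) t, Perm.viaEmbedding π e (e t) = e (π t) := fun π t =>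
    Perm.viaEmbedding_apply π e t
  have hrest' : ∀ (x : Perm α) (x₀ : Perm (Fin k)), (∀ t, x (e t) = e (x₀ t)) →
      Perm.Disjoint (x * (Perm.viaEmbedding x₀ e)⁻¹) (Perm.viaEmbedding x₀ e) := by
    intro x x₀ hx₀ w
    by_cases hw : w ∈ Finset.univ.map e
    · obtain ⟨t, -, rfl⟩ := Finset.mem_map.1 hw
      left
      obtain ⟨s, rfl⟩ := x₀.surjective t
      rw [Perm.mul_apply, ← hin x₀ s, Perm.coe_inv, Equiv.symm_apply_apply, hx₀, hin]
    · right; exact hout x₀ w hw
  have hz'dis : ∀ π : Perm (Fin k), Perm.Disjoint z' (Perm.viaEmbedding π e) := by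
    intro π w
    by_cases hw : w ∈ Finset.univ.map e
    · obtain ⟨t, -, rfl⟩ := Finset.mem_map.1 hw; exact Or.inl (hfix t)
    · exact Or.inr (hout π w hw)
  have hhom : ∀ a b : Perm (Fin k), Perm.viaEmbedding a e * Perm.viaEmbedding b e = Perm.viaEmbedding (a * b) e :=
    fun a b => (map_mul (Perm.viaEmbeddingHom e) a b).symm
  have hord : ∀ a : Perm (Fin k), a ^ N = 1 → Odd (orderOf (Perm.viaEmbedding a e)) := fun a ha =>
    hN.of_dvd_nat (orderOf_dvd_of_pow_eq_one (by
      rw [show Perm.viaEmbedding a e = Perm.viaEmbeddingHom e a from rfl, ← map_pow, ha, map_one]))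
  have hcardvia : ∀ π : Perm (Fin k), (Perm.viaEmbedding π e).support.card = π.support.card := by
    intro π
    rw [← Finset.card_map e]
    congr 1
    ext w
    rw [Perm.mem_support, Finset.mem_map]
    constructor
    · intro h
      by_cases hw : w ∈ Finset.univ.map e
      · obtain ⟨t, -, rfl⟩ := Finset.mem_map.1 hw
        exact ⟨t, Perm.mem_support.2 fun h' => h (by rw [hin, h']), rfl⟩
      · exact absurd (hout π w hw) h
    · rintro ⟨t, ht, rfl⟩ h
      exact Perm.mem_support.1 ht (e.injective ((hin π t).symm.trans h))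
  refine ⟨z' * z₁, ?_, ?_, ?_, ?_, ?_⟩
  · have hc' := (hz'dis z₀).commute
    calc z' * z₁ * (z' * z₁) = z' * (z₁ * z') * z₁ := by group
      _ = (z' * z') * (z₁ * z₁) := by rw [← (show Commute z' z₁ from hc').eq]; group
      _ = 1 := by
        rw [hz'2, one_mul, hz₁, hhom, hz₂]
        exact map_one (Perm.viaEmbeddingHom e)
  · intro w hw
    rcases Finset.mem_union.1 (Perm.support_mul_le _ _ hw) with h | h
    · exact (Finset.mem_sdiff.1 (hz'S h)).1
    · by_cases hw' : w ∈ Finset.univ.map e
      · obtain ⟨t, -, rfl⟩ := Finset.mem_map.1 hw'; exact hS t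
      · exact absurd (hout z₀ w hw') (Perm.mem_support.1 h)
  · rw [(hz'dis z₀).card_support_mul, hz'c, hcardvia, hc, ← hcardvia,
      ← (hrest' x x₀ hx₀).card_support_mul, inv_mul_cancel_right]
  · have hcm : Commute (x * x₁⁻¹ * z') (x₁ * z₁) :=
      (((hrest' x x₀ hx₀).commute).mul_left (hz'dis x₀).commute).mul_right
        ((show Commute (x * x₁⁻¹) z₁ by
          refine Perm.Disjoint.commute fun w => ?_
          by_cases hw : w ∈ Finset.univ.map e
          · exact Or.inl ((hrest' x x₀ hx₀ w).elim id fun h => by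
              obtain ⟨t, -, rfl⟩ := Finset.mem_map.1 hw
              obtain ⟨s, rfl⟩ := x₀.surjective t
              rw [Perm.mul_apply, ← hin x₀ s, Perm.coe_inv, Equiv.symm_apply_apply, hx₀, hin])
          · exact Or.inr (hout z₀ w hw)).mul_left (hz'dis z₀).commute)
    have e1 : x * (z' * z₁) = (x * x₁⁻¹ * z') * (x₁ * z₁) := by
      calc x * (z' * z₁) = x * x₁⁻¹ * (x₁ * z') * z₁ := by group
        _ = x * x₁⁻¹ * (z' * x₁) * z₁ := by rw [(hz'dis x₀).commute.eq]
        _ = _ := by group
    rw [e1]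
    refine (hxz'.mul (hord _ hxz)).of_dvd_nat ?_
    rw [hx₁, hz₁, hhom]
    exact (show Commute _ ((x₀ * z₀).viaEmbedding e) from (by rw [← hhom]; exact hcm)).orderOf_mul_dvd_mul_orderOf
  · have hcm : Commute (y * y₁⁻¹ * z') (y₁ * z₁) :=
      (((hrest' y y₀ hy₀).commute).mul_left (hz'dis y₀).commute).mul_right
        ((show Commute (y * y₁⁻¹) z₁ by
          refine Perm.Disjoint.commute fun w => ?_
          by_cases hw : w ∈ Finset.univ.map e
          · exact Or.inl ((hrest' y y₀ hy₀ w).elim id fun h => by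
              obtain ⟨t, -, rfl⟩ := Finset.mem_map.1 hw
              obtain ⟨s, rfl⟩ := y₀.surjective t
              rw [Perm.mul_apply, ← hin y₀ s, Perm.coe_inv, Equiv.symm_apply_apply, hy₀, hin])
          · exact Or.inr (hout z₀ w hw)).mul_left (hz'dis z₀).commute)
    have e1 : y * (z' * z₁) = (y * y₁⁻¹ * z') * (y₁ * z₁) := by
      calc y * (z' * z₁) = y * y₁⁻¹ * (y₁ * z') * z₁ := by group
        _ = y * y₁⁻¹ * (z' * y₁) * z₁ := by rw [(hz'dis y₀).commute.eq]
        _ = _ := by group
    rw [e1]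
    refine (hyz'.mul (hord _ hyz)).of_dvd_nat ?_
    rw [hy₁, hz₁, hhom]
    exact (show Commute _ ((y₀ * z₀).viaEmbedding e) from (by rw [← hhom]; exact hcm)).orderOf_mul_dvd_mul_orderOf

/-- What remains outside an explicit invariant piece. -/
theorem rest_spec {k : ℕ} (e : Fin k ↪ α) {S : Finset α} {x : Perm α} (hx : x * x = 1)
    (hxS : x.support ⊆ S) (x₀ : Perm (Fin k)) (hx₀ : ∀ t, x (e t) = e (x₀ t)) (hx₀2 : x₀ * x₀ = 1) :
    x * (Perm.viaEmbedding x₀ e)⁻¹ * (x * (Perm.viaEmbedding x₀ e)⁻¹) = 1 ∧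
      (x * (Perm.viaEmbedding x₀ e)⁻¹).support ⊆ S \ Finset.univ.map e ∧
      (x * (Perm.viaEmbedding x₀ e)⁻¹).support.card + x₀.support.card = x.support.card ∧
      (∀ w, w ∉ Finset.univ.map e → (x * (Perm.viaEmbedding x₀ e)⁻¹) w = x w) := by
  classical
  have hinv : (Perm.viaEmbedding x₀ e)⁻¹ = Perm.viaEmbedding x₀ e :=
    inv_eq_of_mul_eq_one_right ((map_mul (Perm.viaEmbeddingHom e) x₀ x₀).symm.trans (by rw [hx₀2, map_one]))
  rw [hinv]
  set u := x * Perm.viaEmbedding x₀ e with hu
  have hin : ∀ t, u (e t) = e t := fun t => by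
    rw [hu, Perm.mul_apply, Perm.viaEmbedding_apply, hx₀, inv_apply hx₀2]
  have hout : ∀ w, w ∉ Finset.univ.map e → u w = x w := fun w hw => by
    rw [hu, Perm.mul_apply, Perm.viaEmbedding_apply_of_notMem x₀ e w (by simpa using hw)]
  have hsupp : u.support = x.support \ Finset.univ.map e := by
    ext w
    rw [Finset.mem_sdiff, Perm.mem_support, Perm.mem_support]
    by_cases hw : w ∈ Finset.univ.map e
    · obtain ⟨t, -, rfl⟩ := Finset.mem_map.1 hw
      exact iff_of_false (fun h => h (hin t)) (fun h => h.2 hw)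
    · rw [hout w hw]; exact ⟨fun h => ⟨h, hw⟩, fun h => h.1⟩
  refine ⟨?_, ?_, ?_, hout⟩
  · ext w
    rw [Perm.one_apply, Perm.mul_apply]
    by_cases hw : w ∈ Finset.univ.map e
    · obtain ⟨t, -, rfl⟩ := Finset.mem_map.1 hw; rw [hin, hin]
    · have hxw : x w ∉ Finset.univ.map e := fun h => hw (by
        obtain ⟨t, -, ht⟩ := Finset.mem_map.1 h
        exact Finset.mem_map.2 ⟨x₀ t, Finset.mem_univ _, by rw [← hx₀, ht, inv_apply hx]⟩)
      rw [hout w hw, hout _ hxw, inv_apply hx]
  · rw [hsupp]
    exact Finset.sdiff_subset_sdiff hxS subset_rfl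
  · rw [hsupp, ← Finset.card_map e, ← Finset.card_sdiff_add_card_inter x.support (Finset.univ.map e)]
    congr 2
    ext w
    rw [Finset.mem_inter, Finset.mem_map, Finset.mem_map]
    constructor
    · rintro ⟨t, ht, rfl⟩
      refine ⟨Perm.mem_support.2 fun h => Perm.mem_support.1 ht (e.injective (by rw [← hx₀, h])), t, Finset.mem_univ _, rfl⟩
    · rintro ⟨hw, t, -, rfl⟩
      exact ⟨t, Perm.mem_support.2 fun h => Perm.mem_support.1 hw (by rw [hx₀, h]), rfl⟩


end CfsgLib.SectRank.OddProduct
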