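import Cfsg.Agent.Lib.SectRank.OddProductStep

/-!
Removing a common transposition.
-/

set_option autoImplicit false

open Equiv Equiv.Perm

namespace CfsgLib.SectRank.OddProduct

variable {α : Type*} [DecidableEq α] [Fintype α]

/-- A common transposition. -/
theorem sol_common {n : ℕ} {S : Finset α} (hSn : S.card = n) (ih : Rec α n) {x y : Perm α} (hx : x * x = 1) (hy : y * y = 1)
    (hxS : x.support ⊆ S) (hyS : y.support ⊆ S) (hcard : x.support.card = y.support.card)
    (hpath : ∀ i, x i ≠ i → y i ≠ i) (hMy : ∀ i, y i ≠ i → x i ≠ i)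
    (hcom : ∃ i, x i ≠ i ∧ x i = y i) : Sol S x y := by
  have piece := @sol_piece α _ _ n S hSn ih x y hx hy hxS hyS hcard
  have hinv : ∀ i, x (x i) = i := inv_apply hx
  have hinvy : ∀ i, y (y i) = i := inv_apply hy
  have inS : ∀ i, x i ≠ i → i ∈ S := fun i hi => hxS (Perm.mem_support.2 hi)
  have hxm : ∀ i, x i ≠ i → x (x i) ≠ x i := fun i hi e => hi (x.injective e)
  have hym : ∀ i, y i ≠ i → y (y i) ≠ y i := fun i hi e => hi (y.injective e)
  -- a common transposition
  obtain ⟨i, hi, hxy⟩ := hcom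
  obtain ⟨j, hj⟩ : ∃ j, x i = j := ⟨_, rfl⟩
  have hxj : x j = i := by rw [← hj, hinv]
  have hyi : y i = j := by rw [← hxy, hj]
  have hyj : y j = i := by rw [← hyi, hinvy]
  have hji : i ≠ j := fun e => hi (hj.trans e.symm)
  have hjS : j ∈ S := hj ▸ inS _ (hxm i hi)
  by_cases hD : S.card = 2 + 4 ∧ ∀ w ∈ S, w ≠ i → w ≠ j → x w ≠ w ∧ y w ≠ w ∧ x w ≠ y w
  · -- a Klein configuration with a common transposition
    obtain ⟨hS6, hK⟩ := hD
    have hc4 : (S \ {i, j}).card = 4 := by
      rw [Finset.card_sdiff_of_subset (by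
        intro w hw
        rw [Finset.mem_insert, Finset.mem_singleton] at hw
        rcases hw with rfl | rfl
        · exact inS _ hi
        · exact hjS), Finset.card_pair hji, hS6]
    obtain ⟨a, ha⟩ : (S \ {i, j}).Nonempty := Finset.card_pos.1 (by omega)
    simp only [Finset.mem_sdiff, Finset.mem_insert, Finset.mem_singleton, not_or] at ha
    have hinvset : ∀ {w}, w ∈ S → w ≠ i → w ≠ j →
        (x w ∈ S ∧ x w ≠ i ∧ x w ≠ j) ∧ (y w ∈ S ∧ y w ≠ i ∧ y w ≠ j) := by
      intro w hw h1 h2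
      obtain ⟨k1, k2, -⟩ := hK w hw h1 h2
      refine ⟨⟨inS _ (hxm w k1), fun e => h2 ?_, fun e => h1 ?_⟩, ⟨hyS (Perm.mem_support.2 (hym w k2)), fun e => h2 ?_, fun e => h1 ?_⟩⟩
      · rw [← hinv w, e, hj]
      · rw [← hinv w, e, hxj]
      · rw [← hinvy w, e, hyi]
      · rw [← hinvy w, e, hyj]
    obtain ⟨haS, hai, haj⟩ := ha
    obtain ⟨k1, k2, k3⟩ := hK a haS hai haj
    obtain ⟨⟨hb1, hb2, hb3⟩, ⟨hd1, hd2, hd3⟩⟩ := hinvset haS hai haj
    obtain ⟨l1, l2, l3⟩ := hK (x a) hb1 hb2 hb3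
    obtain ⟨-, ⟨hc1, hc2, hc3⟩⟩ := hinvset hb1 hb2 hb3
    have hac : a ≠ y (x a) := fun e => k3 (by rw [← hinvy (x a), ← e])
    have hdc : y a ≠ y (x a) := fun e => k1 (y.injective e).symm
    have hbd : x a ≠ y a := k3
    -- the four points
    have hfour : ∀ w ∈ S, w ≠ i → w ≠ j → w = a ∨ w = x a ∨ w = y (x a) ∨ w = y a := by
      intro w hw h1 h2
      by_contra! hh
      have hsub : ({w, a, x a, y (x a), y a} : Finset α) ⊆ S \ {i, j} := by
        intro v hv
        simp only [Finset.mem_insert, Finset.mem_singleton] at hv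
        simp only [Finset.mem_sdiff, Finset.mem_insert, Finset.mem_singleton, not_or]
        rcases hv with rfl | rfl | rfl | rfl | rfl
        exacts [⟨hw, h1, h2⟩, ⟨haS, hai, haj⟩, ⟨hb1, hb2, hb3⟩, ⟨hc1, hc2, hc3⟩, ⟨hd1, hd2, hd3⟩]
      have := Finset.card_le_card hsub
      rw [hc4, Finset.card_insert_of_notMem (by simp [hh.1, hh.2.1, hh.2.2.1, hh.2.2.2]),
        Finset.card_insert_of_notMem (by simp [Ne.symm k1, hac, Ne.symm k2]),
        Finset.card_insert_of_notMem (by simp [Ne.symm l2, hbd]), Finset.card_pair hdc.symm] at this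
      omega
    have hxc : x (y (x a)) = y a := by
      obtain ⟨m1, m2, m3⟩ := hK _ hc1 hc2 hc3
      obtain ⟨⟨n1, n2, n3⟩, -⟩ := hinvset hc1 hc2 hc3
      rcases hfour _ n1 n2 n3 with e | e | e | e
      · exact absurd (by rw [← hinv (y (x a)), e]) l2
      · exact absurd (x.injective e).symm hac
      · exact absurd e m1
      · exact e
    have hxd : x (y a) = y (x a) := by rw [← hxc, hinv]
    let e : Fin 6 ↪ α := ⟨![a, x a, y (x a), y a, i, j], injective_of_nodup (by
      simp [List.ofFn_succ, Ne.symm k1, hac, Ne.symm k2, Ne.symm l2, hbd, hdc.symm, hai, haj, hb2, hb3,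
        hc2, hc3, hd2, hd3, hji])⟩
    refine piece (by norm_num) e (swap 0 1 * swap 2 3 * swap 4 5) (swap 1 2 * swap 0 3 * swap 4 5)
      (swap 0 2 * swap 1 4 * swap 3 5) 15 ?_ ?_ ?_ (by decide) (by decide) (by decide) (by decide)
      (by decide) (by decide) (by decide +kernel) (by decide +kernel) ?_
    · intro t
      fin_cases t
      exacts [haS, hb1, hc1, hd1, inS i hi, hjS]
    · intro t
      fin_cases t
      exacts [rfl, hinv a, hxc, hxd, hj, hxj]
    · intro t
      fin_cases t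
      exacts [rfl, rfl, hinvy _, hinvy _, hyi, hyj]
    · rintro ⟨h, -⟩; omega
  · let e : Fin 2 ↪ α := ⟨![i, j], injective_of_nodup (by simp [List.ofFn_succ, hji])⟩
    refine piece (by norm_num) e (swap 0 1) (swap 0 1) (swap 0 1) 1 ?_ ?_ ?_ (by decide) (by decide)
      (by decide) rfl rfl odd_one (by decide) (by decide) ?_
    · intro t; fin_cases t
      exacts [inS i hi, hjS]
    · intro t; fin_cases t
      exacts [hj, hxj]
    · intro t; fin_cases t
      exacts [hyi, hyj]
    · rintro ⟨h, h'⟩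
      refine hD ⟨h, fun w hw h1 h2 => h' w (Finset.mem_sdiff.2 ⟨hw, fun hm => ?_⟩)⟩
      obtain ⟨t, -, ht⟩ := Finset.mem_map.1 hm
      fin_cases t
      exacts [h1 ht.symm, h2 ht.symm]

end CfsgLib.SectRank.OddProduct
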