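import Cfsg.Agent.Lib.SectRank.OddProductStep

/-!
Shortening a cycle.
-/

set_option autoImplicit false

open Equiv Equiv.Perm

namespace CfsgLib.SectRank.OddProduct

variable {α : Type*} [DecidableEq α] [Fintype α]

/-- A cycle to be shortened. -/
theorem sol_long {n : ℕ} {S : Finset α} (hSn : S.card = n) (ih : Rec α n) {x y : Perm α} (hx : x * x = 1) (hy : y * y = 1)
    (hxS : x.support ⊆ S) (hyS : y.support ⊆ S) (hcard : x.support.card = y.support.card)
    (hpath : ∀ i, x i ≠ i → y i ≠ i) (hMy : ∀ i, y i ≠ i → x i ≠ i)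
    (hcom : ∀ i, x i ≠ i → x i ≠ y i) (hlong : ∃ i, x i ≠ i ∧ x (y i) ≠ y (x i)) : Sol S x y := by
  have piece := @sol_piece α _ _ n S hSn ih x y hx hy hxS hyS hcard
  have hinv : ∀ i, x (x i) = i := inv_apply hx
  have hinvy : ∀ i, y (y i) = i := inv_apply hy
  have inS : ∀ i, x i ≠ i → i ∈ S := fun i hi => hxS (Perm.mem_support.2 hi)
  have hxm : ∀ i, x i ≠ i → x (x i) ≠ x i := fun i hi e => hi (x.injective e)
  have hym : ∀ i, y i ≠ i → y (y i) ≠ y i := fun i hi e => hi (y.injective e)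
  -- a cycle to be shortened
  obtain ⟨v₁, hv1, hne⟩ := hlong
  have hy1 := hpath v₁ hv1
  have hxy1 := hcom v₁ hv1
  set v₀ := x v₁ with hv0
  set v₂ := y v₁ with hv2
  set v₃ := x v₂ with hv3
  set v₄ := y v₃ with hv4
  set v₅ := x v₄ with hv5
  have m2 : x v₂ ≠ v₂ := hMy v₂ (hym v₁ hy1)
  have m3x : x v₃ ≠ v₃ := hxm v₂ m2
  have m3y := hpath v₃ m3x
  have m4 : x v₄ ≠ v₄ := hMy v₄ (hym v₃ m3y)
  have d01 : v₀ ≠ v₁ := hv1
  have d02 : v₀ ≠ v₂ := hxy1
  have d03 : v₀ ≠ v₃ := fun e => hy1 (x.injective e).symm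
  have d13 : v₁ ≠ v₃ := fun e => hxy1 (by rw [hv0, e, hv3, hinv])
  have d12 : v₁ ≠ v₂ := Ne.symm hy1
  have d23 : v₂ ≠ v₃ := Ne.symm m2
  have d04 : v₀ ≠ v₄ := fun e => hne (by
    show v₃ = y (x v₁)
    rw [← hv0, e, hv4, hinvy])
  have d14 : v₁ ≠ v₄ := fun e => d23 (y.injective (by rw [← hv4, ← e, hv2, hinvy]))
  have d24 : v₂ ≠ v₄ := fun e => d13 (y.injective (by rw [← hv4, ← e, hv2]))
  have d34 : v₃ ≠ v₄ := Ne.symm m3y
  have d15 : v₁ ≠ v₅ := fun e => d04 (by rw [hv0, e, hv5, hinv])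
  have d05 : v₀ ≠ v₅ := fun e => d14 (x.injective e)
  have d25 : v₂ ≠ v₅ := fun e => d34 (by rw [hv3, e, hv5, hinv])
  have d35 : v₃ ≠ v₅ := fun e => d24 (x.injective e)
  have d45 : v₄ ≠ v₅ := Ne.symm m4
  have s0 : v₀ ∈ S := inS _ (hxm v₁ hv1)
  have s1 : v₁ ∈ S := inS _ hv1
  have s2 : v₂ ∈ S := inS _ m2
  have s3 : v₃ ∈ S := inS _ m3x
  have s4 : v₄ ∈ S := inS _ m4
  have s5 : v₅ ∈ S := inS _ (hxm v₄ m4)
  have x3 : x v₃ = v₂ := hinv v₂
  have x0 : x v₀ = v₁ := hinv v₁
  have x5 : x v₅ = v₄ := hinv v₄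
  have y2 : y v₂ = v₁ := hinvy v₁
  have y4 : y v₄ = v₃ := hinvy v₃
  set x' := x * swap v₀ v₁ * swap v₂ v₃ * swap v₄ v₅ * swap v₀ v₅ with hx'
  set y' := y * swap v₁ v₂ * swap v₃ v₄ with hy'
  set S' := S \ {v₁, v₂, v₃, v₄} with hS'
  have X0 : x' v₀ = v₅ := by
    simp only [hx', Perm.mul_apply, swap_apply_left, swap_apply_right,
      swap_apply_of_ne_of_ne d24.symm d34.symm, swap_apply_of_ne_of_ne d04.symm d14.symm]
    rfl
  have X5 : x' v₅ = v₀ := by
    simp only [hx', Perm.mul_apply, swap_apply_left, swap_apply_right,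
      swap_apply_of_ne_of_ne d04 d05, swap_apply_of_ne_of_ne d02 d03]
    rfl
  have X1 : x' v₁ = v₁ := by
    simp only [hx', Perm.mul_apply, swap_apply_left, swap_apply_right,
      swap_apply_of_ne_of_ne d01.symm d15, swap_apply_of_ne_of_ne d14 d15, swap_apply_of_ne_of_ne d12 d13, x0]
  have X2 : x' v₂ = v₂ := by
    simp only [hx', Perm.mul_apply, swap_apply_left, swap_apply_right,
      swap_apply_of_ne_of_ne d02.symm d25, swap_apply_of_ne_of_ne d24 d25, swap_apply_of_ne_of_ne d03.symm d13.symm, x3]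
  have X3 : x' v₃ = v₃ := by
    simp only [hx', Perm.mul_apply, swap_apply_left, swap_apply_right,
      swap_apply_of_ne_of_ne d03.symm d35, swap_apply_of_ne_of_ne d34 d35, swap_apply_of_ne_of_ne d02.symm d12.symm]
    rfl
  have X4 : x' v₄ = v₄ := by
    simp only [hx', Perm.mul_apply, swap_apply_left, swap_apply_right,
      swap_apply_of_ne_of_ne d04.symm d45, swap_apply_of_ne_of_ne d25.symm d35.symm, swap_apply_of_ne_of_ne d05.symm d15.symm, x5]
  have Xw : ∀ w, w ≠ v₀ → w ≠ v₁ → w ≠ v₂ → w ≠ v₃ → w ≠ v₄ → w ≠ v₅ → x' w = x w := by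
    intro w a b c d f g
    simp [hx', Perm.mul_apply, swap_apply_def, a, b, c, d, f, g]
  have Y1 : y' v₁ = v₁ := by
    simp [hy', Perm.mul_apply, swap_apply_def, d12, d13, d14, y2]
  have Y2 : y' v₂ = v₂ := by
    simp [hy', Perm.mul_apply, swap_apply_def, d12.symm, d23, d24, ← hv2]
  have Y3 : y' v₃ = v₃ := by
    simp [hy', Perm.mul_apply, swap_apply_def, d34, d34.symm, d14.symm, d24.symm, y4]
  have Y4 : y' v₄ = v₄ := by
    simp [hy', Perm.mul_apply, swap_apply_def, d34.symm, d13.symm, d23.symm, ← hv4]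
  have Yw : ∀ w, w ≠ v₁ → w ≠ v₂ → w ≠ v₃ → w ≠ v₄ → y' w = y w := by
    intro w a b c d
    simp [hy', Perm.mul_apply, swap_apply_def, a, b, c, d]
  have hx'2 : x' * x' = 1 := by
    ext w
    rw [Perm.one_apply, Perm.mul_apply]
    by_cases a : w = v₀; · rw [a, X0, X5]
    by_cases g : w = v₅; · rw [g, X5, X0]
    by_cases b : w = v₁; · rw [b, X1, X1]
    by_cases c : w = v₂; · rw [c, X2, X2]
    by_cases d : w = v₃; · rw [d, X3, X3]
    by_cases f : w = v₄; · rw [f, X4, X4]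
    rw [Xw w a b c d f g, Xw _ ?_ ?_ ?_ ?_ ?_ ?_, hinv]
    · exact fun e => b (by rw [← hinv w, e, x0])
    · exact fun e => a (by rw [← hinv w, e])
    · exact fun e => d (by rw [← hinv w, e])
    · exact fun e => c (by rw [← hinv w, e, x3])
    · exact fun e => g (by rw [← hinv w, e])
    · exact fun e => f (by rw [← hinv w, e, x5])
  have hy'2 : y' * y' = 1 := by
    ext w
    rw [Perm.one_apply, Perm.mul_apply]
    by_cases b : w = v₁; · rw [b, Y1, Y1]
    by_cases c : w = v₂; · rw [c, Y2, Y2]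
    by_cases d : w = v₃; · rw [d, Y3, Y3]
    by_cases f : w = v₄; · rw [f, Y4, Y4]
    rw [Yw w b c d f, Yw _ ?_ ?_ ?_ ?_, hinvy]
    · exact fun e => c (by rw [← hinvy w, e])
    · exact fun e => b (by rw [← hinvy w, e, y2])
    · exact fun e => f (by rw [← hinvy w, e])
    · exact fun e => d (by rw [← hinvy w, e, y4])
  have hm4 : ({v₁, v₂, v₃, v₄} : Finset α).card = 4 := by
    rw [Finset.card_insert_of_notMem (by simp [d12, d13, d14]),
      Finset.card_insert_of_notMem (by simp [d23, d24]), Finset.card_pair d34]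
  have hsx : x'.support = x.support \ {v₁, v₂, v₃, v₄} := by
    ext w
    simp only [Finset.mem_sdiff, Perm.mem_support, Finset.mem_insert, Finset.mem_singleton]
    by_cases b : w = v₁; · simp [b, X1]
    by_cases c : w = v₂; · simp [c, X2]
    by_cases d : w = v₃; · simp [d, X3]
    by_cases f : w = v₄; · simp [f, X4]
    by_cases a : w = v₀
    · simp [a, X0, d05.symm, x0, d01.symm, d02, d03, d04, d01]
    by_cases g : w = v₅
    · simp [g, X5, d05, x5, d45, d15.symm, d25.symm, d35.symm, d45.symm]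
    simp [Xw w a b c d f g, b, c, d, f]
  have hsy : y'.support = y.support \ {v₁, v₂, v₃, v₄} := by
    ext w
    simp only [Finset.mem_sdiff, Perm.mem_support, Finset.mem_insert, Finset.mem_singleton]
    by_cases b : w = v₁; · simp [b, Y1]
    by_cases c : w = v₂; · simp [c, Y2]
    by_cases d : w = v₃; · simp [d, Y3]
    by_cases f : w = v₄; · simp [f, Y4]
    simp [Yw w b c d f, b, c, d, f]
  have hmx : ({v₁, v₂, v₃, v₄} : Finset α) ⊆ x.support := by
    intro w hw
    simp only [Finset.mem_insert, Finset.mem_singleton] at hw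
    rw [Perm.mem_support]
    rcases hw with rfl | rfl | rfl | rfl <;> assumption
  have hmy : ({v₁, v₂, v₃, v₄} : Finset α) ⊆ y.support := by
    intro w hw
    rw [Perm.mem_support]
    exact hpath w (Perm.mem_support.1 (hmx hw))
  have hcx : x'.support.card + 4 = x.support.card := by
    rw [hsx, ← hm4]; exact Finset.card_sdiff_add_card_eq_card hmx
  have hcy : y'.support.card + 4 = y.support.card := by
    rw [hsy, ← hm4]; exact Finset.card_sdiff_add_card_eq_card hmy
  by_cases hbad' : Bad S' x' y'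
  · -- a cycle of length eight
    obtain ⟨b1, b2, b3, b4⟩ := hbad'
    have hmS : ∀ {w}, w ∈ S' ↔ w ∈ S ∧ w ≠ v₁ ∧ w ≠ v₂ ∧ w ≠ v₃ ∧ w ≠ v₄ := fun {w} => by
      simp [hS']
    have h0' : v₀ ∈ S' := hmS.2 ⟨s0, d01, d02, d03, d04⟩
    have h5' : v₅ ∈ S' := hmS.2 ⟨s5, d15.symm, d25.symm, d35.symm, d45.symm⟩
    have y'inv := inv_apply hy'2
    have x'inv := inv_apply hx'2
    set v₆ := y' v₅ with hv6
    set v₇ := y' v₀ with hv7
    have h6' : v₆ ∈ S' := by
      rw [← b3, Perm.mem_support]; intro e; exact (Perm.mem_support.1 (b3 ▸ h5')) (y'.injective e)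
    have h7' : v₇ ∈ S' := by
      rw [← b3, Perm.mem_support]; intro e; exact (Perm.mem_support.1 (b3 ▸ h0')) (y'.injective e)
    have d67 : v₆ ≠ v₇ := fun e => d05 (y'.injective e).symm
    have d06 : v₀ ≠ v₆ := fun e => b4 v₅ h5' (by rw [X5]; exact e)
    have d57 : v₅ ≠ v₇ := fun e => b4 v₀ h0' (by rw [X0]; exact e)
    have d56 : v₅ ≠ v₆ := fun e => (Perm.mem_support.1 (b3 ▸ h5')) e.symm
    have d07 : v₀ ≠ v₇ := fun e => (Perm.mem_support.1 (b3 ▸ h0')) e.symm
    have hfour : ∀ w ∈ S', w = v₀ ∨ w = v₅ ∨ w = v₆ ∨ w = v₇ := by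
      intro w hw
      by_contra! hh
      have hsub : ({w, v₀, v₅, v₆, v₇} : Finset α) ⊆ S' := by
        intro v hv
        simp only [Finset.mem_insert, Finset.mem_singleton] at hv
        rcases hv with rfl | rfl | rfl | rfl | rfl <;> assumption
      have := Finset.card_le_card hsub
      rw [b1, Finset.card_insert_of_notMem (by simp [hh.1, hh.2.1, hh.2.2.1, hh.2.2.2]),
        Finset.card_insert_of_notMem (by simp [d05, d06, d07]),
        Finset.card_insert_of_notMem (by simp [d56, d57]), Finset.card_pair d67] at this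
      omega
    obtain ⟨k61, k62, k63, k64⟩ := (hmS.1 h6').2
    obtain ⟨k71, k72, k73, k74⟩ := (hmS.1 h7').2
    have hX6 : x' v₆ = v₇ := by
      have hm : x' v₆ ∈ S' := by
        rw [← b2, Perm.mem_support]; intro e; exact (Perm.mem_support.1 (b2 ▸ h6')) (x'.injective e)
      rcases hfour _ hm with e | e | e | e
      · exact absurd (by rw [← x'inv v₆, e, X0]) d56
      · exact absurd (by rw [← x'inv v₆, e, X5]) d06
      · exact absurd e (Perm.mem_support.1 (b2 ▸ h6'))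
      · exact e
    have hX7 : x' v₇ = v₆ := by rw [← hX6, x'inv]
    have ry : ∀ w, w ∈ S' → y' w = y w := fun w hw => by
      obtain ⟨-, a, b, c, d⟩ := hmS.1 hw; exact Yw w a b c d
    have rx6 : x v₆ = v₇ := by rw [← Xw v₆ d06.symm k61 k62 k63 k64 d56.symm]; exact hX6
    have rx7 : x v₇ = v₆ := by rw [← Xw v₇ d07.symm k71 k72 k73 k74 d57.symm]; exact hX7
    have ry5 : y v₅ = v₆ := by rw [← ry v₅ h5', ← hv6]
    have ry0 : y v₀ = v₇ := by rw [← ry v₀ h0', ← hv7]
    have ry6 : y v₆ = v₅ := by rw [← ry5, hinvy]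
    have ry7 : y v₇ = v₀ := by rw [← ry0, hinvy]
    let e : Fin 8 ↪ α := ⟨![v₀, v₁, v₂, v₃, v₄, v₅, v₆, v₇], injective_of_nodup (by
      simp [List.ofFn_succ, d01, d02, d03, d04, d05, d06, d07, d12, d13, d14, d15, d23, d24, d25, d34, d35,
        d45, d56, d57, d67, Ne.symm k61, Ne.symm k62, Ne.symm k63, Ne.symm k64, Ne.symm k71, Ne.symm k72,
        Ne.symm k73, Ne.symm k74])⟩
    refine piece (by norm_num) e (swap 0 1 * swap 2 3 * swap 4 5 * swap 6 7)
      (swap 1 2 * swap 3 4 * swap 5 6 * swap 0 7) (swap 0 1 * swap 2 4 * swap 3 7 * swap 5 6) 15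
      ?_ ?_ ?_ (by decide) (by decide) (by decide) (by decide) (by decide) (by decide)
      (by decide +kernel) (by decide +kernel) ?_
    · intro t
      fin_cases t
      exacts [s0, s1, s2, s3, s4, s5, (hmS.1 h6').1, (hmS.1 h7').1]
    · intro t
      fin_cases t
      exacts [x0, rfl, rfl, x3, rfl, x5, rx6, rx7]
    · intro t
      fin_cases t
      exacts [ry0, rfl, y2, rfl, y4, ry5, ry6, ry7]
    · rintro ⟨h, -⟩
      have h' : S'.card + 4 = S.card := by
        rw [hS', ← hm4]; exact Finset.card_sdiff_add_card_eq_card (hmx.trans hxS)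
      omega
  · have hsub' : ∀ {u : Perm α}, u.support ⊆ S → ∀ {T : Finset α}, T = u.support \ {v₁, v₂, v₃, v₄} → T ⊆ S' :=
      fun hu T hT => hT ▸ Finset.sdiff_subset_sdiff hu subset_rfl
    have hlt : S'.card < n := by
      rw [← hSn]
      refine Finset.card_lt_card ((Finset.ssubset_iff_of_subset Finset.sdiff_subset).2 ⟨v₁, s1, ?_⟩)
      simp [hS']
    obtain ⟨z', hz2, hzS, hzc, hxz, hyz⟩ :=
      ih _ hlt S' rfl x' y' hx'2 hy'2 (hsub' hxS hsx) (hsub' hyS hsy) (by omega) hbad'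
    have hf : ∀ w, w = v₁ ∨ w = v₂ ∨ w = v₃ ∨ w = v₄ → z' w = w := fun w hw => by
      by_contra h
      have := hzS (Perm.mem_support.2 h)
      simp only [hS', Finset.mem_sdiff, Finset.mem_insert, Finset.mem_singleton] at this
      exact this.2 hw
    have f1 := hf v₁ (Or.inl rfl)
    have f2 := hf v₂ (Or.inr (Or.inl rfl))
    have f3 := hf v₃ (Or.inr (Or.inr (Or.inl rfl)))
    have f4 := hf v₄ (Or.inr (Or.inr (Or.inr rfl)))
    set a := z' v₀ with ha
    set b := z' v₅ with hb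
    have hab : a ≠ b := fun e => d05 (z'.injective e)
    have hne' : ∀ {p q}, z' q = q → p ≠ q → z' p ≠ q := fun hq hpq e =>
      hpq (z'.injective (e.trans hq.symm))
    have a1 : a ≠ v₁ := hne' f1 d01
    have a2 : a ≠ v₂ := hne' f2 d02
    have a3 : a ≠ v₃ := hne' f3 d03
    have a4 : a ≠ v₄ := hne' f4 d04
    have b1 : b ≠ v₁ := hne' f1 d15.symm
    have b2 : b ≠ v₂ := hne' f2 d25.symm
    have b3 : b ≠ v₃ := hne' f3 d35.symm
    have b4 : b ≠ v₄ := hne' f4 d45.symm
    have hdis : Perm.Disjoint z' (swap v₁ v₂ * swap v₃ v₄) := fun w => by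
      by_cases h : w = v₁ ∨ w = v₂ ∨ w = v₃ ∨ w = v₄
      · exact Or.inl (hf w h)
      · push Not at h
        exact Or.inr (by simp [Perm.mul_apply, swap_apply_def, h.1, h.2.1, h.2.2.1, h.2.2.2])
    have hdis' : Perm.Disjoint (swap v₁ v₂) (swap v₃ v₄) := by
      intro w
      by_cases h : w = v₁ ∨ w = v₂
      · refine Or.inr (swap_apply_of_ne_of_ne ?_ ?_)
        · rcases h with rfl | rfl <;> assumption
        · rcases h with rfl | rfl <;> assumption
      · push Not at h; exact Or.inl (swap_apply_of_ne_of_ne h.1 h.2)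
    have hpp : (swap v₁ v₂ * swap v₃ v₄) * (swap v₁ v₂ * swap v₃ v₄) = (1 : Perm α) := by
      calc (swap v₁ v₂ * swap v₃ v₄) * (swap v₁ v₂ * swap v₃ v₄)
          = swap v₁ v₂ * (swap v₃ v₄ * swap v₁ v₂) * swap v₃ v₄ := by group
        _ = swap v₁ v₂ * swap v₁ v₂ * (swap v₃ v₄ * swap v₃ v₄) := by rw [← hdis'.commute.eq]; group
        _ = 1 := by rw [swap_mul_self, swap_mul_self, one_mul]
    have hcs : (swap v₁ v₂ * swap v₃ v₄ : Perm α).support.card = 4 := by
      rw [hdis'.card_support_mul, Perm.support_swap d12, Perm.support_swap d34,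
        Finset.card_pair d12, Finset.card_pair d34]
    refine ⟨z' * (swap v₁ v₂ * swap v₃ v₄), ?_, ?_, ?_, ?_, ?_⟩
    · calc z' * (swap v₁ v₂ * swap v₃ v₄) * (z' * (swap v₁ v₂ * swap v₃ v₄))
          = z' * ((swap v₁ v₂ * swap v₃ v₄) * z') * (swap v₁ v₂ * swap v₃ v₄) := by group
        _ = (z' * z') * ((swap v₁ v₂ * swap v₃ v₄) * (swap v₁ v₂ * swap v₃ v₄)) := by
          rw [← hdis.commute.eq]; group
        _ = 1 := by rw [hz2, hpp, one_mul]
    · intro w hw
      rcases Finset.mem_union.1 (Perm.support_mul_le _ _ hw) with h | h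
      · exact (Finset.mem_sdiff.1 (hzS h)).1
      · by_contra hwS
        refine Perm.mem_support.1 h ?_
        simp [Perm.mul_apply, swap_apply_def, show w ≠ v₁ from fun e => hwS (e ▸ s1),
          show w ≠ v₂ from fun e => hwS (e ▸ s2), show w ≠ v₃ from fun e => hwS (e ▸ s3),
          show w ≠ v₄ from fun e => hwS (e ▸ s4)]
    · rw [hdis.card_support_mul, hzc, hcs, hcx]
    · have hconj : ∀ p q, swap p q * z' = z' * swap (z' p) (z' q) := fun p q => by
        rw [mul_swap_eq_swap_mul, inv_apply hz2, inv_apply hz2]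
      have hC : swap a b * swap v₄ b * swap v₂ v₃ * swap a v₁ * (swap v₁ v₂ * swap v₃ v₄)
          = (swap v₁ a * swap v₁ v₃) * (swap v₄ b * swap v₄ v₂) :=
        three_cycles (by simp [hab, a1, a2, a3, a4, b1, b2, b3, b4, d12, d13, d14, d23, d24, d34])
      have e1 : x * (z' * (swap v₁ v₂ * swap v₃ v₄)) =
          (x' * z') * (swap v₁ a * swap v₁ v₃) * (swap v₄ b * swap v₄ v₂) := by
        have hxx : x = x' * (swap v₀ v₅ * swap v₄ v₅ * swap v₂ v₃ * swap v₀ v₁) := by
          rw [hx']; simp [mul_assoc]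
        rw [hxx, mul_assoc x', ← mul_assoc (swap v₀ v₅ * swap v₄ v₅ * swap v₂ v₃ * swap v₀ v₁) z',
          mul_assoc _ (swap v₀ v₁) z', hconj, ← mul_assoc _ z', mul_assoc _ (swap v₂ v₃) z', hconj,
          ← mul_assoc _ z', mul_assoc _ (swap v₄ v₅) z', hconj, ← mul_assoc _ z', hconj v₀ v₅,
          f1, f2, f3, f4, ← ha, ← hb, mul_assoc (x' * z'), ← hC]
        group
      rw [e1]
      refine odd_insert (odd_insert hxz ?_ ?_ a1 a3 d13) ?_ ?_ b4 b2 d24.symm
      · rw [Perm.mul_apply, f1, X1]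
      · rw [Perm.mul_apply, f3, X3]
      · simp [Perm.mul_apply, swap_apply_def, d14.symm, d34.symm, Ne.symm a4, f4, X4]
      · simp [Perm.mul_apply, swap_apply_def, d12.symm, d23, Ne.symm a2, f2, X2]
    · have e1 : y * (z' * (swap v₁ v₂ * swap v₃ v₄)) = y' * z' := by
        rw [hdis.commute.eq, ← mul_assoc, hy']; group
      rw [e1]; exact hyz

end CfsgLib.SectRank.OddProduct
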