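import Cfsg.Agent.Lib.SectRank.OddProductStep

/-!
Klein configurations.
-/

set_option autoImplicit false

open Equiv Equiv.Perm

namespace CfsgLib.SectRank.OddProduct

variable {α : Type*} [DecidableEq α] [Fintype α]

set_option maxHeartbeats 2000000 in
/-- Klein configurations. -/
theorem sol_klein {n : ℕ} {S : Finset α} (hSn : S.card = n) (ih : Rec α n) {x y : Perm α} (hx : x * x = 1) (hy : y * y = 1)
    (hxS : x.support ⊆ S) (hyS : y.support ⊆ S) (hcard : x.support.card = y.support.card)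
    (hbad : ¬ Bad S x y) (hpath : ∀ i, x i ≠ i → y i ≠ i) (hMy : ∀ i, y i ≠ i → x i ≠ i)
    (hcom : ∀ i, x i ≠ i → x i ≠ y i) (hlong : ∀ i, x i ≠ i → x (y i) = y (x i)) : Sol S x y := by
  classical
  have piece := @sol_piece α _ _ n S hSn ih x y hx hy hxS hyS hcard
  have hinv : ∀ i, x (x i) = i := inv_apply hx
  have hinvy : ∀ i, y (y i) = i := inv_apply hy
  have inS : ∀ i, x i ≠ i → i ∈ S := fun i hi => hxS (Perm.mem_support.2 hi)
  have hxm : ∀ i, x i ≠ i → x (x i) ≠ x i := fun i hi e => hi (x.injective e)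
  have hym : ∀ i, y i ≠ i → y (y i) ≠ y i := fun i hi e => hi (y.injective e)
  by_cases hK : ∃ i, x i ≠ i
  swap
  · push Not at hK
    have hx1 : x = 1 := Perm.ext hK
    have hy1 : y = 1 := Perm.ext fun i => by
      by_contra h; exact hMy i h (hK i)
    exact ⟨1, by simp, by simp, by simp [hx1], by simp [hx1], by simp [hy1]⟩
  -- Klein pieces
  obtain ⟨i, hi⟩ := hK
  have kl : ∀ {i}, x i ≠ i → Function.Injective ![i, x i, y (x i), y i] ∧
      x (y (x i)) = y i ∧ x (y i) = y (x i) ∧ (∀ t, ![i, x i, y (x i), y i] t ∈ S) := by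
    intro i hi
    have h2 := hpath i hi
    have h3 := hcom i hi
    have h4 := hxm i hi
    have h5 := hpath _ h4
    have hyi := hMy _ (hym i h2)
    have hxd : x (y i) = y (x i) := hlong i hi
    have hxc : x (y (x i)) = y i := by rw [← hxd, hinv]
    have hac : i ≠ y (x i) := fun e => h3 (by rw [← hinvy (x i), ← e])
    have hdc : y i ≠ y (x i) := fun e => hi (y.injective e).symm
    refine ⟨?_, hxc, hxd, ?_⟩
    · have hbc : x i ≠ y (x i) := Ne.symm h5
      have had : i ≠ y i := Ne.symm h2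
      exact injective_of_nodup (by simp [List.ofFn_succ, Ne.symm hi, hac, had, hbc, h3, Ne.symm hdc])
    · intro t
      fin_cases t
      · exact inS i hi
      · exact inS _ h4
      · exact inS _ (hMy _ (hym _ h5))
      · exact inS _ hyi
  obtain ⟨hinj, hxc, hxd, hiS⟩ := kl hi
  set e₁ : Fin 4 ↪ α := ⟨_, hinj⟩ with he₁
  set K₁ := Finset.univ.map e₁ with hK₁
  have hK₁c : K₁.card = 4 := by rw [hK₁, Finset.card_map, Finset.card_univ, Fintype.card_fin]
  have hK₁S : K₁ ⊆ S := fun w hw => by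
    obtain ⟨t, -, rfl⟩ := Finset.mem_map.1 hw; exact hiS t
  have hK₁m : ∀ {w}, w ∈ K₁ ↔ w = i ∨ w = x i ∨ w = y (x i) ∨ w = y i := by
    intro w
    rw [hK₁, Finset.mem_map]
    constructor
    · rintro ⟨t, -, rfl⟩; fin_cases t <;> simp [he₁]
    · rintro (rfl | rfl | rfl | rfl)
      exacts [⟨0, by simp [he₁]⟩, ⟨1, by simp [he₁]⟩, ⟨2, by simp [he₁]⟩, ⟨3, by simp [he₁]⟩]
  have hK₁mov : ∀ w ∈ K₁, x w ≠ w ∧ y w ≠ w := by
    intro w hw
    have : x w ≠ w := by
      rcases hK₁m.1 hw with rfl | rfl | rfl | rfl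
      exacts [hi, hxm i hi, hMy _ (hym _ (hpath _ (hxm i hi))), hMy _ (hym i (hpath i hi))]
    exact ⟨this, hpath w this⟩
  obtain ⟨w, hwS, hwK⟩ : ∃ w ∈ S, w ∉ K₁ := by
    by_contra! hcon
    have hSK : S = K₁ := le_antisymm hcon hK₁S
    refine hbad ⟨hSK ▸ hK₁c, le_antisymm hxS fun w hw => Perm.mem_support.2 (hK₁mov w (hSK ▸ hw)).1,
      le_antisymm hyS fun w hw => Perm.mem_support.2 (hK₁mov w (hSK ▸ hw)).2,
      fun w hw => hcom w (hK₁mov w (hSK ▸ hw)).1⟩
  -- a second piece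
  have second : ∀ j, x j ≠ j → j ∉ K₁ → ∃ e : Fin 8 ↪ α, (∀ t, e t ∈ S) ∧
      (∀ t, x (e t) = e ((swap 0 1 * swap 2 3 * swap 4 5 * swap 6 7 : Perm (Fin 8)) t)) ∧
      (∀ t, y (e t) = e ((swap 1 2 * swap 0 3 * swap 5 6 * swap 4 7 : Perm (Fin 8)) t)) ∧
      ∀ v ∈ Finset.univ.map e, x v ≠ v := by
    intro j hj hjK
    obtain ⟨hinj', hxc', hxd', hjS⟩ := kl hj
    have hclosed : ∀ {v}, v ∈ K₁ → x v ∈ K₁ ∧ y v ∈ K₁ := by
      intro v hv
      rcases hK₁m.1 hv with rfl | rfl | rfl | rfl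
      · exact ⟨hK₁m.2 (by simp), hK₁m.2 (by simp)⟩
      · exact ⟨hK₁m.2 (by simp [hinv]), hK₁m.2 (by simp)⟩
      · exact ⟨hK₁m.2 (by simp [hxc]), hK₁m.2 (by simp [hinvy])⟩
      · exact ⟨hK₁m.2 (by simp [hxd]), hK₁m.2 (by simp [hinvy])⟩
    have h1 : x j ∉ K₁ := fun h => hjK (hinv j ▸ (hclosed h).1)
    have h2 : y j ∉ K₁ := fun h => hjK (hinvy j ▸ (hclosed h).2)
    have h3 : y (x j) ∉ K₁ := fun h => h1 (hinvy (x j) ▸ (hclosed h).2)
    have hsep : ∀ p : Fin 4, ![j, x j, y (x j), y j] p ∉ K₁ := by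
      intro p; fin_cases p <;> assumption
    let f : Fin 8 → α := Fin.append ![i, x i, y (x i), y i] ![j, x j, y (x j), y j]
    have hf : Function.Injective f := by
      refine Fin.append_injective_iff.2 ⟨hinj, hinj', fun p q e => hsep q (hK₁m.2 ?_)⟩
      rw [← e]; fin_cases p <;> simp
    have hfe : f = ![i, x i, y (x i), y i, j, x j, y (x j), y j] := by
      funext t; fin_cases t <;> rfl
    refine ⟨⟨f, hf⟩, fun t => ?_, fun t => ?_, fun t => ?_, fun v hv => ?_⟩
    · show f t ∈ S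
      have h4 := inS _ (hxm i hi)
      rw [hfe]
      fin_cases t
      exacts [hiS 0, hiS 1, hiS 2, hiS 3, hjS 0, hjS 1, hjS 2, hjS 3]
    · show x (f t) = f _
      rw [hfe]
      fin_cases t
      exacts [rfl, hinv i, hxc, hxd, rfl, hinv j, hxc', hxd']
    · show y (f t) = f _
      rw [hfe]
      fin_cases t
      exacts [rfl, rfl, hinvy (x i), hinvy i, rfl, rfl, hinvy (x j), hinvy j]
    · obtain ⟨t, -, rfl⟩ := Finset.mem_map.1 hv
      show x (f t) ≠ f t
      rw [hfe]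
      have a3 := hMy _ (hym _ (hpath _ (hxm i hi)))
      have a4 := hMy _ (hym i (hpath i hi))
      have b3 := hMy _ (hym _ (hpath _ (hxm j hj)))
      have b4 := hMy _ (hym j (hpath j hj))
      fin_cases t
      exacts [hi, hxm i hi, a3, a4, hj, hxm j hj, b3, b4]
  by_cases hfree : ∃ w ∈ S, x w = w
  · obtain ⟨w, hwS, hw⟩ := hfree
    have hwy : y w = w := by by_contra h; exact hMy w h hw
    have hwK : w ∉ K₁ := fun h => (hK₁mov w h).1 hw
    have hne : ∀ p : Fin 4, ![i, x i, y (x i), y i] p ≠ w := fun p e => hwK (by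
      rw [← e, hK₁]; exact Finset.mem_map.2 ⟨p, Finset.mem_univ _, rfl⟩)
    let f : Fin 5 → α := ![i, x i, y (x i), y i, w]
    have hnd : (List.ofFn f).Nodup := by
      have hn := (List.nodup_ofFn.2 hinj)
      have n0 : i ≠ w := hne 0
      have n1 : x i ≠ w := hne 1
      have n2 : y (x i) ≠ w := hne 2
      have n3 : y i ≠ w := hne 3
      simp [List.ofFn_succ] at hn
      simp [f, List.ofFn_succ, hn, n0, n1, n2, n3]
    have hf : Function.Injective f := injective_of_nodup hnd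
    let e : Fin 5 ↪ α := ⟨f, hf⟩
    have he : ∀ t, e t ∈ S := fun t => by
      fin_cases t
      exacts [hiS 0, hiS 1, hiS 2, hiS 3, hwS]
    by_cases hrest : S.card = 5 + 4 ∧ ∀ v ∈ S \ Finset.univ.map e, x v ≠ v ∧ y v ≠ v ∧ x v ≠ y v
    · obtain ⟨hS9, hr⟩ := hrest
      obtain ⟨j, hj⟩ : (S \ Finset.univ.map e).Nonempty := by
        have := Finset.card_sdiff_add_card (s := S) (t := Finset.univ.map e)
        rw [← Finset.card_pos]
        have h5 : (Finset.univ.map e).card = 5 := by simp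
        have hsub : Finset.univ.map e ⊆ S := fun v hv => by
          obtain ⟨t, -, rfl⟩ := Finset.mem_map.1 hv; exact he t
        rw [Finset.card_sdiff_of_subset hsub, h5, hS9]
        norm_num
      have hj' := (hr j hj).1
      have hjK : j ∉ K₁ := fun h => (Finset.mem_sdiff.1 hj).2 (by
        rcases hK₁m.1 h with rfl | rfl | rfl | rfl
        exacts [Finset.mem_map.2 ⟨0, Finset.mem_univ _, rfl⟩, Finset.mem_map.2 ⟨1, Finset.mem_univ _, rfl⟩,
          Finset.mem_map.2 ⟨2, Finset.mem_univ _, rfl⟩, Finset.mem_map.2 ⟨3, Finset.mem_univ _, rfl⟩])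
      obtain ⟨e', h1, h2, h3, -⟩ := second j hj' hjK
      refine piece (by norm_num) e' _ _ (swap 0 1 * swap 2 4 * swap 3 7 * swap 5 6) 15 h1 h2 h3
        (by decide) (by decide) (by decide) (by decide) (by decide) (by decide) (by decide +kernel)
        (by decide +kernel) ?_
      rintro ⟨h, -⟩; omega
    · refine piece (by norm_num) e (swap 0 1 * swap 2 3) (swap 1 2 * swap 0 3) (swap 0 2 * swap 1 4) 15
        he ?_ ?_ (by decide) (by decide) (by decide) (by decide) (by decide) (by decide)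
        (by decide +kernel) (by decide +kernel) ?_
      · intro t
        fin_cases t
        exacts [rfl, hinv i, hxc, hxd, hw]
      · intro t
        fin_cases t
        exacts [rfl, rfl, hinvy (x i), hinvy i, hwy]
      · exact hrest
  push Not at hfree
  obtain ⟨e', h1, h2, h3, -⟩ := second w (hfree w hwS) hwK
  by_cases hrest : S.card = 8 + 4 ∧ ∀ v ∈ S \ Finset.univ.map e', x v ≠ v ∧ y v ≠ v ∧ x v ≠ y v
  swap
  · exact piece (by norm_num) e' _ _ (swap 0 1 * swap 2 4 * swap 3 7 * swap 5 6) 15 h1 h2 h3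
      (by decide) (by decide) (by decide) (by decide) (by decide) (by decide) (by decide +kernel)
      (by decide +kernel) hrest
  obtain ⟨hS12, hr⟩ := hrest
  obtain ⟨l, hl⟩ : (S \ Finset.univ.map e').Nonempty := by
    rw [← Finset.card_pos]
    have hsub : Finset.univ.map e' ⊆ S := fun v hv => by
      obtain ⟨t, -, rfl⟩ := Finset.mem_map.1 hv; exact h1 t
    rw [Finset.card_sdiff_of_subset hsub, hS12]
    simp
  obtain ⟨hlS, hlK⟩ := Finset.mem_sdiff.1 hl
  have hlx := (hr l hl).1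
  obtain ⟨hinj', hxc', hxd', hlS'⟩ := kl hlx
  have hclosed : ∀ {v}, v ∈ Finset.univ.map e' → x v ∈ Finset.univ.map e' ∧ y v ∈ Finset.univ.map e' := by
    intro v hv
    obtain ⟨t, -, rfl⟩ := Finset.mem_map.1 hv
    exact ⟨by rw [h2]; exact Finset.mem_map.2 ⟨_, Finset.mem_univ _, rfl⟩,
      by rw [h3]; exact Finset.mem_map.2 ⟨_, Finset.mem_univ _, rfl⟩⟩
  have l1 : x l ∉ Finset.univ.map e' := fun h => hlK (hinv l ▸ (hclosed h).1)
  have l2 : y l ∉ Finset.univ.map e' := fun h => hlK (hinvy l ▸ (hclosed h).2)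
  have l3 : y (x l) ∉ Finset.univ.map e' := fun h => l1 (hinvy (x l) ▸ (hclosed h).2)
  let f : Fin 12 → α := Fin.append (fun t => e' t) ![l, x l, y (x l), y l]
  have hf : Function.Injective f := by
    refine Fin.append_injective_iff.2 ⟨e'.injective, hinj', fun p q e => ?_⟩
    have hm : ![l, x l, y (x l), y l] q ∈ Finset.univ.map e' := e ▸ Finset.mem_map.2 ⟨p, Finset.mem_univ _, rfl⟩
    fin_cases q
    exacts [hlK hm, l1 hm, l3 hm, l2 hm]
  have hfe : f = ![e' 0, e' 1, e' 2, e' 3, e' 4, e' 5, e' 6, e' 7, l, x l, y (x l), y l] := by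
    funext t; fin_cases t <;> rfl
  refine piece (by norm_num) (⟨f, hf⟩ : Fin 12 ↪ α)
    (swap 0 1 * swap 2 3 * swap 4 5 * swap 6 7 * swap 8 9 * swap 10 11)
    (swap 1 2 * swap 0 3 * swap 5 6 * swap 4 7 * swap 9 10 * swap 8 11)
    (swap 0 1 * swap 2 4 * swap 3 6 * swap 5 8 * swap 7 11 * swap 9 10) 15 ?_ ?_ ?_
    (by decide +kernel) (by decide +kernel) (by decide +kernel) (by decide +kernel) (by decide +kernel)
    (by decide) (by decide +kernel) (by decide +kernel) ?_
  · intro t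
    show f t ∈ S
    rw [hfe]
    fin_cases t
    exacts [h1 0, h1 1, h1 2, h1 3, h1 4, h1 5, h1 6, h1 7, hlS' 0, hlS' 1, hlS' 2, hlS' 3]
  · intro t
    show x (f t) = f _
    rw [hfe]
    fin_cases t
    exacts [h2 0, h2 1, h2 2, h2 3, h2 4, h2 5, h2 6, h2 7, rfl, hinv l, hxc', hxd']
  · intro t
    show y (f t) = f _
    rw [hfe]
    fin_cases t
    exacts [h3 0, h3 1, h3 2, h3 3, h3 4, h3 5, h3 6, h3 7, rfl, rfl, hinvy (x l), hinvy l]
  · rintro ⟨h, -⟩; omega

end CfsgLib.SectRank.OddProduct
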