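import Cfsg.Agent.Lib.SectRank.OddProductPath
import Cfsg.Agent.Lib.SectRank.OddProductCommon
import Cfsg.Agent.Lib.SectRank.OddProductCycle
import Cfsg.Agent.Lib.SectRank.OddProductKlein

/-!
# A third involution with odd products

Given two involutions `x`, `y` of a finite set with supports of equal size, other than a Klein
configuration on four points, there is an involution `z` with support of the same size such that
`x * z` and `y * z` have odd order.
-/

set_option autoImplicit false

open Equiv Equiv.Perm

namespace CfsgLib.SectRank.OddProduct

variable {α : Type*} [DecidableEq α] [Fintype α]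

theorem sol_of_not_bad (S : Finset α) (x y : Perm α) (hx : x * x = 1) (hy : y * y = 1)
    (hxS : x.support ⊆ S) (hyS : y.support ⊆ S) (hcard : x.support.card = y.support.card)
    (hbad : ¬ Bad S x y) : Sol S x y := by
  have key : ∀ n, ∀ (S : Finset α), S.card = n → ∀ x y : Perm α, x * x = 1 → y * y = 1 →
      x.support ⊆ S → y.support ⊆ S → x.support.card = y.support.card → ¬ Bad S x y → Sol S x y := by
    intro n
    induction n using Nat.strong_induction_on with
    | _ n ih =>
    intro S hSn x y hx hy hxS hyS hcard hbad
    by_cases hpath : ∃ i, x i ≠ i ∧ y i = i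
    · exact sol_path hSn ih hx hy hxS hyS hcard hpath
    push Not at hpath
    have hMy : ∀ i, y i ≠ i → x i ≠ i := by
      intro i hi hxi
      have hsub : x.support ⊆ y.support.erase i := fun w hw => by
        rw [Perm.mem_support] at hw
        rw [Finset.mem_erase, Perm.mem_support]
        exact ⟨fun e => hw (e ▸ hxi), hpath w hw⟩
      have := Finset.card_le_card hsub
      rw [Finset.card_erase_of_mem (Perm.mem_support.2 hi)] at this
      have := Finset.card_pos.2 ⟨i, Perm.mem_support.2 hi⟩
      omega
    by_cases hcom : ∃ i, x i ≠ i ∧ x i = y i
    · exact sol_common hSn ih hx hy hxS hyS hcard hpath hMy hcom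
    push Not at hcom
    by_cases hlong : ∃ i, x i ≠ i ∧ x (y i) ≠ y (x i)
    · exact sol_long hSn ih hx hy hxS hyS hcard hpath hMy hcom hlong
    push Not at hlong
    exact sol_klein hSn ih hx hy hxS hyS hcard hbad hpath hMy hcom hlong
  exact key _ S rfl x y hx hy hxS hyS hcard hbad

end CfsgLib.SectRank.OddProduct
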