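import Mathlib
import Cfsg.Agent.Lib.SectRank.GraphDiam

/-!
Involutions of two-dimensional projective special linear groups with products of odd order.
-/

set_option autoImplicit false

open Matrix
open scoped MatrixGroups

namespace CfsgLib.SectRank.OddProductPSL

variable {F : Type*} [Field F] [Fintype F]

/-- The projection. -/
abbrev π : SpecialLinearGroup (Fin 2) F →* ProjectiveSpecialLinearGroup (Fin 2) F :=
  QuotientGroup.mk' _

/-- The product has odd order in the quotient. -/
def Good (A B : SpecialLinearGroup (Fin 2) F) : Prop := Odd (orderOf (π (A * B)))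

omit [Fintype F] in
theorem sq_eq (M : Matrix (Fin 2) (Fin 2) F) (h : M.det = 1) : M * M = M.trace • M - 1 := by
  rw [Matrix.det_fin_two] at h
  ext i j
  fin_cases i <;> fin_cases j <;>
    simp [Matrix.mul_apply, Fin.sum_univ_two, Matrix.trace_fin_two] <;>
    first | linear_combination -h | ring

omit [Fintype F] in
theorem mem_center_of_scalar {A : SpecialLinearGroup (Fin 2) F} {r : F} (h : A.1 = r • 1) :
    A ∈ Subgroup.center (SpecialLinearGroup (Fin 2) F) := by
  refine Matrix.SpecialLinearGroup.mem_center_iff.2 ⟨r, ?_, ?_⟩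
  · have := A.2
    rw [h, Matrix.det_smul, Matrix.det_one, mul_one] at this
    exact this
  · rw [h]; ext i j; fin_cases i <;> fin_cases j <;> simp

omit [Fintype F] in
theorem scalar_of_mem_center {A : SpecialLinearGroup (Fin 2) F}
    (h : A ∈ Subgroup.center (SpecialLinearGroup (Fin 2) F)) : ∃ r : F, r ^ 2 = 1 ∧ A.1 = r • 1 := by
  obtain ⟨r, hr, he⟩ := Matrix.SpecialLinearGroup.mem_center_iff.1 h
  refine ⟨r, by simpa using hr, ?_⟩
  rw [← he]; ext i j; fin_cases i <;> fin_cases j <;> simp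

omit [Fintype F] in
theorem odd_of_pow {M : SpecialLinearGroup (Fin 2) F} {N : ℕ} (hN : Odd N) {e : F}
    (h : M.1 ^ N = e • 1) : Odd (orderOf (π M)) := by
  refine hN.of_dvd_nat (orderOf_dvd_of_pow_eq_one ?_)
  rw [← map_pow]
  refine (QuotientGroup.eq_one_iff _).2 (mem_center_of_scalar (r := e) ?_)
  show (M ^ N).1 = _
  exact (Matrix.SpecialLinearGroup.coe_pow M N).trans h

theorem odd_unipotent (hc : ringChar F ≠ 2) {M : SpecialLinearGroup (Fin 2) F} {e : F}
    (he : e ^ 2 = 1) (ht : M.1.trace = 2 * e) : Odd (orderOf (π M)) := by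
  obtain ⟨p, hp⟩ := CharP.exists F
  haveI : Fact p.Prime := ⟨CharP.char_is_prime F p⟩
  have hodd : Odd p := (Fact.out : p.Prime).odd_of_ne_two fun h => hc (by rw [ringChar.eq F p, h])
  haveI : CharP (Matrix (Fin 2) (Fin 2) F) p := inferInstance
  refine odd_of_pow (e := e) hodd ?_
  set D := M.1 - e • (1 : Matrix (Fin 2) (Fin 2) F) with hD
  have hDD : D * D = 0 := by
    rw [hD, sub_mul, mul_sub, mul_sub, sq_eq M.1 M.2, ht]
    simp only [smul_mul_assoc, mul_smul_comm, one_mul, mul_one, smul_smul]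
    rw [show e * e = 1 by rw [← sq, he], two_mul, add_smul, one_smul]; abel
  have hDp : D ^ p = 0 := by
    obtain ⟨k, hk⟩ : ∃ k, p = 2 + k := Nat.exists_eq_add_of_le (Fact.out : p.Prime).two_le
    rw [hk, pow_add, sq, hDD, zero_mul]
  have hsum : M.1 = D + e • (1 : Matrix (Fin 2) (Fin 2) F) := by rw [hD, sub_add_cancel]
  obtain ⟨k, hk⟩ := hodd
  rw [hsum, add_pow_char_of_commute, hDp, zero_add, smul_pow, one_pow, hk, pow_succ, pow_mul, he, one_pow, one_mul]
  exact Commute.smul_right (Commute.one_right _) _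

theorem odd_split (hc : ringChar F ≠ 2) (hneg : ¬ IsSquare (-1 : F)) {M : SpecialLinearGroup (Fin 2) F} {r : F} (hr : r ≠ 0)
    (ht : M.1.trace ^ 2 - 4 = r ^ 2) : Odd (orderOf (π M)) := by
  have h2 : (2 : F) ≠ 0 := Ring.two_ne_zero hc
  have hN : Odd (Fintype.card F / 2) := by
    rw [Nat.odd_iff]
    have h1 := mt FiniteField.isSquare_neg_one_iff.2 hneg
    omega
  set τ := M.1.trace with hτ
  set l := (τ + r) / 2 with hl
  set m := (τ - r) / 2 with hm
  have hlm : l * m = 1 := by rw [hl, hm]; field_simp; linear_combination ht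
  have hadd : l + m = τ := by rw [hl, hm]; field_simp; ring
  have hsub : l - m = r := by rw [hl, hm]; field_simp; ring
  have hl0 : l ≠ 0 := left_ne_zero_of_mul_eq_one hlm
  have hm0 : m ≠ 0 := right_ne_zero_of_mul_eq_one hlm
  have key : ∀ l m : F, l * m = 1 → l + m = τ → ∀ k, M.1 ^ k * (M.1 - m • 1) = l ^ k • (M.1 - m • 1) := by
    intro l m hlm hadd k
    induction k with
    | zero => simp
    | succ k ih =>
      have hstep : M.1 * (M.1 - m • 1) = l • (M.1 - m • 1) := by
        rw [mul_sub, sq_eq M.1 M.2, ← hτ, ← hadd, smul_sub, smul_smul, hlm, mul_smul_comm, mul_one, add_smul, one_smul]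
        abel
      rw [pow_succ, mul_assoc, hstep, mul_smul_comm, ih, smul_smul, pow_succ']
  set N := Fintype.card F / 2 with hNd
  set e := l ^ N with he
  have hme : m ^ N = e := by
    have h1 : l ^ N * m ^ N = 1 := by rw [← mul_pow, hlm, one_pow]
    rcases FiniteField.pow_dichotomy hc hl0 with h | h <;> rw [← hNd] at h <;> rw [h] at h1
    · rw [he, h]; linear_combination h1
    · rw [he, h]; linear_combination -h1
  refine odd_of_pow (e := e) hN ?_
  have k1 := key l m hlm hadd N
  have k2 := key m l (by rw [mul_comm, hlm]) (by rw [add_comm, hadd]) N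
  rw [← he] at k1
  rw [hme] at k2
  have h3 : M.1 ^ N * ((M.1 - m • 1) - (M.1 - l • 1)) = e • ((M.1 - m • 1) - (M.1 - l • 1)) := by
    rw [mul_sub, k1, k2, ← smul_sub]
  rw [sub_sub_sub_cancel_left, ← sub_smul, hsub, mul_smul_comm, mul_one, smul_comm] at h3
  exact smul_right_injective _ hr h3

theorem good_char_two [CharP F 2] {M : SpecialLinearGroup (Fin 2) F} (ht : M.1.trace ≠ 0) :
    Odd (orderOf (π M)) := by
  refine Odd.of_dvd_nat ?_ (orderOf_map_dvd π M)
  rw [← Nat.not_even_iff_odd, even_iff_two_dvd]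
  intro h2
  have hpos := orderOf_pos M
  set K := M ^ (orderOf M / 2) with hK
  have hK2 : K * K = 1 := by
    rw [hK, ← pow_add, ← two_mul, Nat.mul_div_cancel' h2, pow_orderOf_eq_one]
  have hcom : K * M = M * K := by rw [hK, ← pow_succ, ← pow_succ']
  have h00 := congrArg (fun X : SpecialLinearGroup (Fin 2) F => X.1 0 0) hK2
  have h01 := congrArg (fun X : SpecialLinearGroup (Fin 2) F => X.1 0 1) hK2
  have c01 := congrArg (fun X : SpecialLinearGroup (Fin 2) F => X.1 0 1) hcom
  have c10 := congrArg (fun X : SpecialLinearGroup (Fin 2) F => X.1 1 0) hcom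
  have h11 := congrArg (fun X : SpecialLinearGroup (Fin 2) F => X.1 1 1) hK2
  simp [Matrix.mul_apply, Fin.sum_univ_two] at h00 h01 h11 c01 c10
  have hdet := K.2
  rw [Matrix.det_fin_two] at hdet
  rw [Matrix.trace_fin_two] at ht
  have two : (2 : F) = 0 := CharTwo.two_eq_zero
  have htr : K.1 0 0 + K.1 1 1 = 0 := by
    by_contra hne
    have : (K.1 0 0 + K.1 1 1) ^ 2 = 0 := by
      linear_combination h00 + h11 + 2 * hdet + 2 * two
    exact hne (pow_eq_zero_iff (two_ne_zero) |>.1 this)
  have hk : K.1 1 1 = K.1 0 0 := by linear_combination htr - K.1 0 0 * two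
  have hb : K.1 0 1 = 0 := by
    have : K.1 0 1 * (M.1 0 0 + M.1 1 1) = 0 := by
      linear_combination c01 + M.1 0 1 * hk + K.1 0 1 * M.1 0 0 * two
    simpa [ht] using this
  have hc : K.1 1 0 = 0 := by
    have : K.1 1 0 * (M.1 0 0 + M.1 1 1) = 0 := by
      linear_combination c10 - M.1 1 0 * hk + K.1 1 0 * M.1 1 1 * two
    simpa [ht] using this
  have ha : K.1 0 0 = 1 := by
    have : (K.1 0 0 - 1) ^ 2 = 0 := by
      linear_combination hdet - K.1 0 0 * hk + K.1 1 0 * hb + (1 - K.1 0 0) * two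
    exact sub_eq_zero.1 (pow_eq_zero_iff (two_ne_zero) |>.1 this)
  have hK1 : K = 1 := by
    ext i j
    fin_cases i <;> fin_cases j <;> simp [ha, hb, hc, hk]
  have := orderOf_dvd_of_pow_eq_one (hK ▸ hK1)
  have := Nat.le_of_dvd (Nat.div_pos (Nat.le_of_dvd hpos h2) two_pos) this
  omega

end CfsgLib.SectRank.OddProductPSL
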