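import Cfsg.Agent.Lib.SectRank.OddProductPSL

/-!
Common neighbours for involutions in two-dimensional projective special linear groups.
-/

set_option autoImplicit false

open Matrix
open scoped MatrixGroups

namespace CfsgLib.SectRank.OddProductPSL

variable {F : Type*} [Field F] [Fintype F]

omit [Fintype F] in
theorem trace_mul_two (A B : Matrix (Fin 2) (Fin 2) F) :
    (A * B).trace = A 0 0 * B 0 0 + A 0 1 * B 1 0 + A 1 0 * B 0 1 + A 1 1 * B 1 1 := by
  simp [Matrix.mul_apply, Matrix.trace_fin_two, Fin.sum_univ_two]; ring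

/-- The standard involution. -/
def J : SL(2, F) := ⟨!![0, -1; 1, 0], by simp [Matrix.det_fin_two]⟩

omit [Fintype F] in
theorem mem_center_entries {A : SL(2, F)}
    (h : A ∈ Subgroup.center (Matrix.SpecialLinearGroup (Fin 2) F)) :
    A.1 0 1 = 0 ∧ A.1 1 0 = 0 ∧ A.1 0 0 = A.1 1 1 := by
  obtain ⟨r, -, he⟩ := scalar_of_mem_center h
  rw [he]; simp

omit [Fintype F] in
theorem trace_eq_zero {A : SL(2, F)} (h : orderOf (π A) = 2) :
    A.1.trace = 0 ∧ A ∉ Subgroup.center (Matrix.SpecialLinearGroup (Fin 2) F) := by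
  have hA : A ∉ Subgroup.center (Matrix.SpecialLinearGroup (Fin 2) F) := fun hA => by
    rw [show π A = 1 from (QuotientGroup.eq_one_iff A).2 hA, orderOf_one] at h; omega
  refine ⟨?_, hA⟩
  by_contra ht
  have h2 : A * A ∈ Subgroup.center (Matrix.SpecialLinearGroup (Fin 2) F) := by
    refine (QuotientGroup.eq_one_iff _).1 ?_
    show π (A * A) = 1
    have e := pow_orderOf_eq_one (π A)
    rw [h] at e
    rw [map_mul, ← sq, e]
  obtain ⟨r, -, he⟩ := scalar_of_mem_center h2
  have he' : A.1 * A.1 = r • 1 := he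
  rw [sq_eq A.1 A.2] at he'
  refine hA (mem_center_of_scalar (r := (r + 1) / A.1.trace) ?_)
  rw [sub_eq_iff_eq_add] at he'
  calc A.1 = (A.1.trace)⁻¹ • (A.1.trace • A.1) := by rw [smul_smul, inv_mul_cancel₀ ht, one_smul]
    _ = _ := by rw [he', smul_add, smul_smul, ← add_smul]; congr 1; ring

omit [Fintype F] in
theorem orderOf_eq_two {A : SL(2, F)} (ht : A.1.trace = 0)
    (hA : A ∉ Subgroup.center (Matrix.SpecialLinearGroup (Fin 2) F)) : orderOf (π A) = 2 := by
  refine orderOf_eq_prime ?_ fun h => hA ((QuotientGroup.eq_one_iff A).1 h)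
  rw [← map_pow]
  refine (QuotientGroup.eq_one_iff _).2 (mem_center_of_scalar (r := -1) ?_)
  rw [sq]
  show A.1 * A.1 = _
  rw [sq_eq A.1 A.2, ht]; simp

omit [Fintype F] in
theorem not_mem_center (hc : (2 : F) ≠ 0) {A : SL(2, F)} (ht : A.1.trace = 0) :
    A ∉ Subgroup.center (Matrix.SpecialLinearGroup (Fin 2) F) := by
  intro h
  obtain ⟨h1, h2, h3⟩ := mem_center_entries h
  have hd := A.2
  rw [Matrix.det_fin_two, h1, ← h3] at hd
  rw [Matrix.trace_fin_two, ← h3, ← two_mul] at ht
  simp [(mul_eq_zero.1 ht).resolve_left hc] at hd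

theorem sum_two_squares (c : F) : ∃ u v : F, u ^ 2 + v ^ 2 = c := by
  by_cases h : ringChar F = 2
  · obtain ⟨u, hu⟩ := FiniteField.isSquare_of_char_two h c
    exact ⟨u, 0, by rw [hu]; ring⟩
  · obtain ⟨a, b, hab⟩ := FiniteField.exists_root_sum_quadratic (f := (Polynomial.X ^ 2 : Polynomial F))
      (g := Polynomial.X ^ 2 - Polynomial.C c) (Polynomial.degree_X_pow 2)
      (Polynomial.degree_X_pow_sub_C (by decide) _) (FiniteField.odd_card_of_char_ne_two h)
    refine ⟨a, b, ?_⟩
    simp only [Polynomial.eval_pow, Polynomial.eval_X, Polynomial.eval_sub, Polynomial.eval_C] at hab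
    linear_combination hab

/-- Every involution lifts to a conjugate of the standard element. -/
theorem exists_conj {A : SL(2, F)} (h : orderOf (π A) = 2) : ∃ g : SL(2, F), A = g * J * g⁻¹ := by
  obtain ⟨ht, hA⟩ := trace_eq_zero h
  have hd := A.2
  rw [Matrix.det_fin_two] at hd
  rw [Matrix.trace_fin_two] at ht
  have h11 : A.1 1 1 = -A.1 0 0 := by linear_combination ht
  rw [h11] at hd
  obtain ⟨x, y, hxy⟩ : ∃ x y : F, A.1 1 0 * x ^ 2 - 2 * A.1 0 0 * x * y - A.1 0 1 * y ^ 2 = 1 := by
    by_cases hc : A.1 1 0 = 0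
    · by_cases hb : A.1 0 1 = 0
      · have h2 : (2 : F) ≠ 0 := by
          intro h2
          refine hA (mem_center_of_scalar (r := A.1 0 0) ?_)
          ext i j
          fin_cases i <;> fin_cases j <;> simp [hb, hc, h11]
          linear_combination -A.1 0 0 * h2
        have ha : A.1 0 0 ≠ 0 := fun e => by simp [hb, hc, e] at hd
        exact ⟨1, -1 / (2 * A.1 0 0), by rw [hb, hc]; field_simp; ring⟩
      · obtain ⟨u, v, huv⟩ := sum_two_squares (-A.1 0 1)
        refine ⟨v, (u - A.1 0 0 * v) / A.1 0 1, ?_⟩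
        field_simp
        linear_combination -huv - v ^ 2 * hd
    · obtain ⟨u, v, huv⟩ := sum_two_squares (A.1 1 0)
      refine ⟨(u + A.1 0 0 * v) / A.1 1 0, v, ?_⟩
      field_simp
      linear_combination huv + v ^ 2 * hd
  let g : SL(2, F) := ⟨!![x, A.1 0 0 * x + A.1 0 1 * y; y, A.1 1 0 * x - A.1 0 0 * y],
    by rw [Matrix.det_fin_two_of]; linear_combination hxy⟩
  refine ⟨g, eq_mul_inv_of_mul_eq ?_⟩
  apply Subtype.ext
  show A.1 * g.1 = g.1 * (J : SL(2, F)).1
  ext i j
  fin_cases i <;> fin_cases j <;> simp [g, J, Matrix.mul_apply, Fin.sum_univ_two, h11]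
  · linear_combination -x * hd
  · ring
  · linear_combination -y * hd

/-- Coordinates for traceless matrices. -/
def coord (p r α β γ : F) : Matrix (Fin 2) (Fin 2) F :=
  !![β * p - γ * r, -α + β * r + γ * p; α + β * r + γ * p, -(β * p - γ * r)]

variable {p r : F}

omit [Fintype F] in
theorem det_coord (hpr : p ^ 2 + r ^ 2 = -1) (α β γ : F) :
    (coord p r α β γ).det = α ^ 2 + β ^ 2 + γ ^ 2 := by
  rw [coord, Matrix.det_fin_two_of]
  linear_combination -(β ^ 2 + γ ^ 2) * hpr

omit [Fintype F] in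
theorem trace_coord (α β γ : F) : (coord p r α β γ).trace = 0 := by
  rw [coord, Matrix.trace_fin_two_of]; ring

omit [Fintype F] in
theorem trace_coord_mul (hpr : p ^ 2 + r ^ 2 = -1) (α β γ α' β' γ' : F) :
    (coord p r α β γ * coord p r α' β' γ').trace = -2 * (α * α' + β * β' + γ * γ') := by
  simp [coord, Matrix.mul_apply, Matrix.trace_fin_two, Fin.sum_univ_two]
  linear_combination 2 * (β * β' + γ * γ') * hpr

omit [Fintype F] in
theorem J_eq_coord : (J : SL(2, F)).1 = coord p r 1 0 0 := by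
  simp [J, coord]

omit [Fintype F] in
theorem exists_coord (h2 : (2 : F) ≠ 0) (hpr : p ^ 2 + r ^ 2 = -1) {B : SL(2, F)}
    (ht : B.1.trace = 0) : ∃ α β γ : F, B.1 = coord p r α β γ ∧ α ^ 2 + β ^ 2 + γ ^ 2 = 1 := by
  rw [Matrix.trace_fin_two] at ht
  have h11 : B.1 1 1 = -B.1 0 0 := by linear_combination ht
  set u := (B.1 0 1 + B.1 1 0) / 2 with hu
  set α := (B.1 1 0 - B.1 0 1) / 2 with hα
  refine ⟨α, -(p * B.1 0 0 + r * u), r * B.1 0 0 - p * u, ?_, ?_⟩
  · ext i j
    fin_cases i <;> fin_cases j <;> simp [coord, h11]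
    · linear_combination B.1 0 0 * hpr
    · have e : B.1 0 1 = -α + u := by rw [hα, hu]; field_simp; ring
      linear_combination e + u * hpr
    · have e : B.1 1 0 = α + u := by rw [hα, hu]; field_simp; ring
      linear_combination e + u * hpr
    · linear_combination -B.1 0 0 * hpr
  · have hd := B.2
    rw [Matrix.det_fin_two, h11] at hd
    rw [hα, hu]
    field_simp
    linear_combination 4 * hd + (4 * B.1 0 0 ^ 2 + (B.1 0 1 + B.1 1 0) ^ 2) * hpr

theorem isSquare_neg_of_not (hneg : ¬ IsSquare (-1 : F)) (hc : ringChar F ≠ 2) {x : F}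
    (hx : ¬ IsSquare x) : IsSquare (-x) := by
  have hx0 : x ≠ 0 := fun e => hx (e ▸ IsSquare.zero)
  have e1 := (FiniteField.pow_dichotomy hc hx0).resolve_left fun e => hx ((FiniteField.isSquare_iff hc hx0).2 e)
  have e2 := (FiniteField.pow_dichotomy hc (neg_ne_zero.2 (one_ne_zero (α := F)))).resolve_left
    fun e => hneg ((FiniteField.isSquare_iff hc (neg_ne_zero.2 one_ne_zero)).2 e)
  refine (FiniteField.isSquare_iff hc (neg_ne_zero.2 hx0)).2 ?_
  rw [neg_eq_neg_one_mul x, mul_pow, e1, e2]; ring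

theorem exists_circle (hF : 4 ≤ Fintype.card F) (hneg : ¬ IsSquare (-1 : F)) (h2 : (2 : F) ≠ 0) (K : F) :
    ∃ a b : F, a ^ 2 + b ^ 2 = -1 ∧ a ^ 2 ≠ K := by
  obtain ⟨a, b, hab⟩ := sum_two_squares (-1 : F)
  by_cases ha : a ^ 2 = K
  swap
  · exact ⟨a, b, hab, ha⟩
  by_cases hb : b ^ 2 = K
  swap
  · exact ⟨b, a, by linear_combination hab, hb⟩
  classical
  obtain ⟨t, -, ht⟩ : ∃ t ∈ (Finset.univ : Finset F), t ∉ ({0, 1, -1} : Finset F) := by
    refine Finset.exists_mem_notMem_of_card_lt_card ?_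
    have := Finset.card_le_three (a := (0 : F)) (b := 1) (c := -1)
    rw [Finset.card_univ]; omega
  simp only [Finset.mem_insert, Finset.mem_singleton, not_or] at ht
  obtain ⟨t0, t1, t2⟩ := ht
  have hd : 1 + t ^ 2 ≠ 0 := fun e => hneg ⟨t, by linear_combination -e⟩
  have ha0 : a ≠ 0 := fun e => hneg ⟨b, by linear_combination (-hab) + a * e⟩
  refine ⟨(a * (1 - t ^ 2) - 2 * b * t) / (1 + t ^ 2), (b * (1 - t ^ 2) + 2 * a * t) / (1 + t ^ 2), ?_, ?_⟩
  · field_simp
    linear_combination (1 + t ^ 2) ^ 2 * hab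
  · intro e
    rw [← ha, div_pow, div_eq_iff (pow_ne_zero _ hd)] at e
    have hz : t ≠ 0 ∧ t - 1 ≠ 0 ∧ t + 1 ≠ 0 :=
      ⟨t0, sub_ne_zero.2 t1, fun e => t2 (by linear_combination e)⟩
    have key : ∀ s : F, (1 - t ^ 2 - 2 * s * t) ^ 2 = (1 + t ^ 2) ^ 2 → s ^ 2 = 1 → False := by
      intro s h hs
      have : (2 : F) * 2 * t * ((t + s) * (1 - s * t)) = 0 := by
        linear_combination -h + (-4 * t ^ 2 * 0) * hs
      simp only [mul_eq_zero, h2, hz.1, false_or] at this
      rcases this with e | e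
      · have ht2 : (t - 1) * (t + 1) = 0 := by linear_combination hs + (t - s) * e
        rcases mul_eq_zero.1 ht2 with e | e
        exacts [hz.2.1 e, hz.2.2 e]
      · have ht2 : (t - 1) * (t + 1) = 0 := by linear_combination -t ^ 2 * hs + (-1 - s * t) * e
        rcases mul_eq_zero.1 ht2 with e | e
        exacts [hz.2.1 e, hz.2.2 e]
    refine key (b / a) ?_ ?_
    · field_simp
      linear_combination e
    · field_simp
      linear_combination hb - ha

/-- A third element. -/
theorem exists_common (hF : 4 ≤ Fintype.card F) (B : SL(2, F)) (hB : orderOf (π B) = 2)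
    (hna : ¬ Good J B) : ∃ C : SL(2, F), orderOf (π C) = 2 ∧ Good J C ∧ Good B C := by
  obtain ⟨htB, hBc⟩ := trace_eq_zero hB
  by_cases hc : ringChar F = 2
  · haveI : CharP F 2 := ringChar.of_eq hc
    have two : (2 : F) = 0 := CharTwo.two_eq_zero
    have hd := B.2
    rw [Matrix.det_fin_two] at hd
    rw [Matrix.trace_fin_two] at htB
    let C : SL(2, F) := ⟨!![1, 1; 0, 1], by simp [Matrix.det_fin_two]⟩
    refine ⟨C, ?_, good_char_two ?_, good_char_two ?_⟩
    · refine orderOf_eq_two (by simp [C, Matrix.trace_fin_two]; linear_combination two) fun h => ?_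
      simpa [C] using (mem_center_entries h).1
    · show (J.1 * C.1).trace ≠ 0
      simp [J, C, Matrix.mul_apply, Matrix.trace_fin_two, Fin.sum_univ_two]
    · show (B.1 * C.1).trace ≠ 0
      rw [trace_mul_two]
      simp [C]
      intro h
      have h10 : B.1 1 0 = 0 := by linear_combination h - htB
      have h0 : (J.1 * B.1).trace = 0 := by
        by_contra h0
        exact hna (good_char_two h0)
      rw [trace_mul_two] at h0
      simp [J] at h0
      have h01 : B.1 0 1 = 0 := by linear_combination h0 + h10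
      refine hBc (mem_center_of_scalar (r := B.1 0 0) ?_)
      ext i j
      fin_cases i <;> fin_cases j <;> simp [h01, h10]
      linear_combination htB - B.1 0 0 * two
  · have h2 : (2 : F) ≠ 0 := Ring.two_ne_zero hc
    obtain ⟨p, r, hpr⟩ := sum_two_squares (-1 : F)
    obtain ⟨α, β, γ, hBe, hsum⟩ := exists_coord h2 hpr htB
    have trJ : ∀ x y z : F, ((J : SL(2, F)).1 * coord p r x y z).trace = -2 * x := fun x y z => by
      rw [J_eq_coord (p := p) (r := r), trace_coord_mul hpr]; ring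
    have trB : ∀ x y z : F, (B.1 * coord p r x y z).trace = -2 * (α * x + β * y + γ * z) := fun x y z => by
      rw [hBe, trace_coord_mul hpr]
    have mkC : ∀ x y z : F, x ^ 2 + y ^ 2 + z ^ 2 = 1 → ∃ C : SL(2, F), C.1 = coord p r x y z ∧ orderOf (π C) = 2 := by
      intro x y z h
      refine ⟨⟨coord p r x y z, by rw [det_coord hpr, h]⟩, rfl, orderOf_eq_two (trace_coord x y z) ?_⟩
      exact not_mem_center h2 (trace_coord x y z)
    by_cases hneg : IsSquare (-1 : F)
    · obtain ⟨i, hi⟩ := hneg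
      obtain ⟨j, t, hj, ht⟩ : ∃ j t : F, j * j = -1 ∧ (α + t * (β + γ * j) = 1 ∨ α ^ 2 = 1 ∧ t = 0) := by
        by_cases e1 : β + γ * i = 0
        · by_cases e2 : β + γ * (-i) = 0
          · refine ⟨i, 0, hi.symm, Or.inr ⟨?_, rfl⟩⟩
            linear_combination hsum - (β - γ * i) * e1 + γ ^ 2 * hi
          · exact ⟨-i, (1 - α) / (β + γ * (-i)), by linear_combination -hi, Or.inl (by rw [div_mul_cancel₀ _ e2]; ring)⟩
        · exact ⟨i, (1 - α) / (β + γ * i), hi.symm, Or.inl (by rw [div_mul_cancel₀ _ e1]; ring)⟩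
      obtain ⟨C, hC, hC2⟩ := mkC 1 t (t * j) (by linear_combination t ^ 2 * hj)
      refine ⟨C, hC2, odd_unipotent hc (e := -1) (by ring) ?_, ?_⟩
      · show (J.1 * C.1).trace = _
        rw [hC, trJ]; ring
      · rcases ht with ht | ⟨ha, ht⟩
        · refine odd_unipotent hc (e := -1) (by ring) ?_
          show (B.1 * C.1).trace = _
          rw [hC, trB]; linear_combination -2 * ht
        · refine odd_unipotent hc (e := -α) (by linear_combination ha) ?_
          show (B.1 * C.1).trace = _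
          rw [hC, trB, ht]; ring
    have hs1 : α ^ 2 ≠ 1 := fun e => hna (odd_unipotent hc (e := -α) (by linear_combination e) (by
      show (J.1 * B.1).trace = _
      rw [hBe, trJ]; ring))
    have hns : ¬ IsSquare (α ^ 2 - 1) := by
      rintro ⟨w, hw⟩
      refine hna (odd_split hc hneg (r := 2 * w) (mul_ne_zero h2 ?_) ?_)
      · rintro rfl; exact hs1 (by linear_combination hw)
      · show (J.1 * B.1).trace ^ 2 - 4 = _
        rw [hBe, trJ]; linear_combination 4 * hw
    obtain ⟨l, hl⟩ := isSquare_neg_of_not hneg hc hns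
    have hl' : l ^ 2 = β ^ 2 + γ ^ 2 := by linear_combination -hl - hsum
    have hl0 : l ≠ 0 := fun e => hs1 (by rw [e] at hl; linear_combination -hl)
    have hs : 1 - α ≠ 0 := fun e => hs1 (by linear_combination (-1 - α) * e)
    obtain ⟨a, b, hab, hK⟩ := exists_circle hF hneg h2 ((1 + α) / (1 - α))
    have ha : a ≠ 0 := fun e => hneg ⟨b, by linear_combination -hab + a * e⟩
    have hD : a ^ 2 * (1 - α) - (1 + α) ≠ 0 := fun e => hK (by
      rw [eq_div_iff hs]; linear_combination e)
    by_cases hN : IsSquare ((1 - α) * (a ^ 2 * (1 - α) - (1 + α)))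
    · obtain ⟨σ, hσ⟩ := hN
      have hσ0 : σ ≠ 0 := by rintro rfl; simp [hs, hD] at hσ
      obtain ⟨C, hC, hC2⟩ := mkC (a * (1 - α) / σ) ((-a * β - b * γ) / σ) ((-a * γ + b * β) / σ) (by
        field_simp
        linear_combination hσ + (β ^ 2 + γ ^ 2) * hab - hsum)
      have hr : 2 * l / σ ≠ 0 := div_ne_zero (mul_ne_zero h2 hl0) hσ0
      refine ⟨C, hC2, odd_split hc hneg hr ?_, odd_split hc hneg hr ?_⟩
      · show (J.1 * C.1).trace ^ 2 - 4 = _
        rw [hC, trJ]; field_simp
        linear_combination 4 * hσ - 4 * hl' - 4 * hsum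
      · show (B.1 * C.1).trace ^ 2 - 4 = _
        rw [hC, trB]
        have e : α * (a * (1 - α) / σ) + β * ((-a * β - b * γ) / σ) + γ * ((-a * γ + b * β) / σ)
            = -(a * (1 - α) / σ) := by
          field_simp
          linear_combination -a * hsum
        rw [e]; field_simp
        linear_combination 4 * hσ - 4 * hl' - 4 * hsum
    · obtain ⟨σ₀, hσ₀⟩ := isSquare_neg_of_not hneg hc hN
      set σ := σ₀ * l / (1 - α) with hσd
      have hσ : (1 + α) ^ 2 - l ^ 2 * a ^ 2 = σ * σ := by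
        rw [hσd]; field_simp
        linear_combination l ^ 2 * hσ₀ + (1 - α ^ 2) * (-hl' - hsum)
      have hσ₀0 : σ₀ ≠ 0 := by rintro rfl; simp [hs, hD] at hσ₀
      have hσ0 : σ ≠ 0 := div_ne_zero (mul_ne_zero hσ₀0 hl0) hs
      clear_value σ
      obtain ⟨C, hC, hC2⟩ := mkC ((1 + α) / σ) ((β + b * γ) / σ) ((γ - b * β) / σ) (by
        field_simp
        linear_combination hσ + (β ^ 2 + γ ^ 2) * hab + a ^ 2 * hl')
      have hr : 2 * (l * a) / σ ≠ 0 := div_ne_zero (mul_ne_zero h2 (mul_ne_zero hl0 ha)) hσ0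
      refine ⟨C, hC2, odd_split hc hneg hr ?_, odd_split hc hneg hr ?_⟩
      · show (J.1 * C.1).trace ^ 2 - 4 = _
        rw [hC, trJ]; field_simp
        linear_combination 4 * hσ
      · show (B.1 * C.1).trace ^ 2 - 4 = _
        rw [hC, trB]
        have e : α * ((1 + α) / σ) + β * ((β + b * γ) / σ) + γ * ((γ - b * β) / σ) = (1 + α) / σ := by
          field_simp
          linear_combination hsum
        rw [e]; field_simp
        linear_combination 4 * hσ

end CfsgLib.SectRank.OddProductPSL
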