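import Cfsg.Agent.Lib.SectRank.OddProductStep

/-!
Removing two loose ends.
-/

set_option autoImplicit false

open Equiv Equiv.Perm

namespace CfsgLib.SectRank.OddProduct

variable {α : Type*} [DecidableEq α] [Fintype α]

/-- Two loose ends. -/
theorem sol_path {n : ℕ} {S : Finset α} (hSn : S.card = n) (ih : Rec α n) {x y : Perm α} (hx : x * x = 1) (hy : y * y = 1)
    (hxS : x.support ⊆ S) (hyS : y.support ⊆ S) (hcard : x.support.card = y.support.card)
    (hpath : ∃ i, x i ≠ i ∧ y i = i) : Sol S x y := by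
  -- two loose ends
  obtain ⟨u₁, hu1, hu1'⟩ := hpath
  obtain ⟨q₀, hq0, hq0'⟩ : ∃ q, x q = q ∧ y q ≠ q := by
    by_contra! hcon
    have hsub : y.support ⊆ x.support.erase u₁ := fun w hw => by
      rw [Perm.mem_support] at hw
      rw [Finset.mem_erase, Perm.mem_support]
      exact ⟨fun e => hw (e ▸ hu1'), fun e => hw (hcon w e)⟩
    have := Finset.card_le_card hsub
    rw [Finset.card_erase_of_mem (Perm.mem_support.2 hu1)] at this
    have := Finset.card_pos.2 ⟨u₁, Perm.mem_support.2 hu1⟩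
    omega
  set u₂ := x u₁ with hu2
  set q₁ := y q₀ with hq1
  have huq : u₁ ≠ q₀ := fun e => hu1 (by rw [hu2, e]; exact hq0)
  have h2q : u₂ ≠ q₀ := fun e => huq (by
    have := inv_apply hx u₁
    rw [← hu2, e, hq0] at this
    exact this.symm)
  have h1u : q₁ ≠ u₁ := fun e => huq (by
    have := inv_apply hy q₀
    rw [← hq1, e, hu1'] at this
    exact this)
  obtain ⟨a1, a2, a3, a4⟩ := mul_swap_spec hx (rfl : x u₁ = u₂) (Ne.symm hu1)
  obtain ⟨b1, b2, b3, b4⟩ := mul_swap_spec hy (rfl : y q₀ = q₁) (Ne.symm hq0')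
  set S' := S \ {u₁, q₀} with hS'
  have hu1S : u₁ ∈ S := hxS (Perm.mem_support.2 hu1)
  have hq0S : q₀ ∈ S := hyS (Perm.mem_support.2 hq0')
  have hS'c : S'.card < n := by
    rw [← hSn]
    refine Finset.card_lt_card ((Finset.ssubset_iff_of_subset Finset.sdiff_subset).2 ⟨u₁, hu1S, ?_⟩)
    simp [hS']
  have c1 : (x * swap u₁ u₂).support ⊆ S' := by
    intro w hw
    rw [a2, Finset.mem_sdiff, Perm.mem_support, Finset.mem_insert, Finset.mem_singleton] at hw
    rw [hS', Finset.mem_sdiff, Finset.mem_insert, Finset.mem_singleton]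
    exact ⟨hxS (Perm.mem_support.2 hw.1), fun h => h.elim (fun e => hw.2 (Or.inl e)) (fun e => hw.1 (e ▸ hq0))⟩
  have c2 : (y * swap q₀ q₁).support ⊆ S' := by
    intro w hw
    rw [b2, Finset.mem_sdiff, Perm.mem_support, Finset.mem_insert, Finset.mem_singleton] at hw
    rw [hS', Finset.mem_sdiff, Finset.mem_insert, Finset.mem_singleton]
    exact ⟨hyS (Perm.mem_support.2 hw.1), fun h => h.elim (fun e => hw.1 (e ▸ hu1')) (fun e => hw.2 (Or.inl e))⟩
  have hu2S : u₂ ∈ S' := by
    rw [hS', Finset.mem_sdiff, Finset.mem_insert, Finset.mem_singleton]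
    refine ⟨hxS (Perm.mem_support.2 fun e => hu1 ?_), fun h => h.elim (fun e => hu1 e) h2q⟩
    exact x.injective e
  obtain ⟨z', hz2, hzS, hzc, hxz, hyz⟩ := ih _ hS'c S' rfl _ _ a1 b1 c1 c2 (by omega) (by
    rintro ⟨-, h, -, -⟩
    rw [← h, a2] at hu2S
    simp at hu2S
    exact hu2S.2.2 hu2)
  have hfix : ∀ w, w = u₁ ∨ w = q₀ → z' w = w := fun w hw => by
    by_contra h
    have := hzS (Perm.mem_support.2 h)
    rw [hS', Finset.mem_sdiff, Finset.mem_insert, Finset.mem_singleton] at this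
    exact this.2 hw
  have hf1 := hfix u₁ (Or.inl rfl)
  have hf2 := hfix q₀ (Or.inr rfl)
  have hdis : Perm.Disjoint z' (swap u₁ q₀) := fun w => by
    by_cases h : w = u₁ ∨ w = q₀
    · exact Or.inl (hfix w h)
    · push Not at h; exact Or.inr (swap_apply_of_ne_of_ne h.1 h.2)
  refine ⟨z' * swap u₁ q₀, ?_, ?_, ?_, ?_, ?_⟩
  · calc z' * swap u₁ q₀ * (z' * swap u₁ q₀) = z' * (swap u₁ q₀ * z') * swap u₁ q₀ := by group
      _ = z' * z' * (swap u₁ q₀ * swap u₁ q₀) := by rw [← hdis.commute.eq]; group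
      _ = 1 := by rw [hz2, swap_mul_self, one_mul]
  · intro w hw
    rcases Finset.mem_union.1 (Perm.support_mul_le _ _ hw) with h | h
    · exact (Finset.mem_sdiff.1 (hzS h)).1
    · rw [Perm.support_swap huq, Finset.mem_insert, Finset.mem_singleton] at h
      rcases h with rfl | rfl <;> assumption
  · rw [hdis.card_support_mul, hzc, Perm.support_swap huq, Finset.card_pair huq]
    omega
  · have e1 : x * (z' * swap u₁ q₀) = (x * swap u₁ u₂ * z') * (swap u₁ (z' u₂) * swap u₁ q₀) := by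
      have : z' * swap u₁ (z' u₂) = swap u₁ u₂ * z' := by
        rw [mul_swap_eq_swap_mul, hf1, inv_apply hz2]
      calc x * (z' * swap u₁ q₀) = x * (swap u₁ u₂ * swap u₁ u₂) * z' * swap u₁ q₀ := by
            rw [swap_mul_self]; group
        _ = x * swap u₁ u₂ * (swap u₁ u₂ * z') * swap u₁ q₀ := by group
        _ = _ := by rw [← this]; group
    rw [e1]
    refine odd_insert hxz ?_ ?_ ?_ ?_ huq
    · rw [Perm.mul_apply, hf1, Perm.mul_apply, swap_apply_left, hu2, inv_apply hx]
    · rw [Perm.mul_apply, hf2, a4 q₀ huq.symm h2q.symm, hq0]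
    · intro e
      exact hu1 (z'.injective (e.trans hf1.symm))
    · intro e
      exact h2q (z'.injective (e.trans hf2.symm))
  · have e1 : y * (z' * swap u₁ q₀) = (y * swap q₀ q₁ * z') * (swap q₀ (z' q₁) * swap q₀ u₁) := by
      have : z' * swap q₀ (z' q₁) = swap q₀ q₁ * z' := by
        rw [mul_swap_eq_swap_mul, hf2, inv_apply hz2]
      calc y * (z' * swap u₁ q₀) = y * (swap q₀ q₁ * swap q₀ q₁) * z' * swap u₁ q₀ := by
            rw [swap_mul_self]; group
        _ = y * swap q₀ q₁ * (swap q₀ q₁ * z') * swap q₀ u₁ := by rw [swap_comm u₁ q₀]; group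
        _ = _ := by rw [← this]; group
    rw [e1]
    refine odd_insert hyz ?_ ?_ ?_ ?_ huq.symm
    · rw [Perm.mul_apply, hf2, Perm.mul_apply, swap_apply_left, hq1, inv_apply hy]
    · rw [Perm.mul_apply, hf1, b4 u₁ huq h1u.symm, hu1']
    · intro e
      exact hq0' (z'.injective (e.trans hf2.symm))
    · intro e
      exact h1u (z'.injective (e.trans hf1.symm))

end CfsgLib.SectRank.OddProduct
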