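import Cfsg.Agent.Lib.SectRank.OddProductBasic

/-!
Induction step helpers for the third involution.
-/

set_option autoImplicit false

open Equiv Equiv.Perm

namespace CfsgLib.SectRank.OddProduct

variable {α : Type*} [DecidableEq α] [Fintype α]

theorem injective_of_nodup {k : ℕ} {f : Fin k → α} (h : (List.ofFn f).Nodup) : Function.Injective f :=
  List.nodup_ofFn.1 h

theorem viaEmbedding_swap {k : ℕ} (e : Fin k ↪ α) (p q : Fin k) :
    Perm.viaEmbedding (swap p q) e = swap (e p) (e q) := by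
  classical
  ext w
  by_cases hw : w ∈ Set.range e
  · obtain ⟨t, rfl⟩ := hw
    rw [Perm.viaEmbedding_apply]
    exact e.injective.map_swap p q t
  · rw [Perm.viaEmbedding_apply_of_notMem _ e w hw, swap_apply_of_ne_of_ne]
    · exact fun h => hw ⟨p, h.symm⟩
    · exact fun h => hw ⟨q, h.symm⟩

/-- Two three-cycles as a product of transpositions. -/
theorem three_cycles {a b v₁ v₂ v₃ v₄ : α} (h : [a, b, v₁, v₂, v₃, v₄].Nodup) :
    swap a b * swap v₄ b * swap v₂ v₃ * swap a v₁ * (swap v₁ v₂ * swap v₃ v₄) =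
      (swap v₁ a * swap v₁ v₃) * (swap v₄ b * swap v₄ v₂) := by
  let e : Fin 6 ↪ α := ⟨![a, b, v₁, v₂, v₃, v₄], injective_of_nodup (by simpa [List.ofFn_succ] using h)⟩
  have hh : ∀ p q : Fin 6, swap (e p) (e q) = Perm.viaEmbeddingHom e (swap p q) := fun p q =>
    (viaEmbedding_swap e p q).symm
  show swap (e 0) (e 1) * swap (e 5) (e 1) * swap (e 3) (e 4) * swap (e 0) (e 2) *
      (swap (e 2) (e 3) * swap (e 4) (e 5)) =
    (swap (e 2) (e 0) * swap (e 2) (e 4)) * (swap (e 5) (e 1) * swap (e 5) (e 3))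
  simp only [hh, ← map_mul]
  exact congrArg _ (by decide)

variable (α) in
/-- The statement below `n`. -/
def Rec (n : ℕ) : Prop :=
  ∀ m < n, ∀ (S : Finset α), S.card = m → ∀ x y : Perm α, x * x = 1 → y * y = 1 →
    x.support ⊆ S → y.support ⊆ S → x.support.card = y.support.card → ¬ Bad S x y → Sol S x y

theorem sol_piece {n : ℕ} {S : Finset α} (hSn : S.card = n) (ih : Rec α n) {x y : Perm α} (hx : x * x = 1) (hy : y * y = 1)
    (hxS : x.support ⊆ S) (hyS : y.support ⊆ S) (hcard : x.support.card = y.support.card) :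
    ∀ {k : ℕ}, 0 < k → ∀ (e : Fin k ↪ α) (x₀ y₀ z₀ : Perm (Fin k)) (N : ℕ),
      (∀ t, e t ∈ S) → (∀ t, x (e t) = e (x₀ t)) → (∀ t, y (e t) = e (y₀ t)) →
      x₀ * x₀ = 1 → y₀ * y₀ = 1 → z₀ * z₀ = 1 → z₀.support.card = x₀.support.card →
      y₀.support.card = x₀.support.card → Odd N → (x₀ * z₀) ^ N = 1 → (y₀ * z₀) ^ N = 1 →
      ¬ (S.card = k + 4 ∧ (∀ w ∈ S \ Finset.univ.map e, x w ≠ w ∧ y w ≠ w ∧ x w ≠ y w)) → Sol S x y := by
  intro k hk e x₀ y₀ z₀ N hS h1 h2 hx₀ hy₀ hz₀ hc hc' hN hxz hyz hb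
  refine sol_glue e hS hxS hyS x₀ y₀ z₀ h1 h2 hz₀ hc hN hxz hyz ?_
  obtain ⟨a1, a2, a3, a4⟩ := rest_spec e hx hxS x₀ h1 hx₀
  obtain ⟨b1, b2, b3, b4⟩ := rest_spec e hy hyS y₀ h2 hy₀
  have hsub : Finset.univ.map e ⊆ S := fun w hw => by
    obtain ⟨t, -, rfl⟩ := Finset.mem_map.1 hw; exact hS t
  have hSc : (S \ Finset.univ.map e).card + k = S.card := by
    have := Finset.card_sdiff_add_card_eq_card hsub
    rwa [Finset.card_map, Finset.card_univ, Fintype.card_fin] at this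
  refine ih _ (by omega) _ rfl _ _ a1 b1 a2 b2 (by omega) ?_
  rintro ⟨c1, c2, c3, c4⟩
  refine hb ⟨by omega, fun w hw => ?_⟩
  have hwe := (Finset.mem_sdiff.1 hw).2
  refine ⟨?_, ?_, by rw [← a4 w hwe, ← b4 w hwe]; exact c4 w hw⟩
  · rw [← a4 w hwe]; exact Perm.mem_support.1 (c2 ▸ hw)
  · rw [← b4 w hwe]; exact Perm.mem_support.1 (c3 ▸ hw)

end CfsgLib.SectRank.OddProduct
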