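import Mathlib

/-!
Finite groups in which the elements of order divisible by `p` have order `p` and the Sylow
subgroups for the other odd primes are cyclic: the Sylow `p`-subgroups are TI.
-/

set_option autoImplicit false

namespace CfsgLib.SectRank.PSLTwoRec

open Subgroup

universe u

variable {G : Type u} [Group G]

/-- Every element of order divisible by `p` has order `p`. -/
def Isolated (p : ℕ) (G : Type u) [Group G] : Prop := ∀ g : G, p ∣ orderOf g → g ^ p = 1

/-- Cyclic `r`-subgroups for odd primes `r ≠ p`. -/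
def CycOdd (p : ℕ) (G : Type u) [Group G] : Prop :=
  ∀ r : ℕ, r.Prime → r ≠ 2 → r ≠ p → ∀ R : Subgroup G, IsPGroup r R → IsCyclic R

theorem Isolated.subgroup {p : ℕ} (h : Isolated p G) (H : Subgroup G) : Isolated p H := fun g hg =>
  Subtype.ext (by simpa using h g (by simpa using hg))

theorem CycOdd.subgroup {p : ℕ} (h : CycOdd p G) (H : Subgroup G) : CycOdd p H := fun r hr h2 hp R hR => by
  have h1 : IsPGroup r (R.map H.subtype) := hR.map _
  haveI := h r hr h2 hp _ h1
  exact isCyclic_of_surjective (R.equivMapOfInjective _ H.subtype_injective).symm.toMonoidHom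
    (R.equivMapOfInjective _ H.subtype_injective).symm.surjective

variable {p : ℕ} [hp : Fact p.Prime]

theorem Isolated.eq_one_of_commute (h : Isolated p G) {x y : G} (hc : Commute x y) (hx : x ^ p = 1)
    (hx1 : x ≠ 1) (hy : (orderOf y).Coprime p) : y = 1 := by
  have ho : orderOf x = p := orderOf_eq_prime hx hx1
  have hm : orderOf (x * y) = p * orderOf y := by
    rw [hc.orderOf_mul_eq_mul_orderOf_of_coprime (by rw [ho]; exact hy.symm), ho]
  have h1 := h (x * y) (hm ▸ dvd_mul_right _ _)
  rw [hc.mul_pow, hx, one_mul] at h1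
  rw [← orderOf_eq_one_iff]
  exact Nat.Coprime.eq_one_of_dvd hy (orderOf_dvd_of_pow_eq_one h1)

theorem Isolated.pow_eq_one (h : Isolated p G) {P : Subgroup G} (hP : IsPGroup p P) {x : G} (hx : x ∈ P) :
    x ^ p = 1 := by
  obtain ⟨k, hk⟩ := (IsPGroup.iff_orderOf.1 hP) ⟨x, hx⟩
  rw [Subgroup.orderOf_mk] at hk
  rcases k with _ | k
  · rw [pow_zero, orderOf_eq_one_iff] at hk; rw [hk, one_pow]
  · exact h x (hk ▸ dvd_pow_self p k.succ_ne_zero)

/-- An element of order `p` cannot act non-trivially on an abelian `p'`-group inside a group with a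
non-trivial normal `p`-subgroup. -/
theorem commute_of_normalizes [Finite G] (hG : Isolated p G) (V S : Subgroup G) [V.Normal]
    (hVp : IsPGroup p V) (hVne : V ≠ ⊥) (hVc : ∀ x ∈ V, ∀ y ∈ V, x * y = y * x)
    (hScop : (Nat.card S).Coprime p) (hSc : ∀ a ∈ S, ∀ b ∈ S, a * b = b * a) (u : G) (hu : orderOf u = p)
    (huS : ∀ a ∈ S, u * a * u⁻¹ ∈ S) : ∀ a ∈ S, u * a = a * u := by
  classical
  by_contra hcon
  push Not at hcon
  obtain ⟨a₀, ha₀, hne⟩ := hcon
  haveI := Fintype.ofFinite S
  letI : CommGroup V := { (inferInstance : Group V) with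
    mul_comm := fun x y => Subtype.ext (hVc x x.2 y y.2) }
  obtain ⟨v, hv, hv1⟩ := V.bot_or_exists_ne_one.resolve_left hVne
  let φ : G → V → V := fun g w => MulAut.conjNormal g w
  have hφ : ∀ g h : G, ∀ w : V, φ g (φ h w) = φ (g * h) w := fun g h w => by simp [φ]
  have hnorm : ∀ y : G, y ^ p = 1 → ∀ w : V, ∏ i ∈ Finset.range p, φ (y ^ i) w = 1 := by
    intro y hy w
    have key : ∀ n : ℕ, ((w : G) * y) ^ n = ((∏ i ∈ Finset.range n, φ (y ^ i) w : V) : G) * y ^ n := by
      intro n
      induction n with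
      | zero => simp
      | succ n ih =>
        rw [pow_succ, ih, Finset.prod_range_succ, Subgroup.coe_mul,
          show (φ (y ^ n) w : G) = y ^ n * w * (y ^ n)⁻¹ from MulAut.conjNormal_apply _ _, pow_succ]
        group
    have hyp : IsPGroup p (zpowers y) := by
      rw [IsPGroup.iff_card]
      rcases eq_or_ne y 1 with rfl | hy1
      · exact ⟨0, by simp⟩
      · exact ⟨1, by rw [Nat.card_zpowers, orderOf_eq_prime hy hy1, pow_one]⟩
    have hmem : (w : G) * y ∈ V ⊔ zpowers y := mul_mem (mem_sup_left w.2) (mem_sup_right (mem_zpowers y))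
    have h1 := hG.pow_eq_one (IsPGroup.to_sup_of_normal_left hVp hyp) hmem
    rw [key p, hy, mul_one] at h1
    exact Subtype.ext h1
  set w₀ : V := ⟨v, hv⟩
  set a₀' : S := ⟨a₀, ha₀⟩
  have hall : ∏ a : S, ∏ i ∈ Finset.range p, φ (((a : G) * u * (a : G)⁻¹) ^ i) w₀ = 1 := by
    refine Finset.prod_eq_one fun a _ => hnorm _ ?_ _
    rw [conj_pow, ← hu, pow_orderOf_eq_one]; group
  have hzero : ∀ i ∈ Finset.range p, i ≠ 0 → ∏ a : S, φ (((a : G) * u * (a : G)⁻¹) ^ i) w₀ = 1 := by
    intro i hi hi0
    rw [Finset.mem_range] at hi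
    set U := u ^ i with hU
    have hUS : ∀ a ∈ S, U * a * U⁻¹ ∈ S := by
      clear hi0 hi
      rw [hU]; clear hU U
      induction i with
      | zero => intro a ha; simpa using ha
      | succ i ih =>
        intro a ha
        rw [show u ^ (i + 1) * a * (u ^ (i + 1))⁻¹ = u * (u ^ i * a * (u ^ i)⁻¹) * u⁻¹ by group]
        exact huS _ (ih a ha)
    let c : S → S := fun a => ⟨(a : G) * (U * (a : G)⁻¹ * U⁻¹), mul_mem a.2 (hUS _ (inv_mem a.2))⟩
    have hc : ∀ a b : S, c (a * b) = c a * c b := by
      intro a b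
      apply Subtype.ext
      show (a : G) * b * (U * ((a : G) * b)⁻¹ * U⁻¹) =
        (a : G) * (U * (a : G)⁻¹ * U⁻¹) * ((b : G) * (U * (b : G)⁻¹ * U⁻¹))
      rw [hSc _ (mul_mem a.2 (hUS _ (inv_mem a.2))) _ (mul_mem b.2 (hUS _ (inv_mem b.2)))]
      calc (a : G) * b * (U * ((a : G) * b)⁻¹ * U⁻¹)
          = (a : G) * ((b : G) * (U * (b : G)⁻¹ * U⁻¹)) * (U * (a : G)⁻¹ * U⁻¹) := by group
        _ = _ := by rw [hSc _ a.2 _ (mul_mem b.2 (hUS _ (inv_mem b.2)))]; group
    have hone : c a₀' ≠ 1 := by
      intro h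
      have h' : (a₀ : G) * (U * a₀⁻¹ * U⁻¹) = 1 := congrArg Subtype.val h
      have hUa : U * a₀ = a₀ * U := by
        have : a₀ * U = U * a₀ := by
          calc a₀ * U = a₀ * (U * a₀⁻¹ * U⁻¹) * (U * a₀) := by group
            _ = U * a₀ := by rw [h', one_mul]
        exact this.symm
      obtain ⟨m, hm⟩ := exists_pow_eq_self_of_coprime (n := i) (x := u)
        (by rw [hu]; exact ((Fact.out : p.Prime).coprime_iff_not_dvd.2
          (Nat.not_dvd_of_pos_of_lt (Nat.pos_of_ne_zero hi0) hi)).symm)
      exact hne (by rw [← hm]; exact ((show Commute U a₀ from hUa).pow_left m).eq)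
    set b : S := c a₀'
    set w : V := φ U w₀
    have hterm : ∀ a : S, φ (((a : G) * u * (a : G)⁻¹) ^ i) w₀ = φ (c a : G) w := by
      intro a
      rw [hφ, conj_pow]
      congr 1
      show (a : G) * U * (a : G)⁻¹ = (a : G) * (U * (a : G)⁻¹ * U⁻¹) * U
      group
    rw [Finset.prod_congr rfl fun a _ => hterm a]
    set P : V := ∏ a : S, φ (c a : G) w
    have hfix : φ (b : G) P = P := by
      show MulAut.conjNormal (b : G) P = P
      rw [map_prod]
      conv_rhs => rw [show P = ∏ a : S, φ (c a : G) w from rfl,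
        ← Equiv.prod_comp (Equiv.mulLeft a₀') (fun a : S => φ (c a : G) w)]
      refine Finset.prod_congr rfl fun a _ => ?_
      rw [Equiv.coe_mulLeft, hc]
      exact hφ _ _ _
    by_contra hP
    have hcm : Commute (P : G) (b : G) := by
      have := congrArg Subtype.val hfix
      rw [show (φ (b : G) P : G) = (b : G) * P * (b : G)⁻¹ from MulAut.conjNormal_apply _ _,
        mul_inv_eq_iff_eq_mul] at this
      exact this.symm
    have hb : (b : G) = 1 := hG.eq_one_of_commute hcm (hG.pow_eq_one hVp P.2)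
      (fun h => hP (Subtype.ext h)) (by
        rw [Subgroup.orderOf_coe]; exact hScop.coprime_dvd_left (orderOf_dvd_natCard b))
    exact hone (Subtype.ext hb)
  rw [Finset.prod_comm, Finset.prod_eq_single_of_mem 0 (Finset.mem_range.2 (Fact.out : p.Prime).pos) hzero]
    at hall
  simp only [pow_zero, Finset.prod_const, Finset.card_univ, φ, map_one, MulAut.one_apply] at hall
  have h1 : v ^ Fintype.card S = 1 := by simpa [w₀] using congrArg Subtype.val hall
  have h2 := hG.pow_eq_one hVp hv
  refine hv1 ?_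
  rw [← orderOf_eq_one_iff]
  exact Nat.Coprime.eq_one_of_dvd ((Nat.Coprime.coprime_dvd_left (orderOf_dvd_of_pow_eq_one h2)
    (by rw [← Nat.card_eq_fintype_card]; exact hScop.symm))) (orderOf_dvd_of_pow_eq_one h1)

/-- A group with a non-trivial normal `p`-subgroup is `p`-closed. -/
theorem sylow_normal [Finite G] (hp2 : p ≠ 2) (hG : Isolated p G) (hC : CycOdd p G) (D : Subgroup G)
    [D.Normal] (hD : IsPGroup p D) (hDne : D ≠ ⊥) (T : Sylow p G) : (T : Subgroup G).Normal := by
  suffices H : ∀ (n : ℕ) (N : Type u) [Group N] [Finite N], Nat.card N = n → Isolated p N → CycOdd p N →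
      ∀ D : Subgroup N, D.Normal → IsPGroup p D → D ≠ ⊥ → ∀ T : Sylow p N, (T : Subgroup N).Normal from
    H _ G rfl hG hC D inferInstance hD hDne T
  intro n
  induction n using Nat.strong_induction_on with
  | _ n ih =>
  intro N _ _ hn hG hC D hDn hD hDne T
  subst hn
  haveI := hDn
  have hpp : p.Prime := Fact.out
  obtain ⟨d, hd, hd1⟩ := D.bot_or_exists_ne_one.resolve_left hDne
  by_cases h2 : 2 ∣ Nat.card N
  · obtain ⟨z, hz⟩ := exists_prime_orderOf_dvd_card' 2 h2
    have hz1 : z ≠ 1 := fun h => by rw [h, orderOf_one] at hz; omega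
    have hzi : z⁻¹ = z := inv_eq_of_mul_eq_one_left (by rw [← pow_two, ← hz, pow_orderOf_eq_one])
    set C := Subgroup.centralizer (D : Set N)
    have hCn : C.Normal := by infer_instance
    have hCp : IsPGroup p C := by
      rw [IsPGroup.iff_card]
      refine ⟨(Nat.card C).factorization p, Nat.eq_of_factorization_eq Nat.card_pos.ne'
        (pow_ne_zero _ hpp.ne_zero) fun r => ?_⟩
      rw [hpp.factorization_pow, Finsupp.single_apply]
      split_ifs with hr
      · rw [hr]
      · by_contra hne
        have hrp : r.Prime := Nat.prime_of_mem_primeFactors (Finsupp.mem_support_iff.2 hne)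
        haveI := Fact.mk hrp
        obtain ⟨x, hx⟩ := exists_prime_orderOf_dvd_card' r
          (Nat.dvd_of_factorization_pos hne : r ∣ Nat.card C)
        have := hG.eq_one_of_commute (x := d) (y := (x : N)) (Subgroup.mem_centralizer_iff.1 x.2 d hd)
          (hG.pow_eq_one hD hd) hd1 (by
            rw [Subgroup.orderOf_coe, hx]; exact (Nat.coprime_primes hrp hpp).2 (Ne.symm hr))
        rw [← orderOf_eq_one_iff, Subgroup.orderOf_coe, hx] at this
        exact hrp.ne_one this
    have hfpf : ∀ (K : Subgroup N), IsPGroup p K → ∀ x ∈ K, z * x = x * z → x = 1 := fun K hK x hx hc => by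
      by_contra hx1
      exact hz1 (hG.eq_one_of_commute (show Commute x z from hc.symm) (hG.pow_eq_one hK hx) hx1
        (by rw [hz]; exact (Nat.coprime_primes Nat.prime_two hpp).2 (Ne.symm hp2)))
    have hsurj : ∀ (K : Subgroup N), K.Normal → IsPGroup p K → ∀ e ∈ K, ∃ x ∈ K, x⁻¹ * z * x * z = e := by
      intro K hKn hK e he
      let f : K → K := fun x => ⟨(x : N)⁻¹ * z * x * z,
        by
          rw [mul_assoc, mul_assoc, ← mul_assoc z]
          refine mul_mem (inv_mem x.2) ?_
          conv => arg 2; arg 2; rw [← hzi]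
          exact hKn.conj_mem _ x.2 z⟩
      have hinj : Function.Injective f := fun x y h => by
        have h' : (x : N)⁻¹ * z * x * z = (y : N)⁻¹ * z * y * z := congrArg Subtype.val h
        have h'' : z * ((x : N) * (y : N)⁻¹) = ((x : N) * (y : N)⁻¹) * z := by
          calc z * ((x : N) * (y : N)⁻¹) = x * ((x : N)⁻¹ * z * x * z) * z⁻¹ * (y : N)⁻¹ := by group
            _ = ((x : N) * (y : N)⁻¹) * z := by rw [h']; group
        exact Subtype.ext (mul_inv_eq_one.1 (hfpf K hK _ (mul_mem x.2 (inv_mem y.2)) h''))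
      obtain ⟨x, hx⟩ := (Finite.injective_iff_surjective.1 hinj) ⟨e, he⟩
      exact ⟨x, x.2, congrArg Subtype.val hx⟩
    -- `z` inverts `D`
    have hinv : ∀ x ∈ D, z * x * z⁻¹ = x⁻¹ := by
      intro e he
      obtain ⟨x, -, rfl⟩ := hsurj D hDn hD e he
      rw [hzi]
      calc z * (x⁻¹ * z * x * z) * z = z * x⁻¹ * z * x * (z * z) := by group
        _ = (x⁻¹ * z * x * z)⁻¹ := by
          conv_rhs => rw [mul_inv_rev, mul_inv_rev, mul_inv_rev, inv_inv, hzi]
          rw [show z * z = 1 by nth_rw 1 [← hzi]; exact inv_mul_cancel z]; group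
    have hall : ∀ g : N, ∃ x ∈ C, Commute (x * g) z := by
      intro g
      have hmem : g * z * g⁻¹ * z ∈ C := by
        rw [Subgroup.mem_centralizer_iff]
        intro x hx
        have h1 := hinv x hx
        have h2 := hinv (g⁻¹ * x⁻¹ * g) (by
          simpa using hDn.conj_mem _ (inv_mem hx) g⁻¹)
        have : g * z * g⁻¹ * z * x * (g * z * g⁻¹ * z)⁻¹ = x := by
          calc g * z * g⁻¹ * z * x * (g * z * g⁻¹ * z)⁻¹
              = g * (z * (g⁻¹ * (z * x * z⁻¹) * g) * z⁻¹) * g⁻¹ := by group
            _ = g * (z * (g⁻¹ * x⁻¹ * g) * z⁻¹) * g⁻¹ := by rw [h1]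
            _ = x := by rw [h2]; group
        exact (mul_inv_eq_iff_eq_mul.1 this).symm
      obtain ⟨x, hx, he⟩ := hsurj C hCn hCp _ hmem
      refine ⟨x, hx, ?_⟩
      have he' : x⁻¹ * z * x = g * z * g⁻¹ := mul_right_cancel he
      show x * g * z = z * (x * g)
      calc x * g * z = x * (g * z * g⁻¹) * g := by group
        _ = z * (x * g) := by rw [← he']; group
    set Z := Subgroup.centralizer ({z} : Set N)
    have hcp : ¬ p ∣ Nat.card Z := by
      intro h
      obtain ⟨x, hx⟩ := exists_prime_orderOf_dvd_card' p h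
      have hxz : z * (x : N) = x * z := (Subgroup.mem_centralizer_singleton_iff.1 x.2).symm
      have := hfpf (zpowers (x : N)) (by
        rw [IsPGroup.iff_card]; exact ⟨1, by rw [Nat.card_zpowers, Subgroup.orderOf_coe, hx, pow_one]⟩)
        _ (mem_zpowers _) hxz
      rw [← orderOf_eq_one_iff, Subgroup.orderOf_coe, hx] at this
      exact hpp.ne_one this
    have hidx : C.index ∣ Nat.card Z := by
      have hf : Function.Surjective ((QuotientGroup.mk' C).comp Z.subtype) := by
        intro q
        obtain ⟨g, rfl⟩ := QuotientGroup.mk'_surjective C q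
        obtain ⟨x, hx, hc⟩ := hall g
        refine ⟨⟨x * g, Subgroup.mem_centralizer_singleton_iff.2 hc.eq⟩, ?_⟩
        show QuotientGroup.mk' C (x * g) = _
        rw [map_mul, show QuotientGroup.mk' C x = 1 from (QuotientGroup.eq_one_iff x).2 hx, one_mul]
      rw [Subgroup.index_eq_card]
      exact Subgroup.card_dvd_of_surjective _ hf
    have hTC : (T : Subgroup N) = hCp.toSylow (fun h => hcp (h.trans hidx)) := by
      have : Subsingleton (Sylow p N) := by
        exact (Sylow.unique_of_normal (hCp.toSylow (fun h => hcp (h.trans hidx)) : Sylow p N) hCn).instSubsingleton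
      rw [Subsingleton.elim T (hCp.toSylow (fun h => hcp (h.trans hidx)))]
    rw [hTC]
    exact hCn
  · by_cases hpg : IsPGroup p N
    · have : (T : Subgroup N) = ⊤ := (T.3 (IsPGroup.to_subgroup hpg ⊤) le_top).symm
      rw [this]; infer_instance
    obtain ⟨s, hs, hmin⟩ : ∃ s, (s.Prime ∧ s ≠ p ∧ s ∣ Nat.card N) ∧
        ∀ t, t.Prime ∧ t ≠ p ∧ t ∣ Nat.card N → s ≤ t := by
      have hex : ∃ s, s.Prime ∧ s ≠ p ∧ s ∣ Nat.card N := by
        by_contra hcon
        push Not at hcon
        refine hpg (IsPGroup.iff_card.2 ⟨_, Nat.eq_prime_pow_of_unique_prime_dvd Nat.card_pos.ne' ?_⟩)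
        intro t ht htd
        by_contra htp
        exact hcon t ht htp htd
      exact ⟨Nat.find hex, Nat.find_spec hex, fun t ht => Nat.find_min' hex ht⟩
    haveI := Fact.mk hs.1
    obtain ⟨S⟩ : Nonempty (Sylow s N) := inferInstance
    haveI hScyc : IsCyclic (S : Subgroup N) := hC s hs.1 (fun h => h2 (h ▸ hs.2.2)) hs.2.1 _ S.2
    letI : CommGroup (S : Subgroup N) := IsCyclic.commGroup
    have hSc : ∀ a ∈ (S : Subgroup N), ∀ b ∈ (S : Subgroup N), a * b = b * a := fun a ha b hb =>
      congrArg Subtype.val (mul_comm (⟨a, ha⟩ : (S : Subgroup N)) ⟨b, hb⟩)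
    have hScop : (Nat.card (S : Subgroup N)).Coprime p := by
      obtain ⟨k, hk⟩ := IsPGroup.iff_card.1 S.2
      rw [hk]; exact ((Nat.coprime_primes hs.1 hpp).2 hs.2.1).pow_left k
    set V := (Subgroup.center D).map D.subtype
    haveI : V.Normal := ConjAct.normal_of_characteristic_of_normal
    have hVp : IsPGroup p V := (hD.to_subgroup _).map _
    have hVne : V ≠ ⊥ := by
      haveI : Nontrivial D := (Subgroup.nontrivial_iff_ne_bot D).2 hDne
      rw [Ne, Subgroup.map_eq_bot_iff_of_injective _ D.subtype_injective]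
      exact (Subgroup.nontrivial_iff_ne_bot _).1 (hD.center_nontrivial)
    have hVc : ∀ x ∈ V, ∀ y ∈ V, x * y = y * x := by
      rintro _ ⟨x, hx, rfl⟩ _ ⟨y, -, rfl⟩
      exact congrArg Subtype.val (Subgroup.mem_center_iff.1 hx y).symm
    have hNC : Subgroup.normalizer ((S : Subgroup N) : Set N) ≤ Subgroup.centralizer ((S : Subgroup N) : Set N) := by
      set Nz := Subgroup.normalizer ((S : Subgroup N) : Set N)
      let f : Nz →* MulAut (S : Subgroup N) := (S : Subgroup N).normalizerMonoidHom
      have hmem : ∀ x : Nz, x ∈ f.ker ↔ (x : N) ∈ Subgroup.centralizer ((S : Subgroup N) : Set N) := fun x => by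
        rw [Subgroup.normalizerMonoidHom_ker, Subgroup.mem_subgroupOf]
      intro x hx
      by_contra hxc
      have himg : Nat.card f.range ≠ 1 := by
        intro h1
        rw [Subgroup.card_eq_one, MonoidHom.range_eq_bot_iff] at h1
        exact hxc ((hmem ⟨x, hx⟩).1 (by rw [MonoidHom.mem_ker, h1]; rfl))
      obtain ⟨t, ht, htd⟩ := Nat.exists_prime_and_dvd himg
      haveI := Fact.mk ht
      obtain ⟨k, hk⟩ := IsPGroup.iff_card.1 S.2
      have htN : t ∣ Nat.card N :=
        htd.trans ((Subgroup.card_dvd_of_surjective _ f.rangeRestrict_surjective).trans (Subgroup.card_subgroup_dvd_card _))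
      have hts : t ≠ s := by
        rintro rfl
        have hle : (S : Subgroup N).subgroupOf Nz ≤ f.ker := fun y hy => (hmem y).2 (by
          rw [Subgroup.mem_centralizer_iff]; exact fun b hb => hSc b hb y hy)
        have : f.range ≠ ⊥ → t ∣ ((S : Subgroup N).subgroupOf Nz).index := fun _ => by
          have h3 : Nat.card f.range = f.ker.index := by rw [Subgroup.index_ker]
          exact (h3 ▸ htd).trans (Subgroup.index_dvd_of_le hle)
        have h4 : t ∣ (S : Subgroup N).index :=
          (this (fun h => himg (by rw [h, Subgroup.card_bot]))).trans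
            (Subgroup.relIndex_dvd_index_of_le Subgroup.le_normalizer)
        exact S.not_dvd_index h4
      have htAut : t ∣ s ^ k * (s - 1) := by
        have h1 : Nat.card f.range ∣ Nat.card (MulAut (S : Subgroup N)) := Subgroup.card_subgroup_dvd_card _
        rw [IsCyclic.card_mulAut, hk] at h1
        refine (htd.trans h1).trans ?_
        rcases k with _ | k
        · simp
        · rw [Nat.totient_prime_pow_succ hs.1]
          exact Nat.mul_dvd_mul_right (pow_dvd_pow s k.le_succ) _
      have htp : t = p := by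
        by_contra htp
        rcases ht.dvd_mul.1 htAut with h | h
        · exact hts ((Nat.prime_dvd_prime_iff_eq ht hs.1).1 (ht.dvd_of_dvd_pow h))
        · have := Nat.le_of_dvd (by have := hs.1.two_le; omega) h
          have := hmin t ⟨ht, htp, htN⟩
          omega
      obtain ⟨y, hy⟩ := exists_prime_orderOf_dvd_card' t htd
      obtain ⟨⟨g, hg⟩, hgy⟩ := f.rangeRestrict_surjective y
      have hdv : p ∣ orderOf g := by
        rw [← htp, ← hy, ← hgy]
        exact (orderOf_map_dvd _ _).trans (by rw [Subgroup.orderOf_mk])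
      have hg1 : g ≠ 1 := fun h => hpp.ne_one (Nat.dvd_one.1 (by rw [h, orderOf_one] at hdv; exact hdv))
      have hcom := commute_of_normalizes hG V (S : Subgroup N) hVp hVne hVc hScop hSc g
        (orderOf_eq_prime (hG g hdv) hg1) (fun a ha => (Subgroup.mem_normalizer_iff.1 hg a).1 ha)
      have hk1 : (⟨g, hg⟩ : Nz) ∈ f.ker := (hmem _).2 (by
        rw [Subgroup.mem_centralizer_iff]; exact fun b hb => (hcom b hb).symm)
      have : y = 1 := by
        rw [← hgy]; exact Subtype.ext (MonoidHom.mem_ker.1 hk1)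
      rw [this, orderOf_one] at hy
      exact ht.ne_one hy.symm
    set K := (MonoidHom.transferSylow S hNC).ker
    have hKc : K.IsComplement' (S : Subgroup N) := MonoidHom.ker_transferSylow_isComplement' S hNC
    have hDK : D ≤ K := by
      intro x hx
      rw [MonoidHom.mem_ker]
      refine orderOf_eq_one_iff.1 (Nat.Coprime.eq_one_of_dvd ?_ (orderOf_map_dvd _ x))
      refine Nat.Coprime.coprime_dvd_left (orderOf_dvd_natCard _) ?_
      exact hScop.coprime_dvd_right (orderOf_dvd_of_pow_eq_one (hG.pow_eq_one hD hx))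
    have hKlt : Nat.card K < Nat.card N := by
      rw [← hKc.card_mul_card]
      exact lt_mul_of_one_lt_right Nat.card_pos (hs.1.one_lt.trans_le
        (Nat.le_of_dvd Nat.card_pos (S.dvd_card_of_dvd_card hs.2.2)))
    have hpK : ¬ p ∣ K.index := by
      rw [hKc.symm.index_eq_card]
      exact fun h => hpp.ne_one (Nat.dvd_one.1 (hScop ▸ Nat.dvd_gcd h dvd_rfl))
    have hDK' : D.subgroupOf K ≠ ⊥ := fun h => hDne (by
      rw [Subgroup.subgroupOf_eq_bot, disjoint_iff, inf_eq_left.2 hDK] at h; exact h)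
    obtain ⟨T'⟩ : Nonempty (Sylow p K) := inferInstance
    have hT' := ih _ hKlt K rfl (hG.subgroup K) (hC.subgroup K) (D.subgroupOf K) inferInstance
      (hD.comap_of_injective _ K.subtype_injective) hDK' T'
    haveI := hT'
    haveI : (T' : Subgroup K).Characteristic := T'.characteristic_of_normal hT'
    set T'' := (T' : Subgroup K).map K.subtype
    haveI hn'' : T''.Normal := ConjAct.normal_of_characteristic_of_normal
    have hidx : ¬ p ∣ T''.index := by
      rw [Subgroup.index_map_subtype]
      exact fun h => ((Fact.out : p.Prime).dvd_mul.1 h).elim T'.not_dvd_index hpK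
    have hsub : Subsingleton (Sylow p N) := by
      exact (Sylow.unique_of_normal ((T'.2.map K.subtype).toSylow hidx : Sylow p N) hn'').instSubsingleton
    rw [Subsingleton.elim T ((T'.2.map K.subtype).toSylow hidx)]
    exact hn''

/-- The Sylow `p`-subgroups meet trivially. -/
theorem sylow_ti [Finite G] (hG : Isolated p G) (hC : CycOdd p G) (P Q : Sylow p G) (hPQ : P ≠ Q) :
    (P : Subgroup G) ⊓ Q = ⊥ := by
  classical
  by_cases hp2 : p = 2
  · subst hp2
    have hcomm : ∀ R : Sylow 2 G, ∀ a ∈ (R : Subgroup G), ∀ b ∈ (R : Subgroup G), a * b = b * a := by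
      intro R a ha b hb
      have hi : ∀ y ∈ (R : Subgroup G), y⁻¹ = y := fun y hy =>
        inv_eq_of_mul_eq_one_left (by rw [← pow_two]; exact hG.pow_eq_one R.2 hy)
      calc a * b = (a * b)⁻¹ := (hi _ (mul_mem ha hb)).symm
        _ = b * a := by rw [mul_inv_rev, hi a ha, hi b hb]
    by_contra hne
    obtain ⟨x, hx, hx1⟩ := ((P : Subgroup G) ⊓ Q).bot_or_exists_ne_one.resolve_left hne
    have hCp : IsPGroup 2 (Subgroup.centralizer ({x} : Set G)) := by
      rw [IsPGroup.iff_card]
      refine ⟨_, Nat.eq_prime_pow_of_unique_prime_dvd Nat.card_pos.ne' fun {t} ht htd => ?_⟩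
      by_contra ht2
      haveI := Fact.mk ht
      obtain ⟨y, hy⟩ := exists_prime_orderOf_dvd_card' t htd
      have := hG.eq_one_of_commute (x := x) (y := (y : G))
        (Subgroup.mem_centralizer_singleton_iff.1 y.2).symm (hG.pow_eq_one P.2 hx.1) hx1
        (by rw [Subgroup.orderOf_coe, hy]; exact (Nat.coprime_primes ht Nat.prime_two).2 ht2)
      rw [← orderOf_eq_one_iff, Subgroup.orderOf_coe, hy] at this
      exact ht.ne_one this
    have hle : ∀ R : Sylow 2 G, x ∈ (R : Subgroup G) → Subgroup.centralizer ({x} : Set G) = R := fun R hR =>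
      R.3 hCp fun y hy => Subgroup.mem_centralizer_singleton_iff.2 (hcomm R y hy x hR)
    exact hPQ (Sylow.ext ((hle P hx.1).symm.trans (hle Q hx.2)))
  by_contra hne
  haveI := Fintype.ofFinite (Sylow p G)
  obtain ⟨⟨P, Q⟩, hmem, hmax⟩ := Finset.exists_max_image
    (Finset.univ.filter fun x : Sylow p G × Sylow p G => x.1 ≠ x.2)
    (fun x => Nat.card ((x.1 : Subgroup G) ⊓ x.2 : Subgroup G)) ⟨(P, Q), by simp [hPQ]⟩
  rename_i P₀ Q₀
  set D := (P : Subgroup G) ⊓ Q
  have hPQ' : P ≠ Q := by simpa using hmem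
  have hDne : D ≠ ⊥ := by
    intro h
    have := hmax (P₀, Q₀) (by simp [hPQ])
    simp only at this
    rw [h, Subgroup.card_bot] at this
    exact hne (Subgroup.eq_bot_of_card_le _ this)
  set N := Subgroup.normalizer (D : Set G)
  have hbig : ∀ R : Sylow p G, D ≤ (R : Subgroup G) → D ≠ R → Nat.card D < Nat.card ((R : Subgroup G) ⊓ N : Subgroup G) := by
    intro R hle hne'
    haveI : Group.IsNilpotent (R : Subgroup G) := R.2.isNilpotent
    have hlt : D.subgroupOf R < Subgroup.normalizer (D.subgroupOf R : Set (R : Subgroup G)) := by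
      refine Group.normalizerCondition_of_isNilpotent _ (lt_top_iff_ne_top.2 fun h => hne' ?_)
      exact le_antisymm hle (Subgroup.subgroupOf_eq_top.1 h)
    obtain ⟨y, hy, hy'⟩ := SetLike.exists_of_lt hlt
    have hyN : (y : G) ∈ N := by
      rw [Subgroup.mem_normalizer_iff]
      intro a
      constructor
      · intro ha
        exact Subgroup.mem_subgroupOf.1 ((Subgroup.mem_normalizer_iff.1 hy ⟨a, hle ha⟩).1 (Subgroup.mem_subgroupOf.2 ha))
      · intro ha
        have hay : a ∈ (R : Subgroup G) := by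
          have := mul_mem (mul_mem (inv_mem y.2) (hle ha)) y.2
          simpa [mul_assoc] using this
        exact Subgroup.mem_subgroupOf.1 ((Subgroup.mem_normalizer_iff.1 hy ⟨a, hay⟩).2 (Subgroup.mem_subgroupOf.2 ha))
    have hlt' : D < (R : Subgroup G) ⊓ N :=
      lt_of_le_of_ne (le_inf hle Subgroup.le_normalizer) fun h => hy' (Subgroup.mem_subgroupOf.2 (h ▸ ⟨y.2, hyN⟩))
    refine lt_of_le_of_ne (Subgroup.card_le_of_le hlt'.le) fun h => hlt'.ne ?_
    exact Subgroup.eq_of_le_of_card_ge hlt'.le h.ge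
  obtain ⟨T⟩ : Nonempty (Sylow p N) := inferInstance
  haveI : (D.subgroupOf N).Normal := Subgroup.normal_in_normalizer
  haveI hTn := sylow_normal hp2 (hG.subgroup N) (hC.subgroup N) (D.subgroupOf N)
    ((P.2.to_le inf_le_left).comap_of_injective _ N.subtype_injective) (fun h => hDne (by
      rw [Subgroup.subgroupOf_eq_bot, disjoint_iff, inf_eq_left.2 Subgroup.le_normalizer] at h; exact h)) T
  obtain ⟨R, hR⟩ := ((T.2.map N.subtype) : IsPGroup p ((T : Subgroup N).map N.subtype)).exists_le_sylow
  have hsame : ∀ S : Sylow p G, D ≤ (S : Subgroup G) → D ≠ S → S = R := by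
    intro S hle hne'
    by_contra hSR
    have h1 : (S : Subgroup G) ⊓ N ≤ (S : Subgroup G) ⊓ R := by
      refine le_inf inf_le_left fun x hx => hR ?_
      have hxp : IsPGroup p ((S : Subgroup G).subgroupOf N) := S.2.comap_of_injective _ N.subtype_injective
      obtain ⟨T₂, hT₂⟩ := hxp.exists_le_sylow
      haveI := (Sylow.unique_of_normal T hTn).instSubsingleton
      rw [Subsingleton.elim T₂ T] at hT₂
      exact ⟨⟨x, hx.2⟩, hT₂ (Subgroup.mem_subgroupOf.2 hx.1), rfl⟩
    have h2 := hmax (S, R) (by simp [hSR])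
    simp only at h2
    have h3 := Subgroup.card_le_of_le h1
    have h4 := hbig S hle hne'
    omega
  have hneP : D ≠ P := fun h => hPQ' (Sylow.ext ((P.3 Q.2 (h ▸ inf_le_right)).symm))
  have hneQ : D ≠ Q := fun h => hPQ' (Sylow.ext (Q.3 P.2 (h ▸ inf_le_left)))
  exact hPQ' ((hsame P inf_le_left hneP).trans (hsame Q inf_le_right hneQ).symm)

end CfsgLib.SectRank.PSLTwoRec
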