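import Cfsg.Agent.Lib.SUAmalgam.Basic

/-!
Hermitian cross product in three variables, frames, and stabilizers of vectors in `SU 3`.
-/

set_option autoImplicit false
set_option linter.unusedSectionVars false

open Matrix

namespace CfsgLib.SectRank.Phan

open CfsgLib.ClassicalForms CfsgLib.SUAmalgam

variable {F : Type*} [Field F] {q : ℕ} (c : Conj F q)

/-- The vector orthogonal to two given vectors. -/
def cr (a b : Fin 3 → F) : Fin 3 → F := crossProduct (fun i => c.σ (a i)) (fun i => c.σ (b i))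

theorem herm_dot (x a : Fin 3 → F) : Cfsg.hermForm 3 F q x a = x ⬝ᵥ fun i => c.σ (a i) :=
  c.herm_apply x a

theorem herm_cr_left (a b : Fin 3 → F) : Cfsg.hermForm 3 F q (cr c a b) a = 0 := by
  rw [herm_dot c, dotProduct_comm]
  exact dot_self_cross _ _

theorem herm_cr_right (a b : Fin 3 → F) : Cfsg.hermForm 3 F q (cr c a b) b = 0 := by
  rw [herm_dot c, dotProduct_comm]
  exact dot_cross_self _ _

theorem σ_cr (a b : Fin 3 → F) : (fun i => c.σ (cr c a b i)) = crossProduct a b := by
  funext i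
  fin_cases i <;> simp [cr, cross_apply, map_sub, map_mul, c.invol]

theorem herm_cr_self (a b : Fin 3 → F) : Cfsg.hermForm 3 F q (cr c a b) (cr c a b) =
    Cfsg.hermForm 3 F q a a * Cfsg.hermForm 3 F q b b -
      Cfsg.hermForm 3 F q a b * Cfsg.hermForm 3 F q b a := by
  rw [herm_dot c, σ_cr, cr, cross_dot_cross, herm_dot c a a, herm_dot c b b, herm_dot c a b,
    herm_dot c b a, dotProduct_comm _ a, dotProduct_comm _ b, dotProduct_comm _ b,
    dotProduct_comm _ a]
  ring

theorem exists_smul_of_cross_eq_zero {y z : Fin 3 → F} (h : crossProduct y z = 0) (hz : z ≠ 0) :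
    ∃ μ : F, y = μ • z := by
  obtain ⟨k, hk⟩ := Function.ne_iff.1 hz
  have h0 := congrFun h 0
  have h1 := congrFun h 1
  have h2 := congrFun h 2
  simp [cross_apply] at h0 h1 h2
  refine ⟨y k / z k, funext fun i => ?_⟩
  simp only [Pi.smul_apply, smul_eq_mul]
  rw [div_mul_eq_mul_div, eq_div_iff (by simpa using hk)]
  fin_cases i <;> fin_cases k <;> simp <;>
    first | linear_combination h0 | linear_combination -h0 | linear_combination h1 |
      linear_combination -h1 | linear_combination h2 | linear_combination -h2 | ring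

/-- A vector orthogonal to two vectors is a multiple of their cross product. -/
theorem exists_smul_cr {y a b : Fin 3 → F} (ha : Cfsg.hermForm 3 F q y a = 0)
    (hb : Cfsg.hermForm 3 F q y b = 0) (hne : cr c a b ≠ 0) : ∃ μ : F, y = μ • cr c a b := by
  refine exists_smul_of_cross_eq_zero ?_ hne
  rw [herm_dot c] at ha hb
  rw [cr, cross_cross_eq_smul_sub_smul', hb, dotProduct_comm _ y, ha, zero_smul, zero_smul,
    sub_zero]

theorem exists_smul_of_cr_eq_zero {a b : Fin 3 → F} (h : cr c a b = 0) (hb : b ≠ 0) :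
    ∃ μ : F, a = μ • b := by
  refine exists_smul_of_cross_eq_zero ?_ hb
  rw [← σ_cr c, h]
  funext i
  simp

include c in
/-- Isotropic orthogonal vectors are parallel. -/
theorem exists_smul_of_isotropic {v w : Fin 3 → F} (hv : Cfsg.hermForm 3 F q v v = 0)
    (hw : Cfsg.hermForm 3 F q w w = 0) (hvw : Cfsg.hermForm 3 F q v w = 0) (hw0 : w ≠ 0) :
    ∃ μ : F, v = μ • w := by
  by_cases h : cr c v w = 0
  · exact exists_smul_of_cr_eq_zero c h hw0
  have hwv : Cfsg.hermForm 3 F q w v = 0 := by rw [c.herm_symm v w, hvw, map_zero]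
  obtain ⟨μ, hμ⟩ := exists_smul_cr c hv hvw h
  obtain ⟨ν, hν⟩ := exists_smul_cr c hwv hw h
  generalize cr c v w = z at hμ hν
  have hν0 : ν ≠ 0 := by
    rintro rfl
    exact hw0 (by rw [hν, zero_smul])
  exact ⟨μ / ν, by rw [hμ, hν, smul_smul, div_mul_cancel₀ _ hν0]⟩

include c in
/-- Normalization of an anisotropic vector. -/
theorem exists_unit_smul [Finite F] {p : Fin 3 → F} (hp : Cfsg.hermForm 3 F q p p ≠ 0) :
    ∃ a : F, a ≠ 0 ∧ Cfsg.hermForm 3 F q (a • p) (a • p) = 1 := by
  obtain ⟨a, ha⟩ := c.exists_norm (c.herm_self p)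
  have ha0 : a ≠ 0 := fun e => hp (by rw [← ha, e, zero_mul])
  have ha1 : c.σ a ≠ 0 := fun e => ha0 (c.eq_zero e)
  refine ⟨a⁻¹, inv_ne_zero ha0, ?_⟩
  rw [c.smul_left, c.smul_right, ← ha, map_inv₀]
  field_simp

/-- The stabilizer of a vector. -/
def Fx (p : Fin 3 → F) : Subgroup (SUg 3 F q) where
  carrier := {x | act x p = p}
  one_mem' := act_one p
  mul_mem' := fun {a b} ha hb => by
    show act (a * b) p = p
    rw [act_mul, show act b p = p from hb, show act a p = p from ha]
  inv_mem' := fun {a} ha => by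
    show act a⁻¹ p = p
    conv_lhs => rw [← show act a p = p from ha, act_inv_act]

theorem mem_Fx {p : Fin 3 → F} {x : SUg 3 F q} : x ∈ Fx (q := q) p ↔ act x p = p := Iff.rfl

include c in
/-- No nonzero vector is fixed by all of `SU 3`. -/
theorem Fx_ne_top [Finite F] (hF : Nat.card F = q ^ 2) {p : Fin 3 → F} (hp : p ≠ 0) :
    Fx (q := q) p ≠ ⊤ := by
  obtain ⟨l, hl, hl1, -⟩ := exists_norm_one_ne hF c
  obtain ⟨k, hk⟩ := Function.ne_iff.1 hp
  let d : Fin 3 → F := fun j => if j = k then l else if j = k + 1 then c.σ l else 1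
  have hd : ∏ j, d j = 1 := by
    fin_cases k <;> simp [d, Fin.prod_univ_three] <;> linear_combination hl
  have hdd : ∀ j, d j * c.σ (d j) = 1 := by
    intro j
    simp only [d]
    split_ifs
    · exact hl
    · rw [c.invol, mul_comm]; exact hl
    · simp
  let g : SUg 3 F q := mk (diagonal d) (by rw [det_diagonal, hd]) (fun x y => by
    simp only [c.herm_apply, mulVec_diagonal, map_mul]
    exact Finset.sum_congr rfl fun j _ => by linear_combination (x j * c.σ (y j)) * hdd j)
  intro h
  have hg : act g p = p := mem_Fx.1 (h ▸ Subgroup.mem_top g)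
  have hgk := congrFun hg k
  rw [act, mat_mk, mulVec_diagonal] at hgk
  simp [d] at hgk
  exact hl1 (mul_right_cancel₀ (by simpa using hk) (hgk.trans (one_mul _).symm))

include c in
/-- A frame with prescribed first and last vectors. -/
theorem exists_frame {p p' : Fin 3 → F} (hp : Cfsg.hermForm 3 F q p p = 1)
    (hp' : Cfsg.hermForm 3 F q p' p' = 1) (h : Cfsg.hermForm 3 F q p p' = 0) :
    ∃ g : SUg 3 F q, act g (Pi.single 0 1) = p' ∧ act g (Pi.single 2 1) = p := by
  have h' : Cfsg.hermForm 3 F q p' p = 0 := by rw [c.herm_symm p p', h, map_zero]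
  set y := cr c p p' with hy
  have hyy : Cfsg.hermForm 3 F q y y = 1 := by
    rw [hy, herm_cr_self, hp, hp', h]; ring
  have hyp : Cfsg.hermForm 3 F q y p = 0 := herm_cr_left c p p'
  have hyp' : Cfsg.hermForm 3 F q y p' = 0 := herm_cr_right c p p'
  have hpy : Cfsg.hermForm 3 F q p y = 0 := by rw [c.herm_symm y p, hyp, map_zero]
  have hp'y : Cfsg.hermForm 3 F q p' y = 0 := by rw [c.herm_symm y p', hyp', map_zero]
  set M : Matrix (Fin 3) (Fin 3) F := (Matrix.of ![p', y, p])ᵀ with hM
  have hMv : ∀ x : Fin 3 → F, M *ᵥ x = x 0 • p' + x 1 • y + x 2 • p := fun x => by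
    funext i
    simp [hM, Matrix.mulVec, dotProduct, Fin.sum_univ_three]
    ring
  have hdet : M.det = 1 := by
    rw [hM, det_transpose, show Matrix.det (Matrix.of ![p', y, p]) = p' ⬝ᵥ crossProduct y p from
      (triple_product_eq_det p' y p).symm, triple_product_permutation, ← σ_cr c]
    rw [← herm_dot c, ← hy, hyy]
  refine ⟨mk M hdet fun u v => ?_, ?_, ?_⟩
  · rw [hMv, hMv]
    simp only [c.add_left, c.add_right, c.smul_left, c.smul_right, hp, hp', h, h', hyy, hyp, hyp',
      hpy, hp'y]
    rw [c.herm_apply u v, Fin.sum_univ_three]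
    ring
  · rw [act, mat_mk, hMv]; simp
  · rw [act, mat_mk, hMv]; simp

end CfsgLib.SectRank.Phan
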