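import Cfsg.Agent.Lib.SectRank.PhanBasic
import Cfsg.Agent.Lib.SectRank.UnitaryThreeInvolutions
import Cfsg.Agent.Lib.SectRank.CTHoms
import Cfsg.Agent.Lib.ClassicalForms.Unitary.Two

/-!
A subgroup of `SU 3` isomorphic to `SL 2` fixes a vector of norm one.
-/

set_option autoImplicit false
set_option linter.unusedSectionVars false

open Matrix
open scoped MatrixGroups

namespace CfsgLib.SectRank.Phan

open CfsgLib.ClassicalForms CfsgLib.ClassicalLinear CfsgLib.SUAmalgam CfsgLib.SectRank.CT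

variable {F : Type*} [Field F] {q : ℕ} (c : Conj F q)

/-- `v` is the centre of `s`. -/
def IsCen (q : ℕ) (s : SUg 3 F q) (v : Fin 3 → F) : Prop :=
  v ≠ 0 ∧ Cfsg.hermForm 3 F q v v = 0 ∧ (∃ x₀, act s x₀ - x₀ = v) ∧
    (∀ x, ∃ μ : F, act s x - x = μ • v) ∧
    ∀ x, Cfsg.hermForm 3 F q x v = 0 → act s x = x

include c in
theorem exists_isCen (h2 : (2 : F) = 0) {s : SUg 3 F q} (hs1 : s ≠ 1) (hs : s * s = 1) :
    ∃ v, IsCen q s v := by
  have hss : ∀ x, act s (act s x) = x := fun x => by rw [← act_mul, hs, act_one]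
  have hsym : ∀ x y, Cfsg.hermForm 3 F q (act s x) y = Cfsg.hermForm 3 F q x (act s y) :=
    fun x y => by conv_lhs => rw [← hss y, herm_act]
  have hiso : ∀ x y, Cfsg.hermForm 3 F q (act s x - x) (act s y - y) = 0 := fun x y => by
    rw [c.sub_left, c.sub_right, c.sub_right, herm_act, hsym]
    linear_combination (Cfsg.hermForm 3 F q x y - Cfsg.hermForm 3 F q x (act s y)) * h2
  obtain ⟨x₀, hx₀⟩ : ∃ x₀, act s x₀ - x₀ ≠ 0 := by
    by_contra h
    push Not at h
    exact hs1 (ext_act fun k => by rw [act_one]; exact sub_eq_zero.1 (h _))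
  have himg : ∀ x, ∃ μ : F, act s x - x = μ • (act s x₀ - x₀) := fun x =>
    exists_smul_of_isotropic c (hiso x x) (hiso x₀ x₀) (hiso x x₀) hx₀
  refine ⟨_, hx₀, hiso x₀ x₀, ⟨x₀, rfl⟩, himg, fun x hx => ?_⟩
  refine sub_eq_zero.1 (c.ext_right fun y => ?_)
  obtain ⟨ν, hν⟩ := himg y
  rw [c.zero_left, c.sub_left, hsym, ← c.sub_right, hν, c.smul_right, hx, mul_zero]

theorem IsCen.act_self {s : SUg 3 F q} {v : Fin 3 → F} (h : IsCen q s v) : act s v = v :=
  h.2.2.2.2 v h.2.1

include c in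
theorem IsCen.herm_eq_zero {s : SUg 3 F q} {v u : Fin 3 → F} (h : IsCen q s v)
    (hu : act s u = u) : Cfsg.hermForm 3 F q u v = 0 := by
  obtain ⟨x₀, hx₀⟩ := h.2.2.1
  rw [← hx₀, c.sub_right]
  conv_lhs => enter [1]; rw [← hu]
  rw [herm_act, sub_self]

include c in
theorem IsCen.of_smul {s : SUg 3 F q} {v w : Fin 3 → F} (hw : IsCen q s w) (hv : v ≠ 0) {μ : F}
    (h : v = μ • w) : IsCen q s v := by
  obtain ⟨hw0, hww, ⟨x₀, hx₀⟩, himg, hfix⟩ := hw
  have hμ : μ ≠ 0 := by rintro rfl; exact hv (by rw [h, zero_smul])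
  refine ⟨hv, by rw [h, c.smul_left, c.smul_right, hww, mul_zero, mul_zero],
    ⟨μ • x₀, by rw [act_smul, ← smul_sub, hx₀, h]⟩, fun x => ?_, fun x hx => hfix x ?_⟩
  · obtain ⟨ν, hν⟩ := himg x
    exact ⟨ν / μ, by rw [hν, h, smul_smul, div_mul_cancel₀ _ hμ]⟩
  · rw [h, c.smul_right] at hx
    exact (mul_eq_zero.1 hx).resolve_left fun e => hμ (c.eq_zero e)

include c in
/-- Commuting involutions have the same centre. -/
theorem IsCen.of_commute (h2 : (2 : F) = 0) {s t : SUg 3 F q} {v : Fin 3 → F} (hv : IsCen q s v)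
    (hst : s * t = t * s) (ht1 : t ≠ 1) (ht : t * t = 1) : IsCen q t v := by
  obtain ⟨w, hw⟩ := exists_isCen c h2 ht1 ht
  suffices h0 : Cfsg.hermForm 3 F q v w = 0 by
    obtain ⟨μ, hμ⟩ := exists_smul_of_isotropic c hv.2.1 hw.2.1 h0 hw.1
    exact hw.of_smul c hv.1 hμ
  obtain ⟨a, ha⟩ := hv.2.2.2.1 w
  by_cases ha0 : a = 0
  · rw [ha0, zero_smul, sub_eq_zero] at ha
    rw [c.herm_symm w v, hv.herm_eq_zero c ha, map_zero]
  · refine hw.herm_eq_zero c ?_
    have hts : act t (act s w) = act s w := by rw [← act_mul, ← hst, act_mul, hw.act_self]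
    have e : v = a⁻¹ • (act s w + (-1 : F) • w) := by
      rw [neg_one_smul, ← sub_eq_add_neg, ha, smul_smul, inv_mul_cancel₀ ha0, one_smul]
    rw [e, act_smul, act_add, hts, act_smul, hw.act_self]

/-- Involutions with the same centre commute. -/
theorem IsCen.commute {s t : SUg 3 F q} {v : Fin 3 → F} (hs : IsCen q s v) (ht : IsCen q t v) :
    s * t = t * s := by
  refine ext_act fun k => ?_
  set x : Fin 3 → F := Pi.single k 1
  obtain ⟨a, ha⟩ := hs.2.2.2.1 x
  obtain ⟨b, hb⟩ := ht.2.2.2.1 x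
  rw [sub_eq_iff_eq_add'] at ha hb
  rw [act_mul, act_mul]
  conv_lhs => rw [hb, act_add, act_smul, hs.act_self, ha]
  conv_rhs => rw [ha, act_add, act_smul, ht.act_self, hb]
  abel

include c in
theorem exists_fixed_even [Finite F] (h2 : (2 : F) = 0) {K : Type*} [Field K] (h2K : (2 : K) = 0)
    (i : SL(2, K) →* SUg 3 F q) (hi : Function.Injective i) :
    ∃ p, Cfsg.hermForm 3 F q p p = 1 ∧ ∀ x, act (i x) p = p := by
  have hup0 : ∀ t : K, upS t = 1 → t = 0 := fun t h =>
    upS_injective (h.trans (SpecialLinearGroup.transvection_coeff_zero _).symm)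
  have hlow0 : ∀ t : K, lowS t = 1 → t = 0 := fun t h =>
    lowS_injective (h.trans (SpecialLinearGroup.transvection_coeff_zero _).symm)
  have hdouble : ∀ t : K, t + t = 0 := fun t => by linear_combination t * h2K
  have hupsq : ∀ t : K, i (upS t) * i (upS t) = 1 := fun t => by
    rw [← map_mul, ← upS_add, hdouble, show upS (0 : K) = 1 from
      SpecialLinearGroup.transvection_coeff_zero _, map_one]
  have hlowsq : ∀ t : K, i (lowS t) * i (lowS t) = 1 := fun t => by
    rw [← map_mul, ← lowS_add, hdouble, show lowS (0 : K) = 1 from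
      SpecialLinearGroup.transvection_coeff_zero _, map_one]
  have hune : ∀ t : K, t ≠ 0 → i (upS t) ≠ 1 := fun t ht e => ht (hup0 t (hi (e.trans i.map_one.symm)))
  have hlne : ∀ t : K, t ≠ 0 → i (lowS t) ≠ 1 := fun t ht e =>
    ht (hlow0 t (hi (e.trans i.map_one.symm)))
  obtain ⟨v, hv⟩ := exists_isCen c h2 (hune 1 one_ne_zero) (hupsq 1)
  obtain ⟨w, hw⟩ := exists_isCen c h2 (hlne 1 one_ne_zero) (hlowsq 1)
  have hvs : ∀ t : K, t ≠ 0 → IsCen q (i (upS t)) v := fun t ht =>
    hv.of_commute c h2 (by rw [← map_mul, ← map_mul, ← upS_add, ← upS_add, add_comm]) (hune t ht)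
      (hupsq t)
  have hws : ∀ t : K, t ≠ 0 → IsCen q (i (lowS t)) w := fun t ht =>
    hw.of_commute c h2 (by rw [← map_mul, ← map_mul, ← lowS_add, ← lowS_add, add_comm]) (hlne t ht)
      (hlowsq t)
  have hvw : Cfsg.hermForm 3 F q v w ≠ 0 := by
    intro h0
    obtain ⟨μ, hμ⟩ := exists_smul_of_isotropic c hv.2.1 hw.2.1 h0 hw.1
    refine not_commute_up_low (F := K) (hi ?_)
    rw [map_mul, map_mul]
    exact hv.commute (hw.of_smul c hv.1 hμ)
  set p₀ := cr c v w with hp₀
  have hp0 : Cfsg.hermForm 3 F q p₀ p₀ ≠ 0 := by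
    rw [hp₀, herm_cr_self, hv.2.1, hw.2.1, c.herm_symm v w, zero_mul, zero_sub, neg_ne_zero]
    exact mul_ne_zero hvw fun e => hvw (c.eq_zero e)
  obtain ⟨a, -, ha⟩ := exists_unit_smul c hp0
  refine ⟨a • p₀, ha, fun x => ?_⟩
  have htop : (Fx (q := q) (a • p₀)).comap i = ⊤ := by
    refine sl2_eq_top _ (fun t => ?_) fun t => ?_
    · show act (i (upS t)) (a • p₀) = a • p₀
      by_cases ht : t = 0
      · rw [ht, show upS (0 : K) = 1 from SpecialLinearGroup.transvection_coeff_zero _, map_one,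
          act_one]
      · exact (hvs t ht).2.2.2.2 _ (by rw [c.smul_left, herm_cr_left, mul_zero])
    · show act (i (lowS t)) (a • p₀) = a • p₀
      by_cases ht : t = 0
      · rw [ht, show lowS (0 : K) = 1 from SpecialLinearGroup.transvection_coeff_zero _, map_one,
          act_one]
      · exact (hws t ht).2.2.2.2 _ (by rw [c.smul_left, herm_cr_right, mul_zero])
  exact mem_Fx.1 (show x ∈ (Fx (q := q) (a • p₀)).comap i from htop ▸ Subgroup.mem_top x)

include c in
theorem exists_fixed_odd [Finite F] (hF : Nat.card F = q ^ 2) (h2 : (2 : F) ≠ 0) {K : Type*}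
    [Field K] (h2K : (2 : K) ≠ 0) (hperf : commutator SL(2, K) = ⊤)
    (i : SL(2, K) →* SUg 3 F q) (hi : Function.Injective i) :
    ∃ p, Cfsg.hermForm 3 F q p p = 1 ∧ ∀ x, act (i x) p = p := by
  let z : SL(2, K) := ⟨!![-1, 0; 0, -1], by simp [det_fin_two]⟩
  have hz1 : z ≠ 1 := fun e => by
    have := congrArg (fun g : SL(2, K) => (g : Matrix (Fin 2) (Fin 2) K) 0 0) e
    simp [z] at this
    exact h2K (by linear_combination -this)
  have hzz : z * z = 1 := by
    apply Subtype.ext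
    show (!![-1, 0; 0, -1] : Matrix (Fin 2) (Fin 2) K) * !![-1, 0; 0, -1] = 1
    ext a b; fin_cases a <;> fin_cases b <;> simp [Matrix.mul_apply, Fin.sum_univ_two]
  have hzc : ∀ x : SL(2, K), z * x = x * z := fun x => by
    apply Subtype.ext
    show (!![-1, 0; 0, -1] : Matrix (Fin 2) (Fin 2) K) * x.1 = x.1 * !![-1, 0; 0, -1]
    ext a b; fin_cases a <;> fin_cases b <;> simp [Matrix.mul_apply, Fin.sum_univ_two]
  obtain ⟨d, hd, hzd⟩ := SUThree.exists_eq_rv c h2 hF (i z)
    (fun e => hz1 (hi (e.trans i.map_one.symm))) (by rw [← map_mul, hzz, map_one])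
  have hrv : ∀ x, act (i z) x = (2 * Cfsg.hermForm 3 F q x d) • d - x := fun x => by
    rw [hzd]; exact SUThree.ap_rv c d hd x
  have hd1 : Cfsg.hermForm 3 F q d d = 1 := hd
  have hfix : act (i z) d = d := by rw [hrv, hd1, mul_one, two_smul]; abel
  have hline : ∀ x, act (i x) d = Cfsg.hermForm 3 F q (act (i x) d) d • d := fun x => by
    have e := hrv (act (i x) d)
    rw [← act_mul, ← map_mul, hzc, map_mul, act_mul, hfix] at e
    rw [eq_sub_iff_add_eq, ← two_smul F, mul_smul] at e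
    exact smul_right_injective _ h2 e
  let χ : SL(2, K) →* F :=
    { toFun := fun x => Cfsg.hermForm 3 F q (act (i x) d) d
      map_one' := by rw [map_one, act_one, hd1]
      map_mul' := fun x y => by
        rw [map_mul, act_mul]
        conv_lhs => rw [hline y, act_smul, c.smul_left]
        ring }
  refine ⟨d, hd1, fun x => ?_⟩
  have hx : x ∈ χ.toHomUnits.ker := by
    have := Abelianization.commutator_subset_ker χ.toHomUnits
    exact this (by rw [hperf]; exact Subgroup.mem_top x)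
  have h1 : χ x = 1 := by
    rw [MonoidHom.mem_ker] at hx
    simpa using congrArg Units.val hx
  rw [hline x]
  show χ x • d = d
  rw [h1, one_smul]

include c in
/-- A copy of `SU 2` inside `SU 3` fixes a vector of norm one. -/
theorem exists_fixed [Finite F] (hF : Nat.card F = q ^ 2) (hq : 3 < q)
    (i : SUg 2 F q →* SUg 3 F q) (hi : Function.Injective i) :
    ∃ p, Cfsg.hermForm 3 F q p p = 1 ∧ ∀ x, act (i x) p = p := by
  classical
  have hK : Nat.card c.fixed = q := c.card_fixed hF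
  obtain ⟨φ⟩ := nonempty_su_two_equiv (K := c.fixed) hF hK
  have hji : Function.Injective (i.comp φ.symm.toMonoidHom) := hi.comp φ.symm.injective
  obtain ⟨p, hp, h⟩ : ∃ p, Cfsg.hermForm 3 F q p p = 1 ∧
      ∀ x, act (i.comp φ.symm.toMonoidHom x) p = p := by
    by_cases h2 : (2 : F) = 0
    · exact exists_fixed_even c h2 (Subtype.ext (show (((2 : c.fixed)) : F) = ((0 : c.fixed) : F) from h2)) _ hji
    · have := Fintype.ofFinite c.fixed
      obtain ⟨a, -, ha⟩ := Finset.exists_mem_notMem_of_card_lt_card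
        (s := ({0, 1, -1} : Finset c.fixed)) (t := Finset.univ) (by
          rw [Finset.card_univ, ← Nat.card_eq_fintype_card, hK]
          exact (Finset.card_le_three).trans_lt hq)
      simp only [Finset.mem_insert, Finset.mem_singleton, not_or] at ha
      refine exists_fixed_odd c hF h2 (fun e => h2 (show ((2 : c.fixed) : F) = ((0 : c.fixed) : F) from congrArg Subtype.val e))
        (SL2.commutator_eq_top ha.1 fun e => ?_) _ hji
      rcases sq_eq_one_iff.1 e with e | e
      exacts [ha.2.1 e, ha.2.2 e]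
  exact ⟨p, hp, fun x => by simpa using h (φ x)⟩

end CfsgLib.SectRank.Phan
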