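import Cfsg.Agent.Lib.SectRank.PhanFixed

/-!
Two copies of `SU 2` generating `SU 3`, with commuting cyclic subgroups of order `q + 1`, form a
standard pair.
-/

set_option autoImplicit false
set_option linter.unusedSectionVars false

open Matrix

namespace CfsgLib.SectRank.Phan

open CfsgLib.ClassicalForms CfsgLib.SUAmalgam

variable {F : Type*} [Field F] {q : ℕ} (c : Conj F q)

include c in
/-- An element of order `q + 1` fixing a vector of norm one fixes nothing else. -/
theorem fixed_line [Finite F] (hF : Nat.card F = q ^ 2) {p : Fin 3 → F}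
    (hp : Cfsg.hermForm 3 F q p p = 1) {a : SUg 3 F q} (ha : orderOf a = q + 1) (hap : act a p = p)
    {x : Fin 3 → F} (hx : act a x = x) : x = Cfsg.hermForm 3 F q x p • p := by
  have hq := two_le_q hF
  set x' := x - Cfsg.hermForm 3 F q x p • p with hx'
  by_contra hne
  have hx'0 : x' ≠ 0 := fun e => hne (sub_eq_zero.1 e)
  have hfix : act a x' = x' := by
    rw [hx', sub_eq_add_neg, ← neg_smul, act_add, act_smul, hx, hap]
  have hxp : Cfsg.hermForm 3 F q x' p = 0 := by
    rw [hx', c.sub_left, c.smul_left, hp, mul_one, sub_self]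
  have hcr : cr c p x' ≠ 0 := fun e => by
    obtain ⟨μ, hμ⟩ := exists_smul_of_cr_eq_zero c e hx'0
    have h1 : Cfsg.hermForm 3 F q (μ • x') p = 1 := by rw [← hμ]; exact hp
    rw [c.smul_left, hxp, mul_zero] at h1
    exact zero_ne_one h1
  set z := cr c p x' with hz
  have himg : ∀ y, ∃ μ : F, act a y - y = μ • z := fun y =>
    exists_smul_cr c
      (by rw [c.sub_left]; conv_lhs => enter [1]; rw [← hap]
          rw [herm_act, sub_self])
      (by rw [c.sub_left]; conv_lhs => enter [1]; rw [← hfix]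
          rw [herm_act, sub_self]) hcr
  choose μ hμ using fun k : Fin 3 => himg (Pi.single k 1)
  have hmat : mat a = 1 + vecMulVec z μ := by
    refine Matrix.ext_of_mulVec_single fun k => ?_
    show act a (Pi.single k 1) = _
    rw [add_mulVec, one_mulVec, vecMulVec_mulVec]
    rw [← sub_eq_iff_eq_add', hμ k]
    funext l
    simp [dotProduct_single, mul_comm]
  have hμz : μ ⬝ᵥ z = 0 := by
    have hd : (mat a).det = 1 := a.1.2
    rw [hmat, vecMulVec_eq Unit, det_one_add_replicateCol_mul_replicateRow, add_eq_left] at hd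
    exact hd
  have hact : ∀ y, act a y = y + (μ ⬝ᵥ y) • z := fun y => by
    rw [act, hmat, add_mulVec, one_mulVec, vecMulVec_mulVec]
    congr 1
    funext l
    simp [mul_comm]
  have haz : act a z = z := by rw [hact, hμz, zero_smul, add_zero]
  have hpow : ∀ (n : ℕ) (y : Fin 3 → F), act (a ^ n) y = y + (n : F) • ((μ ⬝ᵥ y) • z) := by
    intro n
    induction n with
    | zero => intro y; rw [pow_zero, act_one, Nat.cast_zero, zero_smul, add_zero]
    | succ n ih =>
      intro y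
      rw [pow_succ', act_mul, ih, act_add, act_smul, act_smul, haz, hact y]
      push_cast
      rw [add_smul, one_smul]
      abel
  have hq0 : (q : F) = 0 := by
    have := Fintype.ofFinite F
    have h0 := FiniteField.cast_card_eq_zero F
    rw [← Nat.card_eq_fintype_card, hF, Nat.cast_pow] at h0
    exact pow_eq_zero_iff two_ne_zero |>.1 h0
  have haq : a ^ q = 1 := ext_act fun k => by rw [hpow, hq0, zero_smul, add_zero, act_one]
  have h1 : a = 1 := by
    have h := pow_orderOf_eq_one a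
    rwa [ha, pow_succ, haq, one_mul] at h
  rw [h1, orderOf_one] at ha
  omega

theorem card_Blk (i : ℕ) (hi : i + 2 ≤ 3) :
    Nat.card ↥(Blk c 3 i 2) = Nat.card (SUg 2 F q) := by
  rw [← range_emb c i hi]
  exact (Nat.card_congr (MonoidHom.ofInjective (emb_injective c i hi)).toEquiv).symm

/-- The standard position of two generating copies of `SU 2` in `SU 3`. -/
theorem exists_conj_blocks [Finite F] (hF : Nat.card F = q ^ 2) (hq : 3 < q)
    (A B : Subgroup (SUg 3 F q)) (eA : SUg 2 F q ≃* ↥A) (eB : SUg 2 F q ≃* ↥B) (hgen : A ⊔ B = ⊤)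
    {a b : SUg 3 F q} (ha : a ∈ A) (hb : b ∈ B) (hao : orderOf a = q + 1)
    (hbo : orderOf b = q + 1) (hab : a * b = b * a) :
    ∃ g : SUg 3 F q, (Blk c 3 0 2).map (MulAut.conj g).toMonoidHom = A ∧
      (Blk c 3 1 2).map (MulAut.conj g).toMonoidHom = B := by
  have hfA : ∀ (A : Subgroup (SUg 3 F q)) (eA : SUg 2 F q ≃* ↥A),
      ∃ p, Cfsg.hermForm 3 F q p p = 1 ∧ A ≤ Fx (q := q) p := by
    intro A eA
    obtain ⟨p, hp, h⟩ := exists_fixed c hF hq (A.subtype.comp eA.toMonoidHom)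
      (A.subtype_injective.comp eA.injective)
    exact ⟨p, hp, fun x hx => mem_Fx.2 (by simpa using h (eA.symm ⟨x, hx⟩))⟩
  obtain ⟨p, hp, hAp⟩ := hfA A eA
  obtain ⟨p', hp', hBp⟩ := hfA B eB
  have hap : act a p = p := hAp ha
  have hbp' : act b p' = p' := hBp hb
  have hpp : Cfsg.hermForm 3 F q p p' = 0 := by
    by_contra hne
    have hbp : act b p = Cfsg.hermForm 3 F q (act b p) p • p :=
      fixed_line c hF hp hao hap (by rw [← act_mul, hab, act_mul, hap])
    set l := Cfsg.hermForm 3 F q (act b p) p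
    have hl : l = 1 := by
      have h := herm_act b p p'
      rw [hbp', hbp, c.smul_left] at h
      exact mul_left_eq_self₀.1 h |>.resolve_right hne
    rw [hl, one_smul] at hbp
    have e := fixed_line c hF hp' hbo hbp' hbp
    have hB : B ≤ Fx (q := q) p := fun x hx => by
      show act x p = p
      rw [e, act_smul, show act x p' = p' from hBp hx]
    refine Fx_ne_top c hF (fun e0 => ?_) (top_le_iff.1 (hgen ▸ sup_le hAp hB))
    rw [e0, c.zero_left] at hp
    exact zero_ne_one hp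
  obtain ⟨g, hg0, hg2⟩ := exists_frame c hp hp' hpp
  have hcard : ∀ (A : Subgroup (SUg 3 F q)) (eA : SUg 2 F q ≃* ↥A) (i : ℕ) (hi : i + 2 ≤ 3)
      (j : Fin 3), (∀ k : Fin 3, ((k : ℕ) < i ∨ i + 2 ≤ k) → k = j) →
      A ≤ Fx (q := q) (act g (Pi.single j 1)) →
      (Blk c 3 i 2).map (MulAut.conj g).toMonoidHom = A := by
    intro A eA i hi j hj hA
    have hle : A ≤ (Blk c 3 i 2).map (MulAut.conj g).toMonoidHom := fun x hx =>
      ⟨g⁻¹ * x * g, fun k hk => by
        rw [hj k hk, act_mul, act_mul, show act x _ = _ from hA hx, act_inv_act],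
        by simp [mul_assoc]⟩
    refine (Subgroup.eq_of_le_of_card_ge hle ?_).symm
    rw [Subgroup.card_map_of_injective (MulAut.conj g).injective, card_Blk c i hi,
      Nat.card_congr eA.toEquiv]
  refine ⟨g, hcard A eA 0 le_add_self 2 (fun k hk => Fin.ext (by
    have := k.isLt
    show (k : ℕ) = 2
    omega)) (by rw [hg2]; exact hAp), hcard B eB 1 le_rfl 0 (fun k hk => Fin.ext (by
    have := k.isLt
    show (k : ℕ) = 0
    omega)) (by rw [hg0]; exact hBp)⟩

include c in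
/-- Two copies of `SU 2` generating a copy of `SU 3` form a standard pair. -/
theorem isStandardUnitaryPair [Finite F] (hF : Nat.card F = q ^ 2) (hq : 3 < q) {G : Type*}
    [Group G] {U₁ U₂ D₁ D₂ : Subgroup G} (e₁ : SUg 2 F q ≃* ↥U₁) (e₂ : SUg 2 F q ≃* ↥U₂)
    (e₃ : ↥(U₁ ⊔ U₂) ≃* SUg 3 F q) (hD₁ : D₁ ≤ U₁) (hD₂ : D₂ ≤ U₂) (hc₁ : IsCyclic ↥D₁)
    (hc₂ : IsCyclic ↥D₂) (hn₁ : Nat.card ↥D₁ = q + 1) (hn₂ : Nat.card ↥D₂ = q + 1)
    (hcomm : ∀ x ∈ D₁, ∀ y ∈ D₂, x * y = y * x) :
    Cfsg.IsStandardUnitaryPair (U₁ ⊔ U₂) U₁ U₂ F q := by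
  let ι : SUg 3 F q →* G := (U₁ ⊔ U₂).subtype.comp e₃.symm.toMonoidHom
  have hι : Function.Injective ι := (U₁ ⊔ U₂).subtype_injective.comp e₃.symm.injective
  have hr : ι.range = U₁ ⊔ U₂ := by
    ext x
    exact ⟨by rintro ⟨y, rfl⟩; exact (e₃.symm y).2, fun hx => ⟨e₃ ⟨x, hx⟩, by simp [ι]⟩⟩
  have hA : (U₁.comap ι).map ι = U₁ := Subgroup.map_comap_eq_self (hr ▸ le_sup_left)
  have hB : (U₂.comap ι).map ι = U₂ := Subgroup.map_comap_eq_self (hr ▸ le_sup_right)
  have hgen : U₁.comap ι ⊔ U₂.comap ι = ⊤ := by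
    refine Subgroup.map_injective hι ?_
    rw [Subgroup.map_sup, hA, hB, ← MonoidHom.range_eq_map, hr]
  have hpre : ∀ (D : Subgroup G), IsCyclic ↥D → Nat.card ↥D = q + 1 → D ≤ U₁ ⊔ U₂ →
      ∃ a, ι a ∈ D ∧ orderOf a = q + 1 := by
    intro D hc hn hD
    obtain ⟨d, hd⟩ := IsCyclic.exists_ofOrder_eq_natCard (α := ↥D)
    obtain ⟨a, ha⟩ : (d : G) ∈ ι.range := hr ▸ hD d.2
    exact ⟨a, ha ▸ d.2, by rw [← orderOf_injective ι hι, ha, Subgroup.orderOf_coe, hd, hn]⟩
  obtain ⟨a, ha, hao⟩ := hpre D₁ hc₁ hn₁ (hD₁.trans le_sup_left)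
  obtain ⟨b, hb, hbo⟩ := hpre D₂ hc₂ hn₂ (hD₂.trans le_sup_right)
  obtain ⟨g, hgA, hgB⟩ := exists_conj_blocks c hF hq (U₁.comap ι) (U₂.comap ι)
    (e₁.trans ((MulEquiv.subgroupCongr hA.symm).trans (Subgroup.equivMapOfInjective _ ι hι).symm))
    (e₂.trans ((MulEquiv.subgroupCongr hB.symm).trans (Subgroup.equivMapOfInjective _ ι hι).symm))
    hgen (hD₁ ha) (hD₂ hb) hao hbo (hι (by rw [map_mul, map_mul]; exact hcomm _ ha _ hb))
  refine Or.inl ⟨(MulAut.conj g).trans e₃.symm, ?_, ?_⟩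
  · rw [suBlock_eq c (r := 2) 0 (fun k => by fin_cases k <;> simp)]
    conv_rhs => rw [← hA, ← hgA, Subgroup.map_map]
    rfl
  · rw [suBlock_eq c (r := 2) 1 (fun k => by fin_cases k <;> simp)]
    conv_rhs => rw [← hB, ← hgB, Subgroup.map_map]
    rfl

end CfsgLib.SectRank.Phan
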