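/-
SectRank: the automorphisms of the quaternion group of order 8 and the semidirect product
of Q8 by S3 (isomorphic to GL(2,3)).
-/
import Mathlib

set_option autoImplicit false

namespace CfsgLib.SectRank

/-- The quaternion group of order 8. -/
abbrev Q8 : Type := QuaternionGroup 2

/-- The dihedral group of order 6. -/
abbrev D3 : Type := DihedralGroup 3

/-- The endomorphism of `Q8` determined by the images `u` of `a 1` and `w` of `xa 0`. -/
def q8map (u w : Q8) : Q8 → Q8
  | QuaternionGroup.a i => u ^ i.val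
  | QuaternionGroup.xa i => w * u ^ i.val

/-- Permutation `i ↦ j ↦ k ↦ i`. -/
def q8alpha (g : Q8) : Q8 := q8map (QuaternionGroup.xa 0) (QuaternionGroup.xa 3) g

/-- The involution `i ↦ -j`, `j ↦ -i`. -/
def q8beta (g : Q8) : Q8 := q8map (QuaternionGroup.xa 2) (QuaternionGroup.a 3) g

/-- The action of `D3` on `Q8` as functions. -/
def q8act : D3 → Q8 → Q8
  | DihedralGroup.r k => q8alpha^[k.val]
  | DihedralGroup.sr k => fun g => q8beta (q8alpha^[k.val] g)

theorem q8act_mul : ∀ (h : D3) (x y : Q8), q8act h (x * y) = q8act h x * q8act h y := by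
  decide +kernel

theorem q8act_comp : ∀ (h h' : D3) (x : Q8), q8act (h * h') x = q8act h (q8act h' x) := by
  decide +kernel

theorem q8act_one (x : Q8) : q8act 1 x = x := rfl

/-- The action of `D3` on `Q8` by automorphisms. -/
def q8aut : D3 →* MulAut Q8 where
  toFun h :=
    { toFun := q8act h
      invFun := q8act h⁻¹
      left_inv := fun x => by rw [← q8act_comp, inv_mul_cancel, q8act_one]
      right_inv := fun x => by rw [← q8act_comp, mul_inv_cancel, q8act_one]
      map_mul' := q8act_mul h }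
  map_one' := MulEquiv.ext q8act_one
  map_mul' h h' := MulEquiv.ext (q8act_comp h h')

/-- `Q8 ⋊ S3`. -/
abbrev Q8D3 : Type := Q8 ⋊[q8aut] D3

/-- Inner automorphisms followed by the action of `D3`. -/
def q8psi : Q8D3 →* MulAut Q8 :=
  SemidirectProduct.lift MulAut.conj q8aut (fun h => MonoidHom.ext fun r => MulEquiv.ext fun g => by
    show q8aut h r * g * (q8aut h r)⁻¹ = q8aut h (r * (q8aut h).symm g * r⁻¹)
    rw [map_mul, map_mul, map_inv, MulEquiv.apply_symm_apply])

theorem q8psi_apply (r : Q8) (h : D3) (g : Q8) :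
    q8psi ⟨r, h⟩ g = r * q8act h g * r⁻¹ := rfl

/-- The iterates of `g ↦ r * h(g) * r⁻¹`. -/
def q8iter (r : Q8) (h : D3) : ℕ → Q8 → Q8
  | 0, g => g
  | n + 1, g => r * q8act h (q8iter r h n g) * r⁻¹

theorem q8psi_pow_apply (r : Q8) (h : D3) :
    ∀ (n : ℕ) (g : Q8), (q8psi ⟨r, h⟩ ^ n) g = q8iter r h n g := by
  intro n
  induction n with
  | zero => intro g; rfl
  | succ n ih =>
    intro g
    rw [pow_succ']
    show q8psi ⟨r, h⟩ ((q8psi ⟨r, h⟩ ^ n) g) = r * q8act h (q8iter r h n g) * r⁻¹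
    rw [ih, q8psi_apply]

theorem eq_a_one_pow (i : ZMod (2 * 2)) :
    (QuaternionGroup.a i : Q8) = QuaternionGroup.a 1 ^ i.val := by
  revert i; decide

theorem eq_xa_zero_mul_pow (i : ZMod (2 * 2)) :
    (QuaternionGroup.xa i : Q8) = QuaternionGroup.xa 0 * QuaternionGroup.a 1 ^ i.val := by
  revert i; decide

/-- Automorphisms of `Q8` are determined by the images of two generators. -/
theorem q8_aut_ext {φ ψ : MulAut Q8} (h1 : φ (QuaternionGroup.a 1) = ψ (QuaternionGroup.a 1))
    (h2 : φ (QuaternionGroup.xa 0) = ψ (QuaternionGroup.xa 0)) : φ = ψ := by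
  refine MulEquiv.ext fun g => ?_
  rcases g with i | i
  · rw [eq_a_one_pow, map_pow, map_pow, h1]
  · rw [eq_xa_zero_mul_pow, map_mul, map_mul, map_pow, map_pow, h1, h2]

theorem q8_pairs : ∀ u w : Q8, u * w ≠ w * u → ∃ (r : Q8) (h : D3),
    r * q8act h (QuaternionGroup.a 1) * r⁻¹ = u ∧
    r * q8act h (QuaternionGroup.xa 0) * r⁻¹ = w := by
  decide +kernel

theorem q8psi_surjective : Function.Surjective q8psi := by
  intro φ
  obtain ⟨r, h, h1, h2⟩ := q8_pairs (φ (QuaternionGroup.a 1)) (φ (QuaternionGroup.xa 0)) (by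
    intro he
    rw [← map_mul, ← map_mul] at he
    exact absurd (φ.injective he) (by decide))
  exact ⟨⟨r, h⟩, q8_aut_ext h1 h2⟩

theorem q8psi_eq_one_iff' : ∀ (r : Q8) (h : D3),
    (r * q8act h (QuaternionGroup.a 1) * r⁻¹ = QuaternionGroup.a 1 ∧
      r * q8act h (QuaternionGroup.xa 0) * r⁻¹ = QuaternionGroup.xa 0) ↔
    h = 1 ∧ (r = 1 ∨ r = QuaternionGroup.a 2) := by
  decide +kernel

theorem q8psi_eq_one_iff (r : Q8) (h : D3) :
    q8psi ⟨r, h⟩ = 1 ↔ h = 1 ∧ (r = 1 ∨ r = QuaternionGroup.a 2) := by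
  rw [← q8psi_eq_one_iff']
  exact ⟨fun e => ⟨DFunLike.congr_fun e (QuaternionGroup.a 1),
    DFunLike.congr_fun e (QuaternionGroup.xa 0)⟩, fun ⟨h1, h2⟩ => q8_aut_ext h1 h2⟩

theorem card_Q8D3 : Nat.card Q8D3 = 48 := by
  rw [SemidirectProduct.card, Nat.card_eq_fintype_card, QuaternionGroup.card, DihedralGroup.nat_card]

theorem card_mulAut_Q8 : Nat.card (MulAut Q8) = 24 := by
  classical
  haveI : Finite Q8D3 := Nat.finite_of_card_ne_zero (by rw [card_Q8D3]; norm_num)
  have hk : Nat.card q8psi.ker = 2 := by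
    have hs : (q8psi.ker : Set Q8D3) = {1, ⟨QuaternionGroup.a 2, 1⟩} := by
      ext ⟨r, h⟩
      simp only [SetLike.mem_coe, MonoidHom.mem_ker, q8psi_eq_one_iff, Set.mem_insert_iff,
        Set.mem_singleton_iff, SemidirectProduct.ext_iff, SemidirectProduct.one_left,
        SemidirectProduct.one_right]
      tauto
    rw [show Nat.card q8psi.ker = Nat.card (q8psi.ker : Set Q8D3) from rfl, Nat.card_coe_set_eq, hs,
      Set.ncard_pair]
    intro h
    exact absurd (congrArg SemidirectProduct.left h) (by decide : (1 : Q8) ≠ QuaternionGroup.a 2)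
  have h := q8psi.ker.card_mul_index
  rw [hk, Subgroup.index_ker, MonoidHom.range_eq_top.2 q8psi_surjective, Subgroup.card_top,
    card_Q8D3] at h
  omega

theorem q8_exp_four : ∀ (r : Q8) (k : ZMod 3) (h : D3), h = 1 ∨ h = DihedralGroup.sr k →
    q8iter r h 4 (QuaternionGroup.a 1) = QuaternionGroup.a 1 ∧
    q8iter r h 4 (QuaternionGroup.xa 0) = QuaternionGroup.xa 0 := by
  decide +kernel

theorem q8_exp_four_rot : ∀ (r : Q8) (k : ZMod 3),
    q8iter r (DihedralGroup.r k) 4 (QuaternionGroup.a 1) = QuaternionGroup.a 1 →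
    q8iter r (DihedralGroup.r k) 4 (QuaternionGroup.xa 0) = QuaternionGroup.xa 0 → k = 0 := by
  decide +kernel

theorem q8_no_six : ∀ (r : Q8) (h : D3),
    q8iter r h 6 (QuaternionGroup.a 1) = QuaternionGroup.a 1 →
    q8iter r h 6 (QuaternionGroup.xa 0) = QuaternionGroup.xa 0 →
      (q8iter r h 2 (QuaternionGroup.a 1) = QuaternionGroup.a 1 ∧
        q8iter r h 2 (QuaternionGroup.xa 0) = QuaternionGroup.xa 0) ∨
      (q8iter r h 3 (QuaternionGroup.a 1) = QuaternionGroup.a 1 ∧
        q8iter r h 3 (QuaternionGroup.xa 0) = QuaternionGroup.xa 0) := by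
  decide +kernel

theorem q8_no_involution : ∀ (r : Q8) (k : ZMod 3),
    r * q8act (DihedralGroup.sr k) r * QuaternionGroup.a 2 ≠ 1 := by
  decide +kernel

/-- The matrices for `i`, `j`, an element of order 3 and a reflection in `GL(2,3)`. -/
def gI : GL (Fin 2) (ZMod 3) :=
  ⟨!![0, 2; 1, 0], !![0, 1; 2, 0], by decide +kernel, by decide +kernel⟩

def gJ : GL (Fin 2) (ZMod 3) :=
  ⟨!![1, 1; 1, 2], !![2, 2; 2, 1], by decide +kernel, by decide +kernel⟩

def gY : GL (Fin 2) (ZMod 3) :=
  ⟨!![1, 1; 0, 1], !![1, 2; 0, 1], by decide +kernel, by decide +kernel⟩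

def gT : GL (Fin 2) (ZMod 3) :=
  ⟨!![1, 2; 0, 2], !![1, 2; 0, 2], by decide +kernel, by decide +kernel⟩

def gl23left : Q8 → GL (Fin 2) (ZMod 3)
  | QuaternionGroup.a i => gI ^ i.val
  | QuaternionGroup.xa i => gJ * gI ^ i.val

def gl23right : D3 → GL (Fin 2) (ZMod 3)
  | DihedralGroup.r k => gY ^ k.val
  | DihedralGroup.sr k => gT * gY ^ k.val

theorem gl23left_mul : ∀ x y : Q8, gl23left (x * y) = gl23left x * gl23left y := by
  decide +kernel

theorem gl23right_mul : ∀ x y : D3, gl23right (x * y) = gl23right x * gl23right y := by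
  decide +kernel

theorem gl23_compat : ∀ (h : D3) (x : Q8),
    gl23left (q8act h x) * gl23right h = gl23right h * gl23left x := by
  decide +kernel

theorem gl23_ker : ∀ (r : Q8) (h : D3), gl23left r * gl23right h = 1 → r = 1 ∧ h = 1 := by
  decide +kernel

theorem nonempty_Q8D3_equiv_GL : Nonempty (Q8D3 ≃* GL (Fin 2) (ZMod 3)) := by
  classical
  let F : Q8D3 →* GL (Fin 2) (ZMod 3) :=
    SemidirectProduct.lift (MonoidHom.mk' gl23left gl23left_mul)
      (MonoidHom.mk' gl23right gl23right_mul) (fun h => MonoidHom.ext fun x => by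
        show gl23left (q8act h x) = gl23right h * gl23left x * (gl23right h)⁻¹
        rw [← gl23_compat, mul_inv_cancel_right])
  haveI : Fact (Nat.Prime 3) := ⟨Nat.prime_three⟩
  have hinj : Function.Injective F := by
    rw [← MonoidHom.ker_eq_bot_iff, eq_bot_iff]
    rintro ⟨r, h⟩ hx
    obtain ⟨rfl, rfl⟩ := gl23_ker r h hx
    rfl
  have hc : Nat.card (GL (Fin 2) (ZMod 3)) = 48 := by
    rw [Matrix.card_GL_field, ZMod.card, Fin.prod_univ_two]
    norm_num
  haveI : Finite Q8D3 := Nat.finite_of_card_ne_zero (by rw [card_Q8D3]; norm_num)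
  exact ⟨MulEquiv.ofBijective F ((Nat.bijective_iff_injective_and_card F).2
    ⟨hinj, by rw [card_Q8D3, hc]⟩)⟩

end CfsgLib.SectRank
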