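import Cfsg.Agent.Lib.Amalgams.UnitaryField

/-!
Additive involutions of a field with `q ^ 2` elements, `q` even, that induce an additive map on norms
fix all norms.
-/

set_option autoImplicit false

namespace CfsgLib.SectRank.UnitaryCore

open CfsgLib.Amalgams

variable {F : Type*} [Field F]

/-- The norm. -/
def nrm (σ : F →+* F) (x : F) : F := x * σ x

/-- The polar form of the norm. -/
def pol (σ : F →+* F) (u v : F) : F := u * σ v + σ u * v

theorem nrm_add (σ : F →+* F) (u v : F) : nrm σ (u + v) = nrm σ u + nrm σ v + pol σ u v := by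
  simp only [nrm, pol, map_add]; ring

/-- The fixed field as an additive subgroup. -/
def fixAdd (σ : F →+* F) : AddSubgroup F where
  carrier := {x | σ x = x}
  zero_mem' := map_zero σ
  add_mem' {a b} ha hb := by
    simp only [Set.mem_setOf_eq] at ha hb ⊢; rw [map_add, ha, hb]
  neg_mem' {a} ha := by
    simp only [Set.mem_setOf_eq] at ha ⊢; rw [map_neg, ha]

theorem mem_fixAdd {σ : F →+* F} {x : F} : x ∈ fixAdd σ ↔ σ x = x := Iff.rfl

theorem card_dom_eq {A B : Type*} [AddCommGroup A] [AddCommGroup B] (f : A →+ B) :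
    Nat.card A = Nat.card f.ker * Nat.card f.range := by
  rw [← Nat.card_congr (QuotientAddGroup.quotientKerEquivRange f).toEquiv, mul_comm,
    ← AddSubgroup.card_eq_card_quotient_mul_card_addSubgroup]

/-- A finite additive subgroup containing `1` and closed under products is a subfield. -/
theorem pow_card_eq_self [Finite F] (K : AddSubgroup F) (h1 : (1 : F) ∈ K)
    (hmul : ∀ x ∈ K, ∀ y ∈ K, x * y ∈ K) :
    ∀ x ∈ K, x ^ Nat.card K = x ∧ x⁻¹ ∈ K := by
  classical
  have hpow : ∀ x ∈ K, ∀ m : ℕ, x ^ m ∈ K := by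
    intro x hx m
    induction m with
    | zero => simpa using h1
    | succ m ih => rw [pow_succ]; exact hmul _ ih _ hx
  have hinv : ∀ x ∈ K, x⁻¹ ∈ K := by
    intro x hx
    rcases eq_or_ne x 0 with rfl | hx0
    · simpa using K.zero_mem
    · have ho : orderOf (Units.mk0 x hx0) ≥ 1 := orderOf_pos (Units.mk0 x hx0)
      have e := pow_orderOf_eq_one (Units.mk0 x hx0)
      rw [← Nat.sub_add_cancel ho, pow_succ] at e
      have e' := congrArg Units.val e
      rw [Units.val_mul, Units.val_pow_eq_pow_val, Units.val_mk0, Units.val_one] at e'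
      rw [← eq_inv_of_mul_eq_one_left e']
      exact hpow _ hx _
  intro x hx
  refine ⟨?_, hinv x hx⟩
  rcases eq_or_ne x 0 with rfl | hx0
  · exact zero_pow Nat.card_pos.ne'
  let H : Subgroup Fˣ :=
    { carrier := {u | (u : F) ∈ K}
      one_mem' := by simpa using h1
      mul_mem' := fun ha hb => by simpa using hmul _ ha _ hb
      inv_mem' := fun ha => by simpa using hinv _ ha }
  have hH : Nat.card H = Nat.card K - 1 := by
    have e : H ≃ {y : K // y ≠ 0} :=
      { toFun := fun u => ⟨⟨((u : Fˣ) : F), u.2⟩, fun he => (u : Fˣ).ne_zero (congrArg Subtype.val he)⟩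
        invFun := fun y => ⟨Units.mk0 (y.1 : F) (fun he => y.2 (Subtype.ext he)), y.1.2⟩
        left_inv := fun u => Subtype.ext (Units.ext rfl)
        right_inv := fun y => rfl }
    have := Fintype.ofFinite K
    rw [Nat.card_congr e, Nat.card_eq_fintype_card, Fintype.card_subtype_compl,
      Fintype.card_subtype_eq, Nat.card_eq_fintype_card]
  have h : (⟨Units.mk0 x hx0, hx⟩ : H) ^ Nat.card H = 1 := pow_card_eq_one'
  have h' := congrArg (fun u : H => ((u : Fˣ) : F)) h
  simp only [SubgroupClass.coe_pow, Units.val_pow_eq_pow_val, Units.val_mk0, OneMemClass.coe_one,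
    Units.val_one] at h'
  rw [← Nat.sub_add_cancel (Nat.card_pos (α := K) : 1 ≤ Nat.card K), pow_succ, ← hH, h', one_mul]

variable {σ : F →+* F} {q : ℕ} (h : UniField F σ q)
include h

theorem two_eq_zero [Finite F] {n : ℕ} (hn : 1 ≤ n) (hq : q = 2 ^ n) : (2 : F) = 0 := by
  have := Fintype.ofFinite F
  have hc := FiniteField.cast_card_eq_zero F
  rw [← Nat.card_eq_fintype_card, h.card, hq] at hc
  push_cast at hc
  exact eq_zero_of_pow_eq_zero (eq_zero_of_pow_eq_zero hc)

theorem card_fixAdd [Finite F] (h2 : (2 : F) = 0) : Nat.card (fixAdd σ) = q := by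
  let T : F →+ F := AddMonoidHom.mk' (fun x => x + σ x) fun a b => by
    show a + b + σ (a + b) = _; rw [map_add]; ring
  have hk : T.ker = fixAdd σ := by
    ext x
    rw [AddMonoidHom.mem_ker, mem_fixAdd]
    show x + σ x = 0 ↔ _
    exact ⟨fun e => by linear_combination e - x * h2, fun e => by linear_combination e + x * h2⟩
  have hr : T.range = fixAdd σ := by
    ext x
    rw [AddMonoidHom.mem_range, mem_fixAdd]
    constructor
    · rintro ⟨y, rfl⟩
      show σ (y + σ y) = y + σ y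
      rw [map_add, h.conj_conj, add_comm]
    · intro hx
      obtain ⟨y, hy⟩ := h.exists_trace hx
      exact ⟨y, hy⟩
  have e := card_dom_eq T
  rw [hk, hr, h.card, sq] at e
  exact (Nat.mul_self_inj.1 e).symm

/-- An additive involution compatible with sums of norms fixes every norm. -/
theorem nrm_eq_of_involution [Finite F] {n : ℕ} (hn : 1 ≤ n) (hq : q = 2 ^ n) (ρ : F →+ F)
    (hρ : ∀ x, ρ (ρ x) = x)
    (hN : ∀ a b c, nrm σ a + nrm σ b = nrm σ c → nrm σ (ρ a) + nrm σ (ρ b) = nrm σ (ρ c)) :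
    ∀ x, nrm σ (ρ x) = nrm σ x := by
  classical
  have h2 := two_eq_zero h hn hq
  have : CharP F 2 := CharTwo.of_one_ne_zero_of_two_eq_zero one_ne_zero h2
  have hσσ := h.conj_conj
  have hneg : ∀ x : F, -x = x := fun x => by linear_combination -x * h2
  have hnfix : ∀ x, σ (nrm σ x) = nrm σ x := fun x => by
    rw [nrm, map_mul, hσσ, mul_comm]
  have hpolfix : ∀ u v, σ (pol σ u v) = pol σ u v := fun u v => by
    simp only [pol, map_add, map_mul, hσσ]; ring
  have hn0 : nrm σ (0 : F) = 0 := zero_mul _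
  have hwd : ∀ a c, nrm σ a = nrm σ c → nrm σ (ρ a) = nrm σ (ρ c) := by
    intro a c e
    have := hN a 0 c (by rw [hn0, add_zero, e])
    rwa [map_zero, hn0, add_zero] at this
  -- the induced map on norms
  have hex : ∀ x : fixAdd σ, ∃ a, nrm σ a = (x : F) := fun x => h.exists_norm x.2
  choose pre hpre using hex
  let τ : fixAdd σ →+ fixAdd σ := AddMonoidHom.mk'
    (fun x => ⟨nrm σ (ρ (pre x)), mem_fixAdd.2 (hnfix _)⟩) fun x y => by
      refine Subtype.ext ?_
      show nrm σ (ρ (pre (x + y))) = nrm σ (ρ (pre x)) + nrm σ (ρ (pre y))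
      exact (hN _ _ _ (by rw [hpre, hpre, hpre, AddSubgroup.coe_add])).symm
  have hτN : ∀ a (ha : nrm σ a ∈ fixAdd σ), (τ ⟨nrm σ a, ha⟩ : F) = nrm σ (ρ a) :=
    fun a ha => hwd _ _ (hpre ⟨nrm σ a, ha⟩)
  let δ : fixAdd σ →+ F := AddMonoidHom.mk' (fun x => (x : F) + (τ x : F)) fun x y => by
    show ((x + y : fixAdd σ) : F) + (τ (x + y) : F) = _
    rw [map_add, AddSubgroup.coe_add, AddSubgroup.coe_add]; abel
  let I := δ.range
  let W : AddSubgroup F := δ.ker.map (fixAdd σ).subtype
  have hWmem : ∀ x, x ∈ W ↔ ∃ a, nrm σ a = x ∧ nrm σ (ρ a) = x := by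
    intro x
    constructor
    · rintro ⟨y, hy, rfl⟩
      refine ⟨pre y, hpre y, ?_⟩
      have e : (y : F) + nrm σ (ρ (pre y)) = 0 := hy
      show nrm σ (ρ (pre y)) = (y : F)
      linear_combination e - (y : F) * h2
    · rintro ⟨a, rfl, ha⟩
      refine ⟨⟨nrm σ a, mem_fixAdd.2 (hnfix a)⟩, ?_, rfl⟩
      show nrm σ a + (τ ⟨nrm σ a, _⟩ : F) = 0
      rw [hτN, ha]
      linear_combination (nrm σ a) * h2
  have hWfix : W ≤ fixAdd σ := by rintro x ⟨y, -, rfl⟩; exact y.2
  have hqcard := card_fixAdd h h2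
  have hq0 : 0 < q := by rw [hq]; positivity
  have hWI : Nat.card W * Nat.card I = q := by
    rw [← hqcard, card_dom_eq δ]
    exact congrArg (· * _) (Nat.card_congr
      (AddSubgroup.equivMapOfInjective δ.ker _ Subtype.val_injective).toEquiv).symm
  have hIW : I ≤ W := by
    rintro x ⟨y, rfl⟩
    obtain ⟨c, hc⟩ := h.exists_norm (a := (y : F) + (τ y : F))
      (by rw [map_add, mem_fixAdd.1 y.2, mem_fixAdd.1 (τ y).2])
    refine (hWmem _).2 ⟨c, hc, ?_⟩
    have e := hN (pre y) (ρ (pre y)) c (by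
      show nrm σ (pre y) + nrm σ (ρ (pre y)) = nrm σ c
      rw [hpre]; exact hc.symm)
    rw [hρ] at e
    rw [← e, hpre]
    exact add_comm _ _
  intro x₀
  by_contra hne
  have hWlt : Nat.card W < q := by
    rcases lt_or_eq_of_le (hqcard ▸ AddSubgroup.card_le_of_le hWfix) with h' | h'
    · exact h'
    · exfalso
      have e : W = fixAdd σ := AddSubgroup.eq_of_le_of_card_ge hWfix (by rw [h', hqcard])
      obtain ⟨a, ha, ha'⟩ := (hWmem (nrm σ x₀)).1 (e ▸ mem_fixAdd.2 (hnfix x₀))
      exact hne (by rw [← hwd a x₀ ha, ha'])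
  -- fixed points and commutators of `ρ`
  let π : F →+ F := AddMonoidHom.mk' (fun x => x + ρ x) fun a b => by
    show a + b + ρ (a + b) = _; rw [map_add]; abel
  let V := π.ker
  let D := π.range
  have hV : ∀ v, v ∈ V → ρ v = v := fun v hv => by
    have e : v + ρ v = 0 := hv
    linear_combination e - v * h2
  have hDV : D ≤ V := by
    rintro x ⟨y, rfl⟩
    show y + ρ y + ρ (y + ρ y) = 0
    rw [map_add, hρ]
    linear_combination (y + ρ y) * h2
  have hcF : q ^ 2 = Nat.card V * Nat.card D := by rw [← h.card]; exact card_dom_eq π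
  have hNV : ∀ v ∈ V, nrm σ v ∈ W := fun v hv => (hWmem _).2 ⟨v, rfl, by rw [hV v hv]⟩
  have hBVV : ∀ u ∈ V, ∀ v ∈ V, pol σ u v ∈ W := fun u hu v hv => by
    have e : pol σ u v = nrm σ (u + v) - nrm σ u - nrm σ v := by rw [nrm_add]; ring
    rw [e]
    exact sub_mem (sub_mem (hNV _ (add_mem hu hv)) (hNV _ hu)) (hNV _ hv)
  have hBDV : ∀ d ∈ D, ∀ v ∈ V, pol σ d v ∈ I := by
    rintro _ ⟨y, rfl⟩ v hv
    refine ⟨⟨pol σ y v, mem_fixAdd.2 (hpolfix y v)⟩, ?_⟩
    show pol σ y v + (τ ⟨pol σ y v, _⟩ : F) = pol σ (y + ρ y) v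
    have e : (⟨pol σ y v, mem_fixAdd.2 (hpolfix y v)⟩ : fixAdd σ) =
        ⟨nrm σ (y + v), mem_fixAdd.2 (hnfix _)⟩ - ⟨nrm σ y, mem_fixAdd.2 (hnfix _)⟩ -
          ⟨nrm σ v, mem_fixAdd.2 (hnfix _)⟩ := Subtype.ext (by
      show pol σ y v = nrm σ (y + v) - nrm σ y - nrm σ v
      rw [nrm_add]; ring)
    rw [e, map_sub, map_sub, AddSubgroup.coe_sub, AddSubgroup.coe_sub, hτN, hτN, hτN, map_add,
      hV v hv, nrm_add]
    simp only [pol, map_add]
    ring
  let L : F → AddSubgroup F := fun d =>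
    { carrier := {x | x ∈ V ∧ pol σ d x = 0}
      zero_mem' := ⟨zero_mem V, by simp [pol]⟩
      add_mem' := fun {a b} ha hb => ⟨add_mem ha.1 hb.1, by
        have e1 := ha.2; have e2 := hb.2
        simp only [pol, map_add] at e1 e2 ⊢; linear_combination e1 + e2⟩
      neg_mem' := fun {a} ha => ⟨neg_mem ha.1, by
        have e1 := ha.2
        simp only [pol, map_neg] at e1 ⊢; linear_combination -e1⟩ }
  have hL : ∀ d, d ≠ 0 → ∀ x, x ∈ L d → σ (x / d) = x / d := by
    intro d hd x hx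
    have e : d * σ x + σ d * x = 0 := hx.2
    have hd' : σ d ≠ 0 := by simpa using hd
    rw [map_div₀, div_eq_div_iff hd' hd]
    linear_combination e - σ d * x * h2
  have hLle : ∀ d, d ≠ 0 → Nat.card (L d) ≤ Nat.card W := by
    intro d hd
    refine Nat.card_le_card_of_injective
      (fun x => ⟨nrm σ (x : F), hNV _ x.2.1⟩) fun x y e => Subtype.ext ?_
    have e' : nrm σ (x : F) = nrm σ (y : F) := congrArg Subtype.val e
    have ex := hL d hd _ x.2
    have ey := hL d hd _ y.2
    have hd' : σ d ≠ 0 := by simpa using hd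
    simp only [nrm] at e'
    have : ((x : F) / d) * ((x : F) / d) = ((y : F) / d) * ((y : F) / d) := by
      nth_rw 2 [← ex]; nth_rw 2 [← ey]
      rw [map_div₀, map_div₀, div_mul_div_comm, div_mul_div_comm, e']
    have h3 : ((x : F) / d - (y : F) / d) ^ 2 = 0 := by
      linear_combination this + (((y : F) / d) ^ 2 - (x : F) / d * ((y : F) / d)) * h2
    exact (div_left_inj' hd).1 (sub_eq_zero.1 (eq_zero_of_pow_eq_zero h3))
  have hLge : ∀ d ∈ V, ∀ J : AddSubgroup F, (∀ v ∈ V, pol σ d v ∈ J) →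
      Nat.card V ≤ Nat.card (L d) * Nat.card J := by
    intro d _ J hJ
    let f : V →+ F := AddMonoidHom.mk' (fun v => pol σ d (v : F)) fun a b => by
      show pol σ d ((a + b : V) : F) = _
      simp only [pol, AddSubgroup.coe_add, map_add]; ring
    rw [card_dom_eq f]
    refine Nat.mul_le_mul (le_of_eq (Nat.card_congr ?_))
      (AddSubgroup.card_le_of_le (by rintro _ ⟨v, rfl⟩; exact hJ _ v.2))
    exact { toFun := fun v => ⟨((v : V) : F), (v : V).2, v.2⟩
            invFun := fun x => ⟨⟨(x : F), x.2.1⟩, x.2.2⟩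
            left_inv := fun v => rfl
            right_inv := fun x => rfl }
  have hd0 : π x₀ ≠ 0 := fun e => hne (by rw [hV x₀ e])
  set d := π x₀ with hd
  have hdD : d ∈ D := ⟨x₀, rfl⟩
  have hdV : d ∈ V := hDV hdD
  have hq2 : q ≤ Nat.card V := by
    have := AddSubgroup.card_le_of_le hDV
    have h' : q * q ≤ Nat.card V * Nat.card V := by
      rw [← sq, hcF]; exact Nat.mul_le_mul le_rfl this
    exact Nat.mul_self_le_mul_self_iff.1 h'
  obtain ⟨u, huV, hud⟩ : ∃ u ∈ V, pol σ d u ≠ 0 := by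
    by_contra! hall
    have : Nat.card V ≤ Nat.card (L d) := AddSubgroup.card_le_of_le fun v hv => ⟨hv, hall v hv⟩
    have := hLle d hd0
    omega
  have hu0 : u ≠ 0 := by rintro rfl; simp [pol] at hud
  have hab : Nat.card (L d) * Nat.card (L u) ≤ Nat.card V := by
    rw [← Nat.card_prod]
    refine Nat.card_le_card_of_injective
      (fun p => ⟨(p.1 : F) + (p.2 : F), add_mem p.1.2.1 p.2.2.1⟩) fun p p' e => ?_
    have e' : (p.1 : F) + (p.2 : F) = (p'.1 : F) + (p'.2 : F) := congrArg Subtype.val e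
    suffices h1 : (p.1 : F) = (p'.1 : F) by
      exact Prod.ext (Subtype.ext h1) (Subtype.ext (by linear_combination e' - h1))
    have m1 : (p.1 : F) - (p'.1 : F) ∈ L d := sub_mem p.1.2 p'.1.2
    have m2 : (p.1 : F) - (p'.1 : F) ∈ L u := by
      rw [show (p.1 : F) - (p'.1 : F) = (p'.2 : F) - (p.2 : F) by linear_combination e']
      exact sub_mem p'.2.2 p.2.2
    by_contra h1
    refine hud ?_
    set w := (p.1 : F) - (p'.1 : F) with hw
    have hw0 : w ≠ 0 := sub_ne_zero.2 h1
    have e1 := hL d hd0 _ m1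
    have e2 := hL u hu0 _ m2
    have hd' : σ d ≠ 0 := by simpa using hd0
    have hu' : σ u ≠ 0 := by simpa using hu0
    rw [map_div₀, div_eq_div_iff hd' hd0] at e1
    rw [map_div₀, div_eq_div_iff hu' hu0] at e2
    have : w * (d * σ u + σ d * u) = 0 := by
      linear_combination -(d * e2) + u * e1 + (σ d * u * w) * h2
    exact (mul_eq_zero.1 this).resolve_left hw0
  -- counting
  have c1 := hLge d hdV I (hBDV d hdD)
  have c2 := hLge u huV W (hBVV u huV)
  have hVq : Nat.card V = q := by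
    refine le_antisymm ?_ hq2
    have : Nat.card V * Nat.card V ≤ Nat.card V * q := calc
      _ ≤ (Nat.card (L d) * Nat.card I) * (Nat.card (L u) * Nat.card W) := Nat.mul_le_mul c1 c2
      _ = (Nat.card (L d) * Nat.card (L u)) * (Nat.card W * Nat.card I) := by ring
      _ ≤ _ := by rw [hWI]; exact Nat.mul_le_mul hab le_rfl
    exact Nat.le_of_mul_le_mul_left this Nat.card_pos
  have hDeq : D = V := by
    refine AddSubgroup.eq_of_le_of_card_ge hDV (le_of_eq ?_)
    have := hcF
    rw [hVq, sq] at this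
    rw [hVq, Nat.eq_of_mul_eq_mul_left hq0 this]
  have c2' := hLge u huV I (hBDV u (hDeq ▸ huV))
  have hiw := AddSubgroup.card_le_of_le hIW
  rw [hVq] at c1 c2' hab
  set a := Nat.card (L d)
  set b := Nat.card (L u)
  set i := Nat.card I
  set w := Nat.card W
  have hi2 : q ≤ i * i := by
    have : q * q ≤ q * (i * i) := calc
      _ ≤ (a * i) * (b * i) := Nat.mul_le_mul c1 c2'
      _ = (a * b) * (i * i) := by ring
      _ ≤ _ := Nat.mul_le_mul hab le_rfl
    exact Nat.le_of_mul_le_mul_left this hq0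
  have hi0 : 0 < i := Nat.card_pos
  have hwi : w = i := le_antisymm (Nat.le_of_mul_le_mul_right (hWI ▸ hi2) hi0) hiw
  have hii : i * i = q := by rw [← hWI, hwi]
  have hai : a = i := le_antisymm (hwi ▸ hLle d hd0) (Nat.le_of_mul_le_mul_right (hii ▸ c1) hi0)
  have hbi : b = i := le_antisymm (hwi ▸ hLle u hu0) (Nat.le_of_mul_le_mul_right (hii ▸ c2') hi0)
  -- scalars
  set c := pol σ d u with hc
  have hd' : σ d ≠ 0 := by simpa using hd0
  let sc : F → AddSubgroup F := fun v => (L v).map (AddMonoidHom.mulRight v⁻¹)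
  have hsc : ∀ v, v ≠ 0 → ∀ x, x ∈ sc v ↔ x * v ∈ L v := by
    intro v hv x
    constructor
    · rintro ⟨y, hy, rfl⟩
      show y * v⁻¹ * v ∈ L v
      rwa [inv_mul_cancel_right₀ hv]
    · exact fun hx => ⟨x * v, hx, mul_inv_cancel_right₀ hv x⟩
  have hscfix : ∀ v, v ≠ 0 → ∀ x, x ∈ sc v → σ x = x := fun v hv x hx => by
    simpa [hv] using hL v hv _ ((hsc v hv x).1 hx)
  have hsccard : ∀ v, v ≠ 0 → Nat.card (sc v) = Nat.card (L v) := fun v hv =>
    (Nat.card_congr (AddSubgroup.equivMapOfInjective (L v) _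
      (fun a b e => mul_right_cancel₀ (inv_ne_zero hv) e)).toEquiv).symm
  have hsc1 : ∀ v ∈ V, v ≠ 0 → (1 : F) ∈ sc v := fun v hv hv0 => by
    rw [hsc v hv0, one_mul]
    exact ⟨hv, by simp only [pol]; linear_combination (v * σ v) * h2⟩
  have hprod : ∀ x ∈ sc d, ∀ y ∈ sc u, c * (x * y) ∈ W := by
    intro x hx y hy
    have e : c * (x * y) = pol σ (x * d) (y * u) := by
      simp only [hc, pol, map_mul, hscfix d hd0 x hx, hscfix u hu0 y hy]; ring
    rw [e]
    exact hBVV _ ((hsc d hd0 x).1 hx).1 _ ((hsc u hu0 y).1 hy).1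
  have hmapW : ∀ v, v ≠ 0 → Nat.card (L v) = i → (∀ x ∈ sc v, c * x ∈ W) →
      (sc v).map (AddMonoidHom.mulLeft c) = W := by
    intro v hv hvi hcl
    refine AddSubgroup.eq_of_le_of_card_ge (by rintro _ ⟨x, hx, rfl⟩; exact hcl x hx) (le_of_eq ?_)
    rw [show Nat.card W = i from hwi, ← hvi, ← hsccard v hv]
    exact Nat.card_congr (AddSubgroup.equivMapOfInjective (sc v) _
      (fun a b e => mul_left_cancel₀ hud e)).toEquiv
  have hW1 := hmapW d hd0 hai fun x hx => by simpa using hprod x hx 1 (hsc1 u huV hu0)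
  have hW2 := hmapW u hu0 hbi fun x hx => by simpa using hprod 1 (hsc1 d hdV hd0) x hx
  have hback : ∀ x, c * x ∈ W → x ∈ sc d := fun x hx => by
    rw [← hW1] at hx
    obtain ⟨y, hy, e⟩ := hx
    rwa [← mul_left_cancel₀ hud e]
  have hsame : ∀ x, x ∈ sc d → x ∈ sc u := fun x hx => by
    have hm : c * x ∈ (sc u).map (AddMonoidHom.mulLeft c) := by
      rw [hW2, ← hW1]; exact ⟨x, hx, rfl⟩
    obtain ⟨y, hy, e⟩ := hm
    rwa [← mul_left_cancel₀ hud e]
  have hK := pow_card_eq_self (sc d) (hsc1 d hdV hd0)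
    fun x hx y hy => hback _ (hprod x hx y (hsame y hy))
  have hKc : Nat.card (sc d) = i := by rw [hsccard d hd0]; exact hai
  rw [hKc] at hK
  have hND : nrm σ d / c ∈ sc d := hback _ (by rw [mul_div_cancel₀ _ hud]; exact hNV d hdV)
  have hNU : nrm σ u / c ∈ sc d := hback _ (by rw [mul_div_cancel₀ _ hud]; exact hNV u huV)
  have hNd0 : nrm σ d ≠ 0 := mul_ne_zero hd0 hd'
  set r := u / d with hr
  have hs : r + σ r = (nrm σ d / c)⁻¹ := by
    rw [inv_div, hr, hc, map_div₀]
    simp only [pol, nrm]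
    field_simp
    ring
  have hp : r * σ r = (nrm σ u / c) * (nrm σ d / c)⁻¹ := by
    rw [inv_div, div_mul_div_cancel₀ hud, hr, map_div₀]
    simp only [nrm]
    field_simp
  have hsK : (r + σ r) ^ i = r + σ r := by rw [hs]; exact (hK _ (hK _ hND).2).1
  have hpK : (r * σ r) ^ i = r * σ r := by
    rw [hp, mul_pow, (hK _ hNU).1, (hK _ (hK _ hND).2).1]
  obtain ⟨m, -, hm⟩ := (Nat.dvd_prime_pow Nat.prime_two).1
    (show i ∣ 2 ^ n from ⟨i, by rw [hii, hq]⟩)
  have hadd : ∀ x y : F, (x + y) ^ i = x ^ i + y ^ i := fun x y => by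
    rw [hm]; exact add_pow_char_pow x y 2 m
  have hfix : σ r = r := by
    have hroot : (r ^ i - r) * (r ^ i - σ r) = 0 := by
      have e := congrArg (fun y => y ^ i) (show r * r + r * σ r = r * (r + σ r) by ring)
      rw [hadd, mul_pow, hpK, mul_pow, hsK] at e
      linear_combination e
    have hσi : σ r = (r ^ i) ^ i := by rw [← pow_mul, hii, h.apply_eq]
    rcases mul_eq_zero.1 hroot with e | e
    · rw [hσi, sub_eq_zero.1 e, sub_eq_zero.1 e]
    · have e' := sub_eq_zero.1 e
      have e2 : (r ^ i) ^ i = r := by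
        have : σ (r ^ i) = r := by rw [e', hσσ]
        rw [e', ← map_pow]
        exact this
      rw [hσi, e2]
  have h0 : (nrm σ d / c)⁻¹ = 0 := by rw [← hs, hfix]; linear_combination r * h2
  exact div_ne_zero hNd0 hud (inv_eq_zero.1 h0)

end CfsgLib.SectRank.UnitaryCore
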