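import Cfsg.Agent.Lib.SectRank.UnitaryThreeCount

/-!
Involutions of `SU_3`, `q` odd: conjugacy, centralizer order, diameter of the commuting graph.
-/

set_option autoImplicit false

namespace CfsgLib.SectRank.SUThree

open CfsgLib.Geometric CfsgLib.ClassicalForms

variable {F : Type*} [Field F] {q : ℕ}

theorem ap_su_inv {n : ℕ} (a : Cfsg.SU n F q) (x : Fin n → F) :
    ap (suToGU a : GL (Fin n) F) (ap (suToGU a⁻¹ : GL (Fin n) F) x) = x := by
  rw [← ap_su_mul, mul_inv_cancel, ap_su_one]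

variable (c : Conj F q) (h2 : (2 : F) ≠ 0) [Finite F] (hF : Nat.card F = q ^ 2)

omit [Finite F] in
/-- Conjugating an involution moves its vector. -/
theorem conj_rv (s : Cfsg.SU 3 F q) (d : Fin 3 → F) (hd : IsUnitVec q d)
    (hd' : IsUnitVec q (ap (suToGU s : GL (Fin 3) F) d)) :
    s * rv c d hd * s⁻¹ = rv c (ap (suToGU s : GL (Fin 3) F) d) hd' := by
  refine su_ext fun x => ?_
  rw [ap_su_mul, ap_su_mul, ap_rv, ap_rv, ap_sub, ap_smul, ap_su_inv]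
  congr 3
  conv_rhs => rw [← ap_su_inv s x, gu_apply]

include c h2 hF in
/-- All involutions are conjugate. -/
theorem exists_conj_eq (t x : Cfsg.SU 3 F q) (ht1 : t ≠ 1) (ht : t * t = 1) (hx1 : x ≠ 1)
    (hx : x * x = 1) : ∃ g : Cfsg.SU 3 F q, g * t * g⁻¹ = x := by
  obtain ⟨d, hd, rfl⟩ := exists_eq_rv c h2 hF t ht1 ht
  obtain ⟨e, he, rfl⟩ := exists_eq_rv c h2 hF x hx1 hx
  obtain ⟨g, hg⟩ := exists_gu_move hF hd he
  set D := ((g : GL (Fin 3) F) : Matrix (Fin 3) (Fin 3) F).det with hD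
  have hDD : D * c.σ D = 1 := det_gu_norm c g
  have hD0 : D ≠ 0 := left_ne_zero_of_mul_eq_one hDD
  have he1 : Cfsg.hermForm 3 F q e e = 1 := he
  let p := pref c e (D⁻¹ - 1) (by rw [he1, mul_one, add_sub_cancel]; exact inv_ne_zero hD0) (by
    have : c.σ D ≠ 0 := right_ne_zero_of_mul_eq_one hDD
    rw [he1, map_sub, map_one, map_inv₀]
    field_simp
    linear_combination -hDD)
  have hdet : guDet 3 F q (p * g) = 1 := by
    refine Units.ext ?_
    rw [map_mul, Units.val_mul, det_pref, he1, mul_one, add_sub_cancel, Units.val_one,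
      show ((guDet 3 F q g : Fˣ) : F) = D from (coe_det_eq _), inv_mul_cancel₀ hD0]
  have hsd : ap (suToGU (suOfGU (p * g) hdet) : GL (Fin 3) F) d = D⁻¹ • e := by
    rw [suToGU_suOfGU, Subgroup.coe_mul, ap_mul, hg, ap_pref, he1, mul_one, sub_smul, one_smul,
      add_sub_cancel]
  refine ⟨suOfGU (p * g) hdet, ?_⟩
  have hd' : IsUnitVec q (ap (suToGU (suOfGU (p * g) hdet) : GL (Fin 3) F) d) := by
    rw [IsUnitVec, gu_apply]; exact hd
  rw [conj_rv c _ d hd hd']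
  exact ((rv_eq_iff c h2 e _ he hd').2 ⟨D⁻¹, hsd⟩).symm

include c h2 hF in
/-- The order of the centralizer of an involution. -/
theorem card_centralizer (t : Cfsg.SU 3 F q) (ht1 : t ≠ 1) (ht : t * t = 1) :
    (Nat.card (Subgroup.centralizer ({t} : Set (Cfsg.SU 3 F q))) : ℤ)
      = q * (q + 1) * (q ^ 2 - 1) := by
  classical
  have := Fintype.ofFinite F
  let Φ : Cfsg.SU 3 F q → {x : Cfsg.SU 3 F q // x ≠ 1 ∧ x * x = 1} := fun g =>
    ⟨g * t * g⁻¹, fun h => ht1 (by simpa [mul_inv_eq_iff_eq_mul] using h), by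
      rw [show g * t * g⁻¹ * (g * t * g⁻¹) = g * (t * t) * g⁻¹ by group, ht, mul_one, mul_inv_cancel]⟩
  have hfib : ∀ x, Nat.card {g // Φ g = x} = Nat.card (Subgroup.centralizer ({t} : Set (Cfsg.SU 3 F q))) := by
    rintro ⟨x, hx1, hx⟩
    obtain ⟨g₀, rfl⟩ := exists_conj_eq c h2 hF t x ht1 ht hx1 hx
    refine (Nat.card_eq_of_bijective (fun h : Subgroup.centralizer ({t} : Set (Cfsg.SU 3 F q)) =>
      (⟨g₀ * h.1, Subtype.ext ?_⟩ : {g // Φ g = _})) ⟨?_, ?_⟩).symm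
    · have := Subgroup.mem_centralizer_singleton_iff.1 h.2
      show g₀ * h.1 * t * (g₀ * h.1)⁻¹ = g₀ * t * g₀⁻¹
      rw [mul_assoc g₀, this]; group
    · intro a b e
      exact Subtype.ext (mul_left_cancel (congrArg Subtype.val e))
    · rintro ⟨g, hg⟩
      have hg' : g * t * g⁻¹ = g₀ * t * g₀⁻¹ := congrArg Subtype.val hg
      refine ⟨⟨g₀⁻¹ * g, Subgroup.mem_centralizer_singleton_iff.2 ?_⟩, Subtype.ext (mul_inv_cancel_left _ _)⟩
      calc g₀⁻¹ * g * t = g₀⁻¹ * (g * t * g⁻¹) * g := by group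
        _ = t * (g₀⁻¹ * g) := by rw [hg']; group
  have h := Nat.card_congr (Equiv.sigmaFiberEquiv Φ)
  have := Fintype.ofFinite {x : Cfsg.SU 3 F q // x ≠ 1 ∧ x * x = 1}
  rw [Nat.card_sigma] at h
  simp only [hfib, Finset.sum_const, Finset.card_univ, smul_eq_mul, ← Nat.card_eq_fintype_card] at h
  have hG := card_gu hF 3
  rw [card_gu_eq_mul_su hF (n := 3) (by norm_num), ← h] at hG
  rw [Finset.prod_range_succ, Finset.prod_range_succ, Finset.prod_range_succ, Finset.prod_range_zero,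
    one_mul, if_pos (by decide), if_neg (by decide), if_pos (by decide),
    show 3 * (3 - 1) / 2 = 3 from rfl] at hG
  have hq2 := two_le_q hF
  have h1 : 1 ≤ q ^ 2 := Nat.one_le_pow _ _ (by omega)
  zify [h1] at hG
  rw [card_all c h2 hF] at hG
  have hq : (q : ℤ) ≠ 0 := by exact_mod_cast c.q_ne_zero
  have hq1 : (q : ℤ) + 1 ≠ 0 := by positivity
  have hm : (q : ℤ) ^ 2 - q + 1 ≠ 0 := by nlinarith
  exact mul_left_cancel₀ (mul_ne_zero hq1 (mul_ne_zero (pow_ne_zero 2 hq) hm)) (by linear_combination hG)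

include c h2 hF in
/-- The commuting graph has diameter at most three. -/
theorem exists_path (t x : Cfsg.SU 3 F q) (ht1 : t ≠ 1) (ht : t * t = 1) (hx1 : x ≠ 1)
    (hx : x * x = 1) :
    ∃ y z : Cfsg.SU 3 F q, y ≠ 1 ∧ y * y = 1 ∧ z ≠ 1 ∧ z * z = 1 ∧
      Commute t y ∧ Commute y z ∧ Commute z x := by
  by_cases hc : Commute t x
  · exact ⟨t, x, ht1, ht, hx1, hx, Commute.refl t, hc, Commute.refl x⟩
  by_cases hy : ∃ y : Cfsg.SU 3 F q, y ≠ 1 ∧ y * y = 1 ∧ Commute t y ∧ Commute y x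
  · obtain ⟨y, hy1, hy2, hy3, hy4⟩ := hy
    exact ⟨y, x, hy1, hy2, hx1, hx, hy3, hy4, Commute.refl x⟩
  obtain ⟨d, hd, rfl⟩ := exists_eq_rv c h2 hF t ht1 ht
  obtain ⟨e, he, rfl⟩ := exists_eq_rv c h2 hF x hx1 hx
  obtain ⟨g, hg⟩ := exists_frame c hF hd
  obtain ⟨y, rfl⟩ : ∃ y, ap (g : GL (Fin 3) F) y = e := ⟨_, ap_ap_inv _ e⟩
  obtain ⟨a, w, rfl⟩ : ∃ a w, Fin.cons a w = y := ⟨_, _, cons_vtail y⟩
  push Not at hy
  obtain ⟨hN, -⟩ := (kinds c h2 hF d hd g hg a w he).2.2.1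
    ⟨hc, fun y hy1 hy2 hy' => hy y hy1 hy2 hy'.1 hy'.2⟩
  have hn : a * c.σ a + Cfsg.hermForm 2 F q w w = 1 := by
    rw [← c.herm_cons, ← gu_apply g]; exact he
  rw [herm_two c] at hn
  obtain ⟨i, hi⟩ : ∃ i, w i * c.σ (w i) ≠ 1 := by
    by_contra! h
    exact h2 (by linear_combination hn - hN - h 0 - h 1)
  set f := ap (g : GL (Fin 3) F) (Fin.cons 0 (Pi.single i 1))
  have hf : IsUnitVec q f := by
    rw [IsUnitVec, gu_apply, c.herm_cons, c.single_right, Pi.single_eq_same, zero_mul, zero_add]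
  obtain ⟨z, hz1, hz2, hz3, hz4⟩ := exists_common c h2 hF f _ hf he (by
    rw [gu_apply, c.herm_cons, c.single_right, map_zero, mul_zero, zero_add]; exact hi)
  exact ⟨rv c f hf, z, rv_ne_one c h2 f hf, rv_mul_self c f hf, hz1, hz2,
    (commute_rv_iff c h2 d f hd hf).2 (Or.inl (by rw [(hg _).1, Fin.cons_zero])), hz3, hz4⟩

include c h2 hF in
/-- A third involution for two commuting ones, and only one. -/
theorem card_third (t x : Cfsg.SU 3 F q) (ht1 : t ≠ 1) (ht : t * t = 1) (hx1 : x ≠ 1)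
    (hx : x * x = 1) (hxt : x ≠ t) (hc : Commute t x) :
    Nat.card {y : Cfsg.SU 3 F q // y ≠ 1 ∧ y * y = 1 ∧ y ≠ t ∧ y ≠ x ∧ Commute t y ∧ Commute x y} = 1 := by
  obtain ⟨d, hd, rfl⟩ := exists_eq_rv c h2 hF t ht1 ht
  obtain ⟨e, he, rfl⟩ := exists_eq_rv c h2 hF x hx1 hx
  obtain ⟨g, hg⟩ := exists_frame c hF hd
  obtain ⟨y, rfl⟩ : ∃ y, ap (g : GL (Fin 3) F) y = e := ⟨_, ap_ap_inv _ e⟩
  obtain ⟨a, w, rfl⟩ : ∃ a w, Fin.cons a w = y := ⟨_, _, cons_vtail y⟩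
  obtain rfl : a = 0 := (kinds c h2 hF d hd g hg a w he).1.1 ⟨hxt, hc⟩
  have hw : Cfsg.hermForm 2 F q w w = 1 := by
    have := he
    rwa [IsUnitVec, gu_apply, c.herm_cons, zero_mul, zero_add] at this
  set f := ap (g : GL (Fin 3) F) (Fin.cons 0 (perp c w)) with hfdef
  have hf : IsUnitVec q f := by
    rw [IsUnitVec, gu_apply, c.herm_cons, (herm_perp c w).2, hw, zero_mul, zero_add]
  have hfe : Cfsg.hermForm 3 F q (ap (g : GL (Fin 3) F) (Fin.cons 0 w)) f = 0 := by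
    rw [hfdef, gu_apply, c.herm_cons, (herm_perp c w).1, zero_mul, zero_add]
  have hfd : Cfsg.hermForm 3 F q f d = 0 := by rw [(hg _).1, Fin.cons_zero]
  have hfe' : Cfsg.hermForm 3 F q f (ap (g : GL (Fin 3) F) (Fin.cons 0 w)) = 0 := by
    rw [c.herm_symm, hfe, map_zero]
  have hne : ∀ d' : Fin 3 → F, ∀ hd' : IsUnitVec q d', Cfsg.hermForm 3 F q f d' = 0 →
      rv c f hf ≠ rv c d' hd' := by
    intro d' hd' h0 h
    obtain ⟨μ, hμ⟩ := (rv_eq_iff c h2 d' f hd' hf).1 h.symm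
    rw [hμ, c.smul_left, show Cfsg.hermForm 3 F q d' d' = 1 from hd', mul_one] at h0
    exact unit_ne_zero c hf (by rw [hμ, h0, zero_smul])
  rw [Nat.card_eq_one_iff_exists]
  refine ⟨⟨rv c f hf, rv_ne_one c h2 f hf, rv_mul_self c f hf, hne d hd hfd, hne _ he hfe',
    (commute_rv_iff c h2 d f hd hf).2 (Or.inl hfd),
    (commute_rv_iff c h2 _ f he hf).2 (Or.inl hfe')⟩, ?_⟩
  rintro ⟨y, hy1, hy2, hyt, hyx, hty, hxy⟩
  refine Subtype.ext ?_
  obtain ⟨k, hk, rfl⟩ := exists_eq_rv c h2 hF y hy1 hy2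
  obtain ⟨y, rfl⟩ : ∃ y, ap (g : GL (Fin 3) F) y = k := ⟨_, ap_ap_inv _ k⟩
  obtain ⟨b, u, rfl⟩ : ∃ b u, Fin.cons b u = y := ⟨_, _, cons_vtail y⟩
  obtain rfl : b = 0 := (kinds c h2 hF d hd g hg b u hk).1.1 ⟨hyt, hty⟩
  rcases (commute_rv_iff c h2 _ _ he hk).1 hxy with h | h
  swap
  · exact absurd ((rv_eq_iff c h2 _ _ he hk).2 h).symm hyx
  rw [gu_apply, c.herm_cons, zero_mul, zero_add] at h
  have h' : Cfsg.hermForm 2 F q w u = 0 := by rw [c.herm_symm, h, map_zero]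
  refine ((rv_eq_iff c h2 f _ hf hk).2 ⟨u 1 * w 0 - u 0 * w 1, ?_⟩).symm
  rw [hfdef, ← ap_smul]
  congr 1
  funext j
  refine Fin.cases ?_ (fun j => ?_) j
  · simp
  · rw [Pi.smul_apply, Fin.cons_succ, Fin.cons_succ, ← Pi.smul_apply, ← eq_smul_perp c hw h']

end CfsgLib.SectRank.SUThree
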