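import Cfsg.Agent.Lib.SectRank.UnitaryThreeInvolutions

/-!
Counting involutions of `SU_3` over a field with `q²` elements, `q` odd.
-/

set_option autoImplicit false

namespace CfsgLib.SectRank.SUThree

open CfsgLib.Geometric CfsgLib.ClassicalForms

variable {F : Type*} [Field F] {q : ℕ}

theorem two_ne_zero_of_card [Finite F] (hq : Odd q) (hF : Nat.card F = q ^ 2) : (2 : F) ≠ 0 := by
  have := Fintype.ofFinite F
  refine Ring.two_ne_zero fun h => ?_
  have h' := FiniteField.even_card_iff_char_two.1 h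
  rw [← Nat.card_eq_fintype_card, hF] at h'
  exact Nat.not_even_iff_odd.2 hq.pow (Nat.even_iff.2 h')

/-- A vector orthogonal to a given one. -/
def perp (c : Conj F q) (w : Fin 2 → F) : Fin 2 → F := ![-c.σ (w 1), c.σ (w 0)]

theorem herm_two (c : Conj F q) (u v : Fin 2 → F) :
    Cfsg.hermForm 2 F q u v = u 0 * c.σ (v 0) + u 1 * c.σ (v 1) := by
  rw [c.herm_apply, Fin.sum_univ_two]

theorem herm_perp (c : Conj F q) (w : Fin 2 → F) :
    Cfsg.hermForm 2 F q w (perp c w) = 0 ∧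
      Cfsg.hermForm 2 F q (perp c w) (perp c w) = Cfsg.hermForm 2 F q w w := by
  simp [herm_two c, perp, c.invol]
  constructor <;> ring

theorem isotropic_perp (c : Conj F q) {w u : Fin 2 → F} (hw : w ≠ 0)
    (hww : Cfsg.hermForm 2 F q w w = 0) (hwu : Cfsg.hermForm 2 F q w u = 0) :
    Cfsg.hermForm 2 F q u u = 0 := by
  rw [herm_two c] at hww hwu ⊢
  have hw0 : w 0 ≠ 0 := by
    intro h
    rw [h, zero_mul, zero_add] at hww
    refine hw (funext fun i => ?_)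
    fin_cases i
    · exact h
    · rcases mul_eq_zero.1 hww with e | e
      · exact e
      · exact c.eq_zero e
  have hwu' : c.σ (w 0) * u 0 + c.σ (w 1) * u 1 = 0 := by
    have := congrArg c.σ hwu
    simpa [c.invol] using this
  have hne : w 0 * c.σ (w 0) ≠ 0 := mul_ne_zero hw0 fun e => hw0 (c.eq_zero e)
  refine (mul_eq_zero.1 ?_).resolve_left hne
  linear_combination (u 1 * c.σ (u 1)) * hww + (w 0 * c.σ (u 0)) * hwu' - (c.σ (w 1) * u 1) * hwu

theorem eq_smul_perp (c : Conj F q) {w u : Fin 2 → F} (hww : Cfsg.hermForm 2 F q w w = 1)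
    (hwu : Cfsg.hermForm 2 F q w u = 0) : u = (u 1 * w 0 - u 0 * w 1) • perp c w := by
  rw [herm_two c] at hww hwu
  have hwu' : c.σ (w 0) * u 0 + c.σ (w 1) * u 1 = 0 := by
    have := congrArg c.σ hwu
    simpa [c.invol] using this
  funext i
  fin_cases i
  · simp [perp]; linear_combination w 0 * hwu' - u 0 * hww
  · simp [perp]; linear_combination w 1 * hwu' - u 1 * hww

variable (c : Conj F q) (h2 : (2 : F) ≠ 0) [Finite F] (hF : Nat.card F = q ^ 2)

include c hF in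
theorem exists_frame {d : Fin 3 → F} (hd : IsUnitVec q d) :
    ∃ g : Cfsg.GU 3 F q, ∀ y : Fin 3 → F,
      Cfsg.hermForm 3 F q (ap (g : GL (Fin 3) F) y) d = y 0 ∧
      ap (g : GL (Fin 3) F) (y 0 • Pi.single 0 1) = y 0 • d := by
  obtain ⟨g, hg⟩ := exists_gu_move hF (u := (Pi.single 0 1 : Fin 3 → F)) (w := d)
    (by rw [c.single_right, Pi.single_eq_same]) hd
  refine ⟨g, fun y => ⟨?_, by rw [ap_smul, hg]⟩⟩
  rw [← hg, gu_apply, c.single_right]

omit [Finite F] in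
theorem cons_zero_eq (a : F) : (Fin.cons a 0 : Fin 3 → F) = a • Pi.single 0 1 := by
  funext i; refine Fin.cases ?_ (fun j => ?_) i <;> simp

omit [Finite F] in
theorem mem_line {d : Fin 3 → F} {g : Cfsg.GU 3 F q}
    (hg : ∀ y : Fin 3 → F, Cfsg.hermForm 3 F q (ap (g : GL (Fin 3) F) y) d = y 0 ∧
      ap (g : GL (Fin 3) F) (y 0 • Pi.single 0 1) = y 0 • d) (a : F) (w : Fin 2 → F) :
    (∃ μ : F, ap (g : GL (Fin 3) F) (Fin.cons a w) = μ • d) ↔ w = 0 := by
  constructor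
  · rintro ⟨μ, e⟩
    have e' : ap (g : GL (Fin 3) F) (Fin.cons μ 0) = μ • d := by
      rw [cons_zero_eq]
      simpa using (hg (Fin.cons μ 0)).2
    have := congrArg vtail (ap_injective _ (e.trans e'.symm))
    rwa [vtail_cons, vtail_cons] at this
  · rintro rfl
    exact ⟨a, by rw [cons_zero_eq]; simpa using (hg (Fin.cons a 0)).2⟩

include h2 hF in
/-- Common neighbour of two involutions. -/
theorem exists_common (d e : Fin 3 → F) (hd : IsUnitVec q d) (he : IsUnitVec q e)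
    (hN : Cfsg.hermForm 3 F q e d * c.σ (Cfsg.hermForm 3 F q e d) ≠ 1) :
    ∃ y : Cfsg.SU 3 F q, y ≠ 1 ∧ y * y = 1 ∧ Commute (rv c d hd) y ∧ Commute y (rv c e he) := by
  obtain ⟨g, hg⟩ := exists_frame c hF hd
  obtain ⟨y, rfl⟩ : ∃ y, ap (g : GL (Fin 3) F) y = e := ⟨_, ap_ap_inv _ e⟩
  rw [(hg y).1] at hN
  obtain ⟨a, w, rfl⟩ : ∃ a w, Fin.cons a w = y := ⟨_, _, cons_vtail y⟩
  simp only [Fin.cons_zero] at hN
  have hn : a * c.σ a + Cfsg.hermForm 2 F q w w = 1 := by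
    rw [← c.herm_cons, ← gu_apply g]; exact he
  have hw : Cfsg.hermForm 2 F q w w ≠ 0 := fun h => hN (by rw [← hn, h, add_zero])
  obtain ⟨k, hk⟩ := c.exists_norm (c.herm_self w)
  have hk0 : k ≠ 0 := fun e => hw (by rw [← hk, e, zero_mul])
  obtain ⟨u, hu, hwu⟩ : ∃ u, Cfsg.hermForm 2 F q u u = 1 ∧ Cfsg.hermForm 2 F q w u = 0 := by
    refine ⟨k⁻¹ • perp c w, ?_, by rw [c.smul_right, (herm_perp c w).1, mul_zero]⟩
    rw [c.smul_left, c.smul_right, (herm_perp c w).2, ← hk, map_inv₀]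
    have : c.σ k ≠ 0 := fun e => hk0 (c.eq_zero e)
    field_simp
  set f := ap (g : GL (Fin 3) F) (Fin.cons 0 u)
  have hf : IsUnitVec q f := by
    rw [IsUnitVec, gu_apply, c.herm_cons, hu, zero_mul, zero_add]
  refine ⟨rv c f hf, rv_ne_one c h2 f hf, rv_mul_self c f hf,
    (commute_rv_iff c h2 d f hd hf).2 (Or.inl (by rw [(hg _).1, Fin.cons_zero])),
    (commute_rv_iff c h2 f _ hf he).2 (Or.inl ?_)⟩
  rw [gu_apply, c.herm_cons, hwu, map_zero, mul_zero, add_zero]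

include h2 hF in
/-- The three kinds of involutions in coordinates. -/
theorem kinds (d : Fin 3 → F) (hd : IsUnitVec q d) (g : Cfsg.GU 3 F q)
    (hg : ∀ y : Fin 3 → F, Cfsg.hermForm 3 F q (ap (g : GL (Fin 3) F) y) d = y 0 ∧
      ap (g : GL (Fin 3) F) (y 0 • Pi.single 0 1) = y 0 • d)
    (a : F) (w : Fin 2 → F) (he : IsUnitVec q (ap (g : GL (Fin 3) F) (Fin.cons a w))) :
    let x := rv c (ap (g : GL (Fin 3) F) (Fin.cons a w)) he
    ((x ≠ rv c d hd ∧ Commute (rv c d hd) x) ↔ a = 0) ∧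
    ((¬ Commute (rv c d hd) x ∧
        ∃ y : Cfsg.SU 3 F q, y ≠ 1 ∧ y * y = 1 ∧ Commute (rv c d hd) y ∧ Commute y x) ↔
      a ≠ 0 ∧ a * c.σ a ≠ 1) ∧
    ((¬ Commute (rv c d hd) x ∧
        ∀ y : Cfsg.SU 3 F q, y ≠ 1 → y * y = 1 → ¬ (Commute (rv c d hd) y ∧ Commute y x)) ↔
      a * c.σ a = 1 ∧ w ≠ 0) := by
  intro x
  have hn : a * c.σ a + Cfsg.hermForm 2 F q w w = 1 := by
    rw [← c.herm_cons, ← gu_apply g]; exact he
  have hne : x ≠ rv c d hd ↔ w ≠ 0 := by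
    rw [ne_comm, Ne, rv_eq_iff c h2 d _ hd he, mem_line hg]
  have hcom : Commute (rv c d hd) x ↔ a = 0 ∨ w = 0 := by
    rw [commute_rv_iff c h2 d _ hd he, mem_line hg, (hg _).1, Fin.cons_zero]
  have hfar : a * c.σ a = 1 → ¬ Commute (rv c d hd) x → ∀ y : Cfsg.SU 3 F q, y ≠ 1 → y * y = 1 →
      ¬ (Commute (rv c d hd) y ∧ Commute y x) := by
    intro hN hnc y hy1 hy2 ⟨hty, hyx⟩
    obtain ⟨f, hf, rfl⟩ := exists_eq_rv c h2 hF y hy1 hy2
    rcases (commute_rv_iff c h2 d f hd hf).1 hty with hfd | hfd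
    swap
    · exact hnc ((rv_eq_iff c h2 d f hd hf).2 hfd ▸ hyx)
    rcases (commute_rv_iff c h2 f _ hf he).1 hyx with hef | hef
    swap
    · rw [(rv_eq_iff c h2 f _ hf he).2 hef] at hty; exact hnc hty
    obtain ⟨y, rfl⟩ : ∃ y, ap (g : GL (Fin 3) F) y = f := ⟨_, ap_ap_inv _ f⟩
    obtain ⟨b, u, rfl⟩ : ∃ b u, Fin.cons b u = y := ⟨_, _, cons_vtail y⟩
    rw [(hg _).1, Fin.cons_zero] at hfd
    rw [gu_apply, c.herm_cons, hfd, map_zero, mul_zero, zero_add] at hef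
    rw [IsUnitVec, gu_apply, c.herm_cons, hfd, zero_mul, zero_add] at hf
    have hw : w ≠ 0 := fun h => hnc (hcom.2 (Or.inr h))
    have hww : Cfsg.hermForm 2 F q w w = 0 := by linear_combination hn - hN
    rw [isotropic_perp c hw hww hef] at hf
    exact zero_ne_one hf
  have hcom' : a * c.σ a ≠ 1 → ∃ y : Cfsg.SU 3 F q, y ≠ 1 ∧ y * y = 1 ∧ Commute (rv c d hd) y ∧ Commute y x :=
    fun hN => exists_common c h2 hF d _ hd he (by rwa [(hg _).1, Fin.cons_zero])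
  have hw0 : w = 0 → a * c.σ a = 1 := fun h => by rw [← hn, h, c.zero_left, add_zero]
  refine ⟨?_, ?_, ?_⟩
  · rw [hne, hcom]
    constructor
    · rintro ⟨hw, h | h⟩
      · exact h
      · exact absurd h hw
    · intro h
      refine ⟨fun hw => ?_, Or.inl h⟩
      have := hw0 hw
      rw [h, zero_mul] at this
      exact zero_ne_one this
  · constructor
    · rintro ⟨hnc, y, hy1, hy2, hy⟩
      exact ⟨fun h => hnc (hcom.2 (Or.inl h)), fun hN => hfar hN hnc y hy1 hy2 hy⟩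
    · rintro ⟨ha, hN⟩
      exact ⟨fun h => (hcom.1 h).elim ha fun hw => hN (hw0 hw), hcom' hN⟩
  · constructor
    · rintro ⟨hnc, hall⟩
      refine ⟨?_, fun h => hnc (hcom.2 (Or.inr h))⟩
      by_contra hN
      obtain ⟨y, hy1, hy2, hy⟩ := hcom' hN
      exact hall y hy1 hy2 hy
    · rintro ⟨hN, hw⟩
      have hnc : ¬ Commute (rv c d hd) x := fun h => (hcom.1 h).elim (fun ha => by
        rw [ha, zero_mul] at hN; exact zero_ne_one hN) hw
      exact ⟨hnc, hfar hN hnc⟩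

include h2 hF in
/-- Each involution comes from `q + 1` vectors of norm one. -/
theorem card_unit_eq (P : Cfsg.SU 3 F q → Prop) :
    Nat.card {v : Fin 3 → F // ∃ h : IsUnitVec q v, P (rv c v h)}
      = (q + 1) * Nat.card {x : Cfsg.SU 3 F q // (x ≠ 1 ∧ x * x = 1) ∧ P x} := by
  classical
  let Φ : {v : Fin 3 → F // ∃ h : IsUnitVec q v, P (rv c v h)} →
      {x : Cfsg.SU 3 F q // (x ≠ 1 ∧ x * x = 1) ∧ P x} :=
    fun v => ⟨rv c v.1 v.2.fst, ⟨rv_ne_one c h2 _ _, rv_mul_self c _ _⟩, v.2.snd⟩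
  have := Fintype.ofFinite {x : Cfsg.SU 3 F q // (x ≠ 1 ∧ x * x = 1) ∧ P x}
  rw [← Nat.card_congr (Equiv.sigmaFiberEquiv Φ), Nat.card_sigma]
  have hfib : ∀ x, Nat.card {v // Φ v = x} = q + 1 := by
    rintro ⟨x, ⟨hx1, hx2⟩, hP⟩
    obtain ⟨d, hd, rfl⟩ := exists_eq_rv c h2 hF x hx1 hx2
    have e1 : Nat.card {μ : F // μ * c.σ μ = 1} = q + 1 := by
      rw [card_norm_fibre hF c 1 (map_one _), if_neg one_ne_zero]
    rw [← e1]
    have hu : ∀ μ : F, μ * c.σ μ = 1 → IsUnitVec q (μ • d) := fun μ hμ => by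
      rw [IsUnitVec, c.smul_left, c.smul_right, show Cfsg.hermForm 3 F q d d = 1 from hd, mul_one, hμ]
    have heq : ∀ μ : F, ∀ hμ : μ * c.σ μ = 1, rv c (μ • d) (hu μ hμ) = rv c d hd := fun μ hμ =>
      ((rv_eq_iff c h2 d _ hd (hu μ hμ)).2 ⟨μ, rfl⟩).symm
    refine (Nat.card_eq_of_bijective (fun μ : {μ : F // μ * c.σ μ = 1} =>
      (⟨⟨μ.1 • d, hu μ.1 μ.2, (heq μ.1 μ.2).symm ▸ hP⟩, Subtype.ext (heq μ.1 μ.2)⟩ : {v // Φ v = _}))
      ⟨?_, ?_⟩).symm
    · intro μ ν h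
      refine Subtype.ext (smul_left_injective F (unit_ne_zero c hd) ?_)
      exact congrArg (fun z => z.1.1) h
    · rintro ⟨⟨v, hv, hPv⟩, hΦ⟩
      obtain ⟨μ, rfl⟩ := (rv_eq_iff c h2 d v hd hv).1 (congrArg Subtype.val hΦ).symm
      refine ⟨⟨μ, ?_⟩, Subtype.ext (Subtype.ext rfl)⟩
      have := hv
      rwa [IsUnitVec, c.smul_left, c.smul_right, show Cfsg.hermForm 3 F q d d = 1 from hd, mul_one] at this
  simp only [hfib, Finset.sum_const, Finset.card_univ, smul_eq_mul, Nat.card_eq_fintype_card]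
  ring

include c hF in
theorem card_two_one : (Nat.card {w : Fin 2 → F // Cfsg.hermForm 2 F q w w = 1} : ℤ) = q ^ 3 - q := by
  have h := card_herm_one hF 2
  have hq : (q : ℤ) ≠ 0 := by exact_mod_cast c.q_ne_zero
  exact mul_left_cancel₀ hq (by linear_combination h)

include c hF in
theorem card_two_zero :
    (Nat.card {w : Fin 2 → F // w ≠ 0 ∧ Cfsg.hermForm 2 F q w w = 0} : ℤ) = (q + 1) * (q ^ 2 - 1) := by
  classical
  have := Fintype.ofFinite F
  have h := card_herm_zero hF 2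
  have hq : (q : ℤ) ≠ 0 := by exact_mod_cast c.q_ne_zero
  have hsplit : Nat.card {w : Fin 2 → F // Cfsg.hermForm 2 F q w w = 0}
      = Nat.card {w : Fin 2 → F // w ≠ 0 ∧ Cfsg.hermForm 2 F q w w = 0} + 1 := by
    rw [Nat.card_eq_fintype_card, Nat.card_eq_fintype_card, Fintype.card_subtype, Fintype.card_subtype,
      ← Finset.card_erase_add_one (s := Finset.univ.filter fun w : Fin 2 → F => Cfsg.hermForm 2 F q w w = 0)
        (a := 0) (by simp [c.zero_left])]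
    congr 2
    ext w; simp
  rw [hsplit] at h
  push_cast at h
  exact mul_left_cancel₀ hq (by linear_combination h)

include c h2 hF in
theorem card_all : (Nat.card {x : Cfsg.SU 3 F q // x ≠ 1 ∧ x * x = 1} : ℤ) = q ^ 2 * (q ^ 2 - q + 1) := by
  have e := card_unit_eq c h2 hF (fun _ => True)
  rw [Nat.card_congr (Equiv.subtypeEquivRight (q := fun v : Fin 3 → F => Cfsg.hermForm 3 F q v v = 1)
      (fun v => ⟨fun h => h.fst, fun h => ⟨h, trivial⟩⟩)),
    Nat.card_congr (Equiv.subtypeEquivRight (q := fun x : Cfsg.SU 3 F q => x ≠ 1 ∧ x * x = 1)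
      (fun x => and_iff_left trivial))] at e
  have h := card_herm_one hF 3
  rw [e] at h
  push_cast at h
  have hq : (q : ℤ) ≠ 0 := by exact_mod_cast c.q_ne_zero
  have hq1 : (q : ℤ) + 1 ≠ 0 := by positivity
  exact mul_left_cancel₀ (mul_ne_zero hq hq1) (by linear_combination h)

include h2 hF in
/-- Coordinates for a condition on involutions. -/
theorem card_coord (d : Fin 3 → F) (g : Cfsg.GU 3 F q) (P : Cfsg.SU 3 F q → Prop)
    (C : F → (Fin 2 → F) → Prop)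
    (hC : ∀ (a : F) (w : Fin 2 → F) (he : IsUnitVec q (ap (g : GL (Fin 3) F) (Fin.cons a w))),
      P (rv c _ he) ↔ C a w) :
    (q + 1) * Nat.card {x : Cfsg.SU 3 F q // (x ≠ 1 ∧ x * x = 1) ∧ P x}
      = Nat.card {y : F × (Fin 2 → F) // y.1 * c.σ y.1 + Cfsg.hermForm 2 F q y.2 y.2 = 1 ∧ C y.1 y.2} := by
  rw [← card_unit_eq c h2 hF P]
  symm
  refine Nat.card_eq_of_bijective (fun y => ⟨ap (g : GL (Fin 3) F) (Fin.cons y.1.1 y.1.2), ?_⟩) ⟨?_, ?_⟩
  · have he : IsUnitVec q (ap (g : GL (Fin 3) F) (Fin.cons y.1.1 y.1.2)) := by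
      rw [IsUnitVec, gu_apply, c.herm_cons]; exact y.2.1
    exact ⟨he, (hC _ _ he).2 y.2.2⟩
  · intro y z h
    have e := ap_injective _ (congrArg Subtype.val h)
    refine Subtype.ext (Prod.ext ?_ ?_)
    · simpa using congrFun e 0
    · simpa [vtail_cons] using congrArg vtail e
  · rintro ⟨v, hv, hP⟩
    obtain ⟨y, rfl⟩ : ∃ y, ap (g : GL (Fin 3) F) y = v := ⟨_, ap_ap_inv _ v⟩
    obtain ⟨a, w, rfl⟩ : ∃ a w, Fin.cons a w = y := ⟨_, _, cons_vtail y⟩
    refine ⟨⟨(a, w), ?_, (hC a w hv).1 hP⟩, rfl⟩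
    rw [← c.herm_cons, ← gu_apply g]; exact hv

include c h2 hF in
/-- The three counts. -/
theorem card_kinds (t : Cfsg.SU 3 F q) (ht1 : t ≠ 1) (ht : t * t = 1) :
    (Nat.card {x : Cfsg.SU 3 F q // (x ≠ 1 ∧ x * x = 1) ∧ x ≠ t ∧ Commute t x} : ℤ) = q * (q - 1) ∧
    (Nat.card {x : Cfsg.SU 3 F q // (x ≠ 1 ∧ x * x = 1) ∧ ¬ Commute t x ∧
        ∃ y : Cfsg.SU 3 F q, y ≠ 1 ∧ y * y = 1 ∧ Commute t y ∧ Commute y x} : ℤ) = q * (q - 2) * (q ^ 2 - 1) ∧
    (Nat.card {x : Cfsg.SU 3 F q // (x ≠ 1 ∧ x * x = 1) ∧ ¬ Commute t x ∧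
        ∀ y : Cfsg.SU 3 F q, y ≠ 1 → y * y = 1 → ¬ (Commute t y ∧ Commute y x)} : ℤ)
      = (q + 1) * (q ^ 2 - 1) := by
  classical
  have := Fintype.ofFinite F
  obtain ⟨d, hd, rfl⟩ := exists_eq_rv c h2 hF t ht1 ht
  obtain ⟨g, hg⟩ := exists_frame c hF hd
  have hq1 : (q : ℤ) + 1 ≠ 0 := by positivity
  have hnorm : Nat.card {a : F // a * c.σ a = 1} = q + 1 := by
    rw [card_norm_fibre hF c 1 (map_one _), if_neg one_ne_zero]
  have h1 := card_coord c h2 hF d g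
    (fun x => x ≠ rv c d hd ∧ Commute (rv c d hd) x) (fun a _ => a = 0) (fun a w he => (kinds c h2 hF d hd g hg a w he).1)
  have h2' := card_coord c h2 hF d g
    (fun x => ¬ Commute (rv c d hd) x ∧
      ∃ y : Cfsg.SU 3 F q, y ≠ 1 ∧ y * y = 1 ∧ Commute (rv c d hd) y ∧ Commute y x)
    (fun a _ => a ≠ 0 ∧ a * c.σ a ≠ 1)
    (fun a w he => (kinds c h2 hF d hd g hg a w he).2.1)
  have h3 := card_coord c h2 hF d g
    (fun x => ¬ Commute (rv c d hd) x ∧
      ∀ y : Cfsg.SU 3 F q, y ≠ 1 → y * y = 1 → ¬ (Commute (rv c d hd) y ∧ Commute y x))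
    (fun a w => a * c.σ a = 1 ∧ w ≠ 0)
    (fun a w he => (kinds c h2 hF d hd g hg a w he).2.2)
  have c1 : Nat.card {y : F × (Fin 2 → F) // y.1 * c.σ y.1 + Cfsg.hermForm 2 F q y.2 y.2 = 1 ∧ y.1 = 0}
      = Nat.card {w : Fin 2 → F // Cfsg.hermForm 2 F q w w = 1} := by
    refine Nat.card_congr
      { toFun := fun y => ⟨y.1.2, by have h := y.2.1; rw [y.2.2, zero_mul, zero_add] at h; exact h⟩
        invFun := fun w => ⟨(0, w.1), by simp [w.2]⟩
        left_inv := ?_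
        right_inv := fun w => rfl }
    rintro ⟨⟨a, w⟩, h1, h2⟩
    dsimp at h2
    subst h2; rfl
  have c3 : Nat.card {y : F × (Fin 2 → F) // y.1 * c.σ y.1 + Cfsg.hermForm 2 F q y.2 y.2 = 1 ∧
        (y.1 * c.σ y.1 = 1 ∧ y.2 ≠ 0)}
      = (q + 1) * Nat.card {w : Fin 2 → F // w ≠ 0 ∧ Cfsg.hermForm 2 F q w w = 0} := by
    rw [← hnorm, ← Nat.card_prod]
    exact Nat.card_congr
      { toFun := fun y => (⟨y.1.1, y.2.2.1⟩, ⟨y.1.2, y.2.2.2, by linear_combination y.2.1 - y.2.2.1⟩)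
        invFun := fun z => ⟨(z.1.1, z.2.1), by rw [z.1.2, z.2.2.2, add_zero], z.1.2, z.2.2.1⟩
        left_inv := fun y => rfl
        right_inv := fun z => rfl }
  have c2 : Nat.card {y : F × (Fin 2 → F) // y.1 * c.σ y.1 + Cfsg.hermForm 2 F q y.2 y.2 = 1 ∧
        (y.1 ≠ 0 ∧ y.1 * c.σ y.1 ≠ 1)}
      = Nat.card {a : F // a ≠ 0 ∧ a * c.σ a ≠ 1} * Nat.card {w : Fin 2 → F // Cfsg.hermForm 2 F q w w = 1} := by
    have hk : ∀ a : {a : F // a ≠ 0 ∧ a * c.σ a ≠ 1}, ∃ k, k * c.σ k = 1 - a.1 * c.σ a.1 := fun a =>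
      c.exists_norm (by rw [map_sub, map_one, map_mul, c.invol, mul_comm])
    choose k hk using hk
    have hk0 : ∀ a, k a ≠ 0 := fun a e => a.2.2 (by
      have := hk a; rw [e, zero_mul] at this; exact (sub_eq_zero.1 this.symm).symm)
    rw [← Nat.card_prod]
    refine Nat.card_congr
      { toFun := fun y => (⟨y.1.1, y.2.2⟩, ⟨(k ⟨y.1.1, y.2.2⟩)⁻¹ • y.1.2, ?_⟩)
        invFun := fun z => ⟨(z.1.1, k z.1 • z.2.1), ?_, z.1.2⟩
        left_inv := fun y => Subtype.ext (Prod.ext rfl (by simp [smul_smul, hk0]))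
        right_inv := fun z => Prod.ext rfl (Subtype.ext (by simp [smul_smul, hk0])) }
    · have hyy : Cfsg.hermForm 2 F q y.1.2 y.1.2 = 1 - y.1.1 * c.σ y.1.1 := by
        linear_combination y.2.1
      have hk' := hk ⟨y.1.1, y.2.2⟩
      rw [c.smul_left, c.smul_right, map_inv₀, ← mul_assoc, ← mul_inv, hk']
      refine (congrArg (_ * ·) hyy).trans ?_
      exact inv_mul_cancel₀ (sub_ne_zero.2 (Ne.symm y.2.2.2))
    · dsimp only
      rw [c.smul_left, c.smul_right, z.2.2, mul_one, hk]; ring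
  have cA : Nat.card {a : F // a ≠ 0 ∧ a * c.σ a ≠ 1} + (q + 2) = q ^ 2 := by
    rw [← hF, ← Nat.card_congr (Equiv.sumCompl fun a : F => a ≠ 0 ∧ a * c.σ a ≠ 1), Nat.card_sum]
    congr 1
    rw [Nat.card_eq_fintype_card, Fintype.card_subtype]
    rw [show (Finset.univ.filter fun a : F => ¬ (a ≠ 0 ∧ a * c.σ a ≠ 1))
      = insert 0 (Finset.univ.filter fun a : F => a * c.σ a = 1) by
        ext a; simp only [Finset.mem_filter, Finset.mem_univ, true_and, Finset.mem_insert]; tauto,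
      Finset.card_insert_of_notMem (by simp), ← Fintype.card_subtype, ← Nat.card_eq_fintype_card, hnorm]
  rw [c1] at h1
  rw [c2] at h2'
  rw [c3] at h3
  zify at h1 h2' h3 cA
  have t1 := card_two_one c hF
  have t0 := card_two_zero c hF
  refine ⟨mul_left_cancel₀ hq1 ?_, mul_left_cancel₀ hq1 ?_, mul_left_cancel₀ hq1 ?_⟩
  · rw [h1, t1]; ring
  · rw [h2', t1]; linear_combination ((q : ℤ) ^ 3 - q) * cA
  · rw [h3, t0]

end CfsgLib.SectRank.SUThree
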