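import Cfsg.Agent.Lib.SectRank.UnitaryUnipotentWords

/-!
The words: `v u v` in general, two special words for `q = 5` and `q = 8`.
-/

set_option autoImplicit false

open Matrix
open scoped MatrixGroups

namespace CfsgLib.SectRank.SUPair

open CfsgLib.Amalgams

variable {F : Type*} [Field F] [Finite F] {σ : F →+* F} {q : ℕ} (h : UniField F σ q)

include h in
/-- A proper subring contains only units of small order. -/
theorem subring_bound (R : Subring F) (hR : R ≠ ⊤) :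
    ∃ r j : ℕ, 2 ≤ r ∧ 2 ≤ j ∧ r ^ j = q ^ 2 ∧ ∀ x ∈ R, x ≠ 0 → x ^ (r - 1) = 1 := by
  classical
  let : Field R := Finite.isDomain_to_isField R |>.toField
  have hcard : Nat.card F = Nat.card R ^ Module.finrank R F := Module.natCard_eq_pow_finrank
  refine ⟨Nat.card R, Module.finrank R F, Finite.one_lt_card, ?_, hcard.symm.trans h.card, ?_⟩
  · by_contra hj
    have hpos : 0 < Module.finrank R F := Module.finrank_pos
    have h1 : Module.finrank R F = 1 := by omega
    rw [h1, pow_one] at hcard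
    exact hR (SetLike.coe_injective (by
      rw [Subring.coe_top]
      exact Set.eq_univ_of_forall fun x => by
        have hb : Function.Bijective (Subtype.val : R → F) :=
          (Nat.bijective_iff_injective_and_card _).2 ⟨Subtype.val_injective, hcard.symm⟩
        obtain ⟨y, rfl⟩ := hb.2 x
        exact y.2))
  · intro x hx hx0
    have := Fintype.ofFinite R
    have e : (⟨x, hx⟩ : R) ^ (Fintype.card R - 1) = 1 :=
      FiniteField.pow_card_sub_one_eq_one _ (fun e => hx0 (congrArg Subtype.val e))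
    rw [Nat.card_eq_fintype_card]
    simpa using congrArg Subtype.val e

theorem arith {q r j : ℕ} (hq : 3 ≤ q) (h5 : q ≠ 5) (h8 : q ≠ 8) (hr : 2 ≤ r) (hj : 2 ≤ j)
    (e : r ^ j = q ^ 2) (hd : q + 1 ∣ 3 * (r - 1)) : False := by
  have hle := Nat.le_of_dvd (by omega) hd
  rcases Nat.lt_or_ge j 3 with hj3 | hj3
  · obtain rfl : j = 2 := by omega
    have hrq : r = q := Nat.pow_left_injective two_ne_zero e
    rw [hrq] at hd
    have h6 : q + 1 ∣ 6 := by
      have := Nat.dvd_sub (Dvd.intro_left 3 rfl : q + 1 ∣ 3 * (q + 1)) hd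
      rwa [show 3 * (q + 1) - 3 * (q - 1) = 6 by omega] at this
    have := Nat.le_of_dvd (by norm_num) h6
    have hq5 : q ≤ 5 := by omega
    interval_cases q <;> omega
  have h3 : r ^ 3 ≤ q ^ 2 := e ▸ Nat.pow_le_pow_right (by omega) hj3
  have h9 : r < 9 := by
    by_contra! hc
    have : q * q < 3 * r * (3 * r) := Nat.mul_self_lt_mul_self (by omega)
    nlinarith [Nat.mul_le_mul_right (r * r) hc]
  have hq24 : q < 24 := by omega
  have hj10 : j < 10 := by
    by_contra! hc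
    have h10 : 2 ^ 10 ≤ r ^ j :=
      (Nat.pow_le_pow_left hr 10).trans (Nat.pow_le_pow_right (by omega) hc)
    rw [e] at h10
    nlinarith
  interval_cases r <;> interval_cases j <;> norm_num at e <;> interval_cases q <;> omega

include h in
theorem hasPair_general (hq : 3 ≤ q) (h5 : q ≠ 5) (h8 : q ≠ 8) : HasPair σ := by
  obtain ⟨g, hg⟩ := h.exists_gen
  have hσσ := h.conj_conj
  set ν := g ^ (q - 1) with hνdef
  have hord : orderOf ν = q + 1 := by
    have e : q ^ 2 - 1 = (q + 1) * (q - 1) := by simpa using Nat.sq_sub_sq q 1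
    rw [hνdef, orderOf_pow' _ (by omega), hg, e, Nat.gcd_mul_left_left, Nat.mul_div_cancel _ (by omega)]
  obtain ⟨μ, hμ⟩ : ∃ μ : F, μ = (ν : F) := ⟨_, rfl⟩
  have hμ0 : μ ≠ 0 := hμ ▸ ν.ne_zero
  have hσμ : σ μ = μ⁻¹ := by
    refine eq_inv_of_mul_eq_one_left ?_
    rw [h.apply_eq, ← pow_succ, hμ, ← Units.val_pow_eq_pow_val, ← hord, pow_orderOf_eq_one, Units.val_one]
  have hμ1 : 1 + μ ≠ 0 := by
    intro e
    have : ν ^ 2 = 1 := Units.ext (by
      rw [Units.val_pow_eq_pow_val, Units.val_one, ← hμ]; linear_combination (μ - 1) * e)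
    have := Nat.le_of_dvd (by norm_num) (hord ▸ orderOf_dvd_of_pow_eq_one this)
    omega
  obtain ⟨b', hb'⟩ := h.exists_norm (a := -((1 + μ) ^ 2 / μ)) (by
    simp only [map_neg, map_div₀, map_pow, map_add, map_one, hσμ]
    field_simp
    ring)
  have hb0 : b' ≠ 0 := by
    rintro rfl
    rw [zero_mul, zero_eq_neg, div_eq_zero_iff] at hb'
    simp [hμ0, hμ1] at hb'
  set c := (2 * μ ^ 2 + μ + 1) / (μ * (1 + μ)) with hcdef
  have hμ1' : 1 + μ⁻¹ ≠ 0 := by
    intro e
    exact hμ1 (by field_simp at e; linear_combination e)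
  have hc : c + σ c + -b' * σ (-b') = 0 := by
    rw [map_neg, neg_mul_neg, hb']
    have hsc : σ c = (2 + μ + μ ^ 2) / (1 + μ) := by
      rw [hcdef, map_div₀, map_mul, map_add, map_add, map_mul, map_pow, map_add, map_one, map_ofNat, hσμ,
        div_eq_div_iff (mul_ne_zero (inv_ne_zero hμ0) hμ1') hμ1]
      field_simp
      ring
    rw [hsc, hcdef]
    field_simp
    ring
  have hc' : (1 + μ) + σ (1 + μ) + b' * σ b' = 0 := by
    rw [hb', map_add, map_one, hσμ]
    field_simp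
    ring
  refine hasPair_of_word h hc hc' (neg_ne_zero.2 hb0) hμ1 one_ne_zero (by simp)
    (lEl₃ hσσ b' (1 + μ) hc' * uEl₃ hσσ (-b') c hc * lEl₃ hσσ b' (1 + μ) hc') ?_ μ ?_ ?_
  · have hu := Subgroup.subset_closure (k := ({uEl₃ hσσ (-b') c hc, lEl₃ hσσ b' (1 + μ) hc'} : Set (suAnti σ)))
    exact mul_mem (mul_mem (hu (by simp)) (hu (by simp))) (hu (by simp))
  · have e : col (lEl₃ hσσ b' (1 + μ) hc') = ![1, b', 1 + μ] := by
      funext i; rw [col_apply, mat₃_lEl]; fin_cases i <;> simp [lMat₃]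
    rw [col_mul, map_mul, ← Matrix.mulVec_mulVec, e, mat₃_lEl, mat₃_uEl, uMat_mulVec, lMat_mulVec]
    have hx0 : 1 - σ (-b') * b' + c * (1 + μ) = μ := by
      rw [map_neg, neg_mul, sub_neg_eq_add, mul_comm (σ b'), hb', hcdef]
      field_simp
      ring
    funext i
    fin_cases i
    · simpa using hx0
    · simp only [Fin.mk_one, Matrix.cons_val_one, Matrix.cons_val_zero]
      linear_combination b' * hx0
    · simp only [Fin.reduceFinMk, Matrix.cons_val]
      have hk : μ * (-((1 + μ) ^ 2 / μ)) + (1 + μ) ^ 2 = 0 := by field_simp; ring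
      simp only [map_neg] at hx0 ⊢
      linear_combination (1 + μ) * hx0 + μ * hb' + hk
  · intro R hR
    by_contra hne
    obtain ⟨r, j, hr, hj, e, hx⟩ := subring_bound h R hne
    have hlam : σ μ * σ μ / μ = ((ν⁻¹ ^ 3 : Fˣ) : F) := by
      rw [Units.val_pow_eq_pow_val, Units.val_inv_eq_inv_val, hσμ, hμ]; field_simp
    have h1 := hx _ hR (by rw [hlam]; exact Units.ne_zero _)
    rw [hlam, ← Units.val_pow_eq_pow_val, ← pow_mul] at h1
    have h2 : ν⁻¹ ^ (3 * (r - 1)) = 1 := Units.ext (h1.trans Units.val_one.symm)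
    have := orderOf_dvd_of_pow_eq_one h2
    rw [orderOf_inv, hord] at this
    exact arith hq h5 h8 hr hj e this

include h in
theorem hasPair_five (hq : q = 5) : HasPair σ := by
  subst hq
  obtain ⟨g, hg⟩ := h.exists_gen
  have hσσ := h.conj_conj
  set ν := g ^ 4 with hνdef
  have hord : orderOf ν = 6 := by rw [hνdef, orderOf_pow' _ (by norm_num), hg]; norm_num
  obtain ⟨μ, hμ⟩ : ∃ μ : F, μ = (ν : F) := ⟨_, rfl⟩
  have h5 : (5 : F) = 0 := by
    have := Fintype.ofFinite F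
    have e := FiniteField.cast_card_eq_zero F
    rw [← Nat.card_eq_fintype_card, h.card] at e
    push_cast at e
    exact eq_zero_of_pow_eq_zero (show (5 : F) ^ 2 = 0 by norm_num; exact e)
  have hne : ∀ k, 0 < k → k < 6 → μ ^ k ≠ 1 := fun k h0 h1 e => by
    have : ν ^ k = 1 := Units.ext (by rw [Units.val_pow_eq_pow_val, Units.val_one, ← hμ]; exact e)
    have := Nat.le_of_dvd h0 (hord ▸ orderOf_dvd_of_pow_eq_one this)
    omega
  have h6 : μ ^ 6 = 1 := by
    rw [hμ, ← Units.val_pow_eq_pow_val, ← hord, pow_orderOf_eq_one, Units.val_one]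
  have hp : μ ^ 2 - μ + 1 = 0 := by
    have e : (μ ^ 3 - 1) * ((μ + 1) * (μ ^ 2 - μ + 1)) = 0 := by linear_combination h6
    rcases mul_eq_zero.1 e with e | e
    · exact absurd (sub_eq_zero.1 e) (hne 3 (by norm_num) (by norm_num))
    rcases mul_eq_zero.1 e with e | e
    · exact absurd (by linear_combination (μ - 1) * e : μ ^ 2 = 1) (hne 2 (by norm_num) (by norm_num))
    · exact e
  have hσμ : σ μ = 1 - μ := by
    rw [h.apply_eq]; linear_combination (μ ^ 3 + μ ^ 2 - 1) * hp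
  have hc : (1 + 2 * μ) + σ (1 + 2 * μ) + 1 * σ 1 = 0 := by
    simp only [map_add, map_mul, map_ofNat, map_one, hσμ]; linear_combination h5
  have hc' : (3 + 2 * μ) + σ (3 + 2 * μ) + (2 + μ) * σ (2 + μ) = 0 := by
    simp only [map_add, map_mul, map_ofNat, hσμ]; grind
  have hl : (3 + 3 * μ : F) ≠ 0 := fun e => hne 2 (by norm_num) (by norm_num) (by grind)
  have hlb : σ (3 + 3 * μ) * σ (3 + 3 * μ) / (3 + 3 * μ) = -(2 + μ) := by
    rw [div_eq_iff hl]; simp only [map_add, map_mul, map_ofNat, hσμ]; grind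
  obtain ⟨huc, hu⟩ := uEl_inv hσσ _ _ hc
  obtain ⟨hvc, hv⟩ := lEl_inv hσσ _ _ hc'
  refine hasPair_of_word h hc hc' one_ne_zero (fun e => hne 2 (by norm_num) (by norm_num) (by grind)) hl
    (by rw [mul_one, hlb])
    ((lEl₃ hσσ (2 + μ) (3 + 2 * μ) hc')⁻¹ * (uEl₃ hσσ 1 (1 + 2 * μ) hc)⁻¹
      * (lEl₃ hσσ (2 + μ) (3 + 2 * μ) hc')⁻¹ * (lEl₃ hσσ (2 + μ) (3 + 2 * μ) hc')⁻¹) ?_ (3 + 3 * μ) ?_ ?_
  · have hu := Subgroup.subset_closure
      (k := ({uEl₃ hσσ 1 (1 + 2 * μ) hc, lEl₃ hσσ (2 + μ) (3 + 2 * μ) hc'} : Set (suAnti σ)))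
    exact mul_mem (mul_mem (mul_mem (inv_mem (hu (by simp))) (inv_mem (hu (by simp))))
      (inv_mem (hu (by simp)))) (inv_mem (hu (by simp)))
  · rw [hu, hv, col, map_mul, map_mul, map_mul, mat₃_lEl, mat₃_uEl, ← Matrix.mulVec_mulVec,
      ← Matrix.mulVec_mulVec, ← Matrix.mulVec_mulVec, lMat_mulVec, lMat_mulVec, uMat_mulVec, lMat_mulVec]
    simp only [map_add, map_mul, map_ofNat, map_neg, map_one, map_sub, hσμ]
    clear * - hp h5
    funext i
    fin_cases i <;> simp <;> grobner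
  · intro R hR
    rw [hlb] at hR
    have hμR : μ ∈ R := by
      have := sub_mem (neg_mem hR) (add_mem R.one_mem R.one_mem)
      rwa [show - -(2 + μ) - (1 + 1) = μ by ring] at this
    by_contra hne'
    obtain ⟨r, j, hr, hj, e, hx⟩ := subring_bound h R hne'
    have hr5 : r ≤ 5 := by
      have := Nat.pow_le_pow_right (show 1 ≤ r by omega) hj
      rw [e] at this
      nlinarith
    refine hne (r - 1) (by omega) (by omega) (hx μ hμR fun e0 => ?_)
    exact ν.ne_zero (hμ ▸ e0)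

include h in
theorem hasPair_eight (hq : q = 8) : HasPair σ := by
  subst hq
  obtain ⟨g, hg⟩ := h.exists_gen
  have hσσ := h.conj_conj
  set ν := g ^ 7 with hνdef
  have hord : orderOf ν = 9 := by rw [hνdef, orderOf_pow' _ (by norm_num), hg]; norm_num
  obtain ⟨μ, hμ⟩ : ∃ μ : F, μ = (ν : F) := ⟨_, rfl⟩
  have h2 : (2 : F) = 0 := by
    have := Fintype.ofFinite F
    have e := FiniteField.cast_card_eq_zero F
    rw [← Nat.card_eq_fintype_card, h.card] at e
    norm_num at e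
    exact eq_zero_of_pow_eq_zero (show (2 : F) ^ 6 = 0 by norm_num; exact e)
  have hne : ∀ k, 0 < k → k < 9 → μ ^ k ≠ 1 := fun k h0 h1 e => by
    have : ν ^ k = 1 := Units.ext (by rw [Units.val_pow_eq_pow_val, Units.val_one, ← hμ]; exact e)
    have := Nat.le_of_dvd h0 (hord ▸ orderOf_dvd_of_pow_eq_one this)
    omega
  have h9 : μ ^ 9 = 1 := by
    rw [hμ, ← Units.val_pow_eq_pow_val, ← hord, pow_orderOf_eq_one, Units.val_one]
  have hp : μ ^ 6 + μ ^ 3 + 1 = 0 := by
    have e : (μ ^ 3 - 1) * (μ ^ 6 + μ ^ 3 + 1) = 0 := by linear_combination h9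
    exact (mul_eq_zero.1 e).resolve_left (sub_ne_zero.2 (hne 3 (by norm_num) (by norm_num)))
  have hσμ : σ μ = μ ^ 5 + μ ^ 2 := by
    have e : μ ^ 8 = μ ^ 5 + μ ^ 2 := by
      linear_combination μ ^ 2 * hp - (μ ^ 5 + μ ^ 2) * h2
    rw [h.apply_eq, e]
  have hc : (μ + μ ^ 2 + μ ^ 3 + μ ^ 4) + σ (μ + μ ^ 2 + μ ^ 3 + μ ^ 4) + 1 * σ 1 = 0 := by
    simp only [map_add, map_pow, map_one, hσμ]; grind
  have hc' : μ + σ μ + (μ + μ ^ 2) * σ (μ + μ ^ 2) = 0 := by
    simp only [map_add, map_pow, hσμ]; grind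
  have hμ0 : μ ≠ 0 := hμ ▸ ν.ne_zero
  have hl : μ ^ 2 + μ ^ 3 ≠ 0 := fun e => hne 1 (by norm_num) (by norm_num) (by
    have : μ ^ 2 * (1 + μ) = 0 := by linear_combination e
    have : 1 + μ = 0 := (mul_eq_zero.1 this).resolve_left (pow_ne_zero 2 hμ0)
    grind)
  have hlb : σ (μ ^ 2 + μ ^ 3) * σ (μ ^ 2 + μ ^ 3) / (μ ^ 2 + μ ^ 3) = -(μ + μ ^ 2) := by
    rw [div_eq_iff hl]; simp only [map_add, map_pow, hσμ]; clear * - hp h2; grobner
  have hT : (1 + μ + μ ^ 5 : F) ≠ 0 := by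
    refine left_ne_zero_of_mul_eq_one (b := 1 + μ ^ 2 + μ ^ 3) ?_
    clear * - hp h2
    grobner
  obtain ⟨huc, hu⟩ := uEl_inv hσσ _ _ hc
  obtain ⟨hvc, hv⟩ := lEl_inv hσσ _ _ hc'
  refine hasPair_of_word h hc hc' one_ne_zero hμ0 hl (by rw [mul_one, hlb])
    ((lEl₃ hσσ (μ + μ ^ 2) μ hc')⁻¹ * (uEl₃ hσσ 1 _ hc)⁻¹ * (uEl₃ hσσ 1 _ hc)⁻¹
      * (lEl₃ hσσ (μ + μ ^ 2) μ hc')⁻¹ * (uEl₃ hσσ 1 _ hc)⁻¹ * (lEl₃ hσσ (μ + μ ^ 2) μ hc')⁻¹)
    ?_ (1 + μ + μ ^ 5) ?_ ?_
  · have hu := Subgroup.subset_closure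
      (k := ({uEl₃ hσσ 1 _ hc, lEl₃ hσσ (μ + μ ^ 2) μ hc'} : Set (suAnti σ)))
    exact mul_mem (mul_mem (mul_mem (mul_mem (mul_mem (inv_mem (hu (by simp))) (inv_mem (hu (by simp))))
      (inv_mem (hu (by simp)))) (inv_mem (hu (by simp)))) (inv_mem (hu (by simp)))) (inv_mem (hu (by simp)))
  · rw [hu, hv, col, map_mul, map_mul, map_mul, map_mul, map_mul, mat₃_lEl, mat₃_uEl,
      ← Matrix.mulVec_mulVec, ← Matrix.mulVec_mulVec, ← Matrix.mulVec_mulVec, ← Matrix.mulVec_mulVec,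
      ← Matrix.mulVec_mulVec, lMat_mulVec, uMat_mulVec, lMat_mulVec, uMat_mulVec, uMat_mulVec, lMat_mulVec]
    simp only [map_add, map_pow, map_neg, map_one, hσμ]
    clear * - hp h2
    funext i
    fin_cases i <;> simp <;> grobner
  · intro R hR
    set lam := σ (1 + μ + μ ^ 5) * σ (1 + μ + μ ^ 5) / (1 + μ + μ ^ 5)
    have hlam : lam = μ + μ ^ 2 + μ ^ 3 + μ ^ 4 + μ ^ 5 := by
      rw [div_eq_iff hT]; simp only [map_add, map_pow, map_one, hσμ]; clear * - hp h2; grobner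
    have hμR : μ ∈ R := by
      have := add_mem (add_mem (add_mem R.one_mem hR) (pow_mem hR 2)) (pow_mem hR 5)
      convert this using 1
      rw [hlam]; clear * - hp h2; grobner
    by_contra hne'
    obtain ⟨r, j, hr, hj, e, hx⟩ := subring_bound h R hne'
    have hr8 : r ≤ 8 := by
      have := Nat.pow_le_pow_right (show 1 ≤ r by omega) hj
      rw [e] at this
      nlinarith
    exact hne (r - 1) (by omega) (by omega) (hx μ hμR hμ0)

include h in
/-- Two conjugate regular unipotents for every `q ≥ 3`. -/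
theorem hasPair (hq : 3 ≤ q) : HasPair σ := by
  by_cases h5 : q = 5
  · exact hasPair_five h h5
  by_cases h8 : q = 8
  · exact hasPair_eight h h8
  exact hasPair_general h hq h5 h8

end CfsgLib.SectRank.SUPair
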