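import Cfsg.Agent.Lib.SectRank.UnitaryUnipotentCases
import Cfsg.Agent.Lib.ClassicalForms.Unitary.Simple

/-!
`SU₃(q)`, `q ≥ 3`, is generated by two conjugate regular unipotent elements.
-/

set_option autoImplicit false

open Matrix
open scoped MatrixGroups commutatorElement

namespace CfsgLib.SectRank.SUPair

open CfsgLib.Amalgams

variable {F : Type*} [Field F]

local notation "M₃" => Matrix (Fin 3) (Fin 3) F

/-- The frame change, with the matrices visible. -/
theorem exists_suAnti_conj [Finite F] {σ : F →+* F} {q : ℕ} (h : UniField F σ q) :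
    ∃ (P Q : M₃) (e : suAnti σ ≃* Cfsg.SU 3 F q), P * Q = 1 ∧ Q * P = 1 ∧
      ∀ g, ((e g : SL(3, F)) : M₃) = P * mat₃ σ g * Q := by
  have hσσ := h.conj_conj
  obtain ⟨κ, hκ⟩ := h.exists_norm (a := -1) (by rw [map_neg, map_one])
  obtain ⟨t, ht⟩ := h.exists_trace (a := -1) (by rw [map_neg, map_one])
  let P : M₃ := !![1, 0, 1 + t; κ, 0, t * κ; 0, 1, 0]
  have hP : Pᵀ * P.map σ = antiForm := by
    ext i j
    fin_cases i <;> fin_cases j <;>
      simp [P, antiForm, Matrix.mul_apply, Fin.sum_univ_three]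
    · linear_combination hκ
    · linear_combination (σ t) * hκ
    · linear_combination t * hκ
    · linear_combination ht + t * (σ t) * hκ
  have hκ0 : κ ≠ 0 := by rintro rfl; simp at hκ
  have hdet : IsUnit P.det := by
    rw [isUnit_iff_ne_zero]
    simp [P, Matrix.det_fin_three]
    intro e
    exact hκ0 (by linear_combination e)
  have hPQ : P * P⁻¹ = 1 := Matrix.mul_nonsing_inv P hdet
  have hQP : P⁻¹ * P = 1 := Matrix.nonsing_inv_mul P hdet
  set Q : M₃ := P⁻¹
  have hQJ : Qᵀ * antiForm * Q.map σ = 1 := by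
    rw [← hP, show Qᵀ * (Pᵀ * P.map σ) * Q.map σ = (P * Q)ᵀ * (P * Q).map σ by
      simp only [Matrix.transpose_mul, Matrix.map_mul, Matrix.mul_assoc], hPQ]
    simp
  have d1 : ∀ M : M₃, M.det = 1 → (P * M * Q).det = 1 := fun M hM => by
    rw [Matrix.det_mul, Matrix.det_mul, hM, mul_one, ← Matrix.det_mul, hPQ, Matrix.det_one]
  have d2 : ∀ M : M₃, M.det = 1 → (Q * M * P).det = 1 := fun M hM => by
    rw [Matrix.det_mul, Matrix.det_mul, hM, mul_one, ← Matrix.det_mul, hQP, Matrix.det_one]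
  refine ⟨P, Q,
    { toFun := fun g => ⟨⟨P * mat₃ σ g * Q, d1 _ (g : SL(3, F)).2⟩, ?_⟩
      invFun := fun g => ⟨⟨Q * ((g : SL(3, F)) : M₃) * P, d2 _ (g : SL(3, F)).2⟩, ?_⟩
      left_inv := fun g => ?_
      right_inv := fun g => ?_
      map_mul' := fun a b => ?_ }, hPQ, hQP, fun g => rfl⟩
  · refine (mem_SU_iff h.apply_eq).2 ?_
    have hg : (mat₃ σ g)ᵀ * antiForm * (mat₃ σ g).map σ = antiForm := mem_suAnti.1 g.2
    show (P * mat₃ σ g * Q)ᵀ * (P * mat₃ σ g * Q).map σ = 1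
    rw [show (P * mat₃ σ g * Q)ᵀ * (P * mat₃ σ g * Q).map σ =
      Qᵀ * ((mat₃ σ g)ᵀ * (Pᵀ * P.map σ) * (mat₃ σ g).map σ) * Q.map σ by
      simp only [Matrix.transpose_mul, Matrix.map_mul, Matrix.mul_assoc], hP, hg, hQJ]
  · refine mem_suAnti.2 ?_
    have hg := (mem_SU_iff h.apply_eq).1 g.2
    show (Q * ((g : SL(3, F)) : M₃) * P)ᵀ * antiForm * (Q * ((g : SL(3, F)) : M₃) * P).map σ = antiForm
    rw [show (Q * ((g : SL(3, F)) : M₃) * P)ᵀ * antiForm * (Q * ((g : SL(3, F)) : M₃) * P).map σ =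
      Pᵀ * (((g : SL(3, F)) : M₃)ᵀ * (Qᵀ * antiForm * Q.map σ) * ((g : SL(3, F)) : M₃).map σ) * P.map σ by
      simp only [Matrix.transpose_mul, Matrix.map_mul, Matrix.mul_assoc], hQJ, Matrix.mul_one, hg,
      Matrix.mul_one, hP]
  · apply Subtype.ext; apply Subtype.ext
    show Q * (P * mat₃ σ g * Q) * P = mat₃ σ g
    rw [show Q * (P * mat₃ σ g * Q) * P = (Q * P) * mat₃ σ g * (Q * P) by
      simp only [Matrix.mul_assoc], hQP, Matrix.one_mul, Matrix.mul_one]
  · apply Subtype.ext; apply Subtype.ext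
    show P * (Q * ((g : SL(3, F)) : M₃) * P) * Q = _
    rw [show P * (Q * ((g : SL(3, F)) : M₃) * P) * Q = (P * Q) * ((g : SL(3, F)) : M₃) * (P * Q) by
      simp only [Matrix.mul_assoc], hPQ, Matrix.one_mul, Matrix.mul_one]
  · apply Subtype.ext; apply Subtype.ext
    show P * mat₃ σ (a * b) * Q = P * mat₃ σ a * Q * (P * mat₃ σ b * Q)
    rw [map_mul, show P * mat₃ σ a * Q * (P * mat₃ σ b * Q) =
      P * (mat₃ σ a * ((Q * P) * mat₃ σ b)) * Q by
      simp only [Matrix.mul_assoc], hQP, Matrix.one_mul]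

/-- Two conjugate regular unipotent generators of `SU₃(q)`. -/
theorem exists_regular_pair [Fintype F] {q : ℕ} (hq : 3 ≤ q) (hF : Fintype.card F = q ^ 2) :
    ∃ u g : Cfsg.SU 3 F q,
      (IsNilpotent (((u : SL(3, F)) : M₃) - 1) ∧ (((u : SL(3, F)) : M₃) - 1) ^ (3 - 1) ≠ 0) ∧
      Subgroup.closure ({u, g * u * g⁻¹} : Set (Cfsg.SU 3 F q)) = ⊤ := by
  classical
  have hF' : Nat.card F = q ^ 2 := by rw [Nat.card_eq_fintype_card, hF]
  obtain ⟨σ, h⟩ := exists_uniField hF'
  obtain ⟨u, g, b, c, hb, hu, hall⟩ := hasPair h hq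
  obtain ⟨P, Q, e, hPQ, hQP, he⟩ := exists_suAnti_conj h
  refine ⟨e u, e g, ?_, ?_⟩
  · set N := uMat₃ σ b c - 1
    have hconj : ((e u : SL(3, F)) : M₃) - 1 = P * N * Q := by
      rw [he, hu, Matrix.mul_sub, Matrix.sub_mul, Matrix.mul_one, hPQ]
    have hpow : ∀ k : ℕ, 0 < k → (P * N * Q) ^ k = P * N ^ k * Q := by
      intro k hk
      induction k, hk using Nat.le_induction with
      | base => simp
      | succ k _ ih =>
        rw [pow_succ, ih, pow_succ N, show P * N ^ k * Q * (P * N * Q) = P * (N ^ k * ((Q * P) * N)) * Q by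
          simp only [Matrix.mul_assoc], hQP, Matrix.one_mul]
    rw [hconj]
    refine ⟨⟨3, ?_⟩, ?_⟩
    · have : N ^ 3 = 0 := by
        ext i j
        fin_cases i <;> fin_cases j <;>
          simp [N, uMat₃, pow_succ, Matrix.mul_apply, Fin.sum_univ_three, Matrix.one_apply]
      rw [hpow 3 (by norm_num), this, Matrix.mul_zero, Matrix.zero_mul]
    · intro h0
      rw [hpow _ (by norm_num)] at h0
      have h1 : N ^ (3 - 1) = 0 := by
        calc N ^ (3 - 1) = (Q * P) * N ^ (3 - 1) * (Q * P) := by rw [hQP, Matrix.one_mul, Matrix.mul_one]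
          _ = Q * (P * N ^ (3 - 1) * Q) * P := by simp only [Matrix.mul_assoc]
          _ = 0 := by rw [h0, Matrix.mul_zero, Matrix.zero_mul]
      have := congrFun (congrFun h1 0) 2
      simp [N, uMat₃, pow_succ, Matrix.mul_apply, Fin.sum_univ_three, Matrix.one_apply, hb] at this
  set K := Subgroup.closure ({e u, e g * e u * (e g)⁻¹} : Set (Cfsg.SU 3 F q)) with hK
  let S : Set (Cfsg.SU 3 F q) := {x | ∃ y β γ, mat₃ σ y = uMat₃ σ β γ ∧ e y = x}
  have hN : Subgroup.normalClosure S ≤ K := by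
    rw [Subgroup.normalClosure, Subgroup.closure_le]
    intro x hx
    obtain ⟨a, ⟨y, β, γ, hy, rfl⟩, hconj⟩ := Group.mem_conjugatesOfSet_iff.1 hx
    obtain ⟨z, rfl⟩ := isConj_iff.1 hconj
    have hm := Subgroup.mem_map_of_mem e.toMonoidHom (hall (e.symm z) y β γ hy)
    rw [MonoidHom.map_closure, Set.image_insert_eq, Set.image_singleton] at hm
    simpa using hm
  have hsimple := CfsgLib.ClassicalForms.isSimpleGroup_psu (n := 3) hF (by norm_num) (by omega)
  have hperf := CfsgLib.ClassicalForms.commutator_su_eq_top (n := 3) hF (by norm_num) (by omega)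
  set N := Subgroup.normalClosure S with hNdef
  let π := QuotientGroup.mk' (Subgroup.center (Cfsg.SU 3 F q))
  have hπ : Function.Surjective π := QuotientGroup.mk'_surjective _
  rcases (Subgroup.Normal.map Subgroup.normalClosure_normal π hπ).eq_bot_or_eq_top with hbot | htop
  · exfalso
    have hu' : e u ∈ N := Subgroup.subset_normalClosure ⟨u, b, c, hu, rfl⟩
    have : π (e u) = 1 := by
      have := Subgroup.mem_map_of_mem π hu'
      rwa [hbot, Subgroup.mem_bot] at this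
    have hcen : e u ∈ Subgroup.center (Cfsg.SU 3 F q) := (QuotientGroup.eq_one_iff _).1 this
    have hcen' : u ∈ Subgroup.center (suAnti σ) := by
      rw [Subgroup.mem_center_iff] at hcen ⊢
      intro y
      exact e.injective (by rw [map_mul, map_mul]; exact hcen (e y))
    obtain ⟨s, -, hs⟩ := scalar_of_mem_center h hcen'
    rw [hu] at hs
    have := congrFun (congrFun hs 1) 2
    simp [uMat₃, hb] at this
  refine eq_top_iff.2 (le_trans ?_ hN)
  rw [← hperf, commutator_def, Subgroup.commutator_le]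
  intro x₁ _ x₂ _
  let φ := QuotientGroup.mk' N
  have key : ∀ x, ∃ z ∈ Subgroup.center (Cfsg.SU 3 F q), φ x = φ z := by
    intro x
    obtain ⟨n, hn, hnx⟩ := Subgroup.mem_map.1 (htop ▸ Subgroup.mem_top (π x) : π x ∈ N.map π)
    refine ⟨n⁻¹ * x, (QuotientGroup.eq_one_iff _).1 (show π (n⁻¹ * x) = 1 by
      rw [map_mul, map_inv, hnx, inv_mul_cancel]), ?_⟩
    have : φ n = 1 := (QuotientGroup.eq_one_iff _).2 hn
    rw [map_mul, map_inv, this, inv_one, one_mul]
  obtain ⟨z₁, hz₁, e₁⟩ := key x₁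
  obtain ⟨z₂, -, e₂⟩ := key x₂
  refine (QuotientGroup.eq_one_iff _).1 (show φ ⁅x₁, x₂⁆ = 1 from ?_)
  rw [map_commutatorElement, e₁, e₂, ← map_commutatorElement,
    commutatorElement_eq_one_iff_mul_comm.2 ((Subgroup.mem_center_iff.1 hz₁ z₂).symm), map_one]

end CfsgLib.SectRank.SUPair
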