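import Cfsg.Agent.Lib.Amalgams.UnitaryThree

/-!
`SU₃` in the antidiagonal model: a criterion for a subgroup containing a regular unipotent element of
the upper unipotent group to contain all upper unipotent elements and all their conjugates.
-/

set_option autoImplicit false

open Matrix
open scoped MatrixGroups

namespace CfsgLib.SectRank.SUPair

open CfsgLib.Amalgams

variable {F : Type*} [Field F] {σ : F →+* F} (hσσ : ∀ x, σ (σ x) = x)

local notation "M₃" => Matrix (Fin 3) (Fin 3) F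

/-- First column. -/
def col (g : suAnti σ) : Fin 3 → F := mat₃ σ g *ᵥ ![1, 0, 0]

theorem col_apply (g : suAnti σ) (i : Fin 3) : col g i = mat₃ σ g i 0 := by
  simp [col, Matrix.mulVec, dotProduct, Fin.sum_univ_three]

theorem col_mul (a b : suAnti σ) : col (a * b) = mat₃ σ a *ᵥ col b := by
  simp [col, Matrix.mulVec_mulVec]

theorem uMat_mulVec (b c x y z : F) :
    uMat₃ σ b c *ᵥ ![x, y, z] = ![x - σ b * y + c * z, y + b * z, z] := by
  funext i
  fin_cases i <;> simp [uMat₃, Matrix.mulVec, dotProduct, Fin.sum_univ_three] <;> ring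

theorem lMat_mulVec (b c x y z : F) :
    lMat₃ σ b c *ᵥ ![x, y, z] = ![x, b * x + y, c * x - σ b * y + z] := by
  funext i
  fin_cases i <;> simp [lMat₃, Matrix.mulVec, dotProduct, Fin.sum_univ_three] <;> ring

theorem form_entries (g : suAnti σ) (i j : Fin 3) :
    mat₃ σ g 0 i * σ (mat₃ σ g 2 j) + mat₃ σ g 1 i * σ (mat₃ σ g 1 j)
      + mat₃ σ g 2 i * σ (mat₃ σ g 0 j) = antiForm i j := by
  have e : (mat₃ σ g)ᵀ * antiForm * (mat₃ σ g).map σ = antiForm := mem_suAnti.1 g.2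
  have := congrFun (congrFun e i) j
  simp [Matrix.mul_apply, Fin.sum_univ_three, antiForm] at this ⊢
  linear_combination this

theorem exists_uEl_of_mat {g : suAnti σ} {b c : F} (hg : mat₃ σ g = uMat₃ σ b c) :
    ∃ hc, g = uEl₃ hσσ b c hc := by
  have hc : c + σ c + b * σ b = 0 := by
    have := form_entries g 2 2
    rw [hg] at this
    simp [uMat₃, antiForm] at this
    linear_combination this
  exact ⟨hc, mat₃_injective σ hg⟩

theorem uEl_mul (b₁ c₁ b₂ c₂ : F) (h₁ : c₁ + σ c₁ + b₁ * σ b₁ = 0) (h₂ : c₂ + σ c₂ + b₂ * σ b₂ = 0) :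
    ∃ hc, uEl₃ hσσ b₁ c₁ h₁ * uEl₃ hσσ b₂ c₂ h₂ = uEl₃ hσσ (b₁ + b₂) (c₁ + c₂ - σ b₁ * b₂) hc := by
  refine exists_uEl_of_mat hσσ ?_
  rw [map_mul, mat₃_uEl, mat₃_uEl]
  ext i j
  fin_cases i <;> fin_cases j <;>
    simp [uMat₃, Matrix.mul_apply, Fin.sum_univ_three] <;> ring

theorem uEl_inv (b c : F) (hc : c + σ c + b * σ b = 0) :
    ∃ hc', (uEl₃ hσσ b c hc)⁻¹ = uEl₃ hσσ (-b) (σ c) hc' := by
  refine ⟨by rw [hσσ, map_neg]; linear_combination hc, inv_eq_of_mul_eq_one_right (mat₃_injective σ ?_)⟩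
  rw [map_mul, mat₃_uEl, mat₃_uEl, map_one]
  ext i j
  fin_cases i <;> fin_cases j <;>
    simp [uMat₃, Matrix.mul_apply, Fin.sum_univ_three]
  linear_combination hc

theorem lEl_inv (b c : F) (hc : c + σ c + b * σ b = 0) :
    ∃ hc', (lEl₃ hσσ b c hc)⁻¹ = lEl₃ hσσ (-b) (σ c) hc' := by
  refine ⟨by rw [hσσ, map_neg]; linear_combination hc, inv_eq_of_mul_eq_one_right (mat₃_injective σ ?_)⟩
  rw [map_mul, mat₃_lEl, mat₃_lEl, map_one]
  ext i j
  fin_cases i <;> fin_cases j <;>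
    simp [lMat₃, Matrix.mul_apply, Fin.sum_univ_three]
  linear_combination hc

theorem upper (t : suAnti σ) (h20 : mat₃ σ t 2 0 = 0) :
    mat₃ σ t 1 0 = 0 ∧ mat₃ σ t 2 1 = 0 ∧ mat₃ σ t 0 0 * σ (mat₃ σ t 2 2) = 1 ∧
      mat₃ σ t 0 0 * mat₃ σ t 1 1 * mat₃ σ t 2 2 = 1 := by
  have e00 := form_entries t 0 0
  have e01 := form_entries t 0 1
  have e02 := form_entries t 0 2
  rw [h20, map_zero] at e00
  simp [antiForm] at e00
  have h10 : mat₃ σ t 1 0 = 0 := by simpa using e00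
  rw [h20, h10] at e01 e02
  simp [antiForm] at e01 e02
  have hdet : (mat₃ σ t).det = 1 := (t : SL(3, F)).2
  rw [Matrix.det_fin_three, h20, h10] at hdet
  have hl : mat₃ σ t 0 0 ≠ 0 := left_ne_zero_of_mul_eq_one e02
  have h21 : mat₃ σ t 2 1 = 0 := by simpa [hl] using e01
  rw [h21] at hdet
  exact ⟨h10, h21, e02, by linear_combination hdet⟩

/-- Conjugating an upper unipotent by an upper triangular element multiplies `b` by a scalar. -/
theorem conj_uEl (t : suAnti σ) (h20 : mat₃ σ t 2 0 = 0) (b c : F) (hc : c + σ c + b * σ b = 0) :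
    ∃ c' hc', t * uEl₃ hσσ b c hc * t⁻¹
      = uEl₃ hσσ (σ (mat₃ σ t 0 0) * σ (mat₃ σ t 0 0) / mat₃ σ t 0 0 * b) c' hc' := by
  obtain ⟨h10, h21, hlm, hdet⟩ := upper t h20
  have e11 := form_entries t 1 1
  rw [h21] at e11
  simp [antiForm] at e11
  set l := mat₃ σ t 0 0 with hl'
  set d := mat₃ σ t 1 1
  set m := mat₃ σ t 2 2
  set z := mat₃ σ t 1 2
  set x := mat₃ σ t 0 1
  set y := mat₃ σ t 0 2
  have hl : l ≠ 0 := left_ne_zero_of_mul_eq_one hlm
  have hsl : σ l ≠ 0 := by simp [hl]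
  have hm : m = (σ l)⁻¹ := by
    have := congrArg σ hlm
    rw [map_mul, hσσ, map_one] at this
    exact eq_inv_of_mul_eq_one_right this
  have hd : d = σ l / l := by
    rw [hm] at hdet
    field_simp at hdet ⊢
    linear_combination hdet
  set b' := σ l * σ l / l * b
  set c' := (l * c + x * b + σ b' * z) / m with hc'
  have hT : mat₃ σ t = !![l, x, y; 0, d, z; 0, 0, m] := by
    ext i j
    fin_cases i <;> fin_cases j <;> simp [l, x, y, d, z, m, h10, h21, h20]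
  have hmat : mat₃ σ (t * uEl₃ hσσ b c hc * t⁻¹) = uMat₃ σ b' c' := by
    have e : mat₃ σ t * uMat₃ σ b c = uMat₃ σ b' c' * mat₃ σ t := by
      rw [hT]
      ext i j
      fin_cases i <;> fin_cases j <;>
        simp [uMat₃, Matrix.mul_apply, Fin.sum_univ_three, hc', b', hm, hd, hσσ] <;> field_simp <;> ring
    rw [map_mul, map_mul, mat₃_uEl, e, Matrix.mul_assoc, ← map_mul, mul_inv_cancel, map_one, Matrix.mul_one]
  obtain ⟨h', e⟩ := exists_uEl_of_mat hσσ hmat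
  exact ⟨_, h', e⟩

include hσσ in
theorem ne_zero_of_skew [Finite F] {q : ℕ} (h : UniField F σ q) (a : F) (ha : σ a = -a) :
    ∃ y : F, σ y - y = a := by
  obtain ⟨ζ, hζ⟩ := h.exists_not_fix
  have hd : σ ζ - ζ ≠ 0 := sub_ne_zero.2 hζ
  refine ⟨a / (σ ζ - ζ) * ζ, ?_⟩
  rw [map_mul, map_div₀, map_sub, hσσ, ha, ← neg_sub (σ ζ) ζ, neg_div_neg_eq, ← mul_sub,
    div_mul_cancel₀ _ hd]

/-- All upper unipotents are obtained from one regular one and a suitable triangular element. -/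
theorem uEl_mem [Finite F] {q : ℕ} (h : UniField F σ q) (G : Subgroup (suAnti σ)) {b₀ c₀ : F}
    (hc₀ : c₀ + σ c₀ + b₀ * σ b₀ = 0) (hb₀ : b₀ ≠ 0) (hu : uEl₃ hσσ b₀ c₀ hc₀ ∈ G) {t : suAnti σ}
    (ht : t ∈ G) (h20 : mat₃ σ t 2 0 = 0)
    (hgen : ∀ R : Subring F, σ (mat₃ σ t 0 0) * σ (mat₃ σ t 0 0) / mat₃ σ t 0 0 ∈ R → R = ⊤)
    (b c : F) (hc : c + σ c + b * σ b = 0) : uEl₃ hσσ b c hc ∈ G := by
  set lam := σ (mat₃ σ t 0 0) * σ (mat₃ σ t 0 0) / mat₃ σ t 0 0
  let S : AddSubgroup F :=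
    { carrier := {s | ∃ c hc, uEl₃ hσσ (b₀ * s) c hc ∈ G}
      zero_mem' := ⟨0, by simp, by
        convert G.one_mem
        apply mat₃_injective σ
        rw [mat₃_uEl, map_one, mul_zero]
        ext i j
        fin_cases i <;> fin_cases j <;> simp [uMat₃]⟩
      add_mem' := by
        rintro s₁ s₂ ⟨c₁, h₁, m₁⟩ ⟨c₂, h₂, m₂⟩
        obtain ⟨h', e⟩ := uEl_mul hσσ _ _ _ _ h₁ h₂
        have := mul_mem m₁ m₂
        rw [e] at this
        simp only [← mul_add] at this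
        exact ⟨_, _, this⟩
      neg_mem' := by
        rintro s ⟨c₁, h₁, m₁⟩
        obtain ⟨h', e⟩ := uEl_inv hσσ _ _ h₁
        have := inv_mem m₁
        rw [e] at this
        simp only [← mul_neg] at this
        exact ⟨_, _, this⟩ }
  have hlam : ∀ s ∈ S, lam * s ∈ S := by
    rintro s ⟨c₁, h₁, m₁⟩
    obtain ⟨c', h', e⟩ := conj_uEl hσσ t h20 _ _ h₁
    have := mul_mem (mul_mem ht m₁) (inv_mem ht)
    rw [e] at this
    simp only [← mul_left_comm b₀] at this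
    exact ⟨_, _, this⟩
  let R : Subring F :=
    { carrier := {r | ∀ s ∈ S, r * s ∈ S}
      mul_mem' := fun {r r'} hr hr' s hs => by rw [mul_assoc]; exact hr _ (hr' s hs)
      one_mem' := fun s hs => by rwa [one_mul]
      add_mem' := fun {r r'} hr hr' s hs => by rw [add_mul]; exact add_mem (hr s hs) (hr' s hs)
      zero_mem' := fun s hs => by rw [zero_mul]; exact S.zero_mem
      neg_mem' := fun {r} hr s hs => by rw [neg_mul]; exact neg_mem (hr s hs) }
  have hR : R = ⊤ := hgen R hlam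
  have hall : ∀ b : F, ∃ c hc, uEl₃ hσσ b c hc ∈ G := by
    intro b
    have h1 : (1 : F) ∈ S := ⟨c₀, by rw [mul_one]; exact hc₀, by simpa using hu⟩
    have : b / b₀ * 1 ∈ S := (hR ▸ Subring.mem_top (b / b₀) : b / b₀ ∈ R) 1 h1
    obtain ⟨c', h', m'⟩ := this
    simp only [mul_one, mul_div_cancel₀ b hb₀] at m'
    exact ⟨_, _, m'⟩
  have hskew : ∀ (a : F) (ha : a + σ a + 0 * σ 0 = 0), uEl₃ hσσ 0 a ha ∈ G := by
    intro a ha
    obtain ⟨y, hy⟩ := ne_zero_of_skew hσσ h a (by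
      simp at ha; exact eq_neg_of_add_eq_zero_right ha)
    obtain ⟨c₁, h₁, m₁⟩ := hall 1
    obtain ⟨c₂, h₂, m₂⟩ := hall y
    have hm : uEl₃ hσσ 1 c₁ h₁ * uEl₃ hσσ y c₂ h₂ * (uEl₃ hσσ y c₂ h₂ * uEl₃ hσσ 1 c₁ h₁)⁻¹ ∈ G :=
      mul_mem (mul_mem m₁ m₂) (inv_mem (mul_mem m₂ m₁))
    convert hm using 1
    rw [eq_mul_inv_iff_mul_eq]
    apply mat₃_injective σ
    simp only [map_mul, mat₃_uEl]
    ext i j
    fin_cases i <;> fin_cases j <;>
      simp [uMat₃, Matrix.mul_apply, Fin.sum_univ_three] <;> first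
        | (linear_combination hy) | (linear_combination -hy) | ring
  obtain ⟨c₁, h₁, m₁⟩ := hall b
  have ha : (c - c₁) + σ (c - c₁) + 0 * σ 0 = 0 := by simp; linear_combination hc - h₁
  obtain ⟨h', e⟩ := uEl_mul hσσ b c₁ 0 (c - c₁) h₁ ha
  have := mul_mem m₁ (hskew _ ha)
  rw [e] at this
  simp only [add_zero, mul_zero, sub_zero, add_sub_cancel] at this
  exact this

/-- A subgroup with all upper unipotents and one element moving the first basis line contains all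
their conjugates. -/
theorem conj_uEl_mem (G : Subgroup (suAnti σ))
    (hU : ∀ b c hc, uEl₃ hσσ b c hc ∈ G) {g : suAnti σ} (hg : g ∈ G) (hg20 : mat₃ σ g 2 0 ≠ 0)
    (x : suAnti σ) (b c : F) (hc : c + σ c + b * σ b = 0) : x * uEl₃ hσσ b c hc * x⁻¹ ∈ G := by
  by_cases hx : mat₃ σ x 2 0 = 0
  · obtain ⟨c', h', e⟩ := conj_uEl hσσ x hx b c hc
    rw [e]; exact hU _ _ _
  set Y : Fin 3 → F := col g with hY
  set X : Fin 3 → F := col x with hX
  have hY2 : Y 2 ≠ 0 := by rwa [hY, col_apply]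
  have hX2 : X 2 ≠ 0 := by rwa [hX, col_apply]
  have iso : ∀ a : suAnti σ, col a 0 * σ (col a 2) + col a 1 * σ (col a 1) + col a 2 * σ (col a 0) = 0 := by
    intro a
    have := form_entries a 0 0
    simpa [col_apply, antiForm] using this
  set k := X 2 / Y 2 with hk
  have hk0 : k ≠ 0 := div_ne_zero hX2 hY2
  set β := (X 1 / k - Y 1) / Y 2 with hβ
  set γ := (X 0 / k - Y 0 + σ β * Y 1) / Y 2 with hγ
  have hγ' : γ + σ γ + β * σ β = 0 := by
    have i1 := iso g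
    have i2 := iso x
    rw [← hY] at i1
    rw [← hX] at i2
    have : σ (X 2) ≠ 0 := by simp [hX2]
    have : σ (Y 2) ≠ 0 := by simp [hY2]
    simp only [hγ, hβ, hk, map_div₀, map_sub, map_add, map_mul, hσσ]
    field_simp
    linear_combination (Y 2 * σ (Y 2)) * i2 - (X 2 * σ (X 2)) * i1
  set a := uEl₃ hσσ β γ hγ'
  have hag : col (a * g) = k⁻¹ • X := by
    rw [col_mul, mat₃_uEl]
    have : col g = ![Y 0, Y 1, Y 2] := by funext i; fin_cases i <;> rfl
    rw [this, uMat_mulVec]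
    funext i
    fin_cases i <;> simp [hγ, hβ, hk] <;> field_simp <;> ring
  set t := (a * g)⁻¹ * x with ht'
  have ht : mat₃ σ t 2 0 = 0 := by
    rw [← col_apply, ht', col_mul, ← hX, show X = k • col (a * g) by
      rw [hag, smul_smul, mul_inv_cancel₀ hk0, one_smul], Matrix.mulVec_smul, ← col_mul,
      inv_mul_cancel]
    simp [col]
  obtain ⟨c', h', e⟩ := conj_uEl hσσ t ht b c hc
  have : x * uEl₃ hσσ b c hc * x⁻¹
      = (a * g) * (t * uEl₃ hσσ b c hc * t⁻¹) * (a * g)⁻¹ := by rw [ht']; group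
  rw [this, e]
  exact mul_mem (mul_mem (mul_mem (hU _ _ _) hg) (hU _ _ _)) (inv_mem (mul_mem (hU _ _ _) hg))

end CfsgLib.SectRank.SUPair
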