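import Cfsg.Agent.Lib.SectRank.UnitaryUnipotentPair

/-!
Two conjugate regular unipotent elements of `SU₃(q)` (antidiagonal model) generate a subgroup
containing every conjugate of every upper unipotent element, for `q ≥ 3`.
-/

set_option autoImplicit false

open Matrix
open scoped MatrixGroups

namespace CfsgLib.SectRank.SUPair

open CfsgLib.Amalgams

variable {F : Type*} [Field F] {σ : F →+* F}

local notation "M₃" => Matrix (Fin 3) (Fin 3) F

/-- `G` contains a conjugate of every upper unipotent element. -/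
def HasAllU (G : Subgroup (suAnti σ)) : Prop :=
  ∀ (x g : suAnti σ) (b c : F), mat₃ σ g = uMat₃ σ b c → x * g * x⁻¹ ∈ G

/-- The conclusion: two conjugate regular unipotents generating everything of interest. -/
def HasPair (σ : F →+* F) : Prop :=
  ∃ (u g : suAnti σ) (b c : F), b ≠ 0 ∧ mat₃ σ u = uMat₃ σ b c ∧
    HasAllU (Subgroup.closure ({u, g * u * g⁻¹} : Set (suAnti σ)))

/-- An upper and a lower regular unipotent in the same class. -/
theorem exists_conj_lower [Finite F] {q : ℕ} (h : UniField F σ q) (b c : F)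
    (hc : c + σ c + b * σ b = 0) (b' c' : F) (hc' : c' + σ c' + b' * σ b' = 0) (hb : b ≠ 0)
    (l : F) (hl : l ≠ 0) (hlb : σ l * σ l / l * b = -b') :
    ∃ g : suAnti σ, g * uEl₃ h.conj_conj b c hc * g⁻¹ = lEl₃ h.conj_conj b' c' hc' := by
  have hσσ := h.conj_conj
  have hsl : σ l ≠ 0 := by simp [hl]
  let D : M₃ := !![l, 0, 0; 0, σ l / l, 0; 0, 0, (σ l)⁻¹]
  let d : suAnti σ := ⟨⟨D, by simp [D, Matrix.det_fin_three]; field_simp⟩, by
    refine mem_suAnti.2 ?_
    show Dᵀ * antiForm * D.map σ = antiForm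
    ext i j
    fin_cases i <;> fin_cases j <;>
      simp [D, antiForm, Matrix.mul_apply, Fin.sum_univ_three, hσσ] <;> field_simp⟩
  have hd00 : mat₃ σ d 0 0 = l := by show D 0 0 = l; simp [D]
  obtain ⟨c₁, hc₁, e₁⟩ :
      ∃ c₁ hc₁, d * uEl₃ hσσ b c hc * d⁻¹ = uEl₃ hσσ (-b') c₁ hc₁ := by
    have := conj_uEl hσσ d (by show D 2 0 = 0; simp [D]) b c hc
    simpa only [hd00, hlb] using this
  have hb' : b' ≠ 0 := fun e => by
    rw [e, neg_zero] at hlb
    simp [hl, hb] at hlb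
  obtain ⟨z, hz⟩ := ne_zero_of_skew hσσ h ((c' - c₁) / (b' * σ b')) (by
    have hne : b' * σ b' ≠ 0 := mul_ne_zero hb' (by simp [hb'])
    rw [map_div₀, map_sub, map_mul, hσσ, mul_comm (σ b') b', ← neg_div]
    congr 1
    rw [map_neg] at hc₁
    linear_combination hc' - hc₁)
  obtain ⟨e, he⟩ := h.exists_trace (a := -(b' * z * σ (b' * z))) (by
    simp only [map_neg, map_mul, hσσ]; ring)
  have hy : e + σ e + b' * z * σ (b' * z) = 0 := by rw [he]; ring
  set y := uEl₃ hσσ (b' * z) e hy with hy'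
  refine ⟨wEl₃ σ * y * d, ?_⟩
  rw [show wEl₃ σ * y * d * uEl₃ hσσ b c hc * (wEl₃ σ * y * d)⁻¹
    = wEl₃ σ * (y * (d * uEl₃ hσσ b c hc * d⁻¹) * y⁻¹) * (wEl₃ σ)⁻¹ by group, e₁, mul_inv_eq_iff_eq_mul]
  have hmid : y * uEl₃ hσσ (-b') c₁ hc₁ * y⁻¹ = uEl₃ hσσ (-b') c' (by
      rw [map_neg]; linear_combination hc') := by
    rw [mul_inv_eq_iff_eq_mul]
    apply mat₃_injective σ
    simp only [map_mul, hy', mat₃_uEl]
    have hne : b' * σ b' ≠ 0 := mul_ne_zero hb' (by simp [hb'])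
    have hz' : (σ z - z) * (b' * σ b') = c' - c₁ := by rw [hz, div_mul_cancel₀ _ hne]
    ext i j
    fin_cases i <;> fin_cases j <;>
      simp [uMat₃, Matrix.mul_apply, Fin.sum_univ_three] <;> first
        | (linear_combination hz') | (linear_combination -hz') | ring
  rw [hmid]
  apply mat₃_injective σ
  simp only [map_mul, mat₃_uEl, mat₃_lEl, mat₃_wEl]
  ext i j
  fin_cases i <;> fin_cases j <;>
    simp [uMat₃, lMat₃, wMat₃, Matrix.mul_apply, Fin.sum_univ_three]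

/-- A word in an upper and a lower regular unipotent landing in the Borel subgroup suffices. -/
theorem hasPair_of_word [Finite F] {q : ℕ} (h : UniField F σ q) {b c b' c' : F}
    (hc : c + σ c + b * σ b = 0) (hc' : c' + σ c' + b' * σ b' = 0) (hb : b ≠ 0) (hc'0 : c' ≠ 0)
    {l : F} (hl : l ≠ 0) (hlb : σ l * σ l / l * b = -b') (t : suAnti σ)
    (ht : t ∈ Subgroup.closure ({uEl₃ h.conj_conj b c hc, lEl₃ h.conj_conj b' c' hc'} : Set (suAnti σ)))
    (T : F) (hT : col t = ![T, 0, 0]) (hgen : ∀ R : Subring F, σ T * σ T / T ∈ R → R = ⊤) :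
    HasPair σ := by
  have hσσ := h.conj_conj
  obtain ⟨g, hg⟩ := exists_conj_lower h b c hc b' c' hc' hb l hl hlb
  refine ⟨uEl₃ hσσ b c hc, g, b, c, hb, mat₃_uEl hσσ b c hc, ?_⟩
  rw [hg]
  intro x k β γ hk
  obtain ⟨hγ, rfl⟩ := exists_uEl_of_mat hσσ hk
  have hv : mat₃ σ (lEl₃ hσσ b' c' hc') 2 0 ≠ 0 := by
    rw [mat₃_lEl]; simpa [lMat₃] using hc'0
  refine conj_uEl_mem hσσ _ (fun b₁ c₁ h₁ => ?_)
    (g := lEl₃ hσσ b' c' hc') (Subgroup.subset_closure (Set.mem_insert_of_mem _ (Set.mem_singleton _)))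
    hv x β γ hγ
  refine uEl_mem hσσ h _ hc hb (Subgroup.subset_closure (Set.mem_insert _ _)) ht ?_ ?_ b₁ c₁ h₁
  · rw [← col_apply, hT]; rfl
  · rwa [← col_apply, hT]

end CfsgLib.SectRank.SUPair
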